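import Cfsg.Agent.Lib.Solv.AltC

/-!
Presentations of `A_n` and `S_n`: three generators and seven (six) relators, two generators and eight relators.
-/

set_option autoImplicit false
set_option linter.style.haveILetI false
set_option linter.unusedSectionVars false

namespace CA.AltP

open Equiv Equiv.Perm Subgroup CA.FP

variable {α : Type*} [Fintype α] [DecidableEq α] {Γ : Type} [Group Γ] {d r : ℕ} {g : Fin d → Γ}
  {ρ : Γ →* Perm α} {F : Perm α → Γ} {y : Γ} {P Q : α}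

theorem pr_cyclic {G : Type*} [Group G] [IsCyclic G] : ∃ g : Fin 1 → G, Pr g 1 := by
  obtain ⟨x, hx⟩ := IsCyclic.exists_generator (α := G)
  have hs : Function.Surjective (FreeGroup.lift ![x]) := fun y => (hx y).elim fun k hk =>
    ⟨FreeGroup.of 0 ^ k, by simpa using hk⟩
  exact ⟨_, ((pr_free 1).quot_cyclic _ inferInstance).congr (QuotientGroup.quotientKerEquivOfSurjective _ hs)⟩

theorem fin_perm (h : Pr g r) (hF : Hom Set.univ F) (ρF : ∀ σ, sign σ = 1 → ρ (F σ) = σ) (hy : sign (ρ y) = -1)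
    (e : ∀ σ, sign σ = 1 → y * F σ * y⁻¹ = F (ρ y * σ * (ρ y)⁻¹)) (e2 : y * y = F (ρ y * ρ y))
    (hg : ∀ H : Subgroup Γ, y ∈ H → (∀ σ, sign σ = 1 → F σ ∈ H) → ∀ i, g i ∈ H) : Pr (ρ ∘ g) r := by
  obtain ⟨φ, h1, h2⟩ := hF.exists_perm hy e e2
  have h3 : ∀ σ, ρ (φ σ) = σ := fun σ => by
    rcases Int.units_eq_one_or (sign σ) with h | h
    · rw [h1 σ h, ρF σ h]
    · have h4 : sign (σ * (ρ y)⁻¹) = 1 := by simp [h, hy]
      rw [← inv_mul_cancel_right σ (ρ y), map_mul, map_mul, h2, h1 _ h4, ρF _ h4]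
  have h4 := hg φ.range ⟨_, h2⟩ fun σ hσ => ⟨σ, h1 σ hσ⟩
  refine h.of_bij φ ⟨Function.LeftInverse.injective h3, MonoidHom.range_eq_top.1 (top_le_iff.1 ?_)⟩ fun i => ?_
  · rw [← h.gen, closure_le]
    rintro _ ⟨i, rfl⟩
    exact h4 i
  · obtain ⟨σ, hσ⟩ := h4 i
    rw [Function.comp, ← hσ, h3]

theorem fin_perm' (h : Pr g r) (hF : Hom Set.univ F) (ρF : ∀ σ, sign σ = 1 → ρ (F σ) = σ) (hy : sign (ρ y) = -1)
    (e : ∀ σ, sign σ = 1 → y * F σ * y⁻¹ = F (ρ y * σ * (ρ y)⁻¹))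
    (hg : ∀ H : Subgroup Γ, y ∈ H → (∀ σ, sign σ = 1 → F σ ∈ H) → ∀ i, g i ∈ H) : Pr (ρ ∘ g) (r + 1) := by
  obtain ⟨Γ', _, q, ρ', -, hρ, hq, h'⟩ := h.stage ρ [y * y * (F (ρ y * ρ y))⁻¹] (by
    simp [ρF (ρ y * ρ y) (by simp)])
  simp only [List.mem_singleton, forall_eq, map_mul, map_inv, mul_inv_eq_one] at hq
  have := fin_perm (ρ := ρ') (y := q y) h' (hF.comp q) (fun σ hσ => by rw [hρ, ρF σ hσ]) (by rwa [hρ])
    (fun σ hσ => by rw [hρ, ← e σ hσ, map_mul, map_mul, map_inv]) (by rwa [hρ])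
    fun H h1 h2 => hg (H.comap q) h1 h2
  rwa [show ρ' ∘ q ∘ g = ρ ∘ g from funext fun i => hρ _] at this

theorem fin_alt (h : Pr g r) (hF : Hom Set.univ F) (ρF : ∀ σ, sign σ = 1 → ρ (F σ) = σ) (hy : sign (ρ y) = 1)
    (hg : ∀ H : Subgroup Γ, y ∈ H → (∀ σ, sign σ = 1 → F σ ∈ H) → ∀ i, g i ∈ H) :
    ∃ g' : Fin d → alternatingGroup α, Pr g' (r + 1) ∧ ∀ i, (g' i : Perm α) = ρ (g i) := by
  obtain ⟨Γ', _, q, ρ', -, hρ, hq, h'⟩ := h.stage ρ [y * (F (ρ y))⁻¹] (by simp [ρF _ hy])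
  simp only [List.mem_singleton, forall_eq, map_mul, map_inv, mul_inv_eq_one] at hq
  let φ := (hF.comp q).toAlt
  have h3 : ∀ σ, ρ' (φ σ) = σ := fun σ => (hρ _).trans (ρF _ σ.2)
  choose g' hg' using hg (φ.range.comap q) ⟨⟨_, hy⟩, hq.symm⟩ fun σ hσ => ⟨⟨σ, hσ⟩, rfl⟩
  refine ⟨g', h'.of_bij φ ⟨fun a b hab => Subtype.ext (by rw [← h3, hab, h3]),
    MonoidHom.range_eq_top.1 (top_le_iff.1 ?_)⟩ hg', fun i => by rw [← h3, hg', hρ]⟩
  rw [← h'.gen, closure_le]
  rintro _ ⟨i, rfl⟩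
  exact ⟨_, hg' i⟩

theorem core_small {m : ℕ} [NeZero m] (e : ZMod m ↪ α) (hS : ∀ x, x ≠ P → x ≠ Q → ∃ i, e i = x)
    (hP : ∀ i, e i ≠ P) (hQ : ∀ i, e i ≠ Q) (hPQ : P ≠ Q) (ε : ℤˣ) :
    ∃ (Γ : Type) (_ : Group Γ) (g : Fin 2 → Γ) (ρ : Γ →* Perm α) (F : Perm α → Γ), Pr g (m + 1) ∧
      Hom Set.univ F ∧ (∀ σ, sign σ = 1 → ρ (F σ) = σ) ∧ sign (ρ (g 0)) = ε ∧
      (∀ σ, sign σ = 1 → g 0 * F σ * (g 0)⁻¹ = F (ρ (g 0) * σ * (ρ (g 0))⁻¹)) ∧ g 1 = F (c3 (e 0) P Q) := by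
  classical
  obtain ⟨A, η, hA, hη, hA'⟩ : ∃ (A : Perm α) (η : ℤ), sign A = ε ∧ (η = 1 ∨ η = -1) ∧
      ∀ i, (A * c3 (e i) P Q * A⁻¹) ^ η = c3 (e (i + 1)) P Q := by
    let c := (Equiv.addRight (1 : ZMod m)).viaFintypeEmbedding e
    have c1 : ∀ i, c (e i) = e (i + 1) := fun i => viaFintypeEmbedding_apply_image _ _ _
    have c2 : c P = P := viaFintypeEmbedding_apply_notMem_range _ _ fun ⟨i, hi⟩ => hP i hi
    have c3' : c Q = Q := viaFintypeEmbedding_apply_notMem_range _ _ fun ⟨i, hi⟩ => hQ i hi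
    by_cases h : sign c = ε
    · exact ⟨c, 1, h, Or.inl rfl, fun i => by rw [zpow_one, c3_conj, c1, c2, c3']⟩
    · refine ⟨c * swap P Q, -1, ?_, Or.inr rfl, fun i => ?_⟩
      · rw [map_mul, sign_swap hPQ, Int.units_ne_iff_eq_neg.1 h]; simp
      · rw [zpow_neg_one, c3_conj, mul_apply, mul_apply, mul_apply, swap_apply_left, swap_apply_right,
          swap_apply_of_ne_of_ne (hP i) (hQ i), c1, c2, c3', c3_inv (hQ _) hPQ.symm (hP _)]
  have hφ : ∀ {G G' : Type} [Group G] [Group G'] (q : G →* G') (a z : G) (k : ℕ),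
      q ((fun x => (a * x * a⁻¹) ^ η)^[k] z) = (fun x => (q a * x * (q a)⁻¹) ^ η)^[k] (q z) := fun q a z k =>
    Function.Semiconj.iterate_right (fun x => by simp only [map_zpow, map_mul, map_inv]) k z
  have hφ' : ∀ {G : Type} [Group G] (q : G →* Perm α) (a z : G) (k : ℕ), q a = A → q z = c3 (e 0) P Q →
      q ((fun x => (a * x * a⁻¹) ^ η)^[k] z) = c3 (e k) P Q := fun q a z k ha hz => by
    induction k with
    | zero => simpa using hz
    | succ k ih => rw [Function.iterate_succ_apply', map_zpow, map_mul, map_mul, map_inv, ih, ha, hA', Nat.cast_succ]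
  obtain ⟨Γ, _, q, ρ, -, hρ, hq, h1⟩ := (pr_free 2).stage (FreeGroup.lift ![A, c3 (e 0) P Q])
    (let a := FreeGroup.of 0; let z := FreeGroup.of 1
      z ^ 3 :: (fun x => (a * x * a⁻¹) ^ η)^[m] z * z⁻¹ ::
        (List.range (m - 1)).map fun k => (z * (fun x => (a * x * a⁻¹) ^ η)^[k + 1] z) ^ 2) (by
      have h0 := fun k => hφ' (FreeGroup.lift ![A, c3 (e 0) P Q]) (FreeGroup.of 0) (FreeGroup.of 1) k
        (by simp) (by simp)
      simp only [List.mem_cons, forall_eq_or_imp, List.mem_map, List.mem_range, forall_exists_index, and_imp,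
        forall_apply_eq_imp_iff₂, map_mul, map_pow, map_inv, h0, FreeGroup.lift_apply_of, Matrix.cons_val_one,
        Matrix.cons_val_zero]
      refine ⟨c3_pow (hP _) hPQ (hQ _), by simp, fun k hk => c3_mul_sq (fun h => ?_) (hP _) (hQ _) (hP _) (hQ _) hPQ⟩
      have := Nat.le_of_dvd k.succ_pos ((ZMod.natCast_eq_zero_iff _ _).1 (e.injective h).symm)
      omega)
  simp only [List.mem_cons, forall_eq_or_imp, List.mem_map, List.mem_range, forall_exists_index, and_imp,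
    forall_apply_eq_imp_iff₂, map_mul, map_pow, map_inv, hφ, mul_inv_eq_one] at hq
  have ρa : ρ (q (FreeGroup.of 0)) = A := by simp [hρ]
  have ρz : ρ (q (FreeGroup.of 1)) = c3 (e 0) P Q := by simp [hρ]
  have hm := NeZero.pos m
  have h2 : Pr ![q (FreeGroup.of 0), q (FreeGroup.of 1)] (m + 1) := by
    convert h1 using 1
    · ext1 i; fin_cases i <;> rfl
    · simp; omega
  generalize q (FreeGroup.of 0) = a at *
  generalize q (FreeGroup.of 1) = z at *
  obtain ⟨r1, r2, r3⟩ := hq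
  set ψ : Γ → Γ := fun x => (a * x * a⁻¹) ^ η with hψ
  let Y : ZMod m → Γ := fun i => ψ^[i.val] z
  have Y1 : ∀ k : ℕ, Y k = ψ^[k] z := fun k => by
    simp only [Y, ZMod.val_natCast]
    exact Function.IsPeriodicPt.iterate_mod_apply r2 k
  have Y2 : ∀ (k : ℕ) i, ψ^[k] (Y i) = Y (i + k) := fun k i => by
    rw [show i + k = ((k + i.val : ℕ) : ZMod m) by simp [add_comm], Y1, Function.iterate_add_apply]
  have p3 : ∀ (k : ℕ) x, x ^ 3 = 1 → ψ^[k] x ^ 3 = 1 := fun k x hx => by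
    induction k with
    | zero => exact hx
    | succ k ih =>
      rw [Function.iterate_succ_apply', hψ, ← zpow_natCast, ← zpow_mul, mul_comm, zpow_mul, zpow_natCast,
        conj_pow, ih]; simp
  have p2 : ∀ (k : ℕ) x y, (x * y) ^ 2 = 1 → (ψ^[k] x * ψ^[k] y) ^ 2 = 1 := fun k x y hx => by
    induction k with
    | zero => exact hx
    | succ k ih =>
      rw [Function.iterate_succ_apply', Function.iterate_succ_apply']
      generalize ψ^[k] x = u at *
      generalize ψ^[k] y = v at *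
      rcases hη with rfl | rfl
      · calc _ = a * (u * v) ^ 2 * a⁻¹ := by simp only [hψ, sq]; group
          _ = 1 := by rw [ih]; group
      · calc _ = a * v * ((u * v) ^ 2)⁻¹ * v⁻¹ * a⁻¹ := by simp only [hψ, sq]; group
          _ = 1 := by rw [ih]; group
  have Y3 : ∀ i j, i ≠ j → (Y i * Y j) ^ 2 = 1 := fun i j hij => by
    have h3 : (j - i).val ≠ 0 := by rw [Ne, ZMod.val_eq_zero]; exact sub_ne_zero.2 hij.symm
    have h4 := p2 i.val _ _ (r3 ((j - i).val - 1) (by have := ZMod.val_lt (j - i); omega))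
    rw [Nat.sub_add_cancel (Nat.pos_of_ne_zero h3), ← Y1 (j - i).val, Y2] at h4
    simpa using h4
  have hi : ∀ i, Function.extend e Y (fun _ => 1) (e i) = Y i := fun i => e.injective.extend_apply _ _ i
  obtain ⟨f, hf, hf'⟩ := exists_hom (S := Set.univ) hPQ trivial trivial (Function.extend e Y fun _ => 1)
    (fun x _ h1 h2 => by
      obtain ⟨i, rfl⟩ := hS x h1 h2
      rw [hi, p3 _ _ r1]) fun x _ h1 h2 y _ h3 h4 hxy => by
    obtain ⟨i, rfl⟩ := hS x h1 h2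
    obtain ⟨j, rfl⟩ := hS y h3 h4
    rw [hi, hi, Y3 i j fun e => hxy (e ▸ rfl)]
  have hY : ∀ i, f (c3 (e i) P Q) = Y i := fun i => (hf' _ trivial (hP i) (hQ i)).trans (hi i)
  refine ⟨Γ, inferInstance, ![a, z], ρ, f, h2, hf, fun σ hσ => (hf.comp ρ).ext hom_id hPQ trivial trivial
    (fun x _ h1 h2 => ?_) (mem_Alt_univ.2 hσ), by simp [ρa, hA], fun σ hσ => hf.equiv hf hPQ trivial trivial
    (fun _ _ => trivial) (fun x _ h1 h2 => ?_) (mem_Alt_univ.2 hσ), by simpa [hY] using (Y1 0).symm⟩ <;>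
    obtain ⟨i, rfl⟩ := hS x h1 h2
  · rw [hY]; simpa only [ZMod.natCast_val, ZMod.cast_id', id_eq] using hφ' ρ a z i.val ρa ρz
  · have h3 := Y2 1 i
    have h4 := hA' i
    simp only [Function.iterate_one, hψ, Nat.cast_one, ← hY, ← h4] at h3
    simp only [Matrix.cons_val_zero, ρa, ← c3_conj]
    rcases hη with rfl | rfl
    · simpa using h3
    · rw [zpow_neg_one, zpow_neg_one, hf.inv (conj_mem (fun _ _ => trivial)
        (c3_mem (S := Set.univ) (hP i) hPQ trivial trivial trivial))] at h3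
      exact inv_injective h3

/-- the standard embedding -/
def emb {m n : ℕ} [NeZero m] (h : m + 2 ≤ n) : ZMod m ↪ Fin n :=
  ⟨fun i => ⟨i.val + 2, by have := ZMod.val_lt i; omega⟩, fun i j hij => ZMod.val_injective m (by simpa using hij)⟩

theorem emb_val {m n : ℕ} [NeZero m] (h : m + 2 ≤ n) (i : ZMod m) : (emb h i).val = i.val + 2 := rfl

theorem exists_emb {m n : ℕ} [NeZero m] (h : m + 2 ≤ n) (x : Fin n) (h1 : 2 ≤ x.val) (h2 : x.val < m + 2) :
    ∃ i, emb h i = x :=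
  ⟨(x.val - 2 : ℕ), Fin.ext (by rw [emb_val, ZMod.val_natCast_of_lt (by omega)]; omega)⟩

theorem small {n : ℕ} (hn : 3 ≤ n) : (∃ g : Fin 2 → Perm (Fin n), Pr g n) ∧
    ∃ g : Fin 2 → alternatingGroup (Fin n), Pr g n := by
  obtain ⟨m, rfl⟩ : ∃ m, n = m + 2 := ⟨n - 2, by omega⟩
  haveI : NeZero m := ⟨by omega⟩
  have key := core_small (P := 0) (Q := 1) (emb (le_refl (m + 2))) (fun x h1 h2 => exists_emb _ x (by
    simp only [Ne, Fin.ext_iff, Fin.val_zero, Fin.val_one] at h1 h2; omega) x.2) (fun i h => by simpa [emb_val] using congrArg Fin.val h)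
    (fun i h => by simpa [emb_val] using congrArg Fin.val h) (by simp)
  have hz : sign (c3 (emb (le_refl (m + 2)) 0) 0 1) = 1 :=
    (c3_mem (S := Set.univ) (fun h => by simpa [emb_val] using congrArg Fin.val h) (by simp) trivial trivial trivial).1
  constructor
  · obtain ⟨Γ, _, g, ρ, F, h1, h2, h3, h4, h5, h6⟩ := key (-1)
    exact ⟨_, fin_perm' h1 h2 h3 h4 h5 fun H a b i => by
      fin_cases i
      exacts [a, h6 ▸ b _ hz]⟩
  · obtain ⟨Γ, _, g, ρ, F, h1, h2, h3, h4, h5, h6⟩ := key 1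
    exact (fin_alt h1 h2 h3 h4 fun H a b i => by
      fin_cases i
      exacts [a, h6 ▸ b _ hz]).imp fun _ h => h.1

theorem exists_inv {p n : ℕ} (h1 : n + 2 ≤ 2 * p) (h2 : p + 2 ≤ n) (h : 6 ≤ n) (ε : ℤˣ) :
    ∃ t : Perm (Fin n), sign t = ε ∧ Inv {x | x.val < p + 2} ⟨0, by omega⟩ ⟨1, by omega⟩ ⟨2, by omega⟩
      ⟨2, by omega⟩ ⟨3, by omega⟩ ⟨4, by omega⟩ ⟨5, by omega⟩ t := by
  let c : Fin n → Fin n := fun x => if hx : 2 * p + 4 ≤ x.val + n then ⟨2 * p + 3 - x.val, by omega⟩ else x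
  have c1 : ∀ x, (c x).val = if 2 * p + 4 ≤ x.val + n then 2 * p + 3 - x.val else x.val := fun x => by
    simp only [c]; split_ifs <;> rfl
  have c2 : Function.Involutive c := fun x => Fin.ext (by
    have := x.2
    rw [c1, c1]; split_ifs <;> omega)
  have key : ∀ s : Perm (Fin n), (∀ x, s (s x) = x) → (∀ x, x.val ≠ 3 → x.val ≠ 4 → s x = x) →
      Inv {x | x.val < p + 2} ⟨0, by omega⟩ ⟨1, by omega⟩ ⟨2, by omega⟩
      ⟨2, by omega⟩ ⟨3, by omega⟩ ⟨4, by omega⟩ ⟨5, by omega⟩ (c2.toPerm c * s) := fun s s1 s2 => by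
    have s3 : ∀ x, x.val = 3 ∨ x.val = 4 → (s x).val = 3 ∨ (s x).val = 4 := fun x hx => by
      by_contra h
      have := s2 (s x) (by omega) (by omega)
      rw [s1] at this
      rw [← this] at h
      exact h hx
    have s4 : ∀ x, (c2.toPerm c * s) x = if x.val = 3 ∨ x.val = 4 then s x else c x := fun x => by
      split_ifs with h
      · have := s3 x h
        exact Fin.ext ((c1 _).trans (if_neg (by omega)))
      · rw [mul_apply, s2 x (by omega) (by omega)]; rfl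
    have s5 : ∀ x, x.val < 6 → ((c2.toPerm c * s) x).val < p + 2 := fun x hx => by
      rw [s4]; split_ifs with h
      · have := s3 x h; omega
      · rw [c1, if_neg (by omega)]; omega
    refine ⟨fun x => ?_, ?_, ?_, ?_, fun x => ?_, by simp, ?_⟩
    · rw [s4 x]; split_ifs with h
      · rw [s4, if_pos (s3 x h), s1]
      · rw [s4, if_neg (by have := x.2; rw [c1]; split_ifs <;> omega), c2]
    · rw [s4, if_neg (by simp)]; exact dif_neg (by simp; omega)
    · rw [s4, if_neg (by simp)]; exact dif_neg (by simp; omega)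
    · rw [s4, if_neg (by simp)]; exact dif_neg (by simp; omega)
    · by_cases hx : x.val < p + 2
      · exact Or.inl hx
      · right
        change ((c2.toPerm c * s) x).val < p + 2
        have := x.2
        rw [s4, if_neg (by omega), c1, if_pos (by omega)]; omega
    · simp only [List.mem_cons, List.not_mem_nil, or_false]
      rintro x (rfl | rfl | rfl | rfl) <;> exact ⟨by simp; omega, s5 _ (by simp)⟩
  by_cases hc : sign (c2.toPerm c) = ε
  · exact ⟨_, by simpa using hc, key 1 (fun _ => rfl) fun _ _ _ => rfl⟩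
  · refine ⟨_, ?_, key (swap ⟨3, by omega⟩ ⟨4, by omega⟩) (swap_apply_self _ _) fun x a b =>
      swap_apply_of_ne_of_ne (fun e => a (e ▸ rfl)) fun e => b (e ▸ rfl)⟩
    rw [map_mul, sign_swap (by simp), Int.units_ne_iff_eq_neg.1 hc]; simp

theorem large {n : ℕ} (hn : 7 ≤ n) : (∃ g : Fin 3 → Perm (Fin n), Pr g 6) ∧
    ∃ g : Fin 3 → alternatingGroup (Fin n), Pr g 7 ∧ ∃ x P Q, x ≠ P ∧ x ≠ Q ∧ P ≠ Q ∧ (g 2).1 ^ 2 = c3 x P Q := by
  obtain ⟨p, hp, h5, h1, h2⟩ := exists_prime hn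
  haveI := Fact.mk hp
  obtain ⟨r, A, B, h⟩ := exists_aff (e := emb h2) (S := {x | x.val < p + 2}) (P := ⟨0, by omega⟩)
    (Q := ⟨1, by omega⟩) h5 (fun x => ⟨fun hx => by
      by_cases h : 2 ≤ x.val
      · exact Or.inl (exists_emb _ x h hx)
      · right; simp only [Fin.ext_iff]; omega, by
      rintro (⟨i, rfl⟩ | rfl | rfl)
      · have := ZMod.val_lt i
        change i.val + 2 < p + 2
        omega
      all_goals simp⟩) (fun i h => by simpa [emb_val] using congrArg Fin.val h)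
    (fun i h => by simpa [emb_val] using congrArg Fin.val h) (by simp [Fin.ext_iff])
  have h0 : emb h2 0 = ⟨2, by omega⟩ := Fin.ext (by simp [emb_val])
  have mz := (c3_mem (h.hP 0) h.hPQ (h.me 0) h.mP h.mQ).1
  constructor
  · obtain ⟨t, ht, ht'⟩ := exists_inv h1 h2 (by omega) (-1)
    obtain ⟨Γ, _, g, ρ, F, y, a1, a2, a3, a4, rfl, a5, a6, a7, a8, -⟩ := core h (h0 ▸ ht')
    refine ⟨_, fin_perm a1 a2 a3 ht a5 (by rw [← map_mul, a4, map_one, a2.one]) fun H b1 b2 i => ?_⟩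
    fin_cases i
    exacts [a6 ▸ b2 _ h.mA.1, a7 ▸ b2 _ h.mB.1, a8 ▸ mul_mem b1 (inv_mem (b2 _ mz))]
  · obtain ⟨t, ht, ht'⟩ := exists_inv h1 h2 (by omega) 1
    obtain ⟨Γ, _, g, ρ, F, y, a1, a2, a3, a4, rfl, a5, a6, a7, a8, a9⟩ := core h (h0 ▸ ht')
    obtain ⟨g', b1, b2⟩ := fin_alt a1 a2 a3 ht fun H b1 b2 i => by
      fin_cases i
      exacts [a6 ▸ b2 _ h.mA.1, a7 ▸ b2 _ h.mB.1, a8 ▸ mul_mem b1 (inv_mem (b2 _ mz))]
    exact ⟨g', b1, _, _, _, h.hP 0, h.hQ 0, h.hPQ, by rw [b2, ← map_pow, a9, a3 _ mz]⟩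

/-- three generators, seven relators -/
theorem three {n : ℕ} (hn : 3 ≤ n) : (∃ g : Fin 3 → Perm (Fin n), Pr g 7) ∧
    ∃ g : Fin 3 → alternatingGroup (Fin n), Pr g 7 := by
  rcases le_or_gt 7 n with h | h
  · exact ⟨(large h).1.imp fun _ h => h.mono (by omega), (large h).2.imp fun _ h => h.1⟩
  · exact ⟨(small hn).1.elim fun _ h => ⟨_, (h.dummy 1).mono (by omega)⟩,
      (small hn).2.elim fun _ h => ⟨_, (h.dummy 1).mono (by omega)⟩⟩

theorem gen_alt {x : α} {u : alternatingGroup α} (h1 : x ≠ P) (h2 : x ≠ Q) (h3 : P ≠ Q) (h : u.1 ^ 2 = c3 x P Q) :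
    ∃ d, closure (Set.range ![d, u]) = ⊤ := by
  obtain ⟨d, hd⟩ := exists_cyc {P, Q}ᶜ h3 (by simp) (by simp)
  refine ⟨⟨d, hd.1.1⟩, top_le_iff.1 fun σ _ => ?_⟩
  let H := (closure (Set.range ![⟨d, hd.1.1⟩, u])).map (alternatingGroup α).subtype
  have a1 : d ∈ H := mem_map.2 ⟨_, subset_closure ⟨0, rfl⟩, rfl⟩
  have a2 : c3 x P Q ∈ H := mem_map.2 ⟨u ^ 2, Subgroup.pow_mem _ (Subgroup.subset_closure (Set.mem_range_self 1)) 2, h⟩
  obtain ⟨τ, hτ, e⟩ := Alt_le (S := Set.univ) (H := H) h3 trivial trivial (fun i _ a b => hd.mem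
      a1 (by simp [h1, h2]) a2 (by simp [a, b])) (mem_Alt_univ.2 σ.2)
  rwa [← Subtype.ext e]

/-- two generators, eight relators -/
theorem two (n : ℕ) : (∃ g : Fin 2 → Perm (Fin n), Pr g 8) ∧ ∃ g : Fin 2 → alternatingGroup (Fin n), Pr g 8 := by
  rcases le_or_gt 7 n with h | h
  · obtain ⟨⟨g, hg⟩, g', hg', x, P, Q, h1, h2, h3, h4⟩ := large h
    obtain ⟨d, hd⟩ := gen_alt h1 h2 h3 h4
    obtain ⟨g0, h0⟩ := (small (n := n) (by omega)).1
    exact ⟨⟨g0, hg.regen h0.gen⟩, _, hg'.regen_keep hd {0} (fun _ => 2) (fun j hj => by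
      fin_cases j <;> simp at hj ⊢) fun j hj j' hj' _ => by fin_cases j <;> fin_cases j' <;> simp at hj hj' ⊢⟩
  rcases le_or_gt 3 n with h' | h'
  · exact ⟨(small h').1.imp fun _ h => h.mono (by omega), (small h').2.imp fun _ h => h.mono (by omega)⟩
  haveI : IsCyclic (Perm (Fin n)) := by
    interval_cases n
    · infer_instance
    · infer_instance
    · exact isCyclic_of_prime_card (p := 2) (by simp [Fintype.card_perm])
  exact ⟨pr_cyclic.elim fun _ h => ⟨_, (h.dummy 1).mono (by omega)⟩,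
    pr_cyclic.elim fun _ h => ⟨_, (h.dummy 1).mono (by omega)⟩⟩

end CA.AltP
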