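import Mathlib

/-!
Finite presentations with a bounded number of relators; Tietze transformations.
-/

set_option autoImplicit false
set_option linter.style.haveILetI false

namespace CA.FP

open Subgroup

variable {G G' : Type*} [Group G] [Group G'] {d e r r' : ℕ}

/-- `G` is presented on the generators `g` with at most `r` relators -/
def Pr (g : Fin d → G) (r : ℕ) : Prop :=
  Function.Surjective (FreeGroup.lift g) ∧
    ∃ R : Finset (FreeGroup (Fin d)), R.card ≤ r ∧ (FreeGroup.lift g).ker = normalClosure R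

theorem comp_lift (f : G →* G') (g : Fin d → G) (x : FreeGroup (Fin d)) :
    f (FreeGroup.lift g x) = FreeGroup.lift (f ∘ g) x :=
  DFunLike.congr_fun (show f.comp (FreeGroup.lift g) = FreeGroup.lift (f ∘ g) from
    FreeGroup.ext_hom _ _ fun i => by simp) x

theorem surj_iff {g : Fin d → G} : Function.Surjective (FreeGroup.lift g) ↔ closure (Set.range g) = ⊤ := by
  rw [← MonoidHom.range_eq_top, FreeGroup.range_lift_eq_closure]

variable {g : Fin d → G}

theorem Pr.gen (h : Pr g r) : closure (Set.range g) = ⊤ := surj_iff.1 h.1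

theorem Pr.mono (h : Pr g r) (hr : r ≤ r') : Pr g r' :=
  ⟨h.1, h.2.imp fun _ h => ⟨h.1.trans hr, h.2⟩⟩

theorem pr_free (d : ℕ) : Pr (FreeGroup.of : Fin d → FreeGroup (Fin d)) 0 := by
  refine ⟨?_, ∅, le_rfl, ?_⟩
  · rw [FreeGroup.lift_of_eq_id]; exact Function.surjective_id
  · rw [FreeGroup.lift_of_eq_id]; simp

theorem Pr.exists_equiv (h : Pr g r) : ∃ R : Finset (FreeGroup (Fin d)), R.card ≤ r ∧
    ∃ e : PresentedGroup (↑R : Set (FreeGroup (Fin d))) ≃* G, ∀ i, e (PresentedGroup.of i) = g i := by
  obtain ⟨hs, R, hR, hk⟩ := h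
  refine ⟨R, hR, (QuotientGroup.quotientMulEquivOfEq hk.symm).trans
    (QuotientGroup.quotientKerEquivOfSurjective _ hs), fun i => ?_⟩
  change FreeGroup.lift g (FreeGroup.of i) = g i
  simp

theorem Pr.fp (h : Pr g r) : ∃ R : Finset (FreeGroup (Fin d)), R.card ≤ r ∧
    Nonempty (PresentedGroup (↑R : Set (FreeGroup (Fin d))) ≃* G) :=
  h.exists_equiv.imp fun _ h => ⟨h.1, ⟨h.2.choose⟩⟩

theorem Pr.quot (h : Pr g r) (q : G →* G') (hq : Function.Surjective q) (S : List G)
    (hk : q.ker = normalClosure {x | x ∈ S}) : Pr (q ∘ g) (r + S.length) := by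
  classical
  obtain ⟨hs, R, hR, hR'⟩ := h
  choose w hw using hs
  have e : FreeGroup.lift (q ∘ g) = q.comp (FreeGroup.lift g) :=
    MonoidHom.ext fun x => (comp_lift q g x).symm
  refine ⟨e ▸ hq.comp fun x => ⟨w x, hw x⟩, R ∪ (S.map w).toFinset, ?_, le_antisymm ?_ ?_⟩
  · refine (Finset.card_union_le _ _).trans (add_le_add hR ?_)
    simpa using List.toFinset_card_le (S.map w)
  · intro x hx
    rw [e, MonoidHom.mem_ker, MonoidHom.comp_apply, ← MonoidHom.mem_ker, hk] at hx
    let N := normalClosure ((R ∪ (S.map w).toFinset : Finset _) : Set (FreeGroup (Fin d)))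
    have h1 : (FreeGroup.lift g).ker ≤ N := hR' ▸ normalClosure_mono (by simp)
    haveI : (N.map (FreeGroup.lift g)).Normal := Normal.map inferInstance _ fun x => ⟨w x, hw x⟩
    have h2 : normalClosure {x | x ∈ S} ≤ N.map (FreeGroup.lift g) :=
      normalClosure_le_normal fun s hs => ⟨w s, subset_normalClosure (by
        simp only [Finset.coe_union, List.coe_toFinset, List.mem_map]
        exact Or.inr ⟨s, hs, rfl⟩), hw s⟩
    have := h2 hx
    rwa [← mem_comap, comap_map_eq, sup_eq_left.2 h1] at this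
  · refine normalClosure_le_normal fun x hx => ?_
    simp only [Finset.coe_union, List.coe_toFinset, List.mem_map, Set.mem_union] at hx
    rw [e]
    rcases hx with hx | ⟨s, hs, rfl⟩
    · have : FreeGroup.lift g x = 1 := (hR' ▸ subset_normalClosure hx : x ∈ (FreeGroup.lift g).ker)
      simp [this]
    · have : q s = 1 := (hk ▸ subset_normalClosure hs : s ∈ q.ker)
      simp [hw, this]

theorem Pr.congr (h : Pr g r) (q : G ≃* G') : Pr (q ∘ g) r :=
  h.quot q.toMonoidHom q.surjective [] (by simp [MonoidHom.ker_eq_bot_iff, q.injective])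

theorem Pr.of_bij {g' : Fin d → G'} (h : Pr g r) (f : G' →* G) (hf : Function.Bijective f)
    (e : ∀ i, f (g' i) = g i) : Pr g' r := by
  have := h.congr (MulEquiv.ofBijective f hf).symm
  convert this
  ext i
  exact (MulEquiv.eq_symm_apply _).2 (e i)

/-- impose further relations that hold in a target group -/
theorem Pr.stage {Γ : Type} [Group Γ] {g : Fin d → Γ} (h : Pr g r) (ρ : Γ →* G) (S : List Γ)
    (hS : ∀ s ∈ S, ρ s = 1) : ∃ (Γ' : Type) (_ : Group Γ') (q : Γ →* Γ') (ρ' : Γ' →* G),
      Function.Surjective q ∧ (∀ x, ρ' (q x) = ρ x) ∧ (∀ s ∈ S, q s = 1) ∧ Pr (q ∘ g) (r + S.length) :=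
  ⟨Γ ⧸ normalClosure {x | x ∈ S}, inferInstance, QuotientGroup.mk' _,
    QuotientGroup.lift _ ρ (fun _ hx => normalClosure_le_normal (N := ρ.ker) hS hx),
    QuotientGroup.mk'_surjective _, fun _ => rfl,
    fun _ hs => (QuotientGroup.eq_one_iff _).2 (subset_normalClosure hs),
    h.quot _ (QuotientGroup.mk'_surjective _) S (QuotientGroup.ker_mk' _)⟩

/-- change of generators -/
theorem Pr.regen' (h : Pr g r) {g' : Fin e → G} (w : Fin d → FreeGroup (Fin e))
    (hw : ∀ i, FreeGroup.lift g' (w i) = g i) (v : Fin e → FreeGroup (Fin d))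
    (hv : ∀ j, FreeGroup.lift g (v j) = g' j) (T : Finset (Fin e))
    (hT : ∀ j ∉ T, FreeGroup.lift w (v j) = FreeGroup.of j) : Pr g' (r + T.card) := by
  classical
  obtain ⟨hs, R, hR, hR'⟩ := h
  have e1 : ∀ x, FreeGroup.lift g' (FreeGroup.lift w x) = FreeGroup.lift g x := fun x => by
    rw [comp_lift]; congr 2; exact funext hw
  have e2 : ∀ x, FreeGroup.lift g (FreeGroup.lift v x) = FreeGroup.lift g' x := fun x => by
    rw [comp_lift]; congr 2; exact funext hv
  refine ⟨fun x => (hs x).elim fun y hy => ⟨_, (e1 y).trans hy⟩, R.image (FreeGroup.lift w) ∪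
    T.image fun j => (FreeGroup.of j)⁻¹ * FreeGroup.lift w (v j), ?_, le_antisymm ?_ ?_⟩
  · exact (Finset.card_union_le _ _).trans (add_le_add (Finset.card_image_le.trans hR) Finset.card_image_le)
  · intro x hx
    let N := normalClosure ((R.image (FreeGroup.lift w) ∪
      T.image fun j => (FreeGroup.of j)⁻¹ * FreeGroup.lift w (v j) : Finset _) : Set (FreeGroup (Fin e)))
    have h1 : FreeGroup.lift v x ∈ normalClosure (R : Set (FreeGroup (Fin d))) := by
      rw [← hR', MonoidHom.mem_ker, e2]; exact hx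
    have h2 : normalClosure (R : Set (FreeGroup (Fin d))) ≤ N.comap (FreeGroup.lift w) :=
      normalClosure_le_normal fun s hs => subset_normalClosure (by
        simp only [Finset.coe_union, Finset.coe_image]
        exact Or.inl ⟨s, hs, rfl⟩)
    have h3 : QuotientGroup.mk' N = (QuotientGroup.mk' N).comp ((FreeGroup.lift w).comp (FreeGroup.lift v)) := by
      refine FreeGroup.ext_hom _ _ fun j => ?_
      simp only [MonoidHom.comp_apply, FreeGroup.lift_apply_of, QuotientGroup.mk'_apply]
      by_cases hj : j ∈ T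
      · exact QuotientGroup.eq.2 (subset_normalClosure (by
          simp only [Finset.coe_union, Finset.coe_image]
          exact Or.inr ⟨j, hj, rfl⟩))
      · rw [hT j hj]
    rw [← QuotientGroup.eq_one_iff, ← QuotientGroup.mk'_apply, h3]
    exact (QuotientGroup.eq_one_iff _).2 (h2 h1)
  · refine normalClosure_le_normal fun x hx => ?_
    simp only [Finset.coe_union, Finset.coe_image, Set.mem_union] at hx
    rcases hx with ⟨s, hs, rfl⟩ | ⟨j, -, rfl⟩
    · have : FreeGroup.lift g s = 1 := (hR' ▸ subset_normalClosure hs : s ∈ (FreeGroup.lift g).ker)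
      simp [e1, this]
    · simp [e1, hv]

/-- any generating family: one more relator for each generator -/
theorem Pr.regen (h : Pr g r) {g' : Fin e → G} (hg : closure (Set.range g') = ⊤) : Pr g' (r + e) := by
  choose w hw using surj_iff.2 hg
  choose v hv using h.1
  simpa using h.regen' (fun i => w (g i)) (fun _ => hw _) (fun j => v (g' j)) (fun _ => hv _) Finset.univ
    (by simp)

/-- a generating family containing some of the old generators: these cost nothing -/
theorem Pr.regen_keep (h : Pr g r) {g' : Fin e → G} (hg : closure (Set.range g') = ⊤) (T : Finset (Fin e))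
    (ι : Fin e → Fin d) (h1 : ∀ j ∉ T, g (ι j) = g' j) (h2 : ∀ j ∉ T, ∀ j' ∉ T, ι j = ι j' → j = j') :
    Pr g' (r + T.card) := by
  classical
  choose w hw using surj_iff.2 hg
  choose v hv using h.1
  refine h.regen' (fun i => if hi : ∃ j ∉ T, ι j = i then FreeGroup.of hi.choose else w (g i)) (fun i => ?_)
    (fun j => if j ∈ T then v (g' j) else FreeGroup.of (ι j)) (fun j => ?_) T fun j hj => ?_
  · split_ifs with hi
    · rw [FreeGroup.lift_apply_of, ← h1 _ hi.choose_spec.1, hi.choose_spec.2]
    · exact hw _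
  · split_ifs with hj
    · exact hv _
    · rw [FreeGroup.lift_apply_of, h1 j hj]
  · have hi : ∃ j' ∉ T, ι j' = ι j := ⟨j, hj, rfl⟩
    simp only [if_neg hj, FreeGroup.lift_apply_of, dif_pos hi]
    rw [h2 _ hi.choose_spec.1 j hj hi.choose_spec.2]

/-- a dummy generator -/
theorem Pr.dummy (h : Pr g r) (x : G) : Pr (Fin.cons x g : Fin (d + 1) → G) (r + 1) := by
  rcases d with _ | d
  · exact h.regen (top_le_iff.1 (h.gen ▸ closure_mono (by simp)))
  refine h.regen_keep (top_le_iff.1 (h.gen ▸ closure_mono (by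
    rintro _ ⟨i, rfl⟩; exact ⟨i.succ, rfl⟩))) {0} (Fin.cases 0 id) (fun j hj => ?_)
    fun j hj j' hj' e => ?_
  · cases j using Fin.cases
    · simp at hj
    · rfl
  · cases j using Fin.cases
    · simp at hj
    cases j' using Fin.cases
    · simp at hj'
    simpa using e

theorem Pr.exists_add (h : Pr g r) (k : ℕ) : ∃ g' : Fin (d + k) → G, Pr g' (r + k) := by
  induction k with
  | zero => exact ⟨g, h⟩
  | succ k ih => exact ih.elim fun _ h => ⟨_, h.dummy 1⟩

/-- quotient by a normal subgroup generated by one element -/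
theorem Pr.quot_one (h : Pr g r) (N : Subgroup G) [N.Normal] {z : G} (hz : N = normalClosure {z}) :
    Pr (QuotientGroup.mk' N ∘ g) (r + 1) :=
  h.quot _ (QuotientGroup.mk'_surjective N) [z] (by simp [hz])

theorem Pr.quot_cyclic (h : Pr g r) (N : Subgroup G) [N.Normal] (hN : IsCyclic N) :
    Pr (QuotientGroup.mk' N ∘ g) (r + 1) := by
  obtain ⟨z, hz⟩ := (Subgroup.isCyclic_iff_exists_zpowers_eq_top N).1 hN
  refine h.quot_one N (z := z) (le_antisymm ?_ (normalClosure_le_normal (by
    simpa using (hz ▸ mem_zpowers z : z ∈ N))))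
  rw [← hz, zpowers_le]
  exact subset_normalClosure rfl

end CA.FP
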