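import Cfsg.Agent.Lib.Grp.SchurCarm
import Cfsg.Agent.Lib.Solv.FP

/-!
Alternating groups of subsets, Carmichael's presentation in ambient form, gluing.
-/

set_option autoImplicit false
set_option linter.style.haveILetI false
set_option linter.unusedSectionVars false

namespace CA.AltP

open Equiv Equiv.Perm Subgroup

variable {α : Type*} [Fintype α] [DecidableEq α] {Γ Γ' : Type*} [Group Γ] [Group Γ']

/-- the 3-cycle `(a b c)` -/
def c3 (a b c : α) : Perm α := swap a b * swap b c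

theorem c3_conj (g : Perm α) (a b c : α) : g * c3 a b c * g⁻¹ = c3 (g a) (g b) (g c) := by
  rw [c3, c3, swap_apply_apply, swap_apply_apply]; group

/-- even permutations supported in `S` -/
def Alt (S : Set α) : Subgroup (Perm α) where
  carrier := {σ | sign σ = 1 ∧ ∀ x, x ∉ S → σ x = x}
  one_mem' := ⟨by simp, fun _ _ => rfl⟩
  mul_mem' := fun {a b} ha hb => ⟨by rw [map_mul, ha.1, hb.1, mul_one], fun x hx => by
    rw [mul_apply, hb.2 x hx, ha.2 x hx]⟩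
  inv_mem' := fun {a} ha => ⟨by rw [map_inv, ha.1, inv_one], fun x hx => by
    rw [inv_eq_iff_eq, ha.2 x hx]⟩

variable {S S' : Set α} {σ τ g : Perm α} {P Q a b c i j : α} {f f' : Perm α → Γ}

theorem mem_Alt : σ ∈ Alt S ↔ sign σ = 1 ∧ ∀ x, x ∉ S → σ x = x := Iff.rfl

theorem mem_Alt_univ : σ ∈ Alt (Set.univ : Set α) ↔ sign σ = 1 := by simp [mem_Alt]

theorem Alt_mono (h : S ⊆ S') : Alt S ≤ Alt S' := fun _ hσ => ⟨hσ.1, fun x hx => hσ.2 x fun h1 => hx (h h1)⟩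

theorem swap_fix {x : α} (ha : a ∈ S) (hb : b ∈ S) (hx : x ∉ S) : swap a b x = x :=
  swap_apply_of_ne_of_ne (fun e => hx (e ▸ ha)) (fun e => hx (e ▸ hb))

theorem swap2_mem {d : α} (h1 : a ≠ b) (h2 : c ≠ d) (ha : a ∈ S) (hb : b ∈ S) (hc : c ∈ S) (hd : d ∈ S) :
    swap a b * swap c d ∈ Alt S :=
  ⟨by simp [sign_swap h1, sign_swap h2], fun x hx => by rw [mul_apply, swap_fix hc hd hx, swap_fix ha hb hx]⟩

theorem c3_mem (h1 : a ≠ b) (h2 : b ≠ c) (ha : a ∈ S) (hb : b ∈ S) (hc : c ∈ S) : c3 a b c ∈ Alt S :=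
  swap2_mem h1 h2 ha hb hb hc

theorem conj_mem (h : ∀ x ∈ S, g x ∈ S') (hσ : σ ∈ Alt S) : g * σ * g⁻¹ ∈ Alt S' :=
  ⟨by rw [map_mul, map_mul, hσ.1, mul_one, ← map_mul, mul_inv_cancel, map_one], fun x hx => by
    rw [mul_apply, mul_apply, hσ.2 _ fun h1 => hx (by simpa using h _ h1)]; simp⟩

theorem apply_mem (hσ : σ ∈ Alt S) {x : α} (hx : x ∈ S) : σ x ∈ S := by
  by_contra h
  exact h ((σ.injective (hσ.2 _ h)).symm ▸ hx)

theorem commute_of_disjoint (hσ : σ ∈ Alt S) (hτ : τ ∈ Alt S') (h : ∀ x ∈ S, x ∉ S') : Commute σ τ :=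
  Perm.Disjoint.commute fun x => by
    by_cases hx : x ∈ S
    · exact Or.inr (hτ.2 x (h x hx))
    · exact Or.inl (hσ.2 x hx)

theorem c3_inv (h1 : a ≠ b) (h2 : b ≠ c) (h3 : a ≠ c) : (c3 a b c)⁻¹ = c3 a c b := by
  have := congrArg Subtype.val (SchurCarm.cyc_inv h1 h2 h3)
  rwa [Subgroup.coe_inv, SchurCarm.cyc_val h1 h2, SchurCarm.cyc_val h3 h2.symm] at this

theorem c3_pow (h1 : a ≠ b) (h2 : b ≠ c) (h3 : a ≠ c) : c3 a b c ^ 3 = 1 := by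
  have := congrArg Subtype.val (SchurCarm.cyc_pow h1 h2 h3)
  rwa [Subgroup.coe_pow, SchurCarm.cyc_val h1 h2] at this

theorem c3_mul_sq (h1 : a ≠ b) (h2 : a ≠ P) (h3 : a ≠ Q) (h4 : b ≠ P) (h5 : b ≠ Q) (h6 : P ≠ Q) :
    (c3 a P Q * c3 b P Q) ^ 2 = 1 := by
  have := congrArg Subtype.val (SchurCarm.cyc_mul_sq h1 h2 h3 h4 h5 h6)
  rwa [Subgroup.coe_pow, Subgroup.coe_mul, SchurCarm.cyc_val h2 h6, SchurCarm.cyc_val h4 h6] at this

theorem exists_sub [DecidablePred (· ∈ S)] (hσ : σ ∈ Alt S) :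
    ∃ τ : alternatingGroup S, ofSubtype τ.1 = σ := by
  have h1 : ∀ x, σ x ∈ S ↔ x ∈ S := fun x => ⟨fun h => by
    simpa using apply_mem (inv_mem hσ) h, apply_mem hσ⟩
  have h2 : ∀ x, σ x ≠ x → x ∈ S := fun x hx => by_contra fun h => hx (hσ.2 x h)
  exact ⟨⟨σ.subtypePerm h1, by rw [mem_alternatingGroup, sign_subtypePerm σ h1 h2, hσ.1]⟩,
    ofSubtype_subtypePerm h1 h2⟩

theorem ofSubtype_cyc [DecidablePred (· ∈ S)] {a b c : S} (h1 : a ≠ b) (h2 : b ≠ c) :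
    ofSubtype (SchurCarm.cyc a b c).1 = c3 a.1 b.1 c.1 := by
  rw [SchurCarm.cyc_val h1 h2, map_mul, ofSubtype_swap_eq, ofSubtype_swap_eq, c3]

theorem Alt_le (h : P ≠ Q) (hP : P ∈ S) (hQ : Q ∈ S) {H : Subgroup (Perm α)}
    (hH : ∀ i ∈ S, i ≠ P → i ≠ Q → c3 i P Q ∈ H) : Alt S ≤ H := by
  classical
  intro σ hσ
  obtain ⟨τ, rfl⟩ := exists_sub hσ
  have h' : (⟨P, hP⟩ : S) ≠ ⟨Q, hQ⟩ := fun e => h (congrArg Subtype.val e)
  have : ⊤ ≤ H.comap (ofSubtype.comp (alternatingGroup S).subtype) := by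
    rw [← SchurCarm.closure_cyc h', closure_le]
    rintro _ ⟨i, rfl⟩
    change ofSubtype (SchurCarm.cyc _ _ _).1 ∈ H
    rw [ofSubtype_cyc i.2.1 h']
    exact hH _ i.1.2 (fun e => i.2.1 (Subtype.ext e)) fun e => i.2.2 (Subtype.ext e)
  exact this (mem_top τ)

/-- `f` is multiplicative on the even permutations supported in `S` -/
def Hom (S : Set α) (f : Perm α → Γ) : Prop := ∀ σ ∈ Alt S, ∀ τ ∈ Alt S, f (σ * τ) = f σ * f τ

theorem Hom.one (h : Hom S f) : f 1 = 1 := by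
  have := h 1 (one_mem _) 1 (one_mem _)
  rw [mul_one] at this
  exact left_eq_mul.1 this

theorem Hom.inv (h : Hom S f) (hσ : σ ∈ Alt S) : f σ⁻¹ = (f σ)⁻¹ :=
  eq_inv_of_mul_eq_one_left (by rw [← h _ (inv_mem hσ) _ hσ, inv_mul_cancel, h.one])

theorem Hom.conj (h : Hom S f) (hσ : σ ∈ Alt S) (hτ : τ ∈ Alt S) : f (σ * τ * σ⁻¹) = f σ * f τ * (f σ)⁻¹ := by
  rw [h _ (mul_mem hσ hτ) _ (inv_mem hσ), h _ hσ _ hτ, h.inv hσ]

theorem Hom.pow (h : Hom S f) (hσ : σ ∈ Alt S) (k : ℕ) : f (σ ^ k) = f σ ^ k := by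
  induction k with
  | zero => rw [pow_zero, pow_zero, h.one]
  | succ k ih => rw [pow_succ, pow_succ, h _ (pow_mem hσ k) _ hσ, ih]

theorem Hom.commute (h : Hom S f) (hσ : σ ∈ Alt S) (hτ : τ ∈ Alt S) (hc : Commute σ τ) :
    Commute (f σ) (f τ) := by
  change _ = _
  rw [← h _ hσ _ hτ, hc.eq, h _ hτ _ hσ]

theorem Hom.mono (h : Hom S' f) (hS : S ⊆ S') : Hom S f := fun σ hσ τ hτ =>
  h σ (Alt_mono hS hσ) τ (Alt_mono hS hτ)

theorem Hom.comp (h : Hom S f) (q : Γ →* Γ') : Hom S fun σ => q (f σ) := fun σ hσ τ hτ => by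
  simp only [h σ hσ τ hτ, map_mul]

theorem Hom.conjL (h : Hom S f) (t : Γ) : Hom S fun σ => t * f σ * t⁻¹ := h.comp (MulAut.conj t).toMonoidHom

theorem Hom.conjR (h : Hom S' f) (hg : ∀ x ∈ S, g x ∈ S') : Hom S fun σ => f (g * σ * g⁻¹) :=
  fun σ hσ τ hτ => by
    simp only
    rw [← h _ (conj_mem hg hσ) _ (conj_mem hg hτ)]; congr 1; group

theorem hom_id : Hom S fun σ : Perm α => σ := fun _ _ _ _ => rfl

theorem Hom.ext (h : Hom S f) (h' : Hom S f') (hPQ : P ≠ Q) (hP : P ∈ S) (hQ : Q ∈ S)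
    (e : ∀ i ∈ S, i ≠ P → i ≠ Q → f (c3 i P Q) = f' (c3 i P Q)) (hσ : σ ∈ Alt S) : f σ = f' σ := by
  let H : Subgroup (Perm α) :=
    { carrier := {σ | σ ∈ Alt S ∧ f σ = f' σ}
      one_mem' := ⟨one_mem _, by rw [h.one, h'.one]⟩
      mul_mem' := fun {a b} ha hb => ⟨mul_mem ha.1 hb.1, by rw [h _ ha.1 _ hb.1, h' _ ha.1 _ hb.1, ha.2, hb.2]⟩
      inv_mem' := fun {a} ha => ⟨inv_mem ha.1, by rw [h.inv ha.1, h'.inv ha.1, ha.2]⟩ }
  exact (Alt_le (H := H) hPQ hP hQ (fun i hi h1 h2 => ⟨c3_mem h1 hPQ hi hP hQ, e i hi h1 h2⟩) hσ).2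

theorem Hom.equiv (h : Hom S f) (h' : Hom S' f') (hPQ : P ≠ Q) (hP : P ∈ S) (hQ : Q ∈ S)
    (hg : ∀ x ∈ S, g x ∈ S') {t : Γ}
    (e : ∀ i ∈ S, i ≠ P → i ≠ Q → t * f (c3 i P Q) * t⁻¹ = f' (c3 (g i) (g P) (g Q))) (hσ : σ ∈ Alt S) :
    t * f σ * t⁻¹ = f' (g * σ * g⁻¹) :=
  (h.conjL t).ext (h'.conjR hg) hPQ hP hQ (fun i hi h1 h2 => by rw [c3_conj]; exact e i hi h1 h2) hσ

/-- Carmichael's presentation -/
theorem exists_hom (h : P ≠ Q) (hP : P ∈ S) (hQ : Q ∈ S) (y : α → Γ)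
    (h3 : ∀ i ∈ S, i ≠ P → i ≠ Q → y i ^ 3 = 1)
    (h2 : ∀ i ∈ S, i ≠ P → i ≠ Q → ∀ j ∈ S, j ≠ P → j ≠ Q → i ≠ j → (y i * y j) ^ 2 = 1) :
    ∃ f : Perm α → Γ, Hom S f ∧ ∀ i ∈ S, i ≠ P → i ≠ Q → f (c3 i P Q) = y i := by
  classical
  have h' : (⟨P, hP⟩ : S) ≠ ⟨Q, hQ⟩ := fun e => h (congrArg Subtype.val e)
  have hn : ∀ i : SchurCarm.I (⟨P, hP⟩ : S) ⟨Q, hQ⟩, i.1.1 ≠ P ∧ i.1.1 ≠ Q := fun i =>
    ⟨fun e => i.2.1 (Subtype.ext e), fun e => i.2.2 (Subtype.ext e)⟩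
  obtain ⟨F, hF⟩ := SchurCarm.exists_hom h' (fun i => y i.1.1) (fun i => h3 _ i.1.2 (hn i).1 (hn i).2)
    fun i j hij => h2 _ i.1.2 (hn i).1 (hn i).2 _ j.1.2 (hn j).1 (hn j).2
      fun e => hij (Subtype.ext (Subtype.ext e))
  let f : Perm α → Γ := fun σ => if h : ∃ τ : alternatingGroup S, ofSubtype τ.1 = σ then F h.choose else 1
  have hf : ∀ τ : alternatingGroup S, f (ofSubtype τ.1) = F τ := fun τ => by
    have h0 : ∃ τ' : alternatingGroup S, ofSubtype τ'.1 = ofSubtype τ.1 := ⟨τ, rfl⟩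
    simp only [f, dif_pos h0]
    congr 1
    exact Subtype.ext (ofSubtype_injective h0.choose_spec)
  refine ⟨f, fun σ hσ τ hτ => ?_, fun i hi h1 h2 => ?_⟩
  · obtain ⟨σ, rfl⟩ := exists_sub hσ
    obtain ⟨τ, rfl⟩ := exists_sub hτ
    rw [← map_mul, hf, hf, ← map_mul, ← hf]; rfl
  · have h1' : (⟨i, hi⟩ : S) ≠ ⟨P, hP⟩ := fun e => h1 (congrArg Subtype.val e)
    have := hf (SchurCarm.cyc ⟨i, hi⟩ ⟨P, hP⟩ ⟨Q, hQ⟩)
    rw [ofSubtype_cyc h1' h'] at this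
    exact this.trans (hF ⟨⟨i, hi⟩, h1', fun e => h2 (congrArg Subtype.val e)⟩)

/-- gluing two alternating groups -/
theorem glue (h : Hom S f) (h' : Hom S' f') (e : ∀ σ ∈ Alt (S ∩ S'), f σ = f' σ) {k l : α}
    (hn : [P, Q, k, l].Nodup) (hK : ∀ x ∈ [P, Q, k, l], x ∈ S ∩ S')
    (hc : ∀ i ∈ S, i ∉ S' → ∀ j ∈ S', j ∉ S → Commute (f (c3 i P k)) (f' (c3 j Q l))) :
    ∃ F : Perm α → Γ, Hom (S ∪ S') F ∧ (∀ σ ∈ Alt S, F σ = f σ) ∧ ∀ σ ∈ Alt S', F σ = f' σ := by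
  classical
  simp only [List.nodup_cons, List.mem_cons, List.not_mem_nil, or_false, not_or, List.nodup_nil,
    not_false_eq_true, and_true] at hn
  obtain ⟨⟨hPQ, hPk, hPl⟩, ⟨hQk, hQl⟩, hkl⟩ := hn
  simp only [List.mem_cons, List.not_mem_nil, or_false, forall_eq_or_imp, forall_eq] at hK
  obtain ⟨hP, hQ, hk, hl⟩ := hK
  let y : α → Γ := fun i => if i ∈ S then f (c3 i P Q) else f' (c3 i P Q)
  have y1 : ∀ i ∈ S, y i = f (c3 i P Q) := fun i hi => if_pos hi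
  have y2 : ∀ i ∈ S', i ≠ P → y i = f' (c3 i P Q) := fun i hi h1 => by
    by_cases h2 : i ∈ S
    · rw [y1 i h2, e _ (c3_mem h1 hPQ ⟨h2, hi⟩ hP hQ)]
    · exact if_neg h2
  have key : ∀ i ∈ S, i ∉ S' → ∀ j ∈ S', j ∉ S → (f (c3 i P Q) * f' (c3 j P Q)) ^ 2 = 1 := by
    intro i hi hi' j hj hj'
    have ni : ∀ x ∈ S ∩ S', i ≠ x := fun x hx e => hi' (e ▸ hx.2)
    have nj : ∀ x ∈ S ∩ S', j ≠ x := fun x hx e => hj' (e ▸ hx.1)
    have mA : c3 i P k ∈ Alt S := c3_mem (ni P hP) hPk hi hP.1 hk.1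
    have mB : c3 j Q l ∈ Alt S' := c3_mem (nj Q hQ) hQl hj hQ.2 hl.2
    have mv : swap P k * swap Q l ∈ Alt (S ∩ S') := swap2_mem hPk hQl hP hk hQ hl
    have m1 : swap P k * swap P Q ∈ Alt (S ∩ S') := swap2_mem hPk hPQ hP hk hP hQ
    have m2 : swap P Q * swap Q l ∈ Alt (S ∩ S') := swap2_mem hPQ hQl hP hQ hQ hl
    have l1 := Alt_mono (S := S ∩ S') (S' := S) Set.inter_subset_left
    have l2 := Alt_mono (S := S ∩ S') (S' := S') Set.inter_subset_right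
    have e1 : c3 i P Q = c3 i P k * (swap P k * swap P Q) := by
      simp only [c3, mul_assoc, swap_mul_self_mul]
    have e2 : c3 j P Q = (swap P Q * swap Q l) * (c3 j Q l)⁻¹ := by
      rw [c3, c3, mul_inv_rev, swap_inv, swap_inv, mul_assoc, swap_mul_self_mul, swap_mul_eq_mul_swap,
        swap_inv, swap_apply_of_ne_of_ne (nj P hP) (nj Q hQ), swap_apply_left, swap_comm j Q]
    have e3 : f (c3 i P Q) * f' (c3 j P Q) = f (c3 i P k) * f (swap P k * swap Q l) * (f' (c3 j Q l))⁻¹ := by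
      rw [e1, e2, h _ mA _ (l1 m1), h' _ (l2 m2) _ (inv_mem mB), h'.inv mB, ← e _ m2, mul_assoc, mul_assoc,
        ← mul_assoc (f (swap P k * swap P Q)), ← h _ (l1 m1) _ (l1 m2)]
      simp only [mul_assoc, swap_mul_self_mul]
    have hv : (swap P k * swap Q l) * (swap P k * swap Q l) = 1 := by
      rw [mul_assoc, ← mul_assoc (swap Q l), SchurCarm.swap_comm' (Ne.symm hPQ) hQk (Ne.symm hPl) (Ne.symm hkl),
        mul_assoc, swap_mul_self, mul_one, swap_mul_self]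
    set v := swap P k * swap Q l
    have hv' : f v * f v = 1 := by rw [← h _ (l1 mv) _ (l1 mv), hv, h.one]
    have a1 : f v * f (c3 i P k) * (f v)⁻¹ = (f (c3 i P k))⁻¹ := by
      rw [← h.conj (l1 mv) mA, ← h.inv mA, c3_conj, c3_inv (ni P hP) hPk (ni k hk)]
      simp [v, swap_apply_of_ne_of_ne, ni _ hP, ni _ hQ, ni _ hk, ni _ hl, hPQ, hPl, Ne.symm hQk, hkl]
    have a2 : f v * f' (c3 j Q l) * (f v)⁻¹ = (f' (c3 j Q l))⁻¹ := by
      rw [e _ mv, ← h'.conj (l2 mv) mB, ← h'.inv mB, c3_conj, c3_inv (nj Q hQ) hQl (nj l hl)]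
      simp [v, swap_apply_of_ne_of_ne, nj _ hP, nj _ hQ, nj _ hk, nj _ hl, Ne.symm hPQ, Ne.symm hPl, hQk,
        Ne.symm hkl]
    have a3 := (hc i hi hi' j hj hj').inv_right.eq
    rw [e3]
    generalize f (c3 i P k) = A at *
    generalize f' (c3 j Q l) = B at *
    generalize f v = V at *
    have b1 : V * A = A⁻¹ * V := by rw [← a1]; group
    have b2 : V * B⁻¹ = B * V := by
      calc V * B⁻¹ = (V * B * V⁻¹)⁻¹ * V := by group
        _ = B * V := by rw [a2, inv_inv]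
    calc (A * V * B⁻¹) ^ 2 = A * V * (B⁻¹ * A) * (V * B⁻¹) := by rw [sq]; group
      _ = A * (V * A) * B⁻¹ * B * V := by rw [← a3, b2]; group
      _ = 1 := by rw [b1, ← hv']; group
  obtain ⟨F, hF, hF'⟩ := exists_hom (S := S ∪ S') hPQ (Or.inl hP.1) (Or.inl hQ.1) y (by
    rintro i (hi | hi) h1 h2
    · rw [y1 i hi, ← h.pow (c3_mem h1 hPQ hi hP.1 hQ.1), c3_pow h1 hPQ h2, h.one]
    · rw [y2 i hi h1, ← h'.pow (c3_mem h1 hPQ hi hP.2 hQ.2), c3_pow h1 hPQ h2, h'.one]) (by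
    intro i hi h1 h2 j hj h3 h4 hij
    by_cases a : i ∈ S ∧ j ∈ S
    · have m1 := c3_mem h1 hPQ a.1 hP.1 hQ.1
      have m2 := c3_mem h3 hPQ a.2 hP.1 hQ.1
      rw [y1 i a.1, y1 j a.2, ← h _ m1 _ m2, ← h.pow (mul_mem m1 m2), c3_mul_sq hij h1 h2 h3 h4 hPQ, h.one]
    by_cases b : i ∈ S' ∧ j ∈ S'
    · have m1 := c3_mem h1 hPQ b.1 hP.2 hQ.2
      have m2 := c3_mem h3 hPQ b.2 hP.2 hQ.2
      rw [y2 i b.1 h1, y2 j b.2 h3, ← h' _ m1 _ m2, ← h'.pow (mul_mem m1 m2), c3_mul_sq hij h1 h2 h3 h4 hPQ,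
        h'.one]
    by_cases c : i ∈ S
    · have c1 : j ∉ S := fun h => a ⟨c, h⟩
      have c2 : j ∈ S' := hj.resolve_left c1
      rw [y1 i c, y2 j c2 h3]
      exact key i c (fun h => b ⟨h, c2⟩) j c2 c1
    · have c2 : i ∈ S' := hi.resolve_left c
      have c1 : j ∉ S' := fun h => b ⟨c2, h⟩
      have c3 : j ∈ S := hj.resolve_right c1
      rw [y1 j c3, y2 i c2 h1]
      have := key j c3 c1 i c2 c
      rw [sq] at this ⊢
      rw [mul_assoc, mul_eq_one_comm, ← this]; group)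
  exact ⟨F, hF, fun σ => (hF.mono Set.subset_union_left).ext h hPQ hP.1 hQ.1 fun i hi h1 h2 => by
    rw [hF' i (Or.inl hi) h1 h2, y1 i hi], fun σ => (hF.mono Set.subset_union_right).ext h' hPQ hP.2 hQ.2
      fun i hi h1 h2 => by rw [hF' i (Or.inr hi) h1 h2, y2 i hi h1]⟩

/-- the homomorphism from the alternating group -/
def Hom.toAlt (h : Hom Set.univ f) : alternatingGroup α →* Γ :=
  MonoidHom.mk' (fun σ => f σ.1) fun σ τ => h _ (mem_Alt_univ.2 σ.2) _ (mem_Alt_univ.2 τ.2)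

/-- extension to the symmetric group -/
theorem Hom.exists_perm (h : Hom Set.univ f) {t : Γ} (hg : sign g = -1)
    (e : ∀ σ, sign σ = 1 → t * f σ * t⁻¹ = f (g * σ * g⁻¹)) (e2 : t * t = f (g * g)) :
    ∃ φ : Perm α →* Γ, (∀ σ, sign σ = 1 → φ σ = f σ) ∧ φ g = t := by
  have hm : ∀ σ τ, sign σ = 1 → sign τ = 1 → f (σ * τ) = f σ * f τ := fun σ τ h1 h2 =>
    h _ (mem_Alt_univ.2 h1) _ (mem_Alt_univ.2 h2)
  refine ⟨MonoidHom.mk' (fun σ => if sign σ = 1 then f σ else f (σ * g⁻¹) * t) fun σ τ => ?_,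
    fun σ hσ => if_pos hσ, ?_⟩
  · rcases Int.units_eq_one_or (sign σ) with h1 | h1 <;> rcases Int.units_eq_one_or (sign τ) with h2 | h2
    · simp [h1, h2, hm]
    · rw [if_neg (by simp [h1, h2]), if_pos h1, if_neg (by simp [h2]), mul_assoc σ,
        hm _ _ h1 (by simp [h2, hg]), mul_assoc]
    · rw [if_neg (by simp [h1, h2]), if_neg (by simp [h1]), if_pos h2,
        show σ * τ * g⁻¹ = (σ * g⁻¹) * (g * τ * g⁻¹) by group, hm _ _ (by simp [h1, hg]) (by simp [h2]),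
        ← e _ h2]
      group
    · rw [if_pos (by simp [h1, h2]), if_neg (by simp [h1]), if_neg (by simp [h2]),
        show σ * τ = (σ * g⁻¹) * (g * (τ * g⁻¹) * g⁻¹) * (g * g) by group,
        hm _ _ (by simp [h1, h2, hg]) (by simp), hm _ _ (by simp [h1, hg]) (by simp [h2, hg]),
        ← e _ (by simp [h2, hg]), ← e2]
      group
  · change (if sign g = 1 then f g else f (g * g⁻¹) * t) = t
    rw [if_neg (by simp [hg]), mul_inv_cancel, h.one, one_mul]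

end CA.AltP
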