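import Cfsg.Agent.Lib.Solv.AltA

/-!
Long cycles; the presentation of `A_{p+2}` through the affine group of the line.
-/

set_option autoImplicit false
set_option linter.style.haveILetI false
set_option linter.unusedSectionVars false

namespace CA.AltP

open Equiv Equiv.Perm Subgroup

variable {α : Type*} [Fintype α] [DecidableEq α] {Γ Γ' : Type*} [Group Γ] [Group Γ']
variable {S S' : Set α} {σ τ g : Perm α} {P Q : α} {f f' : Perm α → Γ}

/-- `d` moves the 3-cycles `(i P Q)`, `i ∈ T`, transitively up to inversion -/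
def Cyc (T : Set α) (P Q : α) (d : Perm α) : Prop :=
  d ∈ Alt (T ∪ {P, Q}) ∧ ∀ E : Perm α → Prop, (∀ σ, E σ → E σ⁻¹) → (∀ σ, E σ → E (d * σ * d⁻¹)) →
    ∀ i ∈ T, E (c3 i P Q) → ∀ j ∈ T, E (c3 j P Q)

theorem exists_cyc (T : Set α) (hPQ : P ≠ Q) (hP : P ∉ T) (hQ : Q ∉ T) : ∃ d, Cyc T P Q d := by
  obtain ⟨c, hc, hc'⟩ := (Set.toFinite T).countable.exists_cycleOn
  have h1 : ∀ x, x ∉ T → c x = x := fun x hx => by_contra fun h => hx (hc' h)
  have key : ∀ E : Perm α → Prop, (∀ x ∈ T, E (c3 x P Q) → E (c3 (c x) P Q)) →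
      ∀ i ∈ T, E (c3 i P Q) → ∀ j ∈ T, E (c3 j P Q) := fun E hE i hi h j hj => by
    obtain ⟨k, rfl⟩ := hc.exists_pow_eq' (Set.toFinite T) hi hj
    clear hj
    have : (c ^ k) i ∈ T ∧ E (c3 ((c ^ k) i) P Q) := by
      induction k with
      | zero => exact ⟨hi, h⟩
      | succ k ih => rw [pow_succ', mul_apply]; exact ⟨hc.1.mapsTo ih.1, hE _ ih.1 ih.2⟩
    exact this.2
  rcases Int.units_eq_one_or (sign c) with h | h
  · refine ⟨c, ⟨h, fun x hx => h1 x fun h => hx (Or.inl h)⟩, fun E _ e2 => key E fun x _ hx => ?_⟩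
    have := e2 _ hx
    rwa [c3_conj, h1 P hP, h1 Q hQ] at this
  · refine ⟨c * swap P Q, ⟨by simp [h, hPQ], fun x hx => ?_⟩, fun E e1 e2 => key E fun x hx hx' => ?_⟩
    · rw [mul_apply, swap_fix (S := T ∪ {P, Q}) (by simp) (by simp) hx, h1 x fun h => hx (Or.inl h)]
    · have h2 : c x ∈ T := hc.1.mapsTo hx
      have := e1 _ (e2 _ hx')
      rwa [c3_conj, mul_apply, mul_apply, mul_apply, swap_apply_left, swap_apply_right,
        swap_apply_of_ne_of_ne (ne_of_mem_of_not_mem hx hP) (ne_of_mem_of_not_mem hx hQ), h1 P hP, h1 Q hQ,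
        c3_inv (ne_of_mem_of_not_mem h2 hQ) hPQ.symm (ne_of_mem_of_not_mem h2 hP)] at this

theorem Cyc.mem {T : Set α} {d : Perm α} (h : Cyc T P Q d) {H : Subgroup (Perm α)} (hd : d ∈ H) {i j : α}
    (hi : i ∈ T) (hi' : c3 i P Q ∈ H) (hj : j ∈ T) : c3 j P Q ∈ H :=
  h.2 (· ∈ H) (fun _ => inv_mem) (fun _ h => mul_mem (mul_mem hd h) (inv_mem hd)) i hi hi' j hj

variable {p : ℕ} [Fact p.Prime] {e : ZMod p ↪ α} {r : ZMod p} {A B : Perm α}

/-- the affine group of the line over `ZMod p` inside the alternating group of `S` -/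
structure Aff (e : ZMod p ↪ α) (S : Set α) (P Q : α) (r : ZMod p) (A B : Perm α) : Prop where
  hS : ∀ x, x ∈ S ↔ (∃ i, e i = x) ∨ x = P ∨ x = Q
  hP : ∀ i, e i ≠ P
  hQ : ∀ i, e i ≠ Q
  hPQ : P ≠ Q
  r1 : r ≠ 1
  r2 : r + 1 ≠ 0
  gen : ∀ x : ZMod p, x ≠ 0 → ∃ k : ℕ, r ^ k = x
  mA : A ∈ Alt S
  mB : B ∈ Alt S
  Ae : ∀ i, A (e i) = e (i + 1)
  AP : A P = P
  AQ : A Q = Q
  Be : ∀ i, B (e i) = e (r * i)
  BP : B P = Q
  BQ : B Q = P

theorem exists_aff (hp : 5 ≤ p) (hS : ∀ x, x ∈ S ↔ (∃ i, e i = x) ∨ x = P ∨ x = Q) (hP : ∀ i, e i ≠ P)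
    (hQ : ∀ i, e i ≠ Q) (hPQ : P ≠ Q) : ∃ r A B, Aff e S P Q r A B := by
  obtain ⟨r, hr⟩ := IsCyclic.exists_monoid_generator (α := (ZMod p)ˣ)
  have gen : ∀ x : ZMod p, x ≠ 0 → ∃ k : ℕ, (r : ZMod p) ^ k = x := fun x hx =>
    (hr (Units.mk0 x hx)).imp fun k hk => by simpa using congrArg Units.val hk
  have ho : orderOf r = p - 1 := by
    rw [orderOf_eq_card_of_forall_mem_powers hr, Nat.card_eq_fintype_card, ZMod.card_units]
  have h2 : r ^ 2 ≠ 1 := fun h => by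
    have := Nat.le_of_dvd two_pos (orderOf_dvd_of_pow_eq_one h)
    omega
  have r1 : (r : ZMod p) ≠ 1 := fun h => h2 (by rw [Units.val_eq_one.1 h, one_pow])
  have r2 : (r : ZMod p) + 1 ≠ 0 := fun h => h2 (Units.ext (by
    rw [Units.val_pow_eq_pow_val, eq_neg_of_add_eq_zero_left h]; simp))
  have n1 : ∀ {x}, (∀ i, e i ≠ x) → x ∉ Set.range e := fun h ⟨i, hi⟩ => h i hi
  have n2 : ∀ x, x ∉ S → x ∉ Set.range e := fun x hx h => hx ((hS x).2 (Or.inl h))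
  have sg : ∀ c : Perm (ZMod p), sign (c.viaFintypeEmbedding e) = sign c := fun c =>
    viaFintypeEmbedding_sign c e
  have s1 : sign (Equiv.addRight (1 : ZMod p)) = 1 := by
    have h1 : sign (Equiv.addRight (1 : ZMod p)) ^ p = 1 := by
      rw [← map_pow, show Equiv.addRight (1 : ZMod p) ^ p = 1 by ext; simp, map_one]
    rcases Int.units_eq_one_or (sign (Equiv.addRight (1 : ZMod p))) with h | h
    · exact h
    · rw [h, ((Fact.out : p.Prime).odd_of_ne_two (by omega)).neg_one_pow] at h1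
      exact absurd h1 (by decide)
  have s2 : sign (Units.mulLeft r : Perm (ZMod p)) = -1 := by
    have h1 : ∀ (k : ℕ) x, ((Units.mulLeft r : Perm (ZMod p)) ^ k) x = r ^ k * x := fun k x => by
      induction k with
      | zero => simp
      | succ k ih => rw [pow_succ', mul_apply, ih, pow_succ', mul_assoc]; rfl
    have h3 : IsCycle (Units.mulLeft r : Perm (ZMod p)) := ⟨1, by simpa using r1, fun y hy => by
      obtain ⟨k, hk⟩ := gen y (by rintro rfl; simp at hy)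
      exact ⟨k, by rw [zpow_natCast, h1, mul_one, hk]⟩⟩
    have h4 : (Units.mulLeft r : Perm (ZMod p)).support = Finset.univ.erase 0 := by
      ext x
      simp [mul_left_eq_self₀, r1]
    rw [h3.sign, h4, Finset.card_erase_of_mem (Finset.mem_univ _), Finset.card_univ, ZMod.card,
      (Nat.Prime.even_sub_one Fact.out (by omega)).neg_one_pow]
  refine ⟨r, (Equiv.addRight 1).viaFintypeEmbedding e, (Units.mulLeft r).viaFintypeEmbedding e * swap P Q, hS, hP, hQ, hPQ,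
    r1, r2, gen, ⟨by rw [sg, s1], fun x hx => viaFintypeEmbedding_apply_notMem_range _ _ (n2 x hx)⟩,
    ⟨by simp [sg, s2, hPQ], fun x hx => ?_⟩, fun i => viaFintypeEmbedding_apply_image _ _ _,
    viaFintypeEmbedding_apply_notMem_range _ _ (n1 hP), viaFintypeEmbedding_apply_notMem_range _ _ (n1 hQ), fun i => ?_, ?_, ?_⟩
  · rw [mul_apply, swap_fix ((hS P).2 (by simp)) ((hS Q).2 (by simp)) hx,
      viaFintypeEmbedding_apply_notMem_range _ _ (n2 x hx)]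
  · rw [mul_apply, swap_apply_of_ne_of_ne (hP i) (hQ i), viaFintypeEmbedding_apply_image]; rfl
  · rw [mul_apply, swap_apply_left, viaFintypeEmbedding_apply_notMem_range _ _ (n1 hQ)]
  · rw [mul_apply, swap_apply_right, viaFintypeEmbedding_apply_notMem_range _ _ (n1 hP)]

namespace Aff

variable (h : Aff e S P Q r A B)
include h

theorem mP : P ∈ S := (h.hS P).2 (by simp)
theorem mQ : Q ∈ S := (h.hS Q).2 (by simp)
theorem me (i : ZMod p) : e i ∈ S := (h.hS _).2 (Or.inl ⟨i, rfl⟩)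

theorem exists_e {x : α} (hx : x ∈ S) (h1 : x ≠ P) (h2 : x ≠ Q) : ∃ i, e i = x :=
  ((h.hS x).1 hx).resolve_right (by simp [h1, h2])

theorem ext {σ τ : Perm α} (hσ : σ ∈ Alt S) (hτ : τ ∈ Alt S) (h1 : ∀ i, σ (e i) = τ (e i)) (h2 : σ P = τ P)
    (h3 : σ Q = τ Q) : σ = τ := by
  ext x
  by_cases hx : x ∈ S
  · rcases (h.hS x).1 hx with ⟨i, rfl⟩ | rfl | rfl
    exacts [h1 i, h2, h3]
  · rw [hσ.2 x hx, hτ.2 x hx]

theorem pow_e (k : ℕ) (i : ZMod p) : (A ^ k) (e i) = e (i + k) := by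
  induction k with
  | zero => simp
  | succ k ih => rw [pow_succ', mul_apply, ih, h.Ae, Nat.cast_succ, add_assoc]

theorem pow_p : A ^ p = 1 :=
  h.ext (pow_mem h.mA _) (one_mem _) (fun i => by simp [h.pow_e]) (pow_apply_eq_self_of_apply_eq_self h.AP _)
    (pow_apply_eq_self_of_apply_eq_self h.AQ _)

theorem conj : B * A * B⁻¹ = A ^ r.val := by
  rw [mul_inv_eq_iff_eq_mul]
  refine h.ext (mul_mem h.mB h.mA) (mul_mem (pow_mem h.mA _) h.mB) (fun i => ?_) ?_ ?_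
  · simp [h.pow_e, h.Ae, h.Be, mul_add]
  · simp [h.AP, h.BP, pow_apply_eq_self_of_apply_eq_self h.AQ]
  · simp [h.AQ, h.BQ, pow_apply_eq_self_of_apply_eq_self h.AP]

theorem conj_c3 (k : ℕ) : A ^ k * c3 (e 0) P Q * (A ^ k)⁻¹ = c3 (e k) P Q := by
  rw [c3_conj, h.pow_e, zero_add, pow_apply_eq_self_of_apply_eq_self h.AP,
    pow_apply_eq_self_of_apply_eq_self h.AQ]

theorem exists_int : ∃ u s v : ℤ, u * s + v * p = 1 ∧ (u : ZMod p) = r + 1 := by
  have h1 : (((r + 1).val * ((r + 1)⁻¹).val - 1 : ℤ) : ZMod p) = 0 := by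
    simp [mul_inv_cancel₀ h.r2]
  obtain ⟨v, hv⟩ := (ZMod.intCast_zmod_eq_zero_iff_dvd _ _).1 h1
  exact ⟨(r + 1).val, ((r + 1)⁻¹).val, -v, by linear_combination hv, by simp⟩

end Aff

theorem zpow_congr {a : Γ} (ha : a ^ p = 1) {m n : ℤ} (h : (m : ZMod p) = n) : a ^ m = a ^ n := by
  obtain ⟨c, hc⟩ := (ZMod.intCast_eq_intCast_iff_dvd_sub _ _ _).1 h
  rw [eq_add_of_sub_eq hc, zpow_add, zpow_mul, zpow_natCast, ha, one_zpow, one_mul]

theorem pow_congr {a : Γ} (ha : a ^ p = 1) {m n : ℕ} (h : (m : ZMod p) = n) : a ^ m = a ^ n := by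
  rw [← zpow_natCast, ← zpow_natCast]
  exact zpow_congr ha (by simpa using h)

/-- the relations of the affine group -/
theorem aff_rel {a b w : Γ} {u s v : ℤ} (huv : u * s + v * p = 1) (hu : (u : ZMod p) = r + 1)
    (h1 : a ^ p = w) (h2 : b * a ^ s * b⁻¹ = a ^ (1 - s)) (h3 : b * w * b⁻¹ = w⁻¹) :
    a ^ p = 1 ∧ b * a * b⁻¹ = a ^ r.val := by
  have e1 : ∀ k : ℤ, b * a ^ k * b⁻¹ = (b * a * b⁻¹) ^ k := fun k => conj_zpow.symm
  have h3' : b * a ^ (p : ℤ) * b⁻¹ = a ^ (-p : ℤ) := by rw [zpow_neg, zpow_natCast, h1, h3]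
  have h4 : b * a * b⁻¹ = a ^ (u - 1) := by
    calc b * a * b⁻¹ = (b * a ^ s * b⁻¹) ^ u * (b * a ^ (p : ℤ) * b⁻¹) ^ v := by
          rw [e1, e1, ← zpow_mul, ← zpow_mul, ← zpow_add, show s * u + p * v = 1 by linear_combination huv,
            zpow_one]
      _ = a ^ (u - 1) := by
          rw [h2, h3', ← zpow_mul, ← zpow_mul, ← zpow_add]; congr 1; linear_combination -huv
  rw [e1, h4, ← zpow_mul, ← mul_inv_eq_one, ← zpow_sub] at h2 h3'
  have h5 : a ^ p = 1 := by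
    calc a ^ p = (a ^ ((u - 1) * p - -p)) ^ s * ((a ^ ((u - 1) * s - (1 - s))) ^ (p : ℤ))⁻¹ := by
          rw [← zpow_mul, ← zpow_mul, ← zpow_sub, ← zpow_natCast]; congr 1; ring
      _ = 1 := by rw [h2, h3']; simp
  exact ⟨h5, by rw [h4, ← zpow_natCast]; exact zpow_congr h5 (by simp [hu])⟩

/-- the presentation of `A_{p+2}` -/
theorem Aff.stage (h : Aff e S P Q r A B) {a b z : Γ} (ha : a ^ p = 1) (hb : b * a * b⁻¹ = a ^ r.val)
    (hz : z ^ 3 = 1) (h3 : b * z * b⁻¹ = z⁻¹) (h4 : (z * (a * z * a⁻¹)) ^ 2 = 1) :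
    ∃ f : Perm α → Γ, Hom S f ∧ (∀ k : ℕ, f (c3 (e k) P Q) = a ^ k * z * (a ^ k)⁻¹) ∧
      (∀ σ ∈ Alt S, a * f σ * a⁻¹ = f (A * σ * A⁻¹)) ∧ ∀ σ ∈ Alt S, b * f σ * b⁻¹ = f (B * σ * B⁻¹) := by
  classical
  let Y : ZMod p → Γ := fun i => a ^ i.val * z * (a ^ i.val)⁻¹
  have Y1 : ∀ k : ℕ, Y k = a ^ k * z * (a ^ k)⁻¹ := fun k => by
    simp only [Y]; rw [pow_congr ha (m := (k : ZMod p).val) (n := k) (by simp)]
  have Y0 : Y 0 = z := by simpa using Y1 0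
  have Ya : ∀ (k : ℕ) i, a ^ k * Y i * (a ^ k)⁻¹ = Y (i + k) := fun k i => by
    rw [show i + k = ((k + i.val : ℕ) : ZMod p) by simp [add_comm], Y1]; simp only [Y]; group
  have Yb : ∀ i, b * Y i * b⁻¹ = (Y (r * i))⁻¹ := fun i => by
    rw [show r * i = ((r.val * i.val : ℕ) : ZMod p) by simp, Y1, pow_mul, ← hb, conj_pow]
    calc b * Y i * b⁻¹ = b * a ^ i.val * b⁻¹ * (b * z * b⁻¹) * (b * a ^ i.val * b⁻¹)⁻¹ := by
          simp only [Y]; group
      _ = _ := by rw [h3]; group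
  have Y2 : ∀ k : ℕ, (Y 0 * Y (r ^ k)) ^ 2 = 1 := fun k => by
    induction k with
    | zero => rw [pow_zero, Y0, ← Nat.cast_one, Y1, pow_one, h4]
    | succ k ih =>
      have h5 := congrArg (fun x => (b * x * b⁻¹)⁻¹) ih
      have h6 : b * (Y 0 * Y (r ^ k)) * b⁻¹ = (Y 0)⁻¹ * (Y (r ^ (k + 1)))⁻¹ := by
        rw [pow_succ', ← Yb, ← mul_zero r, ← Yb, mul_zero]; group
      simp only [← conj_pow, h6] at h5
      calc (Y 0 * Y (r ^ (k + 1))) ^ 2 = Y 0 * (((Y 0)⁻¹ * (Y (r ^ (k + 1)))⁻¹) ^ 2)⁻¹ * (Y 0)⁻¹ := by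
            rw [sq, sq]; group
        _ = 1 := by rw [h5]; group
  have Y3 : ∀ i j, i ≠ j → (Y i * Y j) ^ 2 = 1 := fun i j hij => by
    obtain ⟨k, hk⟩ := h.gen (j - i) (sub_ne_zero.2 hij.symm)
    have h5 := congrArg (fun x => a ^ i.val * x * (a ^ i.val)⁻¹) (Y2 k)
    have h6 : a ^ i.val * (Y 0 * Y (r ^ k)) * (a ^ i.val)⁻¹ = Y i * Y j := by
      rw [← conj_mul, Ya, Ya, hk]; simp
    simpa only [← conj_pow, h6, one_pow, mul_one, mul_inv_cancel] using h5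
  have hi : ∀ i, Function.extend e Y (fun _ => 1) (e i) = Y i := fun i => e.injective.extend_apply _ _ i
  obtain ⟨f, hf, hf'⟩ := exists_hom h.hPQ h.mP h.mQ (Function.extend e Y fun _ => 1) (fun x hx h1 h2 => by
    obtain ⟨i, rfl⟩ := h.exists_e hx h1 h2
    rw [hi, conj_pow, hz]; simp) fun x hx h1 h2 y hy h3 h4 hxy => by
    obtain ⟨i, rfl⟩ := h.exists_e hx h1 h2
    obtain ⟨j, rfl⟩ := h.exists_e hy h3 h4
    rw [hi, hi, Y3 i j fun e => hxy (e ▸ rfl)]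
  have hY : ∀ i, f (c3 (e i) P Q) = Y i := fun i => (hf' _ (h.me i) (h.hP i) (h.hQ i)).trans (hi i)
  refine ⟨f, hf, fun k => (hY k).trans (Y1 k), fun σ => hf.equiv hf h.hPQ h.mP h.mQ
    (fun _ => apply_mem h.mA) fun x hx h1 h2 => ?_, fun σ => hf.equiv hf h.hPQ h.mP h.mQ
    (fun _ => apply_mem h.mB) fun x hx h1 h2 => ?_⟩ <;> obtain ⟨i, rfl⟩ := h.exists_e hx h1 h2
  · rw [h.Ae, h.AP, h.AQ, hY, hY, ← Nat.cast_one, ← Ya, pow_one]
  · rw [h.Be, h.BP, h.BQ, hY, Yb, ← c3_inv (h.hP _) h.hPQ (h.hQ _),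
      hf.inv (c3_mem (h.hP _) h.hPQ (h.me _) h.mP h.mQ), hY]

end CA.AltP
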