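import Mathlib

/-!
The classical form of Bertrand's postulate: a prime strictly between `m` and `2m - 2`.
-/

set_option autoImplicit false

namespace CA.AltP

open Nat

theorem centralBinom_le' (n : ℕ) (n_large : 2 < n) (no_prime : ∀ p : ℕ, p.Prime → n + 1 < p → 2 * n < p) :
    centralBinom n ≤ 2 * n * ((2 * n) ^ sqrt (2 * n) * 4 ^ (2 * n / 3)) := by
  have n_pos : 0 < n := (Nat.zero_le _).trans_lt n_large
  have n2_pos : 1 ≤ 2 * n := mul_pos (zero_lt_two' ℕ) n_pos
  let S := {p ∈ Finset.range (2 * n / 3 + 1) | Nat.Prime p}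
  let f x := x ^ n.centralBinom.factorization x
  have h0 : centralBinom n = ∏ p ∈ insert (n + 1) (Finset.range (2 * n / 3 + 1)), f p := by
    refine (Eq.trans ?_ n.prod_pow_factorization_centralBinom).symm
    apply Finset.prod_subset
    · intro x hx
      simp only [Finset.mem_insert, Finset.mem_range] at hx ⊢
      omega
    intro x hx h2x
    simp only [Finset.mem_insert, Finset.mem_range, not_or] at hx h2x
    by_cases h : x.Prime
    · have h1 : x ≤ n := by have := no_prime x h; omega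
      simp only [f]
      rw [factorization_centralBinom_of_two_mul_self_lt_three_mul n_large h1 (by omega), Nat.pow_zero]
    · simp only [f]
      rw [factorization_eq_zero_of_not_prime n.centralBinom h, Nat.pow_zero]
  have : ∏ x ∈ S, f x = ∏ x ∈ Finset.range (2 * n / 3 + 1), f x := by
    refine Finset.prod_filter_of_ne fun p _ h => ?_
    contrapose h; dsimp only [f]
    rw [factorization_eq_zero_of_not_prime n.centralBinom h, _root_.pow_zero]
  rw [h0, Finset.prod_insert (by simp only [Finset.mem_range]; omega), ← this, ←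
    Finset.prod_filter_mul_prod_filter_not S (· ≤ sqrt (2 * n))]
  refine mul_le_mul' (pow_factorization_choose_le (mul_pos two_pos n_pos)) (mul_le_mul' ?_ ?_)
  · refine (Finset.prod_le_prod' fun p _ => (?_ : f p ≤ 2 * n)).trans ?_
    · exact pow_factorization_choose_le (mul_pos two_pos n_pos)
    have : (Finset.Icc 1 (sqrt (2 * n))).card = sqrt (2 * n) := by rw [card_Icc, Nat.add_sub_cancel]
    rw [Finset.prod_const]
    refine pow_right_mono₀ n2_pos ((Finset.card_le_card fun x hx => ?_).trans this.le)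
    obtain ⟨h1, h2⟩ := Finset.mem_filter.1 hx
    exact Finset.mem_Icc.mpr ⟨(Finset.mem_filter.1 h1).2.one_lt.le, h2⟩
  · refine le_trans ?_ (primorial_le_four_pow (2 * n / 3))
    refine (Finset.prod_le_prod' fun p hp => (?_ : f p ≤ p)).trans ?_
    · obtain ⟨h1, h2⟩ := Finset.mem_filter.1 hp
      refine (pow_right_mono₀ (Finset.mem_filter.1 h1).2.one_lt.le ?_).trans (pow_one p).le
      exact Nat.factorization_choose_le_one (sqrt_lt'.mp <| not_le.1 h2)
    refine Finset.prod_le_prod_of_subset_of_one_le' (Finset.filter_subset _ _) ?_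
    exact fun p hp _ => (Finset.mem_filter.1 hp).2.one_lt.le

theorem main_ineq {n : ℕ} (hn : 882 ≤ n) :
    n * (2 * n * ((2 * n) ^ sqrt (2 * n) * 4 ^ (2 * n / 3))) ≤ 4 ^ n := by
  have h1 := sqrt_le (2 * n)
  have h2 := lt_succ_sqrt (2 * n)
  have h3 : 42 ≤ sqrt (2 * n) := le_sqrt.2 (by omega)
  generalize sqrt (2 * n) = s at *
  have h4 : ∀ t, 6 ≤ t → 7 * t + 7 ≤ 2 ^ t := fun t ht => by
    induction t, ht using Nat.le_induction with
    | base => norm_num
    | succ t _ ih => rw [pow_succ]; omega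
  obtain ⟨t, ht⟩ : ∃ t, t = s / 7 := ⟨_, rfl⟩
  have h5 : s + 1 ≤ 2 ^ t := le_trans (by omega) (h4 t (by omega))
  have h6 : 2 * n ≤ 4 ^ t := by
    calc 2 * n ≤ (s + 1) * (s + 1) := h2.le
      _ ≤ 2 ^ t * 2 ^ t := Nat.mul_le_mul h5 h5
      _ = 4 ^ t := by rw [← mul_pow]; norm_num
  have h7 : t * (s + 2) + 2 * n / 3 ≤ n := by
    have : 7 * t ≤ s := by omega
    have : 21 * (t * (s + 2)) ≤ 7 * n := by nlinarith
    omega
  calc n * (2 * n * ((2 * n) ^ s * 4 ^ (2 * n / 3)))
      ≤ 4 ^ t * (4 ^ t * ((4 ^ t) ^ s * 4 ^ (2 * n / 3))) := by gcongr; omega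
    _ = 4 ^ (t * (s + 2) + 2 * n / 3) := by ring
    _ ≤ 4 ^ n := Nat.pow_le_pow_right (by norm_num) h7

theorem bertrand' {m : ℕ} (hm : 4 ≤ m) : ∃ p : ℕ, p.Prime ∧ m < p ∧ p + 3 ≤ 2 * m := by
  rcases lt_or_ge 882 m with h | h
  · obtain ⟨n, rfl⟩ : ∃ n, m = n + 1 := ⟨m - 1, by omega⟩
    by_contra hc
    have h1 := Nat.four_pow_lt_mul_centralBinom n (by omega)
    have h2 := centralBinom_le' n (by omega) fun p hp h3 => by
      by_contra h4
      have h5 : p = 2 * n := by
        by_contra h5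
        exact hc ⟨p, hp, h3, by omega⟩
      rcases hp.eq_two_or_odd with h6 | h6 <;> omega
    exact absurd (h1.trans_le ((Nat.mul_le_mul_left n h2).trans (main_ineq (by omega)))) (lt_irrefl _)
  have key : ∀ p, p.Prime → m < p → p + 3 ≤ 2 * m → ∃ p : ℕ, p.Prime ∧ m < p ∧ p + 3 ≤ 2 * m :=
    fun p h1 h2 h3 => ⟨p, h1, h2, h3⟩
  by_cases h1 : m < 5; · exact key 5 (by norm_num) h1 (by omega)
  by_cases h2 : m < 7; · exact key 7 (by norm_num) h2 (by omega)
  by_cases h3 : m < 11; · exact key 11 (by norm_num) h3 (by omega)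
  by_cases h4 : m < 19; · exact key 19 (by norm_num) h4 (by omega)
  by_cases h5 : m < 31; · exact key 31 (by norm_num) h5 (by omega)
  by_cases h6 : m < 59; · exact key 59 (by norm_num) h6 (by omega)
  by_cases h7 : m < 113; · exact key 113 (by norm_num) h7 (by omega)
  by_cases h8 : m < 223; · exact key 223 (by norm_num) h8 (by omega)
  by_cases h9 : m < 443; · exact key 443 (by norm_num) h9 (by omega)
  exact key 883 (by norm_num) (by omega) (by omega)

theorem exists_prime {n : ℕ} (hn : 7 ≤ n) : ∃ p : ℕ, p.Prime ∧ 5 ≤ p ∧ n + 2 ≤ 2 * p ∧ p + 2 ≤ n := by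
  obtain ⟨p, hp, h1, h2⟩ := bertrand' (m := (n + 1) / 2) (by omega)
  exact ⟨p, hp, by omega, by omega, by omega⟩

end CA.AltP
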