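import Cfsg.Agent.Lib.Solv.AltB
import Cfsg.Agent.Lib.Solv.Bertrand2

/-!
Presentations of alternating and symmetric groups with a bounded number of relators.
-/

set_option autoImplicit false
set_option linter.style.haveILetI false
set_option linter.unusedSectionVars false

namespace CA.AltP

open Equiv Equiv.Perm Subgroup CA.FP
open scoped commutatorElement

variable {α : Type*} [Fintype α] [DecidableEq α] {Γ Γ' : Type*} [Group Γ] [Group Γ']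
variable {S : Set α} {P Q k l k' l' : α} {f : Perm α → Γ} {t d ξ ξ' : Perm α}
variable {p : ℕ} [Fact p.Prime] {e : ZMod p ↪ α} {r : ZMod p} {A B : Perm α}

/-- the involution that moves `S` so as to cover everything -/
structure Inv (S : Set α) (P Q x k l k' l' : α) (t : Perm α) : Prop where
  tt : ∀ x, t (t x) = x
  tP : t P = P
  tQ : t Q = Q
  tx : t x = x
  cov : ∀ x, x ∈ S ∨ t x ∈ S
  nd : [P, Q, k, l, k', l'].Nodup
  mem : ∀ x ∈ [k, l, k', l'], x ∈ S ∩ t ⁻¹' S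

theorem Inv.inv {x : α} (h : Inv S P Q x k l k' l' t) : t⁻¹ = t :=
  inv_eq_of_mul_eq_one_left (Equiv.ext h.tt)

theorem Hom.commute_sub (hf : Hom S f) (x : Γ) : ∃ H : Subgroup (Perm α),
    ∀ σ, σ ∈ H ↔ σ ∈ Alt S ∧ Commute (f σ) x :=
  ⟨{ carrier := {σ | σ ∈ Alt S ∧ Commute (f σ) x}
     one_mem' := ⟨one_mem _, by rw [hf.one]; exact Commute.one_left x⟩
     mul_mem' := fun ha hb => ⟨mul_mem ha.1 hb.1, by rw [hf _ ha.1 _ hb.1]; exact ha.2.mul_left hb.2⟩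
     inv_mem' := fun ha => ⟨inv_mem ha.1, by rw [hf.inv ha.1]; exact ha.2.inv_left⟩ }, fun _ => Iff.rfl⟩

theorem Hom.central (hf : Hom S f) (hA : A ∈ Alt S) {a : Γ} (ha : ∀ σ ∈ Alt S, a * f σ * a⁻¹ = f (A * σ * A⁻¹))
    {σ : Perm α} (hσ : σ ∈ Alt S) : Commute ((f A)⁻¹ * a) (f σ) := by
  have := ha σ hσ
  rw [hf.conj hA hσ] at this
  change _ = _
  calc (f A)⁻¹ * a * f σ = (f A)⁻¹ * (a * f σ * a⁻¹) * a := by group
    _ = _ := by rw [this]; group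

theorem stage2 {x : α} (hx : x ∈ S) (hxP : x ≠ P) (hxQ : x ≠ Q) (hP : P ∈ S) (hQ : Q ∈ S)
    (h : Inv S P Q x k l k' l' t) (hf : Hom S f) {y b : Γ} (hy : y * y = 1) (hz : Commute y (f (c3 x P Q)))
    (hb : ∀ σ ∈ Alt S, Commute b (f σ)) (hd : Cyc ((S ∩ t ⁻¹' S) \ {P, Q}) P Q d)
    (hξ : Cyc (insert k' (S \ t ⁻¹' S)) P k ξ) (hξ' : Cyc (insert l' (t ⁻¹' S \ S)) Q l ξ')
    (r5 : y * (f d * b) * y⁻¹ = f (t * d * t⁻¹)) (r6 : Commute (f ξ) (y * f (t * ξ' * t⁻¹) * y⁻¹)) :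
    b = 1 ∧ ∃ F : Perm α → Γ, Hom Set.univ F ∧ (∀ σ ∈ Alt S, F σ = f σ) ∧
      ∀ σ, sign σ = 1 → y * F σ * y⁻¹ = F (t * σ * t⁻¹) := by
  have hn := h.nd
  simp only [List.nodup_cons, List.mem_cons, List.not_mem_nil, or_false, not_or, List.nodup_nil,
    not_false_eq_true, and_true] at hn
  obtain ⟨⟨hPQ, hPk, hPl, hPk', hPl'⟩, ⟨hQk, hQl, hQk', hQl'⟩, ⟨hkl, hkk', hkl'⟩, ⟨hlk', hll'⟩, hkl''⟩ := hn
  have hm := h.mem
  simp only [List.mem_cons, List.not_mem_nil, or_false, forall_eq_or_imp, forall_eq] at hm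
  obtain ⟨hk, hl, hk', hl'⟩ := hm
  set S' := t ⁻¹' S with hS'
  have hP' : P ∈ S ∩ S' := ⟨hP, by simpa [hS', h.tP]⟩
  have hQ' : Q ∈ S ∩ S' := ⟨hQ, by simpa [hS', h.tQ]⟩
  have tK : ∀ x ∈ S ∩ S', t x ∈ S := fun x hx => hx.2
  have l1 := Alt_mono (S := S ∩ S') (S' := S) Set.inter_subset_left
  have l2 := Alt_mono (S := S ∩ S') (S' := S') Set.inter_subset_right
  have yi : y⁻¹ = y := inv_eq_of_mul_eq_one_left hy
  have md : d ∈ Alt (S ∩ S') := Alt_mono (by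
    rintro x (hx | rfl | rfl)
    exacts [hx.1, hP', hQ']) hd.1
  -- equivariance on the intersection
  have e1 : ∀ σ ∈ Alt (S ∩ S'), y * f σ * y⁻¹ = f (t * σ * t⁻¹) := fun σ =>
    (hf.mono Set.inter_subset_left).equiv hf hPQ hP' hQ' tK fun i hi h1 h2 => by
      rw [← c3_conj]
      refine (hd.2 (fun σ => σ ∈ Alt (S ∩ S') ∧ y * f σ * y⁻¹ = f (t * σ * t⁻¹)) ?_ ?_ x
        ⟨⟨hx, by simpa [hS', h.tx]⟩, by simp [hxP, hxQ]⟩
        ⟨c3_mem hxP hPQ ⟨hx, by simpa [hS', h.tx]⟩ hP' hQ', ?_⟩ i ⟨hi, by simp [h1, h2]⟩).2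
      · rintro σ ⟨a1, a2⟩
        refine ⟨inv_mem a1, ?_⟩
        rw [hf.inv (l1 a1), ← conj_inv, ← conj_inv, a2, hf.inv (conj_mem tK a1)]
      · rintro σ ⟨a1, a2⟩
        refine ⟨mul_mem (mul_mem md a1) (inv_mem md), ?_⟩
        rw [hf.conj (l1 md) (l1 a1), show t * (d * σ * d⁻¹) * t⁻¹ =
          (t * d * t⁻¹) * (t * σ * t⁻¹) * (t * d * t⁻¹)⁻¹ by group, hf.conj (conj_mem tK md) (conj_mem tK a1),
          ← r5, ← a2]
        calc _ = y * f d * (f σ * b * b⁻¹) * (f d)⁻¹ * y⁻¹ := by group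
          _ = _ := by rw [← (hb σ (l1 a1)).eq]; group
      · rw [c3_conj, h.tx, h.tP, h.tQ, hz.eq, mul_inv_cancel_right]
  have b1 : b = 1 := by
    rw [← e1 d md] at r5
    simpa using r5
  let f' : Perm α → Γ := fun σ => y * f (t * σ * t⁻¹) * y⁻¹
  have hf' : Hom S' f' := (hf.conjR fun x hx => hx).conjL y
  have e2 : ∀ σ ∈ Alt (S ∩ S'), f σ = f' σ := fun σ hσ => by
    simp only [f']
    rw [← e1 σ hσ, yi]
    calc f σ = (y * y) * f σ * (y * y) := by rw [hy]; group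
      _ = _ := by group
  have mξ : ξ ∈ Alt S := Alt_mono (by
    rintro x ((rfl | hx) | rfl | rfl)
    exacts [hk'.1, hx.1, hP, hk.1]) hξ.1
  have mξ' : ξ' ∈ Alt S' := Alt_mono (by
    rintro x ((rfl | hx) | rfl | rfl)
    exacts [hl'.2, hx.1, hQ'.2, hl.2]) hξ'.1
  obtain ⟨F, hF, F1, F2⟩ := glue hf hf' e2 (P := P) (Q := Q) (k := k) (l := l) (by simp [*]) (by
      simp only [List.mem_cons, List.not_mem_nil, or_false, forall_eq_or_imp, forall_eq]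
      exact ⟨hP', hQ', hk, hl⟩)
    fun i hi hi' j hj hj' => by
      obtain ⟨H, hH⟩ := hf.commute_sub (f' ξ')
      have a0 := c3_mem (Ne.symm hPk') hPk hk' hP' hk
      have a1 := (hH _).1 (hξ.mem ((hH _).2 ⟨mξ, r6⟩) (Or.inl rfl) ((hH _).2 ⟨l1 a0, by
        rw [e2 _ a0]
        refine hf'.commute (l2 a0) mξ' (commute_of_disjoint (c3_mem (S := {k', P, k}) (Ne.symm hPk') hPk
          (by simp) (by simp) (by simp)) hξ'.1 ?_)
        rintro _ (rfl | rfl | rfl) <;> simp [hk'.1, hk.1, *, Ne.symm hQk', Ne.symm hlk', Ne.symm hQk]⟩)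
        (Or.inr ⟨hi, hi'⟩))
      obtain ⟨H', hH'⟩ := hf'.commute_sub (f (c3 i P k))
      have a2 := c3_mem (Ne.symm hQl') hQl hl' hQ' hl
      have ni : ∀ x ∈ S ∩ S', x ≠ i := fun x hx e => hi' (e ▸ hx.2)
      exact ((hH' _).1 (hξ'.mem ((hH' _).2 ⟨mξ', a1.2.symm⟩) (Or.inl rfl) ((hH' _).2 ⟨l2 a2, by
        rw [← e2 _ a2]
        refine hf.commute (l1 a2) a1.1 (commute_of_disjoint (c3_mem (S := {l', Q, l}) (Ne.symm hQl') hQl
          (by simp) (by simp) (by simp)) (c3_mem (S := {i, P, k}) (ni _ hP').symm hPk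
          (by simp) (by simp) (by simp)) ?_)
        rintro _ (rfl | rfl | rfl) <;> simp [ni _ hl', ni _ hQ', ni _ hl, *, Ne.symm hPl', Ne.symm hkl',
          Ne.symm hPQ, Ne.symm hPl, Ne.symm hkl]⟩) (Or.inr ⟨hj, hj'⟩))).2.symm
  have hu : S ∪ S' = Set.univ := Set.eq_univ_of_forall h.cov
  rw [hu] at hF
  refine ⟨b1, F, hF, F1, fun σ hσ => hF.equiv hF hPQ trivial trivial (fun _ _ => trivial) (fun i _ h1 h2 => ?_)
    (mem_Alt_univ.2 hσ)⟩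
  have h3 : t i ≠ P := fun e => h1 (by rw [← h.tt i, e, h.tP])
  rw [h.tP, h.tQ]
  rcases h.cov i with hi | hi
  · rw [F1 _ (c3_mem h1 hPQ hi hP hQ), F2 _ (c3_mem h3 hPQ (by simpa [hS', h.tt]) hP'.2 hQ'.2)]
    simp only [f']
    rw [c3_conj, h.tt, h.tP, h.tQ]
  · rw [F2 _ (c3_mem h1 hPQ hi hP'.2 hQ'.2), F1 _ (c3_mem h3 hPQ hi hP hQ)]
    simp only [f']
    rw [c3_conj, h.tP, h.tQ, yi]
    calc _ = (y * y) * f (c3 (t i) P Q) * (y * y) := by group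
      _ = _ := by rw [hy]; group

theorem Aff.kill (h : Aff e S P Q r A B) (hf : Hom S f) {a : Γ} (ha : a ^ p = 1)
    (hb : f B * a * (f B)⁻¹ = a ^ r.val) (ea : ∀ σ ∈ Alt S, a * f σ * a⁻¹ = f (A * σ * A⁻¹)) : a = f A := by
  have hc := fun σ hσ => hf.central h.mA ea (σ := σ) hσ
  obtain ⟨c, rfl⟩ : ∃ c, a = f A * c := ⟨(f A)⁻¹ * a, by group⟩
  rw [inv_mul_cancel_left] at hc
  rw [(hc _ h.mA).symm.mul_pow, ← hf.pow h.mA] at ha hb
  rw [h.pow_p, hf.one, one_mul] at ha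
  rw [← h.conj, hf.conj h.mB h.mA, mul_assoc, mul_assoc, (hc _ h.mB).inv_right.eq, ← mul_assoc, ← mul_assoc,
    mul_right_inj] at hb
  have h0 : r ≠ 0 := fun e => by
    obtain ⟨k, hk⟩ := h.gen (r + 1) h.r2
    have h1 := h.Be 1
    rw [e, zero_mul, ← mul_zero r, ← h.Be] at h1
    simp at h1
  have h1 : c = c ^ (r.val * (r - 1)⁻¹.val) * (c ^ (r - 1)⁻¹.val)⁻¹ := by
    rw [eq_mul_inv_iff_mul_eq, ← pow_succ']
    refine pow_congr ha ?_
    have := mul_inv_cancel₀ (sub_ne_zero.2 h.r1)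
    simp only [Nat.cast_add, Nat.cast_mul, ZMod.natCast_val, ZMod.cast_id', id_eq, Nat.cast_one]
    linear_combination -this
  rw [pow_mul, ← hb, mul_inv_cancel] at h1
  rw [h1, mul_one]

theorem core (h : Aff e S P Q r A B) (ht : Inv S P Q (e 0) k l k' l' t) :
    ∃ (Γ : Type) (_ : Group Γ) (g : Fin 3 → Γ) (ρ : Γ →* Perm α) (F : Perm α → Γ) (y : Γ), Pr g 6 ∧
      Hom Set.univ F ∧ (∀ σ, sign σ = 1 → ρ (F σ) = σ) ∧ y * y = 1 ∧ ρ y = t ∧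
      (∀ σ, sign σ = 1 → y * F σ * y⁻¹ = F (t * σ * t⁻¹)) ∧ g 0 = F A ∧ g 1 = F B ∧
      g 2 = y * (F (c3 (e 0) P Q))⁻¹ ∧ g 2 ^ 2 = F (c3 (e 0) P Q) := by
  obtain ⟨u, s, v, huv, hu⟩ := h.exists_int
  have mz := c3_mem (h.hP 0) h.hPQ (h.me 0) h.mP h.mQ
  have z3 := c3_pow (h.hP 0) h.hPQ (h.hQ 0)
  have tz : Commute t (c3 (e 0) P Q) := by
    change _ = _
    rw [← mul_inv_eq_iff_eq_mul, c3_conj, ht.tx, ht.tP, ht.tQ]
  have tt : t ^ 2 = 1 := by rw [sq]; exact Equiv.ext ht.tt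
  have t2 : (t * c3 (e 0) P Q ^ 2) ^ 2 = c3 (e 0) P Q := by
    rw [(tz.pow_right 2).mul_pow, tt, ← pow_mul, one_mul, pow_succ, z3, one_mul]
  have t3 : (t * c3 (e 0) P Q ^ 2) ^ 3 = t := by
    rw [(tz.pow_right 2).mul_pow, ← pow_mul, mul_comm 2 3, pow_mul, z3, pow_succ, tt]; simp
  obtain ⟨Γ, _, q, ρ, -, hρ, hq, h1⟩ := (pr_free 3).stage (FreeGroup.lift ![A, B, t * c3 (e 0) P Q ^ 2])
    (let a := FreeGroup.of 0; let b := FreeGroup.of 1; let z := FreeGroup.of 2 ^ 2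
      [a ^ p * (z ^ 3)⁻¹, b * a ^ s * b⁻¹ * (a ^ (1 - s))⁻¹, b * z * b⁻¹ * z, (z * (a * z * a⁻¹)) ^ 2]) (by
      simp only [List.mem_cons, List.not_mem_nil, or_false, forall_eq_or_imp, forall_eq, map_mul, map_pow,
        map_inv, map_zpow, FreeGroup.lift_apply_of, Matrix.cons_val_zero, Matrix.cons_val_one, Matrix.cons_val,
        t2, z3, h.pow_p]
      refine ⟨by simp, ?_, ?_, ?_⟩
      · rw [← conj_zpow, h.conj, ← zpow_natCast, ← zpow_mul, mul_inv_eq_one]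
        refine zpow_congr h.pow_p ?_
        have := congrArg (Int.cast : ℤ → ZMod p) huv
        simp [hu] at this ⊢
        linear_combination this
      · rw [c3_conj, h.Be, mul_zero, h.BP, h.BQ, ← c3_inv (h.hP 0) h.hPQ (h.hQ 0), inv_mul_cancel]
      · rw [c3_conj, h.Ae, h.AP, h.AQ]
        exact c3_mul_sq (by simp) (h.hP _) (h.hQ _) (h.hP _) (h.hQ _) h.hPQ)
  simp only [List.mem_cons, List.not_mem_nil, or_false, forall_eq_or_imp, forall_eq, map_mul, map_pow,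
    map_inv, map_zpow, mul_inv_eq_one] at hq
  have ρa := hρ (FreeGroup.of 0)
  have ρb := hρ (FreeGroup.of 1)
  have ρc := hρ (FreeGroup.of 2)
  simp only [FreeGroup.lift_apply_of, Matrix.cons_val_zero, Matrix.cons_val_one, Matrix.cons_val] at ρa ρb ρc
  have ga : q (FreeGroup.of 0) = (q ∘ FreeGroup.of) 0 := rfl
  have gb : q (FreeGroup.of 1) = (q ∘ FreeGroup.of) 1 := rfl
  have gc : q (FreeGroup.of 2) = (q ∘ FreeGroup.of) 2 := rfl
  rw [ga, gb, gc] at hq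
  rw [ga] at ρa; rw [gb] at ρb; rw [gc] at ρc
  clear ga gb gc hρ
  generalize q ∘ FreeGroup.of = g at *
  obtain ⟨r1, r2, r3, r4⟩ := hq
  have r3 := eq_inv_of_mul_eq_one_left r3
  obtain ⟨ha, hb⟩ := aff_rel huv hu r1 r2 (by rw [← conj_pow, r3, inv_pow])
  obtain ⟨f, hf, f1, ea, eb⟩ := h.stage ha hb (r1 ▸ ha) r3 r4
  have f0 : f (c3 (e 0) P Q) = g 2 ^ 2 := by simpa using f1 0
  have ρf : ∀ σ ∈ Alt S, ρ (f σ) = σ := fun σ => (hf.comp ρ).ext hom_id h.hPQ h.mP h.mQ fun i hi h1 h2 => by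
    obtain ⟨i, rfl⟩ := h.exists_e hi h1 h2
    obtain ⟨k, rfl⟩ := ZMod.natCast_zmod_surjective i
    simp only [f1, map_mul, map_inv, map_pow, ρa, ρc, t2, h.conj_c3]
  have hn := ht.nd
  simp only [List.nodup_cons, List.mem_cons, List.not_mem_nil, or_false, not_or, List.nodup_nil,
    not_false_eq_true, and_true] at hn
  obtain ⟨⟨hPQ, hPk, hPl, hPk', hPl'⟩, ⟨hQk, hQl, hQk', hQl'⟩, ⟨hkl, hkk', hkl'⟩, ⟨hlk', hll'⟩, hkl''⟩ := hn
  have hm := ht.mem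
  simp only [List.mem_cons, List.not_mem_nil, or_false, forall_eq_or_imp, forall_eq] at hm
  obtain ⟨hk, hl, hk', hl'⟩ := hm
  have hP' : P ∈ t ⁻¹' S := by simpa [ht.tP] using h.mP
  have hQ' : Q ∈ t ⁻¹' S := by simpa [ht.tQ] using h.mQ
  obtain ⟨d, hd⟩ := exists_cyc ((S ∩ t ⁻¹' S) \ {P, Q}) h.hPQ (by simp) (by simp)
  obtain ⟨ξ, hξ⟩ := exists_cyc (insert k' (S \ t ⁻¹' S)) hPk (by simp [hPk', hP']) (by simp [hkk', hk.2])
  obtain ⟨ξ', hξ'⟩ := exists_cyc (insert l' (t ⁻¹' S \ S)) hQl (by simp [hQl', h.mQ]) (by simp [hll', hl.1])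
  have md : d ∈ Alt (S ∩ t ⁻¹' S) := Alt_mono (by
    rintro x (hx | rfl | rfl)
    exacts [hx.1, ⟨h.mP, hP'⟩, ⟨h.mQ, hQ'⟩]) hd.1
  have mξ : ξ ∈ Alt S := Alt_mono (by
    rintro x ((rfl | hx) | rfl | rfl)
    exacts [hk'.1, hx.1, h.mP, hk.1]) hξ.1
  have mξ' : ξ' ∈ Alt (t ⁻¹' S) := Alt_mono (by
    rintro x ((rfl | hx) | rfl | rfl)
    exacts [hl'.2, hx.1, hQ', hl.2]) hξ'.1
  obtain ⟨Γ', _, q', ρ', -, hρ', hq', h2⟩ := h1.stage ρ
    [g 2 ^ 3 * (f d * ((f B)⁻¹ * g 1)) * (g 2 ^ 3)⁻¹ * (f (t * d * t⁻¹))⁻¹,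
      ⁅f ξ, g 2 ^ 3 * f (t * ξ' * t⁻¹) * (g 2 ^ 3)⁻¹⁆] (by
      simp only [List.mem_cons, List.not_mem_nil, or_false, forall_eq_or_imp, forall_eq, map_mul, map_pow,
        map_inv, map_commutatorElement, ρb, ρc, t3, ρf _ h.mB, ρf _ mξ, ρf _ (Alt_mono Set.inter_subset_left md),
        ρf _ (conj_mem (fun x hx => hx.2) md), ρf _ (conj_mem (fun x hx => hx) mξ')]
      refine ⟨by group, commutatorElement_eq_one_iff_commute.2 ?_⟩
      rw [show t * (t * ξ' * t⁻¹) * t⁻¹ = t ^ 2 * ξ' * (t ^ 2)⁻¹ by rw [sq]; group, tt, inv_one, mul_one, one_mul]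
      refine commute_of_disjoint hξ.1 hξ'.1 ?_
      rintro x ((rfl | hx) | rfl | rfl)
      · simp [hk'.1, hkl'', Ne.symm hQk', Ne.symm hlk']
      · rintro ((rfl | hx') | rfl | rfl)
        exacts [hx.2 hl'.2, hx.2 hx'.1, hx.2 hQ', hx.2 hl.2]
      · simp [h.mP, hPl', hPQ, hPl]
      · simp [hk.1, hkl', hkl, Ne.symm hQk])
  simp only [List.mem_cons, List.not_mem_nil, or_false, forall_eq_or_imp, forall_eq, map_mul, map_pow,
    map_inv, map_commutatorElement, mul_inv_eq_one, commutatorElement_eq_one_iff_commute] at hq'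
  have hf' := hf.comp q'
  have ea' : ∀ σ ∈ Alt S, q' (g 0) * q' (f σ) * (q' (g 0))⁻¹ = q' (f (A * σ * A⁻¹)) := fun σ hσ => by
    rw [← ea σ hσ, map_mul, map_mul, map_inv]
  have eb' : ∀ σ ∈ Alt S, q' (g 1) * q' (f σ) * (q' (g 1))⁻¹ = q' (f (B * σ * B⁻¹)) := fun σ hσ => by
    rw [← eb σ hσ, map_mul, map_mul, map_inv]
  have yy : q' (g 2) ^ 3 * q' (g 2) ^ 3 = 1 := by
    rw [← pow_add, ← map_pow, show 3 + 3 = 2 * 3 from rfl, pow_mul, ← r1, ha, map_one]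
  obtain ⟨b1, F, hF, F1, F2⟩ := stage2 (h.me 0) (h.hP 0) (h.hQ 0) h.mP h.mQ ht hf' yy
    (by simp only [f0, map_pow]; exact Commute.pow_pow_self _ _ _) (fun σ hσ => hf'.central h.mB eb' hσ)
    hd hξ hξ' hq'.1 hq'.2
  have b2 : q' (g 1) = q' (f B) := (inv_mul_eq_one.1 b1).symm
  refine ⟨Γ', inferInstance, q' ∘ g, ρ', F, q' (g 2) ^ 3, h2, hF, fun σ hσ => ?_, yy, ?_, F2, ?_, ?_, ?_, ?_⟩
  · refine (hF.comp ρ').ext hom_id hPQ trivial trivial (fun i _ h1 h2 => ?_) (mem_Alt_univ.2 hσ)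
    have key : ∀ i ∈ S, i ≠ P → ρ' (F (c3 i P Q)) = c3 i P Q := fun i hi h1 => by
      have := c3_mem h1 hPQ hi h.mP h.mQ
      rw [F1 _ this, hρ', ρf _ this]
    rcases ht.cov i with hi | hi
    · exact key i hi h1
    · have h3 : t i ≠ P := fun e => h1 (by rw [← ht.tt i, e, ht.tP])
      have := F2 _ (c3_mem h3 hPQ hi h.mP h.mQ).1
      rw [c3_conj, ht.tt, ht.tP, ht.tQ] at this
      simp only [← this, map_mul, map_inv, map_pow, key _ hi h3, hρ', ρc, t3, c3_conj, ht.tt, ht.tP, ht.tQ]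
  · rw [map_pow, hρ', ρc, t3]
  · rw [F1 _ h.mA]
    exact h.kill (a := q' (g 0)) hf' (by rw [← map_pow, ha, map_one]) (by
      rw [← b2, ← map_inv, ← map_mul, ← map_mul, hb, map_pow]) ea'
  · rw [F1 _ h.mB]; exact b2
  · rw [F1 _ mz, f0, map_pow]; simp only [Function.comp]; group
  · rw [F1 _ mz, f0, map_pow]; rfl

end CA.AltP
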