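import Cfsg.Agent.Lib.Odd.BG3a
import Cfsg.Agent.Lib.Grp.Trf
import Cfsg.Agent.Lib.Grp.Frob2
import Cfsg.Agent.Lib.Solv.FpfRed

/-! Flavell's generation theorem `C_{[H,P]}(P) = ⟨C_{[h,P]}(P)⟩`, first part. -/

set_option autoImplicit false
set_option linter.unusedSectionVars false

namespace CA.Flav
open Subgroup CA.Coprime CA.SylIn
open scoped CA.BG commutatorElement

universe u
variable {Γ : Type u} [Group Γ] {Γ' : Type u} [Group Γ'] {A H V : Subgroup Γ} {x h : Γ} {p q : ℕ}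

/-- `[h, A]` -/
def L (A : Subgroup Γ) (h : Γ) : Subgroup Γ := closure {c | ∃ a ∈ A, c = h⁻¹ * (a * h * a⁻¹)}

/-- `⟨C_{[h,A]}(A) : h ∈ H⟩` -/
def K (A H : Subgroup Γ) : Subgroup Γ := ⨆ h ∈ H, L A h ⊓ 𝓒(A)

theorem mem_L {a : Γ} (ha : a ∈ A) : h⁻¹ * (a * h * a⁻¹) ∈ L A h := subset_closure ⟨a, ha, rfl⟩

theorem L_le_iff {Y : Subgroup Γ} : L A h ≤ Y ↔ ∀ a ∈ A, h⁻¹ * (a * h * a⁻¹) ∈ Y :=
  (closure_le Y).trans ⟨fun e a ha => e ⟨a, ha, rfl⟩, fun e _ ⟨a, ha, e'⟩ => e' ▸ e a ha⟩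

theorem L_le (hA : A ≤ 𝓝(H)) (hh : h ∈ H) : L A h ≤ H :=
  L_le_iff.2 fun _ ha => mul_mem (inv_mem hh) (conj_mem hA ha hh)

theorem le_K (hh : h ∈ H) : L A h ⊓ 𝓒(A) ≤ K A H := le_iSup₂_of_le h hh le_rfl

theorem K_le (hA : A ≤ 𝓝(H)) : K A H ≤ H ⊓ 𝓒(A) := iSup₂_le fun _ hh => inf_le_inf_right _ (L_le hA hh)

theorem K_mono {Y : Subgroup Γ} (e : Y ≤ H) : K A Y ≤ K A H := iSup₂_le fun _ hh => le_K (e hh)

theorem map_L (f : Γ →* Γ') : (L A h).map f = L (A.map f) (f h) := le_antisymm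
  (map_le_iff_le_comap.2 (L_le_iff.2 fun a ha => by simpa using mem_L (h := f h) (mem_map_of_mem f ha)))
  (L_le_iff.2 (by rintro _ ⟨a, ha, rfl⟩; simpa using mem_map_of_mem f (mem_L (h := h) ha)))

theorem map_C (f : Γ →* Γ') {y : Γ} (hy : y ∈ 𝓒(A)) : f y ∈ 𝓒(A.map f) := by
  rintro _ ⟨a, ha, rfl⟩
  rw [← map_mul, hy a ha, map_mul]

theorem map_K (f : Γ →* Γ') : (K A H).map f ≤ K (A.map f) (H.map f) :=
  map_le_iff_le_comap.2 (iSup₂_le fun _ hh _ hy => le_K (mem_map_of_mem f hh)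
    ⟨map_L (A := A) f ▸ mem_map_of_mem f hy.1, map_C f hy.2⟩)

theorem memC {y : Γ} : y ∈ 𝓒(zpowers x) ↔ x * y = y * x :=
  ⟨fun e => e x (mem_zpowers x), fun e _ ⟨i, hi⟩ => hi ▸ (Commute.zpow_left e i).eq⟩

variable [Finite Γ]

theorem nL : A ≤ 𝓝(L A h) := fun g hg => mem_normalizer_of_conj_le (map_le_iff_le_comap.2 (L_le_iff.2 fun a ha => by
  have := mul_mem (inv_mem (mem_L (h := h) hg)) (mem_L (h := h) (mul_mem hg ha))
  simpa [mul_assoc] using this))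

theorem nK : H ⊓ 𝓒(A) ≤ 𝓝(K A H) := fun c hc => mem_normalizer_of_conj_le (map_le_iff_le_comap.2
  (iSup₂_le fun h hh y hy => le_K (mul_mem (mul_mem hc.1 hh) (inv_mem hc.1))
    ⟨(L_le_iff (Y := (L A (c * h * c⁻¹)).comap (MulAut.conj c).toMonoidHom)).2 (fun a ha => by
      have := mem_L (h := c * h * c⁻¹) ha
      have e : a * (c * h * c⁻¹) * a⁻¹ = c * (a * h * a⁻¹) * c⁻¹ := by
        calc _ = (a * c) * h * (a * c)⁻¹ := by group
          _ = _ := by rw [hc.2 a ha]; group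
      rw [e] at this
      simpa [mul_assoc] using this) hy.1, mul_mem (mul_mem hc.2 hy.2) ((𝓒(A)).inv_mem hc.2)⟩))

theorem L_comm (hA : A ≤ 𝓝(H)) (hc : (♯A).Coprime ♯H) (hs : Group.IsSolvable A) (hh : h ∈ H) :
    L A h ≤ ⁅L A h, A⁆ := L_le_iff.2 fun a ha => by
  obtain ⟨n, hn, e⟩ := exists_mul_mem_centralizer' nL (cop_mono hc le_rfl (L_le hA hh)) (.inl hs)
    fun a ha => mem_L (h := h) ha
  have := commutator_mem_commutator hn ha
  rwa [show ⁅n, a⁆ = h⁻¹ * (a * h * a⁻¹) by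
    calc _ = h⁻¹ * ((h * n) * a) * n⁻¹ * a⁻¹ := by group
      _ = _ := by rw [← e a ha]; group] at this

theorem K_map (f : Γ →* Γ') (hA : A ≤ 𝓝(H)) (hc : (♯A).Coprime ♯H) (hs : Group.IsSolvable A) :
    K (A.map f) (H.map f) ≤ (K A H).map f := iSup₂_le (by
  rintro _ ⟨h, hh, rfl⟩ _ ⟨hy, hy'⟩
  rw [← map_L] at hy
  obtain ⟨y, hy, rfl⟩ := hy
  obtain ⟨n, hn, e⟩ := exists_mul_mem_centralizer (N := f.ker ⊓ L A h) (k := y)
    (inf_le_normalizer_inf (by rw [normalizer_eq_top]; exact le_top) nL)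
    (cop_mono hc le_rfl (inf_le_right.trans (L_le hA hh))) (.inl hs) fun a ha =>
      ⟨by simp [hy' _ (mem_map_of_mem f ha)], mul_mem (conj_mem nL ha hy) ((L A h).inv_mem hy)⟩
  exact ⟨n * y, le_K hh ⟨mul_mem hn.2 hy, e⟩, by rw [map_mul, show f n = 1 from hn.1, one_mul]⟩)

/-- minimal counterexample -/
structure Ctx (p : ℕ) (x : Γ) (A H : Subgroup Γ) : Prop where
  hp : p.Prime
  hp2 : p ≠ 2
  hx : x ^ p = 1
  hA : zpowers x = A
  nH : H.Normal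
  top : H ⊔ A = ⊤
  cop : (♯A).Coprime ♯H
  sol : Group.IsSolvable H
  com : ⁅H, A⁆ = H
  sub : ∀ Y < H, A ≤ 𝓝(Y) → ⁅Y, A⁆ ⊓ 𝓒(A) ≤ K A H
  quo : ∀ N : Subgroup Γ, N.Normal → N ≤ H → N ≠ ⊥ → ∀ c ∈ H ⊓ 𝓒(A), ∃ k ∈ K A H, k⁻¹ * c ∈ N

theorem nn {N : Subgroup Γ} (hN : N.Normal) (Y : Subgroup Γ) : Y ≤ 𝓝(N) := by rw [normalizer_eq_top]; exact le_top

namespace Ctx
variable (c : Ctx p x A H)
include c

theorem nrm {Y : Subgroup Γ} (h1 : H ≤ 𝓝(Y)) (h2 : A ≤ 𝓝(Y)) : Y.Normal :=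
  normalizer_eq_top_iff.1 (top_le_iff.1 (c.top.ge.trans (sup_le h1 h2)))

theorem sA : Group.IsSolvable A := c.hA ▸ CA.Coprime2.isSolvable_of_comm _

theorem xA : x ∈ A := c.hA ▸ mem_zpowers x

theorem mC {y : Γ} : y ∈ 𝓒(A) ↔ x * y = y * x := c.hA ▸ memC

theorem der : H ⊓ 𝓒(A) ≤ ⁅H, H⁆ := fun y hy => by
  have := c.nH
  have h1 := CA.BG.coprime_abel_cent_eq_bot (A := A.map (QuotientGroup.mk' ⁅H, H⁆))
    (V := H.map (QuotientGroup.mk' ⁅H, H⁆)) (nn (c.nH.map _ (QuotientGroup.mk'_surjective _)) _)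
    (Nat.Coprime.of_dvd (card_map_dvd _ _) (card_map_dvd _ _) c.cop.symm)
    ⟨⟨by
      rintro ⟨_, a, ha, rfl⟩ ⟨_, b, hb, rfl⟩
      exact Subtype.ext (commutatorElement_eq_one_iff_mul_comm.1 ((map_commutatorElement _ a b).symm.trans
        ((QuotientGroup.eq_one_iff _).2 (commutator_mem_commutator ha hb))))⟩⟩ (by rw [← map_commutator, c.com])
  exact (QuotientGroup.eq_one_iff _).1 (mem_bot.1 (h1.le ⟨mem_map_of_mem _ hy.1, map_C _ hy.2⟩))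

theorem II (hV : V.Normal) (hVH : V ≤ H) (hV1 : V ≠ ⊥) (hc : IsMulCommutative V) (hq : q.Prime)
    (hVq : ∀ v ∈ V, v ^ q = 1) (hmin : ∀ U : Subgroup Γ, U.Normal → U ≤ V → U = ⊥ ∨ U = V) (h : ¬ H ≤ 𝓒(V)) :
    V ⊓ 𝓒(A) ≤ K A H := by
  have := c.nH
  have hVV : V ≤ 𝓒(V) := le_centralizer V
  let π := QuotientGroup.mk' (H ⊓ 𝓒(V))
  have hπ : ∀ y, π y = 1 ↔ y ∈ H ⊓ 𝓒(V) := QuotientGroup.eq_one_iff
  have hπs := QuotientGroup.mk'_surjective (H ⊓ 𝓒(V))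
  have := c.nH.map π hπs
  have := c.sol
  obtain ⟨F', r, hF', hF'H, hF1, hFc, hr, hFr, hFm⟩ := CA.FpfRed.exists_minimal_normal (G := H.map π)
    (Group.isSolvable_of_surjective (π.subgroupMap_surjective H)) fun e => h fun y hy =>
      ((hπ y).1 (mem_bot.1 (e.le (mem_map_of_mem π hy)))).2
  have := Fact.mk hr
  have := Fact.mk hq
  have hZF : H ⊓ 𝓒(V) ≤ F'.comap π := fun y hy => by rw [mem_comap, (hπ y).2 hy]; exact one_mem _
  have hFH : F'.comap π ≤ H := (comap_mono hF'H).trans (by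
    rw [comap_map_eq, QuotientGroup.ker_mk']; exact sup_le le_rfl inf_le_left)
  have hFA := cop_mono c.cop le_rfl hFH
  obtain ⟨R₀, hR₀, hAR₀⟩ := CA.Coprime2.exists_isSylowIn (nn (hF'.comap π) A) hFA (.inl c.sA) r
  have hR₀H := hR₀.le.trans hFH
  have hFR : F'.comap π ≤ R₀ ⊔ H ⊓ 𝓒(V) := relIndex_eq_one.1 (by
    obtain ⟨k, hk⟩ := IsPGroup.exists_card_eq (p := r) (G := F') fun y => ⟨1, Subtype.ext (by simpa using hFr y y.2)⟩
    have h1 := relIndex_ker (K := F'.comap π) π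
    rw [map_comap_eq_self_of_surjective hπs, hk, show π.ker = H ⊓ 𝓒(V) from QuotientGroup.ker_mk' _] at h1
    exact Nat.eq_one_of_dvd_coprimes ((hr.coprime_iff_not_dvd.2 hR₀.not_dvd).symm.pow_right k)
      (relIndex_dvd_of_le_left _ le_sup_left) (h1 ▸ relIndex_dvd_of_le_left _ le_sup_right))
  have hCV : V ⊓ 𝓒(R₀) = ⊥ := by
    rcases hmin (V ⊓ 𝓒(F'.comap π)) inferInstance inf_le_left with e | e
    · exact eq_bot_iff.2 fun v hv => e.le ⟨hv.1, fun y hy => mem_centralizer_singleton_iff.1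
        ((sup_le (fun a ha => mem_centralizer_singleton_iff.2 (hv.2 a ha)) fun a ha => mem_centralizer_singleton_iff.2
          (ha.2 v hv.1).symm : _ ≤ centralizer {v}) (hFR hy))⟩
    · refine (hF1 (eq_bot_iff.2 fun y hy => ?_)).elim
      obtain ⟨y, rfl⟩ := hπs y
      exact (hπ y).2 ⟨hFH hy, le_centralizer_iff.1 (e.ge.trans inf_le_right) hy⟩
  have hVp : IsPGroup q V := fun y => ⟨1, Subtype.ext (by simpa using hVq y y.2)⟩
  have hrq : r ≠ q := by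
    rintro rfl
    exact (CA.BG.isPi_of_isPGroup hr hR₀.isPGroup).meet_cent (CA.BG.isPi_of_isPGroup hr hVp) (nn hV _) hV1 hCV
  have hcop := IsPGroup.coprime_card_of_ne r q hrq R₀ V hR₀.isPGroup hVp
  have hR₀V := (disjoint_of_coprime_natCard hcop).eq_bot
  have hRR₀ : ⁅R₀, A⁆ ≤ R₀ := commutator_le_left hAR₀
  have hRA := commutator_commutator hAR₀ (cop_mono c.cop le_rfl hR₀H) (.inl c.sA)
  have hAR : A ≤ 𝓝(⁅R₀, A⁆) := normalizer_commutator_ge_right _ _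
  have hR₀R : R₀ ≤ 𝓝(⁅R₀, A⁆) := normalizer_commutator_ge_left _ _
  have hdec := fun k (hk : k ∈ R₀) => exists_commutator_mul_centralizer hAR₀ (cop_mono c.cop le_rfl hR₀H) (.inl c.sA) hk
  generalize ⁅R₀, A⁆ = R at *
  have hRH := hRR₀.trans hR₀H
  by_cases hY : V ⊔ R < H
  · have h1 : ⁅V, R⁆ ≤ ⁅V ⊔ R, A⁆ := (commutator_mono le_sup_left (hRA.ge.trans (commutator_mono le_sup_right le_rfl))).trans
      (by rw [Subgroup.commutator_comm]; exact commutator_le_left (normalizer_commutator_ge_left _ _))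
    have h2 := c.sub _ hY (le_normalizer_sup (nn hV A) hAR)
    have : IsMulCommutative (V ⊓ 𝓒(A) : Subgroup Γ) := ⟨⟨fun a b => Subtype.ext (hVV b.2.1 a a.2.1)⟩⟩
    rw [← CA.Coprime2.centralizer_sup_commutator (A := R₀ ⊓ 𝓒(A)) (V := V ⊓ 𝓒(A))
      (inf_le_normalizer_inf (nn hV _) (inf_le_right.trans le_normalizer)) (cop_mono hcop inf_le_left inf_le_left)]
    refine sup_le (fun u hu => h2 ⟨h1 ?_, hu.1.2⟩) (commutator_le.2 fun u hu d hd => ?_)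
    · obtain ⟨n, hn, e⟩ := exists_mul_mem_centralizer (N := ⁅V, R⁆) (k := u) (le_normalizer_commutator (nn hV R₀) hR₀R)
        (cop_mono hcop le_rfl (commutator_le_left (nn hV R))) (.inr (CA.BG.solv_of_le c.sol
          ((commutator_le_left (nn hV R)).trans hVH))) fun a ha => by
          obtain ⟨b, hb, d, hd, rfl⟩ := hdec a ha
          have := inv_mem (commutator_mem_commutator hu.1.1 hb)
          rwa [show ⁅u, b⁆⁻¹ = b * d * u * (b * d)⁻¹ * u⁻¹ by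
            rw [mul_assoc b, hu.2 d hd, commutatorElement_def]; group] at this
      rw [← inv_eq_of_mul_eq_one_right (mem_bot.1 (hCV.le ⟨mul_mem (commutator_le_left (nn hV R) hn) hu.1.1, e⟩))]
      exact inv_mem hn
    · obtain ⟨k, hk, e⟩ := c.quo V hV hVH hV1 d ⟨hR₀H hd.1, hd.2⟩
      have := mul_mem (conj_mem nK ⟨hVH hu.1, hu.2⟩ hk) (inv_mem hk)
      rwa [show u * k * u⁻¹ * k⁻¹ = ⁅u, d⁆ by
        calc _ = u * k * (u⁻¹ * (k⁻¹ * d)) * d⁻¹ := by group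
          _ = _ := by rw [hVV e _ (inv_mem hu.1), commutatorElement_def]; group] at this
  have hH : H ≤ V ⊔ R := ((sup_le hVH hRH).eq_of_not_lt hY).ge
  have hH' : ∀ y ∈ H, ∃ v ∈ V, ∃ ρ ∈ R, v * ρ = y := fun y hy => mem_sup_of_normal_left.1 (hH hy)
  by_cases hZ : R ⊓ 𝓒(V) ≠ ⊥
  · intro v hv
    obtain ⟨k, hk, e⟩ := c.quo _ (c.nrm (hH.trans (sup_le ((le_centralizer_iff.1 inf_le_right).trans
      (centralizer_le_normalizer _)) (inf_le_normalizer_inf le_normalizer (nn inferInstance _))))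
      (inf_le_normalizer_inf hAR (nn inferInstance _))) (inf_le_left.trans hRH) hZ v ⟨hVH hv.1, hv.2⟩
    obtain ⟨m, hm⟩ := hR₀.isPGroup ⟨_, inv_mem (hRR₀ e.1)⟩
    obtain ⟨j, hj⟩ := exists_pow_eq_self_of_coprime (x := v) (n := r ^ m) ((((Nat.coprime_primes hr hq).2 hrq).pow_left
      m).coprime_dvd_right (orderOf_dvd_of_pow_eq_one (hVq v hv.1)))
    have h1 : k ^ r ^ m = v ^ r ^ m := by
      rw [show k = v * (k⁻¹ * v)⁻¹ by group, (Commute.inv_right (e.2 v hv.1)).mul_pow,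
        show (k⁻¹ * v)⁻¹ ^ r ^ m = 1 from congrArg Subtype.val hm, mul_one]
    exact hj ▸ h1 ▸ pow_mem (pow_mem hk _) j
  rw [not_not] at hZ
  have hZV : H ⊓ 𝓒(V) ≤ V := fun z hz => by
    obtain ⟨v, hv, ρ, hρ, rfl⟩ := hH' z hz.1
    rw [mem_bot.1 (hZ.le ⟨hρ, (mul_mem_cancel_left (hVV hv)).1 hz.2⟩), mul_one]; exact hv
  have hHF : H ≤ F'.comap π := hH.trans (sup_le ((le_inf hVH hVV).trans hZF) (hRR₀.trans hR₀.le))
  have hHH : ∀ a ∈ H, ∀ b ∈ H, ⁅a, b⁆ ∈ V := fun a ha b hb => hZV ((hπ _).1 ((map_commutatorElement π a b).trans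
    (commutatorElement_eq_one_iff_mul_comm.2 (congrArg Subtype.val (hFc.is_comm.comm ⟨_, hHF ha⟩ ⟨_, hHF hb⟩)))))
  have hRC := CA.BG.coprime_abel_cent_eq_bot hAR (cop_mono c.cop le_rfl hRH).symm ⟨⟨fun a b => Subtype.ext
    (commutatorElement_eq_one_iff_mul_comm.1 (mem_bot.1 (hR₀V.le ⟨hRR₀ (commutator_le_self R
      (commutator_mem_commutator a.2 b.2)), hHH _ (hRH a.2) _ (hRH b.2)⟩)))⟩⟩ hRA
  have hfix : ∀ ρ ∈ R, ρ⁻¹ * (x * ρ * x⁻¹) ∈ V → ρ = 1 := fun ρ hρ e => mem_bot.1 (hRC.le ⟨hρ, c.mC.2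
    (mul_inv_eq_iff_eq_mul.1 (inv_mul_eq_one.1 (mem_bot.1 (hR₀V.le ⟨hRR₀ (mul_mem (inv_mem hρ)
      (conj_mem hAR c.xA hρ)), e⟩))).symm)⟩)
  have hCH : H ⊓ 𝓒(A) ≤ V := c.der.trans (commutator_le.2 hHH)
  obtain ⟨g, hg, hg1⟩ := (bot_or_exists_ne_one R).resolve_left fun e => h (hH.trans (sup_le hVV (e.le.trans bot_le)))
  by_cases hL : ∃ v ∈ V, V ≤ L A (g * v)
  · obtain ⟨v, hv, e⟩ := hL
    exact (inf_le_inf_right _ e).trans (le_K (mul_mem (hRH hg) (hVH hv)))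
  have key : ∀ v ∈ V, ∃ a ∈ V ⊓ 𝓒(A), ∃ b ∈ V ⊓ 𝓒(A), g⁻¹ * a * g * b = v := fun v hv => by
    have h1 := L_le (nn c.nH A) (mul_mem (hRH hg) (hVH hv))
    have h2 : (L A (g * v) ⊔ V).Normal := c.nrm (fun y hy => mem_normalizer_of_forall fun m hm => by
      simpa [commutatorElement_def] using mul_mem (mem_sup_right (hHH y hy m (sup_le h1 hVH hm))) hm)
      (le_normalizer_sup nL (nn hV A))
    have h3 : H ≤ L A (g * v) ⊔ V := by
      rcases hFm _ (h2.map π hπs) (map_le_iff_le_comap.2 ((sup_le h1 hVH).trans hHF)) with e | e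
      · have h3 := hZV ((hπ _).1 (mem_bot.1 (e.le (mem_map_of_mem π (mem_sup_left (mem_L c.xA))))))
        refine (hg1 (hfix g hg ?_)).elim
        simpa [mul_assoc] using mul_mem (mul_mem hv h3) (inv_mem (hV.conj_mem v hv x))
      · refine hHF.trans ((comap_mono e.ge).trans ?_)
        rw [comap_map_eq, QuotientGroup.ker_mk']
        exact sup_le le_rfl (hZV.trans le_sup_right)
    have h4 := (hmin (L A (g * v) ⊓ V) (c.nrm (h3.trans (sup_le (inf_le_normalizer_inf le_normalizer (nn hV _))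
      ((le_centralizer_iff.1 (inf_le_right.trans hVV)).trans (centralizer_le_normalizer _))))
      (inf_le_normalizer_inf nL (nn hV _))) inf_le_right).resolve_right fun e => hL ⟨v, hv, e.ge.trans inf_le_left⟩
    obtain ⟨b, hb, e⟩ := CA.Coprime2.exists_centralizer_conj_le (nn (hF'.comap π) A) hFA (.inl c.sA) hR₀ hAR₀
      (h1.trans hHF) (fun y => ⟨1, Subtype.ext (mem_bot.1 (h4.le ⟨pow_mem y.2 _, hZV ((hπ _).1 (by
        simpa using hFr _ (hHF (h1 y.2))))⟩))⟩) nL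
    have hbV := hCH ⟨hFH hb.1, hb.2⟩
    have h5 := conj_le_iff.1 e _ (mem_L c.xA)
    have h6 := mem_bot.1 (hR₀V.le (mem_inf.2 ⟨mul_mem (inv_mem (hRR₀ (mul_mem (inv_mem hg) (conj_mem hAR c.xA hg)))) h5, by
      simpa [mul_assoc] using mul_mem (mul_mem (hV.conj_mem _ (mul_mem hbV (inv_mem hv)) (g⁻¹ * (x * g * x⁻¹))⁻¹)
        (hV.conj_mem v hv x)) (inv_mem hbV)⟩))
    refine ⟨g * (v * b⁻¹) * g⁻¹, ⟨hV.conj_mem _ (mul_mem hv (inv_mem hbV)) g, c.mC.2 ?_⟩, b, ⟨hbV, hb.2⟩, by group⟩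
    calc _ = g * v * b⁻¹ * (g⁻¹ * (x * g * x⁻¹)) * ((g⁻¹ * (x * g * x⁻¹))⁻¹ * (b * ((g * v)⁻¹ * (x * (g * v) * x⁻¹)) * b⁻¹))
          * (b * x) * b⁻¹ * g⁻¹ := by group
      _ = _ := by rw [h6, ← c.mC.1 hb.2]; group
  have hx1 : x ≠ 1 := fun e => hg1 (hfix g hg (by simp [e]))
  have := Fact.mk c.hp
  have hW := CA.BG.Frobenius_card_of_cent_eq_bot (K := R) (R := A) (M := V) hAR (fun a ha ha1 => by
      obtain ⟨i, rfl⟩ := mem_powers_iff_mem_zpowers.2 (c.hA.ge ha)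
      obtain ⟨j, hj⟩ := exists_pow_eq_self_of_coprime (x := x) (n := i) ((c.hp.coprime_iff_not_dvd.2 (by
        rintro ⟨i, rfl⟩
        exact ha1 (by simp [pow_mul, c.hx]))).symm.coprime_dvd_right (orderOf_dvd_of_pow_eq_one c.hx))
      exact eq_bot_iff.2 fun y hy => hRC.le ⟨hy.1, c.mC.2 (hj ▸ (Commute.pow_left
        (mem_centralizer_singleton_iff.1 hy.2).symm j).eq)⟩)
    (CA.BG.solv_of_le c.sol hRH) (nn hV _) (nn hV _) (CA.BG.solv_of_le c.sol hVH) (cop_mono hcop hRR₀ le_rfl).symm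
    (cop_mono c.cop le_rfl hVH).symm (eq_bot_iff.2 fun v hv => hCV.le ⟨hv.1, fun y hy => by
      obtain ⟨w, hw, ρ, hρ, rfl⟩ := hH' y (hR₀H hy)
      exact Commute.mul_left (hVV hv.1 w hw) (hv.2 ρ hρ)⟩)
  have h1 := Nat.card_le_card_of_surjective (fun y : ↥(V ⊓ 𝓒(A)) × ↥(V ⊓ 𝓒(A)) => (⟨g⁻¹ * y.1 * g * y.2,
    mul_mem (conj_mem' (nn hV ⊤) (mem_top g) y.1.2.1) y.2.2.1⟩ : V)) fun v => by
      obtain ⟨a, ha, b, hb, e⟩ := key v v.2
      exact ⟨(⟨a, ha⟩, ⟨b, hb⟩), Subtype.ext e⟩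
  rw [Nat.card_prod, ← pow_two, hW, show ♯A = p by rw [← c.hA, Nat.card_zpowers, orderOf_eq_prime c.hx hx1]] at h1
  by_contra h2
  exact h1.not_gt (Nat.pow_lt_pow_right ((one_lt_card_iff_ne_bot _).2 fun e => h2 (e.le.trans bot_le))
    (lt_of_le_of_ne c.hp.two_le c.hp2.symm))

end Ctx
end CA.Flav
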