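import Mathlib

/-!
Weight spaces of a normal abelian subgroup of odd order in characteristic two, and fixed points of a `2`-subgroup.
-/

set_option autoImplicit false

namespace CA.H8Wt

open Module MulAction

variable {S : Type*} [Group S] {k : Type*} [Field k]

/-- the linear characters of a subgroup -/
def Ch (k : Type*) [Field k] (A : Subgroup S) : Type _ := A →* kˣ

variable {A : Subgroup S} [A.Normal]

/-- evaluation of a character -/
def Ch.h (μ : Ch k A) : A →* kˣ := μ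

instance : MulAction S (Ch k A) where
  smul s μ := μ.h.comp (MulAut.conjNormal s⁻¹ : MulAut A).toMonoidHom
  one_smul μ := MonoidHom.ext fun a => by
    show μ.h (MulAut.conjNormal (1 : S)⁻¹ a) = μ.h a
    rw [inv_one, map_one]; rfl
  mul_smul s t μ := MonoidHom.ext fun a => by
    show μ.h (MulAut.conjNormal (s * t)⁻¹ a) = μ.h (MulAut.conjNormal t⁻¹ (MulAut.conjNormal s⁻¹ a))
    rw [mul_inv_rev, map_mul]; rfl

theorem smul_h (s : S) (μ : Ch k A) (a : A) : (s • μ).h a = μ.h (MulAut.conjNormal s⁻¹ a) := rfl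

variable [Finite S] {W : Type*} [AddCommGroup W] [Module k W] (τ : S →* End k W)

open Classical in
/-- the projection onto a weight space -/
noncomputable def pr (μ : Ch k A) : End k W :=
  haveI := Fintype.ofFinite A
  ∑ a : A, (((μ.h a)⁻¹ : kˣ) : k) • τ a

theorem pr_conj (s : S) (μ : Ch k A) (v : W) : pr τ (s • μ) (τ s v) = τ s (pr τ μ v) := by
  letI := Fintype.ofFinite A
  simp only [pr, LinearMap.sum_apply, LinearMap.smul_apply, map_sum, map_smul]
  refine (Fintype.sum_equiv (MulAut.conjNormal s : MulAut A).toEquiv _ _ fun a => ?_).symm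
  rw [smul_h, ← End.mul_apply, ← End.mul_apply, ← map_mul, ← map_mul]
  simp

omit [A.Normal] in
theorem act_pr (μ : Ch k A) (b : A) (v : W) : τ b (pr τ μ v) = (μ.h b : k) • pr τ μ v := by
  letI := Fintype.ofFinite A
  simp only [pr, LinearMap.sum_apply, LinearMap.smul_apply, map_sum, map_smul, Finset.smul_sum]
  refine Fintype.sum_equiv (Equiv.mulLeft b) _ _ fun a => ?_
  rw [← End.mul_apply, ← map_mul, smul_smul]
  simp [mul_comm]

omit [A.Normal] in
theorem pr_pr {μ ν : Ch k A} (h : ν ≠ μ) (v : W) : pr τ ν (pr τ μ v) = 0 := by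
  letI := Fintype.ofFinite A
  have h1 : ∑ a : A, ((Units.coeHom k).comp (ν.h⁻¹ * μ.h)) a = 0 := sum_hom_units_eq_zero _ fun e => h (by
    refine MonoidHom.ext fun a => ?_
    have := DFunLike.congr_fun e a
    simp only [MonoidHom.comp_apply, MonoidHom.mul_apply, MonoidHom.inv_apply, Units.coeHom_apply,
      MonoidHom.one_apply, Units.val_eq_one, inv_mul_eq_one] at this
    exact this)
  rw [pr, LinearMap.sum_apply]
  simp only [LinearMap.smul_apply, act_pr, smul_smul, ← Finset.sum_smul]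
  convert zero_smul k (pr τ μ v)
  exact h1

omit [A.Normal] in
theorem exists_pr [IsMulCommutative A] [HasEnoughRootsOfUnity k (Monoid.exponent A)] (hA : (Nat.card A : k) ≠ 0)
    {v : W} (hv : v ≠ 0) : ∃ μ : Ch k A, pr τ μ v ≠ 0 := by
  classical
  by_contra! h
  letI : CommGroup A := IsMulCommutative.instCommGroup
  have hc := CommGroup.card_monoidHom_of_hasEnoughRootsOfUnity A k
  haveI : Finite (A →* kˣ) := Nat.finite_of_card_ne_zero (hc ▸ Nat.card_pos.ne')
  letI := Fintype.ofFinite (A →* kˣ)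
  letI := Fintype.ofFinite A
  have h1 : ∑ μ : A →* kˣ, pr τ (A := A) μ v = 0 := Finset.sum_eq_zero fun μ _ => h μ
  simp only [pr, LinearMap.sum_apply, LinearMap.smul_apply] at h1
  rw [Finset.sum_comm, Finset.sum_eq_single (1 : A) (fun a _ ha => ?_) (by simp)] at h1
  · simp only [map_one, inv_one, Units.val_one, one_smul, OneMemClass.coe_one, End.one_apply, Finset.sum_const,
      Finset.card_univ] at h1
    rw [← Nat.card_eq_fintype_card, hc, ← Nat.cast_smul_eq_nsmul k, smul_eq_zero] at h1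
    exact h1.elim hA hv
  · obtain ⟨φ, hφ⟩ := CommGroup.exists_apply_ne_one_of_hasEnoughRootsOfUnity A k ha
    rw [← Finset.sum_smul]
    have := sum_hom_units_eq_zero (G := A →* kˣ) (R := k) ((Units.coeHom k).comp
      (invMonoidHom.comp (MonoidHom.eval a))) fun e => hφ (by simpa using DFunLike.congr_fun e φ)
    convert zero_smul k (τ a v)
    exact this

/-- the fixed points of a subgroup -/
def Fx (T : Subgroup S) : Submodule k W where
  carrier := {v | ∀ s ∈ T, τ s v = v}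
  add_mem' ha hb s hs := by rw [map_add, ha s hs, hb s hs]
  zero_mem' s _ := map_zero _
  smul_mem' c v hv s hs := by rw [map_smul, hv s hs]

omit [Finite S] in
theorem tinj (s : S) {v : W} (h : τ s v = 0) : v = 0 := by
  have : τ (s⁻¹ * s) v = 0 := by rw [map_mul, End.mul_apply, h, map_zero]
  simpa using this

theorem supp_smul (s : S) {μ : Ch k A} {v : W} : pr τ (s • μ) (τ s v) ≠ 0 ↔ pr τ μ v ≠ 0 := by
  rw [pr_conj]; exact not_congr ⟨tinj τ s, fun e => by rw [e, map_zero]⟩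

variable {T : Subgroup S}

theorem supp_orb {v : W} (hv : v ∈ Fx τ T) {μ ν : Ch k A} (h : ν ∈ orbit T μ) (h1 : pr τ μ v ≠ 0) :
    pr τ ν v ≠ 0 := by
  obtain ⟨t, rfl⟩ := h
  rw [← hv t t.2]
  exact (supp_smul τ _).2 h1

variable [IsMulCommutative A] [HasEnoughRootsOfUnity k (Monoid.exponent A)] (hA : (Nat.card A : k) ≠ 0)
  [Finite W] (h2 : (2 : k) = 0) (hT : IsPGroup 2 T)

include hA h2 hT in
theorem exists_vec {μ : Ch k A} (h : pr τ μ ≠ 0) : ∃ v ∈ Fx τ T, ∀ ν, pr τ ν v ≠ 0 ↔ ν ∈ orbit T μ := by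
  let U : AddSubgroup W :=
    { carrier := {v | ∀ ν ∉ orbit T μ, pr τ ν v = 0}
      add_mem' := fun ha hb ν hν => by rw [map_add, ha ν hν, hb ν hν, add_zero]
      zero_mem' := fun _ _ => map_zero _
      neg_mem' := fun ha ν hν => by rw [map_neg, ha ν hν, neg_zero] }
  letI : MulAction T U :=
    { smul := fun t u => ⟨τ t u, fun ν hν => by_contra fun e => by
        rw [← smul_inv_smul (t : S) ν] at e
        exact (supp_smul τ _).1 e (u.2 _ fun e' => hν (smul_inv_smul (t : S) ν ▸ mapsTo_smul_orbit t _ e'))⟩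
      one_smul := fun u => Subtype.ext (by show τ (1 : T) u = u; simp)
      mul_smul := fun s t u => Subtype.ext (by show τ (s * t : T) u = τ s (τ t u); simp) }
  obtain ⟨w, hw⟩ := DFunLike.ne_iff.1 h
  let u : U := ⟨pr τ μ w, fun ν hν => pr_pr τ (by rintro rfl; exact hν (mem_orbit_self _)) w⟩
  have h3 : addOrderOf u = 2 := addOrderOf_eq_prime (Subtype.ext (by
    show 2 • pr τ μ w = 0
    rw [← Nat.cast_smul_eq_nsmul k, Nat.cast_ofNat, h2, zero_smul])) fun e => hw (congrArg Subtype.val e)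
  obtain ⟨b, hb, hb0⟩ := hT.exists_fixed_point_of_prime_dvd_card_of_fixed_point U
    (h3 ▸ addOrderOf_dvd_natCard u) (a := 0) fun t => Subtype.ext (map_zero (τ t))
  have hb' : (b : W) ∈ Fx τ T := fun s hs => congrArg Subtype.val (hb ⟨s, hs⟩)
  refine ⟨b, hb', fun ν => ⟨fun e => by_contra fun e' => e (b.2 ν e'), fun e => ?_⟩⟩
  obtain ⟨ξ, hξ⟩ := exists_pr τ hA (v := b) fun e => hb0 (Subtype.ext e).symm
  have h4 : ξ ∈ orbit T μ := by_contra fun e' => hξ (b.2 ξ e')
  exact supp_orb τ hb' (orbit_eq_iff.2 h4 ▸ e) hξ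

include hA h2 hT in
theorem le_finrank {n : ℕ} (μ : Fin n → Ch k A) (h : ∀ i, pr τ (μ i) ≠ 0)
    (hne : ∀ i j, μ i ∈ orbit T (μ j) → i = j) : n ≤ finrank k (Fx τ T) := by
  choose v h3 h4 using fun i => exists_vec τ hA h2 hT (h i)
  haveI : Module.Finite k W := Module.Finite.of_finite
  have : LinearIndependent k fun i => (⟨v i, h3 i⟩ : Fx τ T) := Fintype.linearIndependent_iff.2 fun g e j => by
    have e1 := congrArg (fun z : Fx τ T => pr τ (μ j) z) e
    simp only [AddSubmonoidClass.coe_finset_sum, SetLike.val_smul, map_sum, map_smul, ZeroMemClass.coe_zero,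
      map_zero] at e1
    rw [Finset.sum_eq_single j (fun i _ hi => by
      rw [not_not.1 (mt (h4 i _).1 fun e' => hi (hne _ _ e').symm), smul_zero]) (by simp), smul_eq_zero] at e1
    exact e1.resolve_right ((h4 j _).2 (mem_orbit_self _))
  simpa using this.fintype_card_le_finrank

omit [IsMulCommutative A] [HasEnoughRootsOfUnity k (Monoid.exponent A)] in
include hT in
theorem not_inv {q : ℕ} (hq : q.Prime) (hq2 : q ≠ 2) {y : S} (hy : y ^ q = 1) {μ : Ch k A}
    (h : ∀ ν ∈ orbit T μ, y • ν ≠ ν) : ∃ ν ∈ orbit T μ, y • ν ∉ orbit T μ := by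
  by_contra! e
  haveI := Fact.mk hq
  haveI : Finite (orbit T μ) := Set.finite_range _
  let f : Function.End (orbit T μ) := fun ν => ⟨y • ν.1, e _ ν.2⟩
  have h1 : ∀ (n : ℕ) ν, ((f ^ n) ν).1 = y ^ n • ν.1 := fun n => by
    induction n with
    | zero => intro ν; rw [pow_zero, pow_zero, one_smul]; rfl
    | succ n ih => intro ν; rw [pow_succ', pow_succ', mul_smul, ← ih]; rfl
  classical
  letI := Fintype.ofFinite (orbit T μ)
  have h3 := Equiv.Perm.card_fixedPoints_modEq (f := f) (p := q) (n := 1)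
    (funext fun ν => Subtype.ext (by rw [h1, pow_one, hy, one_smul]; rfl))
  haveI : IsEmpty f.fixedPoints := ⟨fun ν => h _ ν.1.2 (congrArg Subtype.val ν.2)⟩
  obtain ⟨m, hm⟩ := hT.card_orbit μ
  rw [← Nat.card_eq_fintype_card, hm, Fintype.card_eq_zero, Nat.modEq_zero_iff_dvd] at h3
  exact hq2 ((Nat.prime_dvd_prime_iff_eq hq Nat.prime_two).1 (hq.dvd_of_dvd_pow h3))

include hA h2 hT in
theorem main [Nontrivial W] (h0 : ∀ v, (∀ a ∈ A, τ a v = v) → v = 0) {q : ℕ} (hq : q.Prime) (hq2 : q ≠ 2) {x : S}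
    (hx : x ^ q = 1) (hf : ∀ μ : Ch k A, (x * x) • μ = μ → μ.h = 1) :
    2 ≤ finrank k (Fx τ T) ∧ ((∀ v ∈ Fx τ T, τ x v ∈ Fx τ T) → 3 ≤ finrank k (Fx τ T)) := by
  have hs : ∀ (s : S) (μ : Ch k A), pr τ μ ≠ 0 → pr τ (s • μ) ≠ 0 := fun s μ h e => by
    obtain ⟨w, hw⟩ := DFunLike.ne_iff.1 h
    exact (supp_smul τ s).2 hw (by rw [e]; rfl)
  have ho : ∀ {μ ν : Ch k A}, ν ∈ orbit T μ → pr τ μ ≠ 0 → pr τ ν ≠ 0 := fun ⟨t, e⟩ h => e ▸ hs t _ h
  have hf' : ∀ μ : Ch k A, pr τ μ ≠ 0 → (x * x) • μ ≠ μ := fun μ h e => h (LinearMap.ext fun v =>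
    h0 _ fun a ha => by simpa [hf μ e] using act_pr τ μ ⟨a, ha⟩ v)
  have hx1 : ∀ μ : Ch k A, pr τ μ ≠ 0 → ∃ ν ∈ orbit T μ, x • ν ∉ orbit T μ := fun μ h =>
    not_inv hT hq hq2 hx fun ν hν e => hf' ν (ho hν h) (by rw [mul_smul, e, e])
  obtain ⟨w, hw⟩ := exists_ne (0 : W)
  obtain ⟨μ, hμ⟩ := exists_pr τ hA hw
  have h1 : pr τ μ ≠ 0 := fun e => hμ (by rw [e]; rfl)
  obtain ⟨ν, h3, h4⟩ := hx1 μ h1
  have h5 := hs x ν (ho h3 h1)
  have h6 : μ ∉ orbit T (x • ν) := fun e => h4 (mem_orbit_symm.1 e)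
  refine ⟨le_finrank τ hA h2 hT ![μ, x • ν] (by simp [Fin.forall_fin_two, h1, h5])
    (by simp [Fin.forall_fin_two, h4, h6]), fun hn => by_contra fun h7 => ?_⟩
  have h8 : ∀ ξ, pr τ ξ ≠ 0 → ξ ∉ orbit T (x • ν) → ξ ∈ orbit T μ := fun ξ e1 e2 => by_contra fun e3 =>
    h7 (le_finrank τ hA h2 hT ![μ, x • ν, ξ] (by simp [Fin.forall_fin_succ, h1, h5, e1]) (by
      have e4 : μ ∉ orbit T ξ := fun e => e3 (mem_orbit_symm.1 e)
      have e5 : x • ν ∉ orbit T ξ := fun e => e2 (mem_orbit_symm.1 e)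
      simp [Fin.forall_fin_succ, h4, h6, e2, e3, e4, e5]))
  have h9 : ∀ {α β γ : Ch k A}, pr τ α ≠ 0 → β ∈ orbit T α → γ ∈ orbit T (x • β) → x⁻¹ • γ ∈ orbit T α := by
    intro α β γ e1 e2 e3
    obtain ⟨v, e4, e5⟩ := exists_vec τ hA h2 hT e1
    have := supp_orb τ (hn v e4) e3 ((supp_smul τ x).2 ((e5 _).2 e2))
    rw [← smul_inv_smul x γ] at this
    exact (e5 _).1 ((supp_smul τ x).1 this)
  obtain ⟨ξ, e1, e2⟩ := hx1 _ h5
  have e3 := h8 _ (hs x ξ (ho e1 h5)) e2
  obtain ⟨γ, e4, e5⟩ := not_inv hT hq hq2 (y := (x * x)⁻¹) (μ := μ)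
    (by rw [inv_pow, ← pow_two, ← pow_mul, mul_comm, pow_mul, hx, one_pow, inv_one])
    fun γ hγ e => hf' γ (ho hγ h1) (inv_smul_eq_iff.1 e).symm
  rw [mul_inv_rev, mul_smul] at e5
  exact e5 (h9 h1 h3 (h9 h5 e1 (orbit_eq_iff.2 e3 ▸ e4)))

/-- the coinduced module -/
def Co (k : Type*) [Field k] [Algebra (ZMod 2) k] (E : Type*) [AddCommGroup E] [Module (ZMod 2) E] : Type _ :=
  k →ₗ[ZMod 2] E

section Co

variable [Algebra (ZMod 2) k] {E : Type*} [AddCommGroup E] [Module (ZMod 2) E]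

instance : AddCommGroup (Co k E) := inferInstanceAs (AddCommGroup (k →ₗ[ZMod 2] E))

/-- the underlying map -/
def Co.f (v : Co k E) : k →ₗ[ZMod 2] E := v

instance : Module k (Co k E) where
  smul c v := v.f ∘ₗ LinearMap.mulLeft (ZMod 2) c
  one_smul v := LinearMap.ext fun z => congrArg v.f (one_mul z)
  mul_smul c d v := LinearMap.ext fun z => congrArg v.f (show c * d * z = d * (c * z) by ring)
  smul_zero _ := rfl
  smul_add _ _ _ := rfl
  add_smul c d v := LinearMap.ext fun z => (congrArg v.f (add_mul c d z)).trans (map_add _ _ _)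
  zero_smul v := LinearMap.ext fun z => (congrArg v.f (zero_mul z)).trans (map_zero _)

/-- the action on the coinduced module -/
def coAct (k : Type*) [Field k] [Algebra (ZMod 2) k] (ρ : S →* End (ZMod 2) E) : S →* End k (Co k E) where
  toFun s := ⟨⟨fun v => ρ s ∘ₗ v.f, fun _ _ => LinearMap.comp_add _ _ _⟩, fun _ _ => rfl⟩
  map_one' := LinearMap.ext fun v => LinearMap.ext fun z => by show ρ 1 (v.f z) = v.f z; simp
  map_mul' s t := LinearMap.ext fun v => LinearMap.ext fun z => by show ρ (s * t) (v.f z) = ρ s (ρ t (v.f z)); simp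

omit [Finite S] in
theorem mem_Fx {ρ : S →* End (ZMod 2) E} {v : Co k E} : v ∈ Fx (coAct k ρ) T ↔ ∀ z, v.f z ∈ Fx ρ T :=
  ⟨fun h z s hs => LinearMap.congr_fun (h s hs) z, fun h s hs => LinearMap.ext fun z => h z s hs⟩

omit [Finite S] in
theorem card_Fx [Finite k] [Finite E] (ρ : S →* End (ZMod 2) E) (T : Subgroup S) :
    Nat.card (Fx ρ T) = 2 ^ finrank k (Fx (coAct k ρ) T) := by
  haveI : Module.Finite (ZMod 2) k := Module.Finite.of_finite
  haveI : Finite (Co k E) := Finite.of_injective (fun v z => v.f z) fun _ _ e => LinearMap.ext (congrFun e)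
  haveI : Module.Finite k (Co k E) := Module.Finite.of_finite
  haveI : Module.Finite (ZMod 2) E := Module.Finite.of_finite
  have e : Fx (coAct k ρ) T ≃ (k →ₗ[ZMod 2] Fx ρ T) :=
    ⟨fun v => v.1.f.codRestrict _ (mem_Fx.1 v.2), fun g => ⟨(Fx ρ T).subtype ∘ₗ g, mem_Fx.2 fun z => (g z).2⟩,
      fun _ => rfl, fun _ => rfl⟩
  have h := Nat.card_congr e
  rw [Module.natCard_eq_pow_finrank (K := k), Module.natCard_eq_pow_finrank (K := ZMod 2) (V := k),
    Module.natCard_eq_pow_finrank (K := ZMod 2) (V := k →ₗ[ZMod 2] _), finrank_linearMap, ← pow_mul,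
    Nat.card_zmod] at h
  rw [Module.natCard_eq_pow_finrank (K := ZMod 2), Nat.card_zmod,
    Nat.eq_of_mul_eq_mul_left finrank_pos (Nat.pow_right_injective le_rfl h)]

end Co

theorem exists_roots {n : ℕ} (hn : Odd n) : ∃ m, HasEnoughRootsOfUnity (GaloisField 2 m) n := by
  have h0 := (Nat.totient_pos.2 hn.pos).ne'
  haveI : NeZero n := ⟨hn.pos.ne'⟩
  refine ⟨n.totient, ⟨?_, inferInstance⟩⟩
  obtain ⟨g, hg⟩ := IsCyclic.exists_ofOrder_eq_natCard (α := (GaloisField 2 n.totient)ˣ)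
  have h1 : n ∣ orderOf g := by
    rw [hg, Nat.card_units, GaloisField.card _ _ h0]
    exact (Nat.modEq_iff_dvd' (Nat.one_le_pow _ _ two_pos)).1
      (Nat.ModEq.pow_totient (Nat.coprime_two_left.2 hn)).symm
  have h2 := orderOf_pow_orderOf_div (orderOf_pos g).ne' h1
  exact ⟨_, IsPrimitiveRoot.coe_units_iff.2 (h2 ▸ IsPrimitiveRoot.orderOf _)⟩

end CA.H8Wt
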