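import Cfsg.Agent.Lib.Odd.PF14

/-! Regular orbits of odd order groups on pairs of vectors: action lemmas. -/
set_option autoImplicit false
set_option linter.all false
namespace CA.H9Reg
open Subgroup
open scoped commutatorElement

variable {A : Type*} [Group A] [Finite A] {V : Type*} [AddCommGroup V] [Finite V]

theorem fix_of_sq {X : Type*} [MulAction A X] (ho : Odd (Nat.card A)) {g : A} {x : X}
    (h : (g * g) • x = x) : g • x = x := by
  obtain ⟨k, hk⟩ := ho
  have h1 : ∀ n : ℕ, (g * g) ^ n • x = x := by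
    intro n; induction n with
    | zero => simp
    | succ n ih => rw [pow_succ, mul_smul, h, ih]
  have h2 : (g * g) ^ (k + 1) = g := by
    rw [← pow_two, ← pow_mul, show 2 * (k + 1) = (2 * k + 1) + 1 by ring, pow_succ, ← hk,
      pow_card_eq_one', one_mul]
  rw [← h2]; exact h1 _

theorem eq_one_of_sq (ho : Odd (Nat.card A)) {g : A} (h : g * g = 1) : g = 1 := by
  have := fix_of_sq (X := A) ho (g := g) (x := 1) (by rw [h]; simp)
  simpa using this

theorem mem_of_sq (ho : Odd (Nat.card A)) {K : Subgroup A} {g : A} (h : g * g ∈ K) : g ∈ K := by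
  have := fix_of_sq (X := A ⧸ K) ho (g := g) (x := ((1 : A) : A ⧸ K)) (by
    rw [MulAction.Quotient.smul_mk, QuotientGroup.eq]; simpa using K.inv_mem h)
  rw [MulAction.Quotient.smul_mk, QuotientGroup.eq] at this
  simpa using this

variable [DistribMulAction A V]

/-- fixed vectors of a subgroup -/
def FX (V : Type*) [AddCommGroup V] [DistribMulAction A V] (Y : Subgroup A) : AddSubgroup V where
  carrier := {v | ∀ y ∈ Y, y • v = v}
  add_mem' := fun {a b} ha hb y hy => by rw [smul_add, ha y hy, hb y hy]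
  zero_mem' := fun y _ => smul_zero y
  neg_mem' := fun {a} ha y hy => by rw [smul_neg, ha y hy]

/-- fixed vectors of an element -/
def fx (V : Type*) [AddCommGroup V] [DistribMulAction A V] (g : A) : AddSubgroup V where
  carrier := {v | g • v = v}
  add_mem' := fun {a b} ha hb => by
    show g • (a + b) = a + b
    rw [smul_add, show g • a = a from ha, show g • b = b from hb]
  zero_mem' := smul_zero g
  neg_mem' := fun {a} ha => by
    show g • (-a) = -a
    rw [smul_neg, show g • a = a from ha]

theorem mem_fx {g : A} {v : V} : v ∈ fx V g ↔ g • v = v := Iff.rfl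
theorem mem_FX {Y : Subgroup A} {v : V} : v ∈ FX V Y ↔ ∀ y ∈ Y, y • v = v := Iff.rfl

/-- semiregular -/
def SR (V : Type*) [AddCommGroup V] [DistribMulAction A V] (Z : Subgroup A) : Prop :=
  ∀ z ∈ Z, ∀ v : V, z • v = v → z = 1 ∨ v = 0

theorem SR.sub {Z : Subgroup A} (h : SR V Z) {z : A} (hz : z ∈ Z) (h1 : z ≠ 1) {v : V}
    (hv : z • v - v = 0) : v = 0 :=
  (h z hz v (sub_eq_zero.1 hv)).resolve_left h1

theorem cube (ho : Odd (Nat.card A)) {Z : Subgroup A} [hn : Z.Normal] (hZ : SR V Z)
    (hc : ∀ a ∈ Z, ∀ b ∈ Z, a * b = b * a) {g y : A} (hy : ∀ a ∈ Z, y * a = a * y)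
    (h1 : ⁅y, g⁆ ∈ Z) (h2 : ⁅y, g⁆ ≠ 1) : Nat.card (fx V g) ^ 3 ≤ Nat.card V := by
  set s := ⁅y, g⁆ with hs
  have e1 : y * g * y⁻¹ = s * g := by rw [hs, commutatorElement_def]; group
  have e2 : y⁻¹ * g * y = s⁻¹ * g := by
    have : s⁻¹ * (y * g * y⁻¹) = g := by rw [e1]; group
    calc y⁻¹ * g * y = y⁻¹ * (s⁻¹ * (y * g * y⁻¹)) * y := by rw [this]
      _ = y⁻¹ * (s⁻¹ * y) * g := by group
      _ = s⁻¹ * g := by rw [← hy _ (Z.inv_mem h1)]; group
  set t := g * s * g⁻¹ with ht
  have htZ : t ∈ Z := hn.conj_mem _ h1 g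
  have ht1 : t ≠ 1 := fun h => h2 (by
    have : s = g⁻¹ * t * g := by rw [ht]; group
    rw [this, h]; group)
  have hst : s * t ≠ 1 := fun h => by
    have e : g * s * g⁻¹ = s⁻¹ := by rw [← ht]; exact (eq_inv_of_mul_eq_one_right h)
    have e' : (MulAut.conj g * MulAut.conj g) s = s := by
      simp only [MulAut.mul_apply, MulAut.conj_apply]
      rw [e]; rw [show g * s⁻¹ * g⁻¹ = (g * s * g⁻¹)⁻¹ by group, e, inv_inv]
    have e4 : g * s * g⁻¹ = s := by
      have := mem_of_sq ho (K := centralizer {s}) (g := g) (by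
        rw [mem_centralizer_iff]; rintro _ rfl
        simp only [MulAut.mul_apply, MulAut.conj_apply] at e'
        calc s * (g * g) = (g * (g * s * g⁻¹) * g⁻¹) * (g * g) := by rw [e']
          _ = g * g * s := by group)
      rw [mem_centralizer_iff] at this
      rw [← this s rfl]; group
    exact h2 (eq_one_of_sq ho (by rw [ht, e4] at h; exact h))
  have key : ∀ a b c : V, g • a = a → g • b = s⁻¹ • b → g • c = s • c → a + b + c = 0 →
      a = 0 ∧ b = 0 ∧ c = 0 := by
    intro a b c ha hb hc' h0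
    have k1 : (s⁻¹ • b - b) + (s • c - c) = 0 := by
      have := congrArg (g • ·) h0
      simp only [smul_add, smul_zero, ha, hb, hc'] at this
      rw [← sub_eq_zero.2 (this.trans h0.symm)]; abel
    have gs : ∀ v : V, g • s • v = t • g • v := fun v => by
      rw [← mul_smul, ← mul_smul, ht]; congr 1; group
    have gs' : ∀ v : V, g • s⁻¹ • v = t⁻¹ • g • v := fun v => by
      rw [← mul_smul, ← mul_smul, ht]; congr 1; group
    have k2 : (t⁻¹ • s⁻¹ • b - s⁻¹ • b) + (t • s • c - s • c) = 0 := by
      have := congrArg (g • ·) k1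
      simpa only [smul_add, smul_sub, smul_zero, gs, gs', hb, hc'] using this
    have cm : ∀ v : V, t • s • v = s • t • v := fun v => by
      rw [← mul_smul, ← mul_smul, hc _ htZ _ h1]
    have k1' : (b - s • b) + (s • s • c - s • c) = 0 := by
      have := congrArg (s • ·) k1
      simpa only [smul_add, smul_sub, smul_zero, smul_inv_smul] using this
    have k2' : (b - t • b) + (s • t • s • t • c - s • s • t • c) = 0 := by
      have := congrArg (fun v => s • t • v) k2
      simpa only [smul_add, smul_sub, smul_zero, smul_inv_smul, cm,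
        show ∀ v : V, t • s⁻¹ • v = s⁻¹ • t • v from fun v => by
          rw [← mul_smul, ← mul_smul, hc _ htZ _ (Z.inv_mem h1)]] using this
    have k3 : c = 0 := by
      apply hZ.sub h1 h2
      apply hZ.sub htZ ht1
      apply hZ.sub (Z.mul_mem h1 htZ) hst
      have := hZ
      set d := s • c with hd
      have a1 := congrArg (fun v => t • v - v) k1'
      have a2 := congrArg (fun v => s • v - v) k2'
      simp only [smul_add, smul_sub, smul_zero, cm, sub_zero] at a1 a2
      have inj : ∀ v : V, s • v = 0 → v = 0 := fun v hv => by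
        simpa using congrArg (s⁻¹ • ·) hv
      apply inj
      simp only [mul_smul, smul_sub, cm, hd] at a1 a2 ⊢
      rw [← sub_eq_zero.2 (a2.trans a1.symm)]; abel
    subst k3
    have k4 : b = 0 := hZ.sub (Z.inv_mem h1) (inv_ne_one.2 h2) (by simpa using k1)
    subst k4
    exact ⟨by simpa using h0, rfl, rfl⟩
  let F : fx V g × fx V g × fx V g →+ V :=
    { toFun := fun p => p.1 + y • (p.2.1 : V) + y⁻¹ • (p.2.2 : V)
      map_zero' := by simp
      map_add' := fun p q => by simp [smul_add]; abel }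
  have hF : Function.Injective F := by
    rw [injective_iff_map_eq_zero]
    rintro ⟨a, b, c⟩ h
    obtain ⟨r1, r2, r3⟩ := key a (y • (b : V)) (y⁻¹ • (c : V)) a.2
      (by rw [eq_inv_smul_iff, ← mul_smul, ← e1]; simp [mul_smul, mem_fx.1 b.2])
      (by rw [← inv_smul_eq_iff, ← mul_smul, ← e2]; simp [mul_smul, mem_fx.1 c.2]) h
    have r2' : (b : V) = 0 := by simpa using congrArg (y⁻¹ • ·) r2
    have r3' : (c : V) = 0 := by simpa using congrArg (y • ·) r3
    exact Prod.ext (Subtype.ext r1) (Prod.ext (Subtype.ext r2') (Subtype.ext r3'))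
  have := Nat.card_le_card_of_injective F hF
  rw [Nat.card_prod, Nat.card_prod] at this
  nlinarith

theorem card_fx_conj (g x : A) : Nat.card (fx V (x * g * x⁻¹)) = Nat.card (fx V g) := by
  refine Nat.card_congr ⟨fun v => ⟨x⁻¹ • v.1, ?_⟩, fun v => ⟨x • v.1, ?_⟩, fun v => by simp,
    fun v => by simp⟩
  · have := mem_fx.1 v.2
    rw [mem_fx]; rw [mul_smul, mul_smul, smul_eq_iff_eq_inv_smul] at this; exact this
  · rw [mem_fx]; simp [mul_smul, mem_fx.1 v.2]

theorem sq_bound (g x : A) :
    Nat.card (fx V g) ^ 2 ≤ Nat.card V * Nat.card (fx V ⁅x, g⁆) := by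
  let F : fx V g × fx V (x * g * x⁻¹) →+ V :=
    { toFun := fun p => (p.1 : V) - p.2
      map_zero' := by simp
      map_add' := fun p q => by simp; abel }
  have h1 := AddSubgroup.card_mul_index F.ker
  rw [AddSubgroup.index_ker, Nat.card_prod, card_fx_conj] at h1
  have h2 : Nat.card F.range ≤ Nat.card V :=
    Nat.card_le_card_of_injective _ F.range.subtype_injective
  have h3 : Nat.card F.ker ≤ Nat.card (fx V ⁅x, g⁆) := by
    refine Nat.card_le_card_of_injective (fun p => ⟨p.1.1.1, ?_⟩) ?_
    · have e : (p.1.1 : V) = p.1.2 := sub_eq_zero.1 p.2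
      have e1 := mem_fx.1 p.1.1.2
      have e2 := mem_fx.1 p.1.2.2
      rw [mem_fx, commutatorElement_def, mul_smul, inv_smul_eq_iff.2 e1.symm, e, e2]
    · intro p q h
      have e : (p.1.1 : V) = p.1.2 := sub_eq_zero.1 p.2
      have e' : (q.1.1 : V) = q.1.2 := sub_eq_zero.1 q.2
      have h' : (p.1.1 : V) = q.1.1 := congrArg (fun z : fx V ⁅x, g⁆ => (z : V)) h
      ext
      · exact h'
      · rw [← e, ← e', h']
  nlinarith [Nat.mul_le_mul h3 h2]

theorem count (ho : Odd (Nat.card A)) (S : Finset A) (h1 : (1 : A) ∉ S) (hi : ∀ x ∈ S, x⁻¹ ∈ S)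
    (h : ∀ v : V, ∃ x ∈ S, x • v = v) : 2 * Nat.card V ≤ ∑ x ∈ S, Nat.card (fx V x) := by
  classical
  have := Fintype.ofFinite V
  have e : ∀ x : A, Nat.card (fx V x) = (Finset.univ.filter fun v : V => x • v = v).card := by
    intro x
    rw [Nat.card_eq_fintype_card, Fintype.card_subtype]; rfl
  simp only [e, Finset.card_filter]
  rw [Finset.sum_comm, Nat.card_eq_fintype_card, ← Finset.card_univ, mul_comm,
    ← smul_eq_mul, ← Finset.sum_const]
  refine Finset.sum_le_sum fun v _ => ?_
  obtain ⟨x, hx, hv⟩ := h v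
  have hne : x ≠ x⁻¹ := fun e => h1 (eq_one_of_sq (g := x) ho (by nth_rw 2 [e]; simp) ▸ hx)
  have := Finset.sum_le_sum_of_subset (f := fun x : A => if x • v = v then 1 else 0)
    (show ({x, x⁻¹} : Finset A) ⊆ S by
      intro y hy; simp at hy; rcases hy with rfl | rfl; exact hx; exact hi _ hx)
  rw [Finset.sum_pair hne] at this
  simpa [hv, inv_smul_eq_iff.2 hv.symm] using this

/-- a commutative group acting on a nonzero module has a cyclic quotient by elements with
fixed vectors -/
theorem cyc_quot {B W : Type*} [Group B] [Finite B] [AddCommGroup W] [Finite W] [Nontrivial W]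
    [DistribMulAction B W] (hc : ∀ a b : B, a * b = b * a) :
    ∃ K : Subgroup B, ∃ _ : K.Normal, IsCyclic (B ⧸ K) ∧ ∀ b ∈ K, ∃ w : W, w ≠ 0 ∧ b • w = w := by
  let φ : B →* AddMonoid.End W := DistribMulAction.toAddMonoidEnd B W
  let R : Subring (AddMonoid.End W) := Subring.closure (Set.range φ)
  have : Finite (AddMonoid.End W) := Finite.of_injective (fun f : AddMonoid.End W => (f : W → W))
    DFunLike.coe_injective
  letI : CommRing R := Subring.closureCommRingOfComm (by
    rintro _ ⟨a, rfl⟩ _ ⟨b, rfl⟩; rw [← map_mul, ← map_mul, hc])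
  have : Nontrivial (AddMonoid.End W) := by
    obtain ⟨w, hw⟩ := exists_ne (0 : W)
    exact ⟨1, 0, fun h => hw (by simpa using congrArg (fun f : AddMonoid.End W => f w) h)⟩
  obtain ⟨m, hm⟩ := Ideal.exists_maximal R
  let ψ : B →* R ⧸ m := (Ideal.Quotient.mk m).toMonoidHom.comp
    (φ.codRestrict R.toSubmonoid fun b => Subring.subset_closure ⟨b, rfl⟩)
  refine ⟨ψ.ker, inferInstance, isCyclic_of_injective_ringHom (QuotientGroup.lift ψ.ker ψ fun _ h => h) ?_, ?_⟩
  · intro a b
    induction a using QuotientGroup.induction_on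
    induction b using QuotientGroup.induction_on
    rename_i a b
    intro h
    simp only [QuotientGroup.lift_mk] at h
    rw [QuotientGroup.eq, MonoidHom.mem_ker, map_mul, ← h, ← map_mul]; simp
  · intro b hb
    by_contra hn
    push Not at hn
    let r : R := ⟨φ b, Subring.subset_closure ⟨b, rfl⟩⟩ - 1
    have hr : r ∈ m := by
      rw [← Ideal.Quotient.eq_zero_iff_mem, map_sub, map_one, sub_eq_zero]; exact hb
    have hinj : Function.Injective fun x : R => r * x := by
      intro x y h
      have h0 : r * (x - y) = 0 := by rw [mul_sub]; exact sub_eq_zero.2 h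
      rw [← sub_eq_zero]
      apply Subtype.ext
      ext w
      by_contra hw
      apply hn _ hw
      have := congrArg (fun f : R => (f : AddMonoid.End W) w) h0
      exact sub_eq_zero.1 this
    obtain ⟨x, hx⟩ := Finite.surjective_of_injective hinj 1
    exact hm.ne_top ((Ideal.eq_top_iff_one _).2 (hx ▸ m.mul_mem_right _ hr))

end CA.H9Reg
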