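import Cfsg.Agent.Lib.Solv.H9Reg1

/-! Regular orbits of odd order groups on pairs of vectors: imprimitive modules. -/
set_option autoImplicit false
set_option linter.all false
namespace CA.H9Reg
open Subgroup
open scoped commutatorElement
universe u

section
variable {A : Type*} [Group A] [Finite A] {V : Type*} [AddCommGroup V] [Finite V]
  [DistribMulAction A V]

/-- span of translates -/
def Sp (S : Set A) (W : AddSubgroup V) : AddSubgroup V :=
  AddSubgroup.closure {v | ∃ a ∈ S, ∃ w ∈ W, a • w = v}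

theorem mem_Sp {S : Set A} {W : AddSubgroup V} {a : A} (ha : a ∈ S) {w : V} (hw : w ∈ W) :
    a • w ∈ Sp S W := AddSubgroup.subset_closure ⟨a, ha, w, hw, rfl⟩

theorem mem_Sp' {H : Subgroup A} {W : AddSubgroup V} {a : A} (ha : a ∉ H) {w : V} (hw : w ∈ W) :
    a • w ∈ Sp (H : Set A)ᶜ W := mem_Sp ha hw

theorem smul_Sp {S : Set A} {W T : AddSubgroup V} {g : A} (h : ∀ a ∈ S, ∀ w ∈ W, g • a • w ∈ T)
    {v : V} (hv : v ∈ Sp S W) : g • v ∈ T := by
  induction hv using AddSubgroup.closure_induction with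
  | mem x hx => obtain ⟨a, ha, w, hw, rfl⟩ := hx; exact h a ha w hw
  | zero => simp
  | add x y _ _ hx hy => rw [smul_add]; exact T.add_mem hx hy
  | neg x _ hx => rw [smul_neg]; exact T.neg_mem hx

theorem Sp_le {S : Set A} {W T : AddSubgroup V} (h : ∀ a ∈ S, ∀ w ∈ W, a • w ∈ T)
    {v : V} (hv : v ∈ Sp S W) : v ∈ T := by
  simpa using smul_Sp (g := (1 : A)) (T := T) (by simpa using h) hv

/-- invariance -/
def Iv (H : Subgroup A) (W : AddSubgroup V) : Prop := ∀ a ∈ H, ∀ w ∈ W, a • w ∈ W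
/-- independence of the translates -/
def Ind (H : Subgroup A) (W : AddSubgroup V) : Prop := ∀ w ∈ W, w ∈ Sp (H : Set A)ᶜ W → w = 0

theorem out_mem {H : Subgroup A} (a : A) (i j : A ⧸ H) :
    j.out⁻¹ * a * i.out ∈ H ↔ a • i = j := by
  rw [mul_assoc, ← QuotientGroup.eq, QuotientGroup.out_eq', eq_comm]
  conv_rhs => rw [← QuotientGroup.out_eq' i]
  rfl

theorem sum_eq {H : Subgroup A} [Fintype (A ⧸ H)] {W : AddSubgroup V} (hv : Iv H W) (hi : Ind H W)
    {f g : A ⧸ H → V} (hf : ∀ i, f i ∈ W) (hg : ∀ i, g i ∈ W) {a : A}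
    (h : a • ∑ i, i.out • f i = ∑ i, i.out • g i) (i : A ⧸ H) :
    ((a • i).out⁻¹ * a * i.out) • f i = g (a • i) := by
  classical
  set j := a • i with hj
  have h1 := congrArg (j.out⁻¹ • ·) h
  simp only [Finset.smul_sum, ← mul_smul, ← mul_assoc] at h1
  rw [← Finset.add_sum_erase _ _ (Finset.mem_univ i), ← Finset.add_sum_erase _ _ (Finset.mem_univ j),
    inv_mul_cancel, one_smul] at h1
  rw [← sub_eq_zero]
  refine hi _ (W.sub_mem (hv _ ((out_mem a i j).2 rfl) _ (hf i)) (hg j)) ?_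
  rw [sub_eq_sub_iff_add_eq_add.2 (h1.trans (add_comm _ _))]
  refine AddSubgroup.sub_mem _ (AddSubgroup.sum_mem _ fun k hk => ?_)
    (AddSubgroup.sum_mem _ fun k hk => ?_)
  · refine mem_Sp' (fun hm => (Finset.mem_erase.1 hk).1 ?_) (hg k)
    have := (out_mem 1 k j).1 (by simpa using hm)
    simpa using this
  · refine mem_Sp' (fun hm => (Finset.mem_erase.1 hk).1 ?_) (hf k)
    have := (out_mem a k j).1 hm
    exact smul_left_cancel a this

theorem card_pow {H : Subgroup A} {W : AddSubgroup V} (hv : Iv H W) (hi : Ind H W) :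
    Nat.card W ^ H.index ≤ Nat.card V := by
  have := Fintype.ofFinite (A ⧸ H)
  have h := Nat.card_le_card_of_injective
    (fun f : A ⧸ H → W => ∑ i : A ⧸ H, i.out • (f i : V)) (fun f g h => by
      funext i
      have := sum_eq (a := 1) hv hi (fun i => (f i).2) (fun i => (g i).2) (by simpa using h) i
      exact Subtype.ext (by simpa using this))
  rwa [Nat.card_fun] at h

theorem rep {H : Subgroup A} [Fintype (A ⧸ H)] {W : AddSubgroup V} (hv : Iv H W) {S : Set A}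
    (hS : ∀ a ∈ S, ∀ h ∈ H, a * h ∈ S) {u : V} (hu : u ∈ Sp S W) :
    ∃ f : A ⧸ H → V, (∀ i, f i ∈ W) ∧ (∀ i, i.out ∉ S → f i = 0) ∧ u = ∑ i, i.out • f i := by
  classical
  induction hu using AddSubgroup.closure_induction with
  | mem x hx =>
    obtain ⟨a, ha, w, hw, rfl⟩ := hx
    obtain ⟨h, hh⟩ := QuotientGroup.mk_out_eq_mul H a
    refine ⟨Pi.single (a : A ⧸ H) ((h : A)⁻¹ • w), fun i => ?_, fun i hi => ?_, ?_⟩
    · by_cases e : i = a
      · subst e; simpa using hv _ (H.inv_mem h.2) _ hw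
      · simp [e]
    · by_cases e : i = a
      · subst e; exact absurd (hh ▸ hS a ha h h.2) hi
      · simp [e]
    · rw [Finset.sum_eq_single (a : A ⧸ H)]
      · simp [hh, mul_smul]
      · intro b _ e; simp [e]
      · simp
  | zero => exact ⟨0, fun _ => W.zero_mem, fun _ _ => rfl, by simp⟩
  | add x y _ _ hx hy =>
    obtain ⟨f, f1, f2, rfl⟩ := hx
    obtain ⟨g, g1, g2, rfl⟩ := hy
    exact ⟨f + g, fun i => W.add_mem (f1 i) (g1 i), fun i hi => by simp [f2 i hi, g2 i hi],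
      by simp [smul_add, Finset.sum_add_distrib]⟩
  | neg x _ hx =>
    obtain ⟨f, f1, f2, rfl⟩ := hx
    exact ⟨-f, fun i => W.neg_mem (f1 i), fun i hi => by simp [f2 i hi], by simp⟩

theorem coarse {H M : Subgroup A} (hM : H ≤ M) {W : AddSubgroup V} (hv : Iv H W) (hi : Ind H W) :
    Iv M (Sp (M : Set A) W) ∧ Ind M (Sp (M : Set A) W) := by
  have := Fintype.ofFinite (A ⧸ H)
  refine ⟨fun a ha w hw => smul_Sp (fun b hb x hx => ?_) hw, fun u h1 h2 => ?_⟩
  · rw [← mul_smul]; exact mem_Sp (M.mul_mem ha hb) hx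
  have h3 : u ∈ Sp (M : Set A)ᶜ W := Sp_le (fun a ha w hw => smul_Sp (fun b hb x hx => by
    rw [← mul_smul]; exact mem_Sp' (fun h => ha ((M.mul_mem_cancel_right hb).1 h)) hx) hw) h2
  obtain ⟨f, f1, f2, e1⟩ := rep hv (fun a ha h hh => M.mul_mem ha (hM hh)) h1
  obtain ⟨g, g1, g2, e2⟩ := rep hv (S := (M : Set A)ᶜ)
    (fun a ha h hh h' => ha ((M.mul_mem_cancel_right (hM hh)).1 h')) h3
  rw [e1]
  refine Finset.sum_eq_zero fun i _ => ?_
  have := sum_eq (a := 1) hv hi f1 g1 (by rw [one_smul, ← e1, ← e2]) i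
  simp only [one_smul, mul_one, inv_mul_cancel] at this
  by_cases e : i.out ∈ M
  · rw [this, g2 i (fun h => h e), smul_zero]
  · rw [f2 i e, smul_zero]

theorem fix_ind {B Y : Subgroup A} [hn : B.Normal] (hc : ∀ a ∈ B, ∀ b ∈ B, a * b = b * a)
    (hY : Y ≤ B) (hmax : ∀ b ∈ B, ∀ v ∈ FX V Y, b • v = v → v = 0 ∨ b ∈ Y) :
    Iv (normalizer (Y : Set A)) (FX V Y) ∧ Ind (normalizer (Y : Set A)) (FX V Y) := by
  classical
  have hB : ∀ b ∈ B, ∀ v ∈ FX V Y, b • v ∈ FX V Y := fun b hb v hv y hy => by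
    rw [← mul_smul, hc _ (hY hy) _ hb, mul_smul, hv y hy]
  refine ⟨fun a ha v hv y hy => ?_, ?_⟩
  · have : a⁻¹ * y * a⁻¹⁻¹ ∈ Y := ((mem_normalizer_iff.1 (inv_mem ha)) y).1 hy
    have e := hv _ this
    rw [inv_inv, mul_smul, mul_smul, inv_smul_eq_iff] at e; exact e
  have key : ∀ T : Finset A, (∀ a ∈ T, a ∉ normalizer (Y : Set A)) →
      ∀ v ∈ FX V Y, v ∈ Sp (T : Set A) (FX V Y) → v = 0 := by
    intro T
    induction T using Finset.induction_on with
    | empty => intro _ v _ hv; exact (Sp_le (T := ⊥) (by simp) hv)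
    | insert a T ha ih =>
      intro hT v hv h
      have h1 : v ∈ (FX V Y).map (DistribSMul.toAddMonoidHom V a) ⊔ Sp (T : Set A) (FX V Y) := by
        refine Sp_le (fun b hb w hw => ?_) h
        rcases Finset.mem_insert.1 hb with rfl | hb
        · exact AddSubgroup.mem_sup_left ⟨w, hw, rfl⟩
        · exact AddSubgroup.mem_sup_right (mem_Sp hb hw)
      obtain ⟨_, ⟨w, hw, rfl⟩, u, hu, e⟩ := AddSubgroup.mem_sup.1 h1
      obtain ⟨y, hy, hy'⟩ : ∃ y ∈ Y, a * y * a⁻¹ ∉ Y := by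
        by_contra hn
        push Not at hn
        exact hT a (Finset.mem_insert_self _ _) (mem_normalizer_fintype hn)
      have hb : a * y * a⁻¹ ∈ B := hn.conj_mem _ (hY hy) a
      refine (hmax _ hb v hv (sub_eq_zero.1 (ih (fun b hb => hT b (Finset.mem_insert_of_mem hb)) _
        (AddSubgroup.sub_mem _ (hB _ hb _ hv) hv) ?_))).resolve_right hy'
      have : (a * y * a⁻¹) • v - v = (a * y * a⁻¹) • u - u := by
        rw [← e]; simp [mul_smul, hw y hy]
      rw [this]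
      refine AddSubgroup.sub_mem _ (smul_Sp (fun b hb' x hx => ?_) hu) hu
      have : (a * y * a⁻¹) • b • x = b • (b⁻¹ * (a * y * a⁻¹) * b⁻¹⁻¹) • x := by
        simp only [← mul_smul]; congr 1; group
      rw [this]; exact mem_Sp hb' (hB _ (hn.conj_mem _ hb _) _ hx)
  intro v hv h
  have := Fintype.ofFinite A
  exact key (Finset.univ.filter (· ∉ normalizer (Y : Set A))) (by simp) v hv
    (Sp_le (fun a ha w hw => mem_Sp (by simpa using ha) hw) h)

theorem inv_conj (ho : Odd (Nat.card A)) {k x : A} (h : k * x * k⁻¹ = x⁻¹) : x = 1 := by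
  have := mem_of_sq ho (K := centralizer {x}) (g := k) (by
    rw [mem_centralizer_iff]; rintro _ rfl
    rename_i y
    have h' : k * y⁻¹ * k⁻¹ = y := by
      rw [show k * y⁻¹ * k⁻¹ = (k * y * k⁻¹)⁻¹ by group, h, inv_inv]
    calc y * (k * k) = (k * (k * y * k⁻¹) * k⁻¹) * (k * k) := by rw [h, h']
      _ = k * k * y := by group)
  rw [mem_centralizer_iff] at this
  apply eq_one_of_sq ho
  rw [← this x rfl] at h
  nth_rw 1 [show x = x⁻¹ by rw [← h]; group]; simp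

theorem ab_step (hs : Group.IsSolvable A) {K D : Subgroup A} [K.Normal] [D.Normal] (h : K < D) :
    ∃ L : Subgroup A, L.Normal ∧ K < L ∧ L ≤ D ∧ ⁅L, L⁆ ≤ K ∧
      ∀ T : Subgroup A, T.Normal → K ≤ T → T ≤ L → T = K ∨ T = L := by
  obtain ⟨L, ⟨h1, h2, h3⟩, hmin⟩ := (wellFounded_lt (α := Subgroup A)).has_min
    {L | L.Normal ∧ K < L ∧ L ≤ D} ⟨D, inferInstance, h, le_rfl⟩
  have hm : ∀ T : Subgroup A, T.Normal → K ≤ T → T ≤ L → T = K ∨ T = L := by
    intro T t1 t2 t3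
    by_contra hn
    push Not at hn
    exact hmin T ⟨t1, lt_of_le_of_ne t2 hn.1.symm, t3.trans h3⟩ (lt_of_le_of_ne t3 hn.2)
  refine ⟨L, h1, h2, h3, ?_, hm⟩
  rcases hm (⁅L, L⁆ ⊔ K) inferInstance le_sup_right
    (sup_le (commutator_le_left _ _) h2.le) with e | e
  · exact le_sup_left.trans e.le
  · exfalso
    have hq : Group.IsSolvable (A ⧸ K) := inferInstance
    have h0 : L.map (QuotientGroup.mk' K) ≠ ⊥ := by
      rw [Ne, Subgroup.map_eq_bot_iff, QuotientGroup.ker_mk']; exact h2.2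
    have := Group.IsSolvable.commutator_lt_of_ne_bot h0
    rw [← map_commutator] at this
    apply this.2
    conv_lhs => rw [← e]
    rw [Subgroup.map_sup, (Subgroup.map_eq_bot_iff K).2 (by rw [QuotientGroup.ker_mk']), sup_bot_eq]

theorem tri {X : Type*} [MulAction A X] (ho : Odd (Nat.card A)) {a : A} {o p q : X}
    (h1 : a • o = o ∨ a • o = p ∨ a • o = q) (h2 : a • p = o ∨ a • p = p ∨ a • p = q)
    (h3 : a • q = o ∨ a • q = p ∨ a • q = q) :
    (a • o = o ∧ a • p = p ∧ a • q = q) ∨ (p ≠ o ∧ ∃ g : A, g • o = p ∧ g • q = o) := by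
  have f : ∀ x : X, a • a • x = x → a • x = x := fun x h => fix_of_sq ho (by rw [mul_smul, h])
  have i : ∀ x y : X, a • x = a • y → x = y := fun x y h => smul_left_cancel a h
  have fo := f o; have fp := f p; have fq := f q
  have i1 := i o p; have i2 := i o q; have i3 := i p q
  by_cases e : a • o = o
  · left; grind
  · right
    by_cases e2 : a • o = p
    · exact ⟨by grind, a, e2, by grind⟩
    · exact ⟨by grind, a * a, by rw [mul_smul]; grind, by rw [mul_smul]; grind⟩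
end

/-- complete reducibility -/
def CR (A V : Type*) [Group A] [AddCommGroup V] [DistribMulAction A V] : Prop :=
  ∀ U : AddSubgroup V, (∀ a : A, ∀ v ∈ U, a • v ∈ U) →
    ∃ W : AddSubgroup V, (∀ a : A, ∀ w ∈ W, a • w ∈ W) ∧ U ⊓ W = ⊥ ∧ U ⊔ W = ⊤
/-- base of size two modulo the kernel -/
def B2 (A V : Type*) [Group A] [AddCommGroup V] [DistribMulAction A V] : Prop :=
  ∃ v w : V, ∀ a : A, a • v = v → a • w = w → ∀ u : V, a • u = u
/-- the induction hypothesis -/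
def IH (n : ℕ) : Prop := ∀ (A V : Type u) [Group A] [Finite A] [AddCommGroup V] [Finite V]
  [DistribMulAction A V], Odd (Nat.card A) → CR A V → Nat.card V < n → B2 A V

theorem odd_sub {A : Type*} [Group A] [Finite A] (ho : Odd (Nat.card A)) (H : Subgroup A) :
    Odd (Nat.card H) := ho.of_dvd_nat H.card_subgroup_dvd_card

variable {A V : Type u} [Group A] [Finite A] [AddCommGroup V] [Finite V] [DistribMulAction A V]
  {n : ℕ}

theorem IH.sub (ih : IH.{u} n) (ho : Odd (Nat.card A)) {H : Subgroup A} {W : AddSubgroup V}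
    (hv : Iv H W) (hn : Nat.card W < n)
    (hcr : ∀ U ≤ W, Iv H U → ∃ U' ≤ W, Iv H U' ∧ (∀ x ∈ U, x ∈ U' → x = 0) ∧
      ∀ x ∈ W, ∃ a ∈ U, ∃ b ∈ U', a + b = x) :
    ∃ v ∈ W, ∃ w ∈ W, ∀ a ∈ H, a • v = v → a • w = w → ∀ u ∈ W, a • u = u := by
  letI : DistribMulAction H W :=
    { smul := fun a w => ⟨(a : A) • (w : V), hv _ a.2 _ w.2⟩
      one_smul := fun w => Subtype.ext (one_smul A (w : V))
      mul_smul := fun a b w => Subtype.ext (mul_smul (a : A) (b : A) (w : V))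
      smul_zero := fun a => Subtype.ext (smul_zero (a : A))
      smul_add := fun a x y => Subtype.ext (smul_add (a : A) (x : V) y) }
  obtain ⟨v, w, h⟩ := ih H W (odd_sub ho H) (fun U hU => by
    obtain ⟨U', h1, h2, h3, h4⟩ := hcr (U.map W.subtype) (AddSubgroup.map_subtype_le U) (by
      rintro a ha _ ⟨x, hx, rfl⟩; exact ⟨_, hU ⟨a, ha⟩ x hx, rfl⟩)
    refine ⟨U'.addSubgroupOf W, fun a x hx => h2 _ a.2 _ hx, ?_, ?_⟩
    · rw [eq_bot_iff]; rintro x ⟨x1, x2⟩; exact Subtype.ext (h3 _ ⟨x, x1, rfl⟩ x2)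
    · rw [eq_top_iff]; intro x _
      obtain ⟨_, ⟨a, ha, rfl⟩, b, hb, e⟩ := h4 x x.2
      exact AddSubgroup.mem_sup.2 ⟨a, ha, ⟨b, h1 hb⟩, hb, Subtype.ext e⟩) hn
  exact ⟨v, v.2, w, w.2, fun a ha h1 h2 u hu => congrArg Subtype.val
    (h ⟨a, ha⟩ (Subtype.ext h1) (Subtype.ext h2) ⟨u, hu⟩)⟩

theorem IH.rel (ih : IH.{u} n) (ho : Odd (Nat.card A)) {K N : Subgroup A} [K.Normal] [hN : N.Normal]
    (hab : ⁅N, N⁆ ≤ K) (hn : K.relIndex N < n)
    (hcr : ∀ L : Subgroup A, L.Normal → K ≤ L → L ≤ N → ∃ L' : Subgroup A, L'.Normal ∧ K ≤ L' ∧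
      L' ≤ N ∧ (∀ x ∈ L, x ∈ L' → x ∈ K) ∧ ∀ x ∈ N, ∃ a ∈ L, ∃ b ∈ L', a * b = x) (hK : K ≤ N) :
    ∃ v ∈ N, ∃ w ∈ N, ∀ a : A, ⁅a, v⁆ ∈ K → ⁅a, w⁆ ∈ K → ∀ u ∈ N, ⁅a, u⁆ ∈ K := by
  let π := QuotientGroup.mk' K
  let U := N.map π
  haveI hU : U.Normal := hN.map π (QuotientGroup.mk'_surjective K)
  letI : CommGroup U := { (inferInstance : Group U) with
    mul_comm := by
      rintro ⟨_, a, ha, rfl⟩ ⟨_, b, hb, rfl⟩
      apply Subtype.ext
      show π a * π b = π b * π a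
      rw [← commutatorElement_eq_one_iff_mul_comm, ← map_commutatorElement]
      exact (QuotientGroup.eq_one_iff _).2 (hab (commutator_mem_commutator ha hb)) }
  letI : DistribMulAction A (Additive U) :=
    { smul := fun a u => Additive.ofMul (MulAut.conjNormal (π a) u.toMul)
      one_smul := fun u => by
        show Additive.ofMul (MulAut.conjNormal (π 1) u.toMul) = u
        simp
      mul_smul := fun a b u => by
        show Additive.ofMul (MulAut.conjNormal (π (a * b)) u.toMul) =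
          Additive.ofMul (MulAut.conjNormal (π a) (MulAut.conjNormal (π b) u.toMul))
        rw [map_mul, map_mul]; rfl
      smul_zero := fun a => congrArg Additive.ofMul (map_one (MulAut.conjNormal (π a)))
      smul_add := fun a x y => congrArg Additive.ofMul
        (map_mul (MulAut.conjNormal (π a)) x.toMul y.toMul) }
  let e : ∀ x ∈ N, Additive U := fun x hx => Additive.ofMul ⟨π x, x, hx, rfl⟩
  have es : ∀ u : Additive U, ∃ x, ∃ hx : x ∈ N, u = e x hx := by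
    rintro ⟨_, x, hx, rfl⟩; exact ⟨x, hx, rfl⟩
  have ec : ∀ (a : A) x (hx : x ∈ N), a • e x hx = e (a * x * a⁻¹) (hN.conj_mem x hx a) :=
    fun a x hx => congrArg Additive.ofMul (Subtype.ext (by
      show π a * π x * (π a)⁻¹ = π (a * x * a⁻¹)
      simp))
  have ee : ∀ x (hx : x ∈ N) y (hy : y ∈ N), e x hx = e y hy ↔ x * y⁻¹ ∈ K := fun x hx y hy => by
    rw [← QuotientGroup.eq_one_iff (N := K), QuotientGroup.mk_mul, QuotientGroup.mk_inv,
      mul_inv_eq_one]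
    exact ⟨fun h => congrArg (fun u : Additive U => (u.toMul : A ⧸ K)) h,
      fun h => congrArg Additive.ofMul (Subtype.ext h)⟩
  obtain ⟨v, w, h⟩ := ih A (Additive U) ho (fun T hT => by
    let L : Subgroup A :=
      { carrier := {x | ∃ hx : x ∈ N, e x hx ∈ T}
        mul_mem' := fun {a b} ⟨ha, h1⟩ ⟨hb, h2⟩ => ⟨N.mul_mem ha hb, T.add_mem h1 h2⟩
        one_mem' := ⟨N.one_mem, T.zero_mem⟩
        inv_mem' := fun {a} ⟨ha, h1⟩ => ⟨N.inv_mem ha, T.neg_mem h1⟩ }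
    obtain ⟨L', h1, h2, h3, h4, h5⟩ := hcr L
      ⟨fun x ⟨hx, h1⟩ a => ⟨hN.conj_mem x hx a, ec a x hx ▸ hT a _ h1⟩⟩
      (fun x hx => ⟨hK hx, by
        rw [(ee x (hK hx) 1 N.one_mem).2 (by simpa using hx)]; exact T.zero_mem⟩)
      (fun x hx => hx.1)
    let T' : AddSubgroup (Additive U) :=
      { carrier := {u | ∃ x, ∃ hx : x ∈ L', u = e x (h3 hx)}
        add_mem' := by
          rintro _ _ ⟨a, ha, rfl⟩ ⟨b, hb, rfl⟩; exact ⟨a * b, L'.mul_mem ha hb, rfl⟩
        zero_mem' := ⟨1, L'.one_mem, rfl⟩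
        neg_mem' := by rintro _ ⟨a, ha, rfl⟩; exact ⟨a⁻¹, L'.inv_mem ha, rfl⟩ }
    refine ⟨T', ?_, ?_, ?_⟩
    · rintro a _ ⟨x, hx, rfl⟩; exact ⟨_, h1.conj_mem x hx a, ec a x (h3 hx)⟩
    · rw [eq_bot_iff]; rintro _ ⟨x1, x, hx, rfl⟩
      exact (ee x (h3 hx) 1 N.one_mem).2 (by simpa using h4 x ⟨h3 hx, x1⟩ hx)
    · rw [eq_top_iff]; intro u _
      obtain ⟨x, hx, rfl⟩ := es u
      obtain ⟨a, ⟨ha, ha'⟩, b, hb, rfl⟩ := h5 x hx
      exact AddSubgroup.mem_sup.2 ⟨_, ha', _, ⟨b, hb, rfl⟩, rfl⟩) (by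
      rw [← QuotientGroup.ker_mk' K, relIndex_ker] at hn; exact hn)
  obtain ⟨x, hx, rfl⟩ := es v
  obtain ⟨y, hy, rfl⟩ := es w
  refine ⟨x, hx, y, hy, fun a h1 h2 u hu => ?_⟩
  have e2 : ∀ z (hz : z ∈ N), a • e z hz = e z hz ↔ ⁅a, z⁆ ∈ K := fun z hz => by
    rw [ec a z hz, ee _ (hN.conj_mem z hz a) z hz]; rfl
  exact (e2 u hu).1 (h a ((e2 x hx).2 h1) ((e2 y hy).2 h2) (e u hu))

end CA.H9Reg
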