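import Cfsg.Agent.Lib.Solv.H9Reg2

/-! Regular orbits of odd order groups on pairs of vectors: reduction to semiregular case. -/
set_option autoImplicit false
set_option linter.all false
namespace CA.H9Reg
open Subgroup
open scoped commutatorElement
universe u
variable {A V : Type u} [Group A] [Finite A] [AddCommGroup V] [Finite V] [DistribMulAction A V]
  {n : ℕ}

theorem colour (ih : IH.{u} n) (ho : Odd (Nat.card A)) {M : Subgroup A} (hM : IsCoatom M)
    (hn : M.index < n) :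
    ∃ D : Set (A ⧸ M), ∀ a : A, (∀ i ∈ D, a • i ∈ D) → ∀ i : A ⧸ M, a • i = i := by
  have hs := CA.PF.odd_solvable A ho
  set K := M.normalCore with hK
  have hKM : K ≤ M := M.normalCore_le
  obtain ⟨N, hN, h1, -, h3, h4⟩ := ab_step hs (K := K) (D := ⊤) (lt_of_le_of_lt hKM hM.1.lt_top)
  have hNM : ¬ N ≤ M := fun h => h1.2 (normal_le_normalCore.2 h)
  have htop : N ⊔ M = ⊤ := hM.2 _ (lt_of_le_of_ne le_sup_right fun e => hNM (e ▸ le_sup_left))
  have dec : ∀ a : A, ∃ x ∈ N, ∃ h ∈ M, x * h = a := fun a => by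
    have : a ∈ ((N ⊔ M : Subgroup A) : Set A) := by rw [htop]; trivial
    rw [normal_mul] at this; exact this
  have hnorm : (N ⊓ M).Normal := ⟨fun y hy a => by
    obtain ⟨x, hx, h, hh, rfl⟩ := dec a
    have e1 : h * y * h⁻¹ ∈ N ⊓ M :=
      ⟨hN.conj_mem _ hy.1 h, M.mul_mem (M.mul_mem hh hy.2) (M.inv_mem hh)⟩
    have e2 : ⁅x, h * y * h⁻¹⁆ ∈ K := h3 (commutator_mem_commutator hx e1.1)
    have : x * h * y * (x * h)⁻¹ = ⁅x, h * y * h⁻¹⁆ * (h * y * h⁻¹) := by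
      rw [commutatorElement_def]; group
    rw [this]; exact mul_mem (show _ ∈ N ⊓ M from ⟨h1.le e2, hKM e2⟩) e1⟩
  have hNK : ∀ y ∈ N, y ∈ M → y ∈ K := fun y h1 h2 =>
    (normal_le_normalCore.2 (inf_le_right : N ⊓ M ≤ M)) ⟨h1, h2⟩
  obtain ⟨v, hv, w, hw, hb⟩ := ih.rel ho h3 (by
    have : K.relIndex N = M.relIndex N := by
      rw [← inf_relIndex_right K, ← inf_relIndex_right M]; congr 1
      exact le_antisymm (inf_le_inf_right _ hKM) (fun y hy => ⟨hNK y hy.2 hy.1, hy.2⟩)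
    rw [this]
    refine lt_of_le_of_lt ?_ hn
    rw [← relIndex_top_right]
    exact relIndex_le_of_le_right le_top (by rw [relIndex_top_right]; exact index_ne_zero_of_finite))
    (fun L hL l1 l2 => by
      rcases h4 L hL l1 l2 with rfl | rfl
      · exact ⟨N, hN, h1.le, le_rfl, fun x hx _ => hx, fun x hx => ⟨1, one_mem _, x, hx, one_mul x⟩⟩
      · exact ⟨K, inferInstance, le_rfl, h1.le, fun x _ hx => hx,
          fun x hx => ⟨x, hx, 1, one_mem _, mul_one x⟩⟩) h1.le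
  have sm : ∀ a x : A, a • (x : A ⧸ M) = ((a * x : A) : A ⧸ M) := fun a x => rfl
  have fixc : ∀ a ∈ M, ∀ x ∈ N, a • (x : A ⧸ M) = x → ⁅a, x⁆ ∈ K := fun a ha x hx h => by
    rw [sm, QuotientGroup.eq] at h
    have e1 : (a * x)⁻¹ * x * a ∈ K := hNK _ (by
      rw [show (a * x)⁻¹ * x * a = x⁻¹ * (a⁻¹ * x * a⁻¹⁻¹) by group]
      exact N.mul_mem (N.inv_mem hx) (hN.conj_mem _ hx _)) (M.mul_mem h ha)
    have := (inferInstance : K.Normal).conj_mem _ (K.inv_mem e1) (a * x)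
    rw [commutatorElement_def]; convert this using 1; group
  have good : ∀ a : A, a • ((1 : A) : A ⧸ M) = (1 : A) → ⁅a, v⁆ ∈ K → ⁅a, w⁆ ∈ K →
      ∀ i : A ⧸ M, a • i = i := fun a h0 g1 g2 i => by
    have ha : a ∈ M := by rw [sm, QuotientGroup.eq] at h0; simpa using h0
    induction i using QuotientGroup.induction_on with
    | H z =>
      obtain ⟨x, hx, h, hh, rfl⟩ := dec z
      rw [sm, QuotientGroup.eq]
      have := hKM (hb a g1 g2 x⁻¹ (N.inv_mem hx))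
      have e : (a * (x * h))⁻¹ * (x * h) = h⁻¹ * (a⁻¹ * ⁅a, x⁻¹⁆) * h := by
        rw [commutatorElement_def]; group
      rw [e]
      exact M.mul_mem (M.mul_mem (M.inv_mem hh) (M.mul_mem (M.inv_mem ha) this)) hh
  have mem : ∀ a : A, a • ((1 : A) : A ⧸ M) = (1 : A) → a ∈ M := fun a h0 => by
    rw [sm, QuotientGroup.eq] at h0; simpa using h0
  have cyc : ∀ x ∈ N, ∀ y ∈ N, ∀ g : A, g • ((1 : A) : A ⧸ M) = x → g • (y : A ⧸ M) = (1 : A) →
      ∃ h : A ⧸ K, h * (y : A ⧸ K) * h⁻¹ = (x : A ⧸ K)⁻¹ := fun x hx y hy g g1 g2 => by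
    obtain ⟨z, hz, h, hh, rfl⟩ := dec g
    rw [sm, QuotientGroup.eq] at g1 g2
    have e1 : z⁻¹ * x ∈ K := hNK _ (N.mul_mem (N.inv_mem hz) hx) (by
      have := M.mul_mem hh g1; convert this using 1; group)
    have e2 : z * (h * y * h⁻¹) ∈ K := hNK _ (N.mul_mem hz (hN.conj_mem _ hy _)) (by
      have := M.mul_mem (M.inv_mem g2) (M.inv_mem hh); convert this using 1; group)
    refine ⟨h, ?_⟩
    rw [← QuotientGroup.eq.2 e1, eq_inv_iff_mul_eq_one, mul_eq_one_comm]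
    exact (QuotientGroup.eq_one_iff _).2 e2
  by_cases c : ∀ a : A, (∀ i ∈ ({((1 : A) : A ⧸ M), (v : A ⧸ M), (w : A ⧸ M)} : Set (A ⧸ M)),
      a • i ∈ ({((1 : A) : A ⧸ M), (v : A ⧸ M), (w : A ⧸ M)} : Set (A ⧸ M))) → ∀ i : A ⧸ M, a • i = i
  · exact ⟨_, c⟩
  push Not at c
  obtain ⟨a, ha, i, hi⟩ := c
  rcases tri ho (ha _ (by simp)) (ha (v : A ⧸ M) (by simp)) (ha (w : A ⧸ M) (by simp)) with
    ⟨t1, t2, t3⟩ | ⟨t0, g, t1, t2⟩
  · exact absurd (good a t1 (fixc a (mem a t1) v hv t2) (fixc a (mem a t1) w hw t3) i) hi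
  refine ⟨{((1 : A) : A ⧸ M), (v : A ⧸ M), ((w⁻¹ : A) : A ⧸ M)}, fun b hb' => ?_⟩
  rcases tri ho (hb' _ (by simp)) (hb' (v : A ⧸ M) (by simp)) (hb' ((w⁻¹ : A) : A ⧸ M) (by simp)) with
    ⟨s1, s2, s3⟩ | ⟨-, g', s1, s2⟩
  · refine good b s1 (fixc b (mem b s1) v hv s2) ?_
    have := (inferInstance : K.Normal).conj_mem _
      (K.inv_mem (fixc b (mem b s1) _ (N.inv_mem hw) s3)) (b * w * b⁻¹)
    rw [commutatorElement_def] at this ⊢; convert this using 1; group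
  · exfalso
    obtain ⟨h, e1⟩ := cyc v hv w hw g t1 t2
    obtain ⟨h', e2⟩ := cyc v hv _ (N.inv_mem hw) g' s1 s2
    have hq : Odd (Nat.card (A ⧸ K)) := ho.of_dvd_nat (card_quotient_dvd_card K)
    have : (v : A ⧸ K) = 1 := inv_conj hq (k := h * h'⁻¹) (by
      have e3 : (v : A ⧸ K) = h' * w * h'⁻¹ := by
        rw [← inv_inv (v : A ⧸ K), ← e2, QuotientGroup.mk_inv]; group
      rw [← e1]; nth_rw 1 [e3]; group)
    apply t0
    rw [QuotientGroup.eq]; simpa using hKM ((QuotientGroup.eq_one_iff _).1 this)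

/-- irreducibility -/
def Irr (A V : Type u) [Group A] [AddCommGroup V] [DistribMulAction A V] : Prop :=
  ∀ U : AddSubgroup V, (∀ a : A, ∀ v ∈ U, a • v ∈ U) → U = ⊥ ∨ U = ⊤

theorem lt_card {W : AddSubgroup V} (h : W ≠ ⊤) : Nat.card W < Nat.card V := by
  have := AddSubgroup.card_mul_index W
  have h1 : W.index ≠ 1 := fun e => h (AddSubgroup.index_eq_one.1 e)
  have h2 : W.index ≠ 0 := AddSubgroup.index_ne_zero_of_finite
  have h3 : 0 < Nat.card W := Nat.card_pos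
  nlinarith [show 2 ≤ W.index by omega]

theorem imprim (ih : IH.{u} (Nat.card V)) (ho : Odd (Nat.card A)) (hi : Irr A V) {M : Subgroup A}
    (hM : IsCoatom M) {W : AddSubgroup V} (h0 : W ≠ ⊥) (hv : Iv M W) (hd : Ind M W) : B2 A V := by
  classical
  have := Fintype.ofFinite (A ⧸ M)
  have hc := card_pow hv hd
  have h2 : 2 ≤ Nat.card W := (AddSubgroup.one_lt_card_iff_ne_bot _).2 h0
  have hidx : 2 ≤ M.index := by
    have h1 : M.index ≠ 1 := fun e => hM.1 (index_eq_one.1 e)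
    have h2 : M.index ≠ 0 := index_ne_zero_of_finite
    omega
  obtain ⟨D, hD⟩ := colour ih ho hM
    (lt_of_lt_of_le (lt_of_lt_of_le Nat.lt_two_pow_self (Nat.pow_le_pow_left h2 _)) hc)
  have span : ∀ U : AddSubgroup V, U ≠ ⊥ → ∀ x : V, x ∈ Sp (Set.univ : Set A) U := fun U hU x => by
    rcases hi (Sp (Set.univ : Set A) U) (fun a v hv => smul_Sp (fun b _ w hw => by
      rw [← mul_smul]; exact mem_Sp (Set.mem_univ _) hw) hv) with e | e
    · exact absurd (eq_bot_iff.2 fun u hu => e ▸ (by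
        simpa using mem_Sp (S := (Set.univ : Set A)) (a := 1) trivial hu)) hU
    · rw [e]; trivial
  obtain ⟨v, hv', w, hw, hb⟩ := ih.sub ho hv (lt_of_lt_of_le (by
      nth_rw 1 [← pow_one (Nat.card W)]; exact Nat.pow_lt_pow_right h2 hidx) hc)
    (fun U hU hU' => by
      by_cases e : U = ⊥
      · exact ⟨W, le_rfl, hv, fun x hx _ => by simpa [e] using hx,
          fun x hx => ⟨0, U.zero_mem, x, hx, zero_add x⟩⟩
      · refine ⟨⊥, bot_le, fun a _ w hw => by simp_all, fun x _ hx => hx,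
          fun x hx => ⟨x, ?_, 0, AddSubgroup.zero_mem _, add_zero x⟩⟩
        have : x ∈ U ⊔ Sp (M : Set A)ᶜ W := Sp_le (fun a _ u hu => by
          by_cases ha : a ∈ M
          · exact AddSubgroup.mem_sup_left (hU' a ha u hu)
          · exact AddSubgroup.mem_sup_right (mem_Sp' ha (hU hu))) (span U e x)
        obtain ⟨y, hy, z, hz, rfl⟩ := AddSubgroup.mem_sup.1 this
        rw [hd z ((W.add_mem_cancel_left (hU hy)).1 hx) hz, add_zero]; exact hy)
  obtain ⟨x, hx, y, hy, hb', hne⟩ : ∃ x ∈ W, ∃ y ∈ W,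
      (∀ a ∈ M, a • x = x → a • y = y → ∀ u ∈ W, a • u = u) ∧ x ≠ y := by
    by_cases e : v = w
    · subst e
      by_cases e0 : v = 0
      · obtain ⟨⟨u, hu⟩, hu0⟩ := AddSubgroup.ne_bot_iff_exists_ne_zero.1 h0
        exact ⟨u, hu, 0, W.zero_mem, fun a ha _ _ => hb a ha (by simp [e0]) (by simp [e0]),
          fun h => hu0 (Subtype.ext h)⟩
      · exact ⟨v, hv', 0, W.zero_mem, fun a ha h _ => hb a ha h h, e0⟩
    · exact ⟨v, hv', w, hw, hb, e⟩
  let f : A ⧸ M → V := fun i => if i ∈ D then x else y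
  let g : A ⧸ M → V := fun i => if i ∈ D then y else x
  have hf : ∀ i, f i ∈ W := fun i => by simp only [f]; split_ifs <;> assumption
  have hg : ∀ i, g i ∈ W := fun i => by simp only [g]; split_ifs <;> assumption
  refine ⟨∑ i, i.out • f i, ∑ i, i.out • g i, fun a h1 h2 u => ?_⟩
  have k1 := sum_eq hv hd hf hf h1
  have k2 := sum_eq hv hd hg hg h2
  have k3 := hD a (fun i hi => by
    by_contra hn
    have a1 := k1 i; have a2 := k2 i
    simp only [f, g, hi, hn, if_true, if_false] at a1 a2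
    exact hne ((fix_of_sq ho (by rw [mul_smul, a1, a2])).symm.trans a1))
  refine (show ∀ u ∈ Sp (Set.univ : Set A) W, u ∈ fx V a from fun u hu => Sp_le (fun b _ z hz => ?_) hu)
    u (span W h0 u)
  obtain ⟨h, hh⟩ := QuotientGroup.mk_out_eq_mul M b
  set i : A ⧸ M := (QuotientGroup.mk b : A ⧸ M) with hi'
  have a1 := k1 i; have a2 := k2 i
  have hm := (out_mem a i (a • i)).2 rfl
  rw [k3 i] at a1 a2 hm
  have := hb' _ hm (by by_cases e : i ∈ D <;> simp_all [f, g])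
    (by by_cases e : i ∈ D <;> simp_all [f, g]) ((h : A)⁻¹ • z) (hv _ (M.inv_mem h.2) _ hz)
  rw [hh, mul_smul, mul_smul, inv_smul_eq_iff] at this
  simpa [mul_smul, mem_fx] using this

theorem reducible (ih : IH.{u} (Nat.card V)) (ho : Odd (Nat.card A)) (hcr : CR A V)
    (hi : ¬ Irr A V) : B2 A V := by
  unfold Irr at hi
  push Not at hi
  obtain ⟨U, hU, h1, h2⟩ := hi
  obtain ⟨W, hW, h3, h4⟩ := hcr U hU
  have key : ∀ T : AddSubgroup V, (∀ a : A, ∀ v ∈ T, a • v ∈ T) → T ≠ ⊤ →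
      ∃ v ∈ T, ∃ w ∈ T, ∀ a ∈ (⊤ : Subgroup A), a • v = v → a • w = w → ∀ u ∈ T, a • u = u :=
    fun T hT ht => ih.sub ho (fun a _ => hT a) (lt_card ht) (fun X hX hX' => by
      obtain ⟨Y, y1, y2, y3⟩ := hcr X (fun a => hX' a trivial)
      refine ⟨Y ⊓ T, inf_le_right, fun a _ w hw => ⟨y1 a w hw.1, hT a w hw.2⟩,
        fun x a b => by simpa [y2] using (show x ∈ X ⊓ Y from ⟨a, b.1⟩), fun x hx => ?_⟩
      obtain ⟨a, ha, b, hb, rfl⟩ := AddSubgroup.mem_sup.1 (show x ∈ X ⊔ Y by rw [y3]; trivial)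
      exact ⟨a, ha, b, ⟨hb, (T.add_mem_cancel_left (hX ha)).1 hx⟩, rfl⟩)
  obtain ⟨v, hv, w, hw, e⟩ := key U hU h2
  obtain ⟨v', hv', w', hw', e'⟩ := key W hW (by rintro rfl; simp_all)
  have sp : ∀ a : A, ∀ x ∈ U, ∀ y ∈ W, a • (x + y) = x + y → a • x = x ∧ a • y = y := by
    intro a x hx y hy h
    have : a • x - x ∈ U ⊓ W := ⟨U.sub_mem (hU a x hx) hx, by
      rw [smul_add] at h
      rw [sub_eq_sub_iff_add_eq_add.2 (h.trans (add_comm _ _))]; exact W.sub_mem hy (hW a y hy)⟩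
    rw [h3, AddSubgroup.mem_bot, sub_eq_zero] at this
    exact ⟨this, by rw [smul_add, this] at h; exact add_left_cancel h⟩
  refine ⟨v + v', w + w', fun a a1 a2 u => ?_⟩
  obtain ⟨x, hx, y, hy, rfl⟩ := AddSubgroup.mem_sup.1 (show u ∈ U ⊔ W by rw [h4]; trivial)
  rw [smul_add, e a trivial (sp a v hv v' hv' a1).1 (sp a w hw w' hw' a2).1 x hx,
    e' a trivial (sp a v hv v' hv' a1).2 (sp a w hw w' hw' a2).2 y hy]

theorem exists_max {G W : Type*} [Group G] [Finite G] [AddCommGroup W] [DistribMulAction G W]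
    {B Y0 : Subgroup G} (h : Y0 ≤ B) (h0 : FX W Y0 ≠ ⊥) : ∃ Y, Y0 ≤ Y ∧ Y ≤ B ∧ FX W Y ≠ ⊥ ∧
      ∀ b ∈ B, ∀ v ∈ FX W Y, b • v = v → v = 0 ∨ b ∈ Y := by
  obtain ⟨Y, ⟨h1, h2, h3⟩, hmax⟩ := (wellFounded_gt (α := Subgroup G)).has_min
    {Y | Y0 ≤ Y ∧ Y ≤ B ∧ FX W Y ≠ ⊥} ⟨Y0, le_rfl, h, h0⟩
  refine ⟨Y, h1, h2, h3, fun b hb v hv e => ?_⟩
  by_contra hn
  push Not at hn
  refine hmax (Y ⊔ zpowers b) ⟨h1.trans le_sup_left, sup_le h2 (zpowers_le.2 hb), fun h => hn.1 ?_⟩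
    (lt_of_le_of_ne le_sup_left fun e => hn.2 (e ▸ mem_sup_right (mem_zpowers b)))
  have : Y ⊔ zpowers b ≤ MulAction.stabilizer G v := sup_le hv (zpowers_le.2 e)
  exact (show v ∈ (⊥ : AddSubgroup W) from h ▸ this)

theorem semireg (ih : IH.{u} (Nat.card V)) (ho : Odd (Nat.card A)) (hi : Irr A V)
    (hf : ∀ a : A, (∀ u : V, a • u = u) → a = 1) {B : Subgroup A} [B.Normal]
    (hc : ∀ a ∈ B, ∀ b ∈ B, a * b = b * a) : SR V B ∨ B2 A V := by
  by_cases h : SR V B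
  · exact Or.inl h
  right
  unfold SR at h
  push Not at h
  obtain ⟨b, hb, v, e, b1, v0⟩ := h
  obtain ⟨Y, y1, y2, y3, y4⟩ := exists_max (W := V) (zpowers_le.2 hb) (fun h => v0
    (show v ∈ (⊥ : AddSubgroup V) from h ▸ (zpowers_le (G := A) (H := MulAction.stabilizer A v)).2 e))
  obtain ⟨i1, i2⟩ := fix_ind hc y2 y4
  have hne : normalizer (Y : Set A) ≠ ⊤ := fun ht => by
    rcases hi (FX V Y) (fun a => i1 a (ht ▸ trivial)) with e | e
    · exact y3 e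
    · exact b1 (hf b fun u => (show u ∈ FX V Y from e ▸ trivial) b (y1 (mem_zpowers b)))
  obtain ⟨M, hM, hle⟩ := (eq_top_or_exists_le_coatom _).resolve_left hne
  obtain ⟨j1, j2⟩ := coarse hle i1 i2
  refine imprim ih ho hi hM (fun h => y3 (eq_bot_iff.2 fun u hu => h ▸ ?_)) j1 j2
  simpa using mem_Sp (S := (M : Set A)) M.one_mem hu

end CA.H9Reg
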