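import Cfsg.Agent.Lib.Solv.H9Reg3
import Cfsg.Agent.Lib.Grp.PGClassTwo

/-! Regular orbits of odd order groups on pairs of vectors: the symplectic section. -/
set_option autoImplicit false
set_option linter.all false
namespace CA.H9Reg
open Subgroup CA.PGClassTwo
open scoped commutatorElement
universe u
section
variable {A : Type*} [Group A] [Finite A] {Z E : Subgroup A}

theorem cz {S : Subgroup A} {a b : A} (ha : a ∈ centralizer (S : Set A)) (hb : b ∈ S) :
    Commute a b := (mem_centralizer_iff.1 ha b hb).symm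

theorem dual [IsCyclic Z] {P Q : Subgroup A} (h : ∀ x ∈ P, ∀ y ∈ Q, ⁅x, y⁆ ∈ Z)
    (hP : P ≤ centralizer (Z : Set A)) (hQ : Q ≤ centralizer (Z : Set A)) :
    (centralizer (Q : Set A)).relIndex P ≤ (centralizer (P : Set A)).relIndex Q := by
  haveI : NeZero (Nat.card Z) := ⟨Nat.card_pos.ne'⟩
  let χ : Z →* ℂˣ := (rootsOfUnity (Nat.card Z) ℂ).subtype.comp (mulEquivOfCyclicCardEq
    (HasEnoughRootsOfUnity.natCard_rootsOfUnity ℂ (Nat.card Z)).symm).toMonoidHom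
  have hχ : Function.Injective χ := Subtype.val_injective.comp (MulEquiv.injective _)
  have h1 : ∀ x y (hxy : ⁅x, y⁆ ∈ Z), χ ⟨⁅x, y⁆, hxy⟩ = 1 ↔ y * x = x * y := fun x y hxy => by
    rw [map_eq_one_iff χ hχ, Subtype.ext_iff, eq_comm (a := y * x),
      ← commutatorElement_eq_one_iff_mul_comm]; rfl
  let β : Q →* (P →* ℂˣ) := MonoidHom.mk' (fun y => MonoidHom.mk'
    (fun x => χ ⟨⁅(x : A), (y : A)⁆, h _ x.2 _ y.2⟩) (fun a b => by
      rw [mul_comm, ← map_mul]; congr 1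
      exact Subtype.ext (comm_mul_left (cz (hP a.2) (h _ b.2 _ y.2))))) (fun a b => by
      ext x
      simp only [MonoidHom.mk'_apply, MonoidHom.mul_apply, ← map_mul]; congr 2
      exact Subtype.ext (comm_mul_right (cz (hQ a.2) (h _ x.2 _ b.2))))
  let ev : P →* (β.range →* ℂˣ) := MonoidHom.mk' (fun x => MonoidHom.mk'
    (fun θ => (θ : P →* ℂˣ) x) (fun a b => rfl)) (fun a b => by ext θ; simp)
  have k1 : β.ker = (centralizer (P : Set A)).subgroupOf Q := by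
    ext y
    rw [MonoidHom.mem_ker, mem_subgroupOf, mem_centralizer_iff, MonoidHom.ext_iff]
    exact ⟨fun e x hx => ((h1 _ _ _).1 (e ⟨x, hx⟩)).symm, fun e x => (h1 _ _ _).2 (e x x.2).symm⟩
  have k2 : ev.ker = (centralizer (Q : Set A)).subgroupOf P := by
    ext x
    rw [MonoidHom.mem_ker, mem_subgroupOf, mem_centralizer_iff, MonoidHom.ext_iff]
    exact ⟨fun e y hy => (h1 _ _ _).1 (e ⟨β ⟨y, hy⟩, _, rfl⟩), fun e => by
      rintro ⟨_, y, rfl⟩; exact (h1 _ _ _).2 (e y y.2)⟩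
  rw [relIndex, relIndex, ← k1, ← k2, index_ker, index_ker]
  haveI : Finite β.range := Finite.of_surjective _ β.rangeRestrict_surjective
  haveI : NeZero (Monoid.exponent β.range) := ⟨Monoid.exponent_ne_zero_of_finite⟩
  have e := CommGroup.card_monoidHom_of_hasEnoughRootsOfUnity β.range ℂ
  haveI : Finite (β.range →* ℂˣ) := Nat.finite_of_card_ne_zero (by rw [e]; exact Nat.card_pos.ne')
  rw [← e]
  exact Nat.card_le_card_of_injective _ ev.range.subtype_injective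

theorem split [IsCyclic Z] {P L : Subgroup A} (hL : L ≤ P) (hZ : Z ≤ L)
    (h : ∀ x ∈ P, ∀ y ∈ L, ⁅x, y⁆ ∈ Z) (hP : P ≤ centralizer (Z : Set A))
    (hc : L ⊓ centralizer (L : Set A) ≤ Z) {x : A} (hx : x ∈ P) :
    ∃ l ∈ L, l⁻¹ * x ∈ centralizer (L : Set A) := by
  have h1 := dual h hP (hL.trans hP)
  have h2 : (centralizer (P : Set A)).relIndex L ≤ (centralizer (L : Set A)).relIndex L := by
    rw [← inf_relIndex_right (centralizer (L : Set A))]
    exact relIndex_le_of_le_left (((inf_comm _ _).le.trans hc).trans (le_centralizer_iff.1 hP))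
      index_ne_zero_of_finite
  obtain ⟨q, hq⟩ := ((quotientSubgroupOfEmbeddingOfLE (centralizer (L : Set A)) hL).injective.bijective_of_nat_card_le
    (h1.trans h2)).2 (QuotientGroup.mk ⟨x, hx⟩)
  induction q using QuotientGroup.induction_on with
  | H l =>
    rw [quotientSubgroupOfEmbeddingOfLE_apply_mk, QuotientGroup.eq] at hq
    exact ⟨l, l.2, hq⟩

/-- the pair of subgroups describing a quasi-primitive group -/
structure St (Z E : Subgroup A) : Prop where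
  nZ : Z.Normal
  cyc : IsCyclic Z
  mx : ∀ T : Subgroup A, T.Normal → Z ≤ T → (∀ a ∈ T, ∀ b ∈ T, a * b = b * a) → T ≤ Z
  nE : E.Normal
  ZE : Z ≤ E
  EC : E ≤ centralizer (Z : Set A)
  ab : ⁅E, E⁆ ≤ Z
  mxE : ∀ T : Subgroup A, T.Normal → E ≤ T → T ≤ centralizer (Z : Set A) → ⁅T, T⁆ ≤ Z → T ≤ E

theorem exists_St (h : ∀ B : Subgroup A, B.Normal → (∀ a ∈ B, ∀ b ∈ B, a * b = b * a) →
    IsCyclic B) : ∃ Z E : Subgroup A, St Z E := by
  obtain ⟨Z, ⟨h1, h2⟩, hmax⟩ := (wellFounded_gt (α := Subgroup A)).has_min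
    {B | B.Normal ∧ ∀ a ∈ B, ∀ b ∈ B, a * b = b * a} ⟨⊥, inferInstance, by simp +contextual⟩
  obtain ⟨E, ⟨e1, e2, e3, e4⟩, emax⟩ := (wellFounded_gt (α := Subgroup A)).has_min
    {E | E.Normal ∧ Z ≤ E ∧ E ≤ centralizer (Z : Set A) ∧ ⁅E, E⁆ ≤ Z}
    ⟨Z, h1, le_rfl, fun a ha b hb => h2 b hb a ha, commutator_le_left _ _⟩
  refine ⟨Z, E, h1, h Z h1 h2, fun T t1 t2 t3 => ?_, e1, e2, e3, e4, fun T t1 t2 t3 t4 => ?_⟩
  · by_contra hn; exact hmax T ⟨t1, t3⟩ (lt_of_le_of_ne t2 fun e => hn e.ge)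
  · by_contra hn; exact emax T ⟨t1, e2.trans t2, t3, t4⟩ (lt_of_le_of_ne t2 fun e => hn e.ge)

theorem St.cm (s : St Z E) {x y : A} (hx : x ∈ E) (hy : y ∈ E) : ⁅x, y⁆ ∈ Z :=
  s.ab (commutator_mem_commutator hx hy)

theorem St.cent (s : St Z E) {L : Subgroup A} [L.Normal] (h1 : Z ≤ L) (h2 : L ≤ E) :
    L ⊓ centralizer (L : Set A) ≤ Z :=
  s.mx _ inferInstance (le_inf h1 (le_centralizer_iff.1 (h2.trans s.EC)))
    fun a ha b hb => (cz ha.2 hb.1).eq

theorem cmq [Z.Normal] {a b : A} :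
    ⁅a, b⁆ ∈ Z ↔ Commute (QuotientGroup.mk' Z a) (QuotientGroup.mk' Z b) := by
  rw [← commutatorElement_eq_one_iff_commute, ← map_commutatorElement]
  exact (QuotientGroup.eq_one_iff _).symm

theorem St.centE (s : St Z E) (hs : Group.IsSolvable A) : centralizer (E : Set A) ≤ Z := by
  haveI := s.nZ; haveI := s.nE
  by_contra hn
  obtain ⟨L, hL, h1, h2, h3, -⟩ := ab_step hs (K := Z) (D := centralizer (E : Set A))
    (lt_of_le_of_ne (le_centralizer_iff.1 s.EC) fun e => hn e.ge)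
  have : L ≤ E := le_sup_right.trans (s.mxE (E ⊔ L) inferInstance le_sup_left
    (sup_le s.EC (h2.trans (centralizer_le s.ZE))) (by
      rw [commutator_le]
      intro x hx y hy
      rw [← SetLike.mem_coe, normal_mul] at hx hy
      obtain ⟨a, ha, b, hb, rfl⟩ := hx
      obtain ⟨c, hc, d, hd, rfl⟩ := hy
      simp only [cmq, map_mul]
      exact ((cmq.1 (s.cm ha hc)).mul_right ((cz (h2 hd) ha).symm.map _)).mul_left
        (((cz (h2 hb) hc).map _).mul_right (cmq.1 (h3 (commutator_mem_commutator hb hd))))))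
  exact h1.2 fun x hx => s.cent s.ZE le_rfl ⟨this hx, h2 hx⟩

theorem St.ker (s : St Z E) (hs : Group.IsSolvable A) {a : A} (h1 : a ∈ centralizer (Z : Set A))
    (h2 : ∀ x ∈ E, ⁅a, x⁆ ∈ Z) : a ∈ E := by
  haveI := s.nZ; haveI := s.nE; haveI := s.cyc
  let D := centralizer (Z : Set A) ⊓
    (centralizer (E.map (QuotientGroup.mk' Z) : Set (A ⧸ Z))).comap (QuotientGroup.mk' Z)
  have hD : ∀ b ∈ centralizer (Z : Set A), (∀ x ∈ E, ⁅b, x⁆ ∈ Z) → b ∈ D := fun b b1 b2 =>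
    ⟨b1, by rintro _ ⟨x, hx, rfl⟩; exact (cmq.1 (b2 x hx)).symm⟩
  obtain ⟨l, hl, e⟩ := split (P := D) (L := E) (fun x hx => hD x (s.EC hx) fun y hy => s.cm hx hy)
    s.ZE (fun x hx y hy => cmq.2 (cz hx.2 ⟨y, hy, rfl⟩)) inf_le_left (s.cent s.ZE le_rfl)
    (hD a h1 h2)
  exact (E.mul_mem_cancel_left (E.inv_mem hl)).1 (s.ZE (s.centE hs e))

theorem St.cr (s : St Z E) (L : Subgroup A) (hL : L.Normal) (h1 : Z ≤ L) (h2 : L ≤ E) :
    ∃ L' : Subgroup A, L'.Normal ∧ Z ≤ L' ∧ L' ≤ E ∧ (∀ x ∈ L, x ∈ L' → x ∈ Z) ∧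
      ∀ x ∈ E, ∃ a ∈ L, ∃ b ∈ L', a * b = x := by
  haveI := s.nE; haveI := s.cyc
  refine ⟨E ⊓ centralizer (L : Set A), inferInstance,
    le_inf s.ZE (le_centralizer_iff.1 (h2.trans s.EC)), inf_le_left,
    fun x hx hx' => s.cent h1 h2 ⟨hx, hx'.2⟩, fun x hx => ?_⟩
  obtain ⟨l, hl, e⟩ := split h2 h1 (fun x hx y hy => s.cm hx (h2 hy)) s.EC (s.cent h1 h2) hx
  exact ⟨l, hl, l⁻¹ * x, ⟨E.mul_mem (E.inv_mem (h2 hl)) hx, e⟩, by group⟩

theorem St.exp (s : St Z E) (ho : Odd (Nat.card A)) {x : A} (hx : x ∈ E) :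
    x ^ Nat.card Z = 1 := by
  haveI := s.nZ; haveI := s.nE; haveI := s.cyc
  have hz : ∀ a ∈ Z, a ^ Nat.card Z = 1 := fun a ha =>
    congrArg Subtype.val (pow_card_eq_one' (x := (⟨a, ha⟩ : Z)))
  have hm : ∀ a ∈ E, ∀ b ∈ E, (a * b) ^ Nat.card Z = a ^ Nat.card Z * b ^ Nat.card Z :=
    fun a ha b hb => mul_pow_odd (cz (s.EC ha) (s.cm hb ha)) (cz (s.EC hb) (s.cm hb ha))
      (odd_sub ho Z) (hz _ (s.cm hb ha))
  let K : Subgroup A :=
    { carrier := {a | a ∈ E ∧ a ^ Nat.card Z = 1}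
      mul_mem' := fun {a b} ha hb => ⟨E.mul_mem ha.1 hb.1, by rw [hm a ha.1 b hb.1, ha.2, hb.2, one_mul]⟩
      one_mem' := ⟨E.one_mem, one_pow _⟩
      inv_mem' := fun {a} ha => ⟨E.inv_mem ha.1, by rw [inv_pow, ha.2, inv_one]⟩ }
  have hK : K.Normal := ⟨fun a ha g => ⟨s.nE.conj_mem a ha.1 g, by rw [conj_pow, ha.2]; group⟩⟩
  have hZK : Z ≤ K := fun a ha => ⟨s.ZE ha, hz a ha⟩
  obtain ⟨C, c1, c2, c3, c4, c5⟩ := s.cr K hK hZK (fun a ha => ha.1)
  let f : C →* Z := MonoidHom.mk' (fun c => ⟨(c : A) ^ Nat.card Z, s.cent s.ZE le_rfl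
    ⟨E.pow_mem (c3 c.2) _, fun y hy => by
      symm
      rw [← commutatorElement_eq_one_iff_mul_comm,
        comm_pow_left (cz (s.EC (c3 c.2)) (s.cm (c3 c.2) hy)), hz _ (s.cm (c3 c.2) hy)]⟩⟩)
    (fun a b => Subtype.ext (hm _ (c3 a.2) _ (c3 b.2)))
  have hc := f.isMulCommutative_of_isCyclic_of_ker_le_center (fun c hc => by
    have : (c : A) ∈ Z := c4 _ ⟨c3 c.2, congrArg Subtype.val hc⟩ c.2
    rw [mem_center_iff]; intro g
    exact Subtype.ext (cz (s.EC (c3 g.2)) this).eq)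
  have hCZ := s.mx C c1 c2 fun a ha b hb =>
    congrArg Subtype.val (hc.is_comm.comm (⟨a, ha⟩ : C) ⟨b, hb⟩)
  obtain ⟨a, ha, b, hb, rfl⟩ := c5 x hx
  exact (K.mul_mem ha (hZK (hCZ hb))).2

theorem index_cent [Z.Normal] [IsCyclic Z] (ho : Odd (Nat.card A)) (h : 3 ≤ Nat.card Z) :
    2 * (centralizer (Z : Set A)).index < Nat.card Z := by
  have e : (MulAut.conjNormal (H := Z)).ker = centralizer (Z : Set A) := by
    ext a
    rw [MonoidHom.mem_ker, mem_centralizer_iff, MulEquiv.ext_iff]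
    refine ⟨fun h b hb => ?_, fun h b => Subtype.ext ?_⟩
    · have := congrArg Subtype.val (h ⟨b, hb⟩)
      simp only [MulAut.conjNormal_apply, MulAut.one_apply] at this
      rw [mul_inv_eq_iff_eq_mul] at this; exact this.symm
    · simp only [MulAut.conjNormal_apply, MulAut.one_apply]
      rw [← h b b.2]; group
  have h1 : (centralizer (Z : Set A)).index ∣ Nat.totient (Nat.card Z) := by
    rw [← e, index_ker, ← IsCyclic.card_mulAut]; exact card_subgroup_dvd_card _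
  have h2 : Odd (centralizer (Z : Set A)).index := ho.of_dvd_nat (index_dvd_card _)
  have h3 := Nat.totient_even (n := Nat.card Z) h
  have h4 := Nat.totient_lt (Nat.card Z) (by omega)
  have h5 := (Nat.Coprime.mul_dvd_of_dvd_of_dvd (Nat.coprime_two_left.2 h2) h3.two_dvd h1)
  exact lt_of_le_of_lt (Nat.le_of_dvd (Nat.totient_pos.2 (by omega)) h5) h4

variable {V : Type*} [AddCommGroup V] [Finite V] [DistribMulAction A V]

/-- action on an invariant subgroup -/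
@[reducible] def subAct {H : Subgroup A} {W : AddSubgroup V} (hv : Iv H W) :
    DistribMulAction H W where
  smul := fun a w => ⟨(a : A) • (w : V), hv _ a.2 _ w.2⟩
  one_smul := fun w => Subtype.ext (one_smul A (w : V))
  mul_smul := fun a b w => Subtype.ext (mul_smul (a : A) (b : A) (w : V))
  smul_zero := fun a => Subtype.ext (smul_zero (a : A))
  smul_add := fun a x y => Subtype.ext (smul_add (a : A) (x : V) y)

theorem modp {H : Subgroup A} {W : AddSubgroup V} (hv : Iv H W) {p : ℕ} [Fact p.Prime]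
    (hp : IsPGroup p H) : Nat.card W ≡ Nat.card (W ⊓ FX V H : AddSubgroup V) [MOD p] := by
  letI := subAct hv
  have := hp.card_modEq_card_fixedPoints W
  rwa [Nat.card_congr (show MulAction.fixedPoints H W ≃ (W ⊓ FX V H : AddSubgroup V) from
    ⟨fun x => ⟨x.1.1, x.1.2, fun y hy => congrArg Subtype.val (x.2 ⟨y, hy⟩)⟩,
      fun x => ⟨⟨x.1, x.2.1⟩, fun y => Subtype.ext (x.2.2 y y.2)⟩, fun x => rfl, fun x => rfl⟩)] at this

theorem cyc_sub {B : Subgroup A} {W : AddSubgroup V} (hv : Iv B W) (h0 : W ≠ ⊥)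
    (hc : ∀ a ∈ B, ∀ b ∈ B, a * b = b * a) {Y : Subgroup A}
    (hY : ∀ b ∈ B, ∀ w ∈ W, b • w = w → w = 0 ∨ b ∈ Y) :
    ∃ K : Subgroup B, ∃ _ : K.Normal, IsCyclic (B ⧸ K) ∧ ∀ b ∈ K, (b : A) ∈ Y := by
  letI := subAct hv
  haveI := (AddSubgroup.nontrivial_iff_ne_bot W).2 h0
  obtain ⟨K, hK, h1, h2⟩ := cyc_quot (B := B) (W := W) fun a b => Subtype.ext (hc _ a.2 _ b.2)
  refine ⟨K, hK, h1, fun b hb => ?_⟩
  obtain ⟨w, w0, hw⟩ := h2 b hb
  exact (hY _ b.2 _ w.2 (congrArg Subtype.val hw)).resolve_left fun e => w0 (Subtype.ext e)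

theorem SR.cyc [Nontrivial V] {B : Subgroup A} (h : SR V B)
    (hc : ∀ a ∈ B, ∀ b ∈ B, a * b = b * a) : IsCyclic B := by
  obtain ⟨K, hK, h1, h2⟩ := cyc_sub (W := (⊤ : AddSubgroup V)) (fun _ _ _ _ => trivial) top_ne_bot
    hc (Y := ⊥) fun b hb w _ e => (h b hb w e).symm
  have : K = ⊥ := eq_bot_iff.2 fun b hb => Subtype.ext (h2 b hb)
  subst this
  exact isCyclic_of_surjective _ (QuotientGroup.quotientBot (G := B)).surjective
end

theorem faith (A : Type*) (V : Type u) [Group A] [Finite A] [AddCommGroup V] [Finite V]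
    [DistribMulAction A V] : ∃ (G : Type u) (_ : Group G) (_ : Finite G) (_ : DistribMulAction G V)
      (π : A →* G), Function.Surjective π ∧ (∀ a (v : V), π a • v = a • v) ∧
      ∀ g : G, (∀ v : V, g • v = v) → g = 1 := by
  let φ := MulAction.toPermHom A V
  refine ⟨φ.range, inferInstance, inferInstance,
    { (inferInstance : MulAction φ.range V) with
      smul_zero := by rintro ⟨_, a, rfl⟩; exact smul_zero a
      smul_add := by rintro ⟨_, a, rfl⟩; exact smul_add a },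
    φ.rangeRestrict, φ.rangeRestrict_surjective, fun a v => rfl,
    fun g h => Subtype.ext (Equiv.ext h)⟩

theorem modx {A : Type u} [Group A] [Finite A] {K N : Subgroup A} [K.Normal] [hN : N.Normal]
    (hab : ⁅N, N⁆ ≤ K)
    (hcr : ∀ L : Subgroup A, L.Normal → K ≤ L → L ≤ N → ∃ L' : Subgroup A, L'.Normal ∧ K ≤ L' ∧
      L' ≤ N ∧ (∀ x ∈ L, x ∈ L' → x ∈ K) ∧ ∀ x ∈ N, ∃ a ∈ L, ∃ b ∈ L', a * b = x) (hK : K ≤ N) :
    ∃ (U : Type u) (_ : AddCommGroup U) (_ : Finite U) (_ : DistribMulAction A U)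
      (e : N →* Multiplicative U), Function.Surjective e ∧ Nat.card U = K.relIndex N ∧
      (∀ x, e x = 1 ↔ (x : A) ∈ K) ∧
      (∀ (a : A) (x : N), a • (e x).toAdd = (e ⟨a * x * a⁻¹, hN.conj_mem _ x.2 a⟩).toAdd) ∧
      CR A U := by
  let π := QuotientGroup.mk' K
  let U := N.map π
  haveI hU : U.Normal := hN.map π (QuotientGroup.mk'_surjective K)
  letI : CommGroup U := { (inferInstance : Group U) with
    mul_comm := by
      rintro ⟨_, a, ha, rfl⟩ ⟨_, b, hb, rfl⟩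
      apply Subtype.ext
      show π a * π b = π b * π a
      rw [← commutatorElement_eq_one_iff_mul_comm, ← map_commutatorElement]
      exact (QuotientGroup.eq_one_iff _).2 (hab (commutator_mem_commutator ha hb)) }
  letI : DistribMulAction A (Additive U) :=
    { smul := fun a u => Additive.ofMul (MulAut.conjNormal (π a) u.toMul)
      one_smul := fun u => by
        show Additive.ofMul (MulAut.conjNormal (π 1) u.toMul) = u
        simp
      mul_smul := fun a b u => by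
        show Additive.ofMul (MulAut.conjNormal (π (a * b)) u.toMul) =
          Additive.ofMul (MulAut.conjNormal (π a) (MulAut.conjNormal (π b) u.toMul))
        rw [map_mul, map_mul]; rfl
      smul_zero := fun a => congrArg Additive.ofMul (map_one (MulAut.conjNormal (π a)))
      smul_add := fun a x y => congrArg Additive.ofMul
        (map_mul (MulAut.conjNormal (π a)) x.toMul y.toMul) }
  let e : ∀ x ∈ N, Additive U := fun x hx => Additive.ofMul ⟨π x, x, hx, rfl⟩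
  have es : ∀ u : Additive U, ∃ x, ∃ hx : x ∈ N, u = e x hx := by
    rintro ⟨_, x, hx, rfl⟩; exact ⟨x, hx, rfl⟩
  have ec : ∀ (a : A) x (hx : x ∈ N), a • e x hx = e (a * x * a⁻¹) (hN.conj_mem x hx a) :=
    fun a x hx => congrArg Additive.ofMul (Subtype.ext (by
      show π a * π x * (π a)⁻¹ = π (a * x * a⁻¹)
      simp))
  have ee : ∀ x (hx : x ∈ N) y (hy : y ∈ N), e x hx = e y hy ↔ x * y⁻¹ ∈ K := fun x hx y hy => by
    rw [← QuotientGroup.eq_one_iff (N := K), QuotientGroup.mk_mul, QuotientGroup.mk_inv,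
      mul_inv_eq_one]
    exact ⟨fun h => congrArg (fun u : Additive U => (u.toMul : A ⧸ K)) h,
      fun h => congrArg Additive.ofMul (Subtype.ext h)⟩
  refine ⟨Additive U, inferInstance, inferInstance, inferInstance,
    MonoidHom.mk' (fun x => Multiplicative.ofAdd (e x x.2)) (fun a b => rfl), fun u => ?_, ?_,
    fun x => ?_, fun a x => ec a x x.2, fun T hT => ?_⟩
  · obtain ⟨x, hx, h⟩ := es u.toAdd
    exact ⟨⟨x, hx⟩, congrArg Multiplicative.ofAdd h.symm⟩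
  · have := relIndex_ker (K := N) π
    rw [QuotientGroup.ker_mk'] at this; exact this.symm
  · have := ee x x.2 1 N.one_mem
    rw [inv_one, mul_one] at this; exact this
  · skip
    let L : Subgroup A :=
      { carrier := {x | ∃ hx : x ∈ N, e x hx ∈ T}
        mul_mem' := fun {a b} ⟨ha, h1⟩ ⟨hb, h2⟩ => ⟨N.mul_mem ha hb, T.add_mem h1 h2⟩
        one_mem' := ⟨N.one_mem, T.zero_mem⟩
        inv_mem' := fun {a} ⟨ha, h1⟩ => ⟨N.inv_mem ha, T.neg_mem h1⟩ }
    obtain ⟨L', h1, h2, h3, h4, h5⟩ := hcr L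
      ⟨fun x ⟨hx, h1⟩ a => ⟨hN.conj_mem x hx a, ec a x hx ▸ hT a _ h1⟩⟩
      (fun x hx => ⟨hK hx, by
        rw [(ee x (hK hx) 1 N.one_mem).2 (by simpa using hx)]; exact T.zero_mem⟩)
      (fun x hx => hx.1)
    let T' : AddSubgroup (Additive U) :=
      { carrier := {u | ∃ x, ∃ hx : x ∈ L', u = e x (h3 hx)}
        add_mem' := by
          rintro _ _ ⟨a, ha, rfl⟩ ⟨b, hb, rfl⟩; exact ⟨a * b, L'.mul_mem ha hb, rfl⟩
        zero_mem' := ⟨1, L'.one_mem, rfl⟩
        neg_mem' := by rintro _ ⟨a, ha, rfl⟩; exact ⟨a⁻¹, L'.inv_mem ha, rfl⟩ }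
    refine ⟨T', ?_, ?_, ?_⟩
    · rintro a _ ⟨x, hx, rfl⟩; exact ⟨_, h1.conj_mem x hx a, ec a x (h3 hx)⟩
    · rw [eq_bot_iff]; rintro _ ⟨x1, x, hx, rfl⟩
      exact (ee x (h3 hx) 1 N.one_mem).2 (by simpa using h4 x ⟨h3 hx, x1⟩ hx)
    · rw [eq_top_iff]; intro u _
      obtain ⟨x, hx, rfl⟩ := es u
      obtain ⟨a, ⟨ha, ha'⟩, b, hb, rfl⟩ := h5 x hx
      exact AddSubgroup.mem_sup.2 ⟨_, ha', _, ⟨b, hb, rfl⟩, rfl⟩

end CA.H9Reg
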