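import Cfsg.Agent.Lib.Solv.H9Reg4

/-! Regular orbits of odd order groups on pairs of vectors: size estimates. -/
set_option autoImplicit false
set_option linter.all false
namespace CA.H9Reg
open Subgroup CA.PGClassTwo
open scoped commutatorElement
variable {A : Type*} [Group A] [Finite A] {Z E : Subgroup A}
  {V : Type*} [AddCommGroup V] [Finite V] [DistribMulAction A V]

theorem shape [Nontrivial V] (s : St Z E) (ho : Odd (Nat.card A)) (hsr : SR V Z) :
    ∃ m, Nat.card E = Nat.card Z * m ^ 2 ∧ (Nat.card Z + 1) ^ m ≤ Nat.card V ∧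
      ∀ p, p.Prime → p ∣ m → p ∣ Nat.card Z := by
  haveI := s.nZ; haveI := s.nE; haveI := s.cyc
  obtain ⟨Y, -, hYE, h0, hmax⟩ := exists_max (W := V) (B := E) bot_le (by
    rw [show FX V (⊥ : Subgroup A) = ⊤ from eq_top_iff.2 fun v _ y hy => by
      rw [mem_bot.1 hy, one_smul]]; exact top_ne_bot)
  obtain ⟨⟨w, hw⟩, w0⟩ := AddSubgroup.ne_bot_iff_exists_ne_zero.1 h0
  have w0' : w ≠ 0 := fun e => w0 (Subtype.ext e)
  have hYZ : ∀ y ∈ Y, y ∈ Z → y = 1 := fun y h1 h2 => (hsr y h2 w (hw y h1)).resolve_right w0'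
  have hYc : Y ≤ centralizer (Y : Set A) := fun a ha b hb =>
    commutatorElement_eq_one_iff_mul_comm.1 (hYZ _ (by
      rw [commutatorElement_def]
      exact Y.mul_mem (Y.mul_mem (Y.mul_mem hb ha) (Y.inv_mem hb)) (Y.inv_mem ha))
      (s.cm (hYE hb) (hYE ha)))
  have hZc : Z ≤ centralizer (E : Set A) := le_centralizer_iff.1 s.EC
  set C := E ⊓ centralizer (Y : Set A) with hC
  have hZC : Z ≤ C := le_inf s.ZE (hZc.trans (centralizer_le hYE))
  have hYC : Y ≤ C := le_inf hYE hYc
  have iv : Iv C (FX V Y) := fun c hc v hv y hy => by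
    rw [← mul_smul, ← (cz hc.2 hy).eq, mul_smul, hv y hy]
  have inj : ∀ (X : Subgroup A) (h1 : Z ≤ X) (h2 : Y ≤ X), Function.Injective
      fun p : Z × Y => (⟨p.1 * p.2, X.mul_mem (h1 p.1.2) (h2 p.2.2)⟩ : X) := by
    rintro X h1 h2 ⟨a, b⟩ ⟨c, d⟩ h
    have h' : (a : A) * b = c * d := congrArg Subtype.val h
    have e : (b : A) * (d : A)⁻¹ = (a : A)⁻¹ * c := by
      rw [mul_inv_eq_iff_eq_mul, mul_assoc, ← h']; group
    have e1 := hYZ _ (Y.mul_mem b.2 (Y.inv_mem d.2)) (e ▸ Z.mul_mem (Z.inv_mem a.2) c.2)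
    rw [e1, eq_comm, inv_mul_eq_one] at e
    exact Prod.ext (Subtype.ext e) (Subtype.ext (mul_inv_eq_one.1 e1))
  have dec : ∀ c ∈ C, ∃ a ∈ Z, ∃ b ∈ Y, a * b = c := fun c hc => by
    let T := C ⊓ centralizer ({c} : Set A)
    let B := T ⊓ centralizer (T : Set A)
    have b1 : Z ≤ B := fun a ha => ⟨⟨hZC ha, by rintro _ rfl; exact hZc ha _ hc.1⟩,
      fun t ht => hZc ha t ht.1.1⟩
    have b2 : Y ≤ B := fun a ha => ⟨⟨hYC ha, by rintro _ rfl; exact (cz hc.2 ha).eq⟩,
      fun t ht => (cz ht.1.2 ha).eq⟩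
    have b3 : c ∈ B := ⟨⟨hc, by rintro _ rfl; rfl⟩, fun t ht => (ht.2 c rfl).symm⟩
    obtain ⟨K, hK, k1, k2⟩ := cyc_sub (B := B) (W := FX V Y) (fun a ha => iv a ha.1.1) h0
      (fun a ha b hb => (cz ha.2 hb.1).eq) (fun b hb => hmax b hb.1.1.1)
    have c1 : Nat.card (B ⧸ K) ≤ Nat.card Z := by
      rw [← IsCyclic.exponent_eq_card]
      refine Nat.le_of_dvd Nat.card_pos (Monoid.exponent_dvd_of_forall_pow_eq_one fun q => ?_)
      induction q using QuotientGroup.induction_on with
      | H b =>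
        rw [← QuotientGroup.mk_pow, show b ^ Nat.card Z = 1 from Subtype.ext (s.exp ho b.2.1.1.1)]
        rfl
    have c2 : Nat.card K ≤ Nat.card Y := Nat.card_le_card_of_injective
      (fun k => ⟨k.1.1, k2 _ k.2⟩) fun a b h => Subtype.ext (Subtype.ext
        (congrArg (fun y : Y => (y : A)) h))
    obtain ⟨p, hp⟩ := ((inj B b1 b2).bijective_of_nat_card_le (by
      rw [Nat.card_prod, card_eq_card_quotient_mul_card_subgroup K]
      exact Nat.mul_le_mul c1 c2)).2 ⟨c, b3⟩
    exact ⟨_, p.1.2, _, p.2.2, congrArg Subtype.val hp⟩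
  have cC : Nat.card C = Nat.card Z * Nat.card Y := by
    rw [← Nat.card_prod]
    refine (Nat.card_eq_of_bijective _ ⟨inj C hZC hYC, fun c => ?_⟩).symm
    obtain ⟨a, ha, b, hb, e⟩ := dec c c.2
    exact ⟨(⟨a, ha⟩, ⟨b, hb⟩), Subtype.ext e⟩
  have r0 : (centralizer (E : Set A)).relIndex Y = Nat.card Y := by
    rw [← inf_relIndex_right, show centralizer (E : Set A) ⊓ Y = ⊥ from eq_bot_iff.2 fun y hy =>
      hYZ y hy.2 (s.cent s.ZE le_rfl ⟨hYE hy.2, hy.1⟩), relIndex_bot_left]
  have r1 : (centralizer (Y : Set A)).relIndex E = Nat.card Y := by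
    rw [← r0]
    exact le_antisymm (dual (fun x hx y hy => s.cm hx (hYE hy)) s.EC (hYE.trans s.EC))
      (dual (fun x hx y hy => s.cm (hYE hx) hy) (hYE.trans s.EC) s.EC)
  refine ⟨Nat.card Y, ?_, ?_, fun p hp hd => ?_⟩
  · have := relIndex_mul_relIndex ⊥ C E bot_le inf_le_left
    rw [relIndex_bot_left, relIndex_bot_left, hC, inf_comm, inf_relIndex_right, r1, inf_comm,
      ← hC, cC] at this
    rw [← this]; ring
  · haveI : (C.subgroupOf E).Normal := ⟨fun b hb g => by
      rw [mem_subgroupOf, Subgroup.coe_mul, Subgroup.coe_mul, Subgroup.coe_inv, conj_eq_comm_mul]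
      exact C.mul_mem (hZC (s.cm g.2 b.2)) hb⟩
    have eF : ∀ v : V, v ∈ FX V (Y.subgroupOf E) ↔ v ∈ FX V Y := fun v =>
      ⟨fun h y hy => h ⟨y, hYE hy⟩ hy, fun h y hy => h y hy⟩
    obtain ⟨i1, i2⟩ := fix_ind (V := V) (B := C.subgroupOf E) (Y := Y.subgroupOf E) (fun a ha b hb => by
        obtain ⟨x, hx, y, hy, e⟩ := dec b hb
        apply Subtype.ext
        show (a : A) * b = b * a
        rw [← e]
        exact ((cz (hZc hx) a.2).symm.mul_right (cz ha.2 hy)).eq)
      (fun y hy => hYC hy) (fun b hb v hv e => hmax b b.2 v ((eF v).1 hv) e)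
    refine le_trans ?_ (card_pow i1 i2)
    have j1 : Nat.card Y ≤ (normalizer ((Y.subgroupOf E : Subgroup E) : Set E)).index := by
      rw [← r1]
      refine index_antitone fun g hg y hy => ?_
      have := (mem_normalizer_iff.1 hg ⟨y, hYE hy⟩).1 hy
      rw [mem_subgroupOf, Subgroup.coe_mul, Subgroup.coe_mul, Subgroup.coe_inv, conj_eq_comm_mul] at this
      exact (commutatorElement_eq_one_iff_mul_comm.1 (hYZ _ ((Y.mul_mem_cancel_right hy).1 this)
        (s.cm g.2 (hYE hy)))).symm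
    have j2 : Nat.card Z + 1 ≤ Nat.card (FX V (Y.subgroupOf E)) := by
      rw [← Finite.card_option]
      refine Nat.card_le_card_of_injective (fun o => o.elim 0 fun a =>
        ⟨(a : A) • w, (eF _).2 (iv _ (hZC a.2) w hw)⟩) ?_
      have nz : ∀ a : A, a • w ≠ 0 := fun a h => w0' (by simpa using congrArg (a⁻¹ • ·) h)
      rintro (_ | a) (_ | b) h
      · rfl
      · exact absurd (congrArg Subtype.val h).symm (nz _)
      · exact absurd (congrArg Subtype.val h) (nz _)
      · have h' : (a : A) • w = (b : A) • w := congrArg Subtype.val h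
        have := (hsr _ (Z.mul_mem (Z.inv_mem b.2) a.2) w (by
          rw [mul_smul, h', inv_smul_smul])).resolve_right w0'
        rw [Subtype.ext (inv_mul_eq_one.1 this)]
    exact (Nat.pow_le_pow_left j2 _).trans (Nat.pow_le_pow_right Nat.card_pos j1)
  · haveI := Fact.mk hp
    obtain ⟨y, hy⟩ := exists_prime_orderOf_dvd_card' p hd
    rw [← hy]
    exact orderOf_dvd_of_pow_eq_one (Subtype.ext (s.exp ho (hYE y.2)))

theorem lev {H U B : Type*} [Group H] [Finite H] [AddCommGroup U] [Finite U] [DistribMulAction H U]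
    [Group B] (ho : Odd (Nat.card H)) (hU : Odd (Nat.card U)) (ω : U → U → B)
    (w1 : ∀ u v v', ω u (v + v') = ω u v * ω u v') (w2 : ∀ u v, ω v (-u) = ω u v)
    (w3 : ∀ (h : H) u v, ω (h • u) (h • v) = ω u v) (w4 : ∀ u, (∀ v, ω u v = 1) → u = 0)
    {x y : U} (hb : ∀ h : H, h • x = x → h • y = y → h = 1) {k : ℕ}
    (hk : ∀ d, d ∣ Nat.card U → d ≠ Nat.card U → d ≤ k) :
    Nat.card H = 1 ∨ 4 * Nat.card H ≤ Nat.card U + (Nat.card U - 1) * k := by
  classical
  by_cases h0 : x = 0 ∧ y = 0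
  · left
    rw [Nat.card_eq_one_iff_unique]
    exact ⟨⟨fun a b => by rw [hb a (by simp [h0]) (by simp [h0]), hb b (by simp [h0]) (by simp [h0])]⟩,
      inferInstance⟩
  right
  have two : ∀ u : U, -u = u → u = 0 := fun u h => eq_one_of_sq (A := Multiplicative U) hU
    (g := Multiplicative.ofAdd u) (by
      show u + u = 0
      nth_rw 1 [← h]; simp)
  let σ : U × U → U × U := fun p => (p.2, -p.1)
  have s1 : ∀ (h : H) (i : ℕ) p, h • σ^[i] p = σ^[i] (h • p) := fun h i => by
    induction i with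
    | zero => intro p; rfl
    | succ i ih => intro p; rw [Function.iterate_succ_apply, ih, Function.iterate_succ_apply]; congr 1; simp [σ]
  have s2 : ∀ (i : ℕ) p, ω (σ^[i] p).1 (σ^[i] p).2 = ω p.1 p.2 := fun i => by
    induction i with
    | zero => intro p; rfl
    | succ i ih => intro p; rw [Function.iterate_succ_apply, ih]; exact w2 _ _
  have key : ∀ (g : H) (i j : Fin 4), g • σ^[i] (x, y) = σ^[j] (x, y) → g = 1 ∧ i = j := by
    intro g i j h
    have f2 : ∀ u : U, g • g • u = u → g • u = u := fun u h => fix_of_sq ho (by rw [mul_smul, h])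
    have f4 : ∀ u : U, g • u = -u → u = 0 := fun u h => two u (by
      rw [← h]; exact f2 u (by rw [h, smul_neg, h, neg_neg]))
    have f5 : ∀ u v : U, g • u = v → g • v = -u → u = 0 ∧ v = 0 := fun u v h h' => by
      have e : (g * g) • u = -u := by rw [mul_smul, h, h']
      have : u = 0 := two u (by
        rw [← e]; exact fix_of_sq ho (by rw [mul_smul (g * g), e, smul_neg, e, neg_neg]))
      subst this; exact ⟨rfl, by simpa using h.symm⟩
    have gA := hb g
    have gB : g • x = y → g • y = -x → False := fun a b => h0 (f5 x y a b)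
    have gC : g • x = -y → g • y = x → False := fun a b => h0 (f5 y x b a).symm
    have gD : g • x = -x → g • y = -y → False := fun a b => h0 ⟨f4 x a, f4 y b⟩
    fin_cases i <;> fin_cases j <;>
      simp [σ, Function.iterate_succ_apply, smul_neg, neg_eq_iff_eq_neg] at h ⊢ <;>
      first | exact gA h.1 h.2 | exact gA h.2 h.1 | exact gB h.1 h.2 | exact gB h.2 h.1 |
        exact gC h.1 h.2 | exact gC h.2 h.1 | exact gD h.1 h.2 | exact gD h.2 h.1
  have := Fintype.ofFinite U
  let X := Finset.univ.filter fun p : U × U => ω p.1 p.2 = ω x y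
  have c1 : 4 * Nat.card H ≤ X.card := by
    have := Nat.card_le_card_of_injective (fun p : Fin 4 × H => (⟨p.2 • σ^[p.1] (x, y), by
      simp only [X, Finset.mem_filter, Finset.mem_univ, true_and, Prod.smul_fst, Prod.smul_snd, w3, s2]⟩ : X))
      (by
        rintro ⟨i, a⟩ ⟨j, b⟩ h
        have h' : a • σ^[i] (x, y) = b • σ^[j] (x, y) := congrArg Subtype.val h
        obtain ⟨e1, e2⟩ := key (b⁻¹ * a) i j (by rw [mul_smul, h', inv_smul_smul])
        rw [e2, inv_mul_eq_one.1 e1])
    simpa using this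
  refine c1.trans ?_
  rw [Finset.card_eq_sum_card_fiberwise (f := Prod.fst) (t := Finset.univ) (by simp),
    ← Finset.add_sum_erase _ _ (Finset.mem_univ (0 : U)), Nat.card_eq_fintype_card]
  refine Nat.add_le_add ?_ ?_
  · rw [← Finset.card_univ]
    exact Finset.card_le_card_of_injOn Prod.snd (by simp) fun p hp q hq h => by
      simp only [Finset.coe_filter, Set.mem_setOf_eq] at hp hq
      exact Prod.ext (hp.2.trans hq.2.symm) h
  · rw [← Finset.card_univ, ← Finset.card_erase_of_mem (Finset.mem_univ (0 : U)), ← smul_eq_mul]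
    refine Finset.sum_le_card_nsmul _ _ _ fun u hu => ?_
    have w0 : ω u 0 = 1 := by simpa using w1 u 0 0
    have wn : ∀ v, ω u (-v) = (ω u v)⁻¹ := fun v => by
      rw [eq_inv_iff_mul_eq_one, ← w1, neg_add_cancel, w0]
    let P : AddSubgroup U :=
      { carrier := {v | ω u v = 1}
        add_mem' := fun {a b} ha hb => by
          show ω u (a + b) = 1
          rw [w1, show ω u a = 1 from ha, show ω u b = 1 from hb, one_mul]
        zero_mem' := w0
        neg_mem' := fun {a} ha => by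
          show ω u (-a) = 1
          rw [wn, show ω u a = 1 from ha, inv_one] }
    have hP : Nat.card P ≤ k := hk _ P.card_addSubgroup_dvd_card fun e =>
      (Finset.mem_erase.1 hu).1 (w4 u fun v =>
        (show v ∈ P from (AddSubgroup.card_eq_iff_eq_top P).1 e ▸ trivial))
    refine le_trans ?_ hP
    rcases (X.filter fun p => p.1 = u).eq_empty_or_nonempty with e | ⟨q, hq⟩
    · simp [e]
    rw [← Nat.card_eq_finsetCard]
    have mm : ∀ p ∈ X.filter fun p => p.1 = u, p.1 = u ∧ ω u p.2 = ω x y := fun p hp => by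
      simp only [X, Finset.mem_filter, Finset.mem_univ, true_and] at hp
      exact ⟨hp.2, hp.2 ▸ hp.1⟩
    refine Nat.card_le_card_of_injective (fun p => ⟨p.1.2 - q.2, ?_⟩) fun a b h => ?_
    · show ω u (p.1.2 - q.2) = 1
      rw [sub_eq_add_neg, w1, wn, (mm _ p.2).2, (mm _ hq).2, mul_inv_cancel]
    · exact Subtype.ext (Prod.ext ((mm _ a.2).1.trans (mm _ b.2).1.symm)
        (sub_left_injective (congrArg (fun z : P => (z : U)) h)))

theorem FX_zp (g : A) : FX V (zpowers g) = fx V g := by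
  ext v
  exact ⟨fun h => h g (mem_zpowers g),
    fun h => (zpowers_le (G := A) (H := MulAction.stabilizer A v)).2 h⟩

theorem pg_zp {g : A} {r : ℕ} (h : orderOf g = r) : IsPGroup r (zpowers g) :=
  IsPGroup.of_card (n := 1) (by rw [Nat.card_zpowers, h, pow_one])

theorem pr {r : ℕ} (hr : r.Prime) (h2 : r ≠ 2) (h3 : r ≠ 3) (a b c : ℕ) (h : r ∣ 2 ^ a * 3 ^ b * c) :
    r ∣ c := by
  rcases (Nat.Prime.dvd_mul hr).1 h with h | h
  · rcases (Nat.Prime.dvd_mul hr).1 h with h | h
    · exact absurd ((Nat.prime_dvd_prime_iff_eq hr Nat.prime_two).1 (hr.dvd_of_dvd_pow h)) h2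
    · exact absurd ((Nat.prime_dvd_prime_iff_eq hr Nat.prime_three).1 (hr.dvd_of_dvd_pow h)) h3
  · exact h

theorem nine (ho : Odd (Nat.card A)) (hf : ∀ a : A, (∀ u : V, a • u = u) → a = 1) (hcr : CR A V)
    (h81 : Nat.card V = 81) {G : Subgroup A} [G.Normal]
    (sym : ∀ g ∈ G, ∀ x : V, x ≠ 0 → g • x = x → ∃ P : AddSubgroup V, P ≠ ⊤ ∧ x ∈ P ∧
      ∀ u, g • u - u ∈ P) {g : A} (hg : g ∈ G) (g1 : g ≠ 1) {x : V} (hx : g • x = x) : x = 0 := by
  have hs := CA.PF.odd_solvable A ho
  have crd : ∀ W : AddSubgroup V, W ≠ ⊥ → W ≠ ⊤ →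
      Nat.card W = 3 ∨ Nat.card W = 9 ∨ Nat.card W = 27 := fun W h1 h2 => by
    have d := W.card_addSubgroup_dvd_card
    have n1 : Nat.card W ≠ 1 := fun e => h1 (AddSubgroup.card_eq_one.1 e)
    have n2 : Nat.card W ≠ Nat.card V := fun e => h2 ((AddSubgroup.card_eq_iff_eq_top W).1 e)
    rw [h81] at d n2
    obtain ⟨i, hi, e⟩ := (Nat.dvd_prime_pow Nat.prime_three (m := 4)).1 d
    rw [e] at n1 n2 ⊢
    interval_cases i <;> simp_all
  have md : ∀ (a : A) (r : ℕ), r.Prime → orderOf a = r → 81 ≡ Nat.card (fx V a) [MOD r] :=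
    fun a r hr ha => by
      haveI := Fact.mk hr
      have := modp (W := (⊤ : AddSubgroup V)) (fun _ _ _ _ => trivial) (pg_zp ha)
      rwa [top_inf_eq, FX_zp, AddSubgroup.card_top, h81] at this
  have od : ∀ (a : A) (r : ℕ), orderOf a = r → r ≠ 2 := fun a r ha e => by
    have := ho.of_dvd_nat (orderOf_dvd_natCard a)
    rw [ha, e] at this; exact absurd this (by decide)
  have ntop : ∀ a : A, a ≠ 1 → fx V a ≠ ⊤ := fun a a1 e =>
    a1 (hf a fun u => (show u ∈ fx V a from e ▸ trivial))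
  have h1 : ∀ a ∈ G, ∀ r : ℕ, r.Prime → orderOf a = r → r ≠ 3 → fx V a = ⊥ := by
    intro a ha r hr hor r3
    by_contra hn
    have a1 : a ≠ 1 := fun e => hr.ne_one (by rw [← hor, e, orderOf_one])
    have m := (md a r hr hor).symm.dvd
    have r2 := od a r hor
    have hc := crd _ hn (ntop a a1)
    have : r = 13 ∧ Nat.card (fx V a) = 3 := by
      rcases hc with e | e | e <;> rw [e] at m <;> norm_num at m
      · have : r ∣ 78 := by exact_mod_cast m
        exact ⟨(Nat.prime_dvd_prime_iff_eq hr (by norm_num)).1 (pr hr r2 r3 1 1 13 this), e⟩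
      · have : r ∣ 72 := by exact_mod_cast m
        exact absurd (Nat.dvd_one.1 (pr hr r2 r3 3 2 1 this)) hr.ne_one
      · have : r ∣ 54 := by exact_mod_cast m
        exact absurd (Nat.dvd_one.1 (pr hr r2 r3 1 3 1 this)) hr.ne_one
    obtain ⟨rfl, c3⟩ := this
    obtain ⟨⟨z, hz⟩, z0⟩ := AddSubgroup.ne_bot_iff_exists_ne_zero.1 hn
    have z0' : z ≠ 0 := fun e => z0 (Subtype.ext e)
    obtain ⟨P, p1, p2, p3⟩ := sym a ha z z0' hz
    let f : V →+ V := DistribSMul.toAddMonoidHom V a - AddMonoidHom.id V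
    have fk : f.ker = fx V a := by ext v; exact sub_eq_zero
    have fr : Nat.card f.range = 27 := by
      have := AddSubgroup.card_mul_index f.ker
      rw [AddSubgroup.index_ker, fk, c3, h81] at this; omega
    have : f.range = P := AddSubgroup.eq_of_le_of_card_ge (by rintro _ ⟨u, rfl⟩; exact p3 u) (by
      rcases crd P (fun e => z0' (by simpa [e] using p2)) p1 with e | e | e <;> omega)
    obtain ⟨u, hu⟩ : z ∈ f.range := this ▸ p2
    have hu' : a • u = u + z := by rw [← hu]; simp [f]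
    have it : ∀ n : ℕ, a ^ n • u = u + n • z := fun n => by
      induction n with
      | zero => simp
      | succ n ih => rw [pow_succ', mul_smul, ih, smul_add, hu', smul_comm, mem_fx.1 hz, succ_nsmul]; abel
    have e13 := it 13
    rw [← hor, pow_orderOf_eq_one, hor, one_smul, left_eq_add] at e13
    have e81 : 81 • z = 0 := h81 ▸ card_nsmul_eq_zero'
    apply z0'
    calc z = 25 • (13 • z) - 4 • (81 • z) := by abel
      _ = 0 := by rw [e13, e81]; simp
  obtain ⟨L, hL, l1, l2, l3, l4⟩ := ab_step hs (K := ⊥) (D := G)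
    (bot_lt_iff_ne_bot.2 fun e => g1 (by simpa [e] using hg))
  have lc : ∀ a ∈ L, ∀ b ∈ L, a * b = b * a := fun a ha b hb =>
    commutatorElement_eq_one_iff_mul_comm.1 (l3 (commutator_mem_commutator ha hb))
  obtain ⟨r, hr, hrd⟩ := Nat.exists_prime_and_dvd (n := Nat.card L)
    fun e => l1.ne' (card_eq_one.1 e)
  haveI := Fact.mk hr
  obtain ⟨l, hl⟩ := exists_prime_orderOf_dvd_card' r hrd
  have hl' : orderOf (l : A) = r := by rw [Subgroup.orderOf_coe, hl]
  have l1' : (l : A) ≠ 1 := fun e => hr.ne_one (by rw [← hl', e, orderOf_one])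
  let T : Subgroup A :=
    { carrier := {a | a ∈ L ∧ a ^ r = 1}
      mul_mem' := fun {a b} ha hb => ⟨L.mul_mem ha.1 hb.1, by
        rw [Commute.mul_pow (lc a ha.1 b hb.1), ha.2, hb.2, one_mul]⟩
      one_mem' := ⟨L.one_mem, one_pow _⟩
      inv_mem' := fun {a} ha => ⟨L.inv_mem ha.1, by rw [inv_pow, ha.2, inv_one]⟩ }
  have hT : ∀ a ∈ L, a ^ r = 1 := by
    rcases l4 T ⟨fun a ha b => ⟨hL.conj_mem a ha.1 b, by rw [conj_pow, ha.2]; group⟩⟩ bot_le
      (fun a ha => ha.1) with e | e
    · exact absurd (show (l : A) ∈ (⊥ : Subgroup A) from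
        e ▸ ⟨l.2, by rw [← hl', pow_orderOf_eq_one]⟩) l1'
    · intro a ha; exact (show a ∈ T from e ▸ ha).2
  have r3 : r ≠ 3 := by
    rintro rfl
    obtain ⟨W, w1, w2, w3⟩ := hcr (FX V L) fun a v hv y hy => by
      have := hv _ (hL.conj_mem y hy a⁻¹)
      rwa [inv_inv, mul_smul, mul_smul, inv_smul_eq_iff] at this
    have := modp (H := L) (W := W) (fun a _ => w1 a)
      (show IsPGroup 3 L from fun a => ⟨1, Subtype.ext (by simpa using hT a a.2)⟩)
    rw [inf_comm, w2, AddSubgroup.card_bot] at this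
    have hW : W = ⊥ := by
      by_contra hn
      by_cases ht : W = ⊤
      · rw [ht, AddSubgroup.card_top, h81] at this; exact absurd this (by decide)
      · rcases crd W hn ht with e | e | e <;> rw [e] at this <;> exact absurd this (by decide)
    rw [hW, sup_bot_eq] at w3
    exact l1' (hf _ fun u => (show u ∈ FX V L from w3 ▸ trivial) _ l.2)
  have lf := h1 _ (l2 l.2) r hr hl' r3
  have r5 : r = 5 := by
    have m := (md _ r hr hl').symm.dvd
    rw [lf, AddSubgroup.card_bot] at m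
    norm_num at m
    have : r ∣ 80 := by exact_mod_cast m
    exact (Nat.prime_dvd_prime_iff_eq hr (by norm_num)).1 (pr hr (od _ r hl') r3 4 0 5 this)
  subst r5
  haveI : Nontrivial V := Finite.one_lt_card_iff_nontrivial.1 (by omega)
  haveI : IsCyclic L := SR.cyc (V := V) (fun a ha v hv => by
    by_cases a1 : a = 1
    · exact Or.inl a1
    · exact Or.inr (show v ∈ (⊥ : AddSubgroup V) from
        h1 a (l2 ha) 5 hr (orderOf_eq_prime (hT a ha) a1) r3 ▸ hv)) lc
  have cL : Nat.card L = 5 := Nat.dvd_antisymm (by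
    rw [← IsCyclic.exponent_eq_card]
    exact Monoid.exponent_dvd_of_forall_pow_eq_one fun a => Subtype.ext (hT a a.2)) hrd
  have ic := index_cent (Z := L) ho (by omega)
  have ct : centralizer (L : Set A) = ⊤ := by
    have h2 : Odd (centralizer (L : Set A)).index := ho.of_dvd_nat (index_dvd_card _)
    rw [cL] at ic
    obtain ⟨k, hk⟩ := h2
    exact index_eq_one.1 (by omega)
  by_contra x0
  have nb : fx V g ≠ ⊥ := fun e => x0 (show x ∈ (⊥ : AddSubgroup V) from e ▸ hx)
  have := modp (H := zpowers (l : A)) (W := fx V g) (fun b hb v hv => by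
    rw [mem_fx, ← mul_smul, (cz (show g ∈ centralizer (L : Set A) from ct ▸ trivial)
      (zpowers_le.2 l.2 hb)).eq, mul_smul, mem_fx.1 hv]) (pg_zp hl')
  rw [FX_zp, lf, inf_bot_eq, AddSubgroup.card_bot] at this
  rcases crd _ nb (ntop g g1) with e | e | e <;>
    rw [e] at this <;> exact absurd this (by decide)

end CA.H9Reg
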