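import Cfsg.Agent.Lib.Solv.H9Reg5

/-! Regular orbits of odd order groups on pairs of vectors: the main theorem. -/
set_option autoImplicit false
set_option linter.all false
namespace CA.H9Reg
open Subgroup CA.PGClassTwo
open scoped commutatorElement
universe u

theorem big {m : ℕ} (h : 23 ≤ m) : m ^ 12 ≤ 729 * 4 ^ m := by
  induction m, h using Nat.le_induction with
  | base => norm_num
  | succ m hm ih =>
    have h1 : (10 * (m + 1)) ^ 12 ≤ (11 * m) ^ 12 := Nat.pow_le_pow_left (by omega) _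
    rw [mul_pow, mul_pow] at h1
    rw [pow_succ 4]
    generalize (m + 1) ^ 12 = a at *
    generalize m ^ 12 = b at *
    generalize 4 ^ m = c at *
    norm_num at h1; omega

theorem num1 {m z : ℕ} (h1 : Odd m) (h2 : 3 ≤ m) (hz : 3 ≤ z) :
    ∃ T, T ^ 3 ≤ (z + 1) ^ m ∧ ∀ a, a + z = z * m ^ 2 → a < 2 * T ^ 2 := by
  obtain ⟨j, rfl⟩ := h1
  obtain ⟨i, rfl⟩ : ∃ i, j = i + 1 := ⟨j - 1, by omega⟩
  refine ⟨(z + 1) * (i + 1), ?_, fun a ha => ?_⟩
  · rw [mul_pow, show 2 * (i + 1) + 1 = 3 + 2 * i by ring, pow_add]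
    refine Nat.mul_le_mul_left _ ?_
    calc (i + 1) ^ 3 ≤ (2 ^ i) ^ 3 := Nat.pow_le_pow_left Nat.lt_two_pow_self _
      _ = 8 ^ i := by rw [← pow_mul, mul_comm, pow_mul]; norm_num
      _ ≤ ((z + 1) ^ 2) ^ i := Nat.pow_le_pow_left (by nlinarith) _
      _ = _ := by rw [← pow_mul]
  · have e : a = 4 * z * ((i + 1) * (i + 2)) := by nlinarith
    have e1 : 4 * z < (z + 1) ^ 2 := by nlinarith
    have e2 : (i + 1) * (i + 2) ≤ 2 * (i + 1) ^ 2 := by nlinarith
    calc a ≤ 4 * z * (2 * (i + 1) ^ 2) := e ▸ Nat.mul_le_mul_left _ e2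
      _ < (z + 1) ^ 2 * (2 * (i + 1) ^ 2) := Nat.mul_lt_mul_of_pos_right e1 (by positivity)
      _ = _ := by ring

theorem num2 {m z c f : ℕ} (h1 : Odd m) (h2 : 3 ≤ m) (hz : 3 ≤ z) (oz : Odd z) (of : Odd f)
    (hp : ∀ p, p.Prime → p ∣ m → p ∣ z) (hf : 2 * f < z)
    (hc : c = 1 ∨ ((∀ k, (∀ d, d ∣ m ^ 2 → d ≠ m ^ 2 → d ≤ k) → 4 * c ≤ m ^ 2 + (m ^ 2 - 1) * k) ∧
      (m = 9 → c ≤ 80))) :
    ∃ T, T ^ 3 ≤ (z + 1) ^ m ∧ ∀ a b, a + 1 = c → b + c ≤ c * f → a * T + b < 2 * T ^ 2 := by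
  have gen : c ^ 3 ≤ (z + 1) ^ m → ∃ T, T ^ 3 ≤ (z + 1) ^ m ∧
      ∀ a b, a + 1 = c → b + c ≤ c * f → a * T + b < 2 * T ^ 2 := fun h => by
    refine ⟨max (z + 1) c, ?_, fun a b ha hb => ?_⟩
    · rcases max_choice (z + 1) c with e | e <;> rw [e]
      · exact Nat.pow_le_pow_right (by omega) h2
      · exact h
    · have t1 := le_max_left (z + 1) c
      have t2 := le_max_right (z + 1) c
      generalize max (z + 1) c = T at *
      have := Nat.mul_le_mul t2 (show f ≤ T by omega)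
      have := Nat.mul_le_mul_right T (show a ≤ T by omega)
      nlinarith
  have gen' : ∀ C Y, c ≤ C → Y ≤ z + 1 → C ^ 3 ≤ Y ^ m → ∃ T, T ^ 3 ≤ (z + 1) ^ m ∧
      ∀ a b, a + 1 = c → b + c ≤ c * f → a * T + b < 2 * T ^ 2 := fun C Y a b d =>
    gen ((Nat.pow_le_pow_left a _).trans (d.trans (Nat.pow_le_pow_left b _)))
  rcases hc with rfl | ⟨hk, h9⟩
  · exact gen (by simpa using Nat.one_le_pow _ _ (by omega))
  obtain ⟨f', hf'⟩ := of
  obtain ⟨z', hz'⟩ := oz
  have k3 := hk (m ^ 2 / 3) fun d ⟨e, he⟩ hd => by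
    have : Odd e := (Nat.odd_mul.1 (he ▸ h1.pow : Odd (d * e))).2
    obtain ⟨e', rfl⟩ := this
    have : e' ≠ 0 := by rintro rfl; simp_all
    rw [Nat.le_div_iff_mul_le (by norm_num), he]
    exact Nat.mul_le_mul_left _ (by omega)
  have kp : ∀ p, p.Prime → m = p → 4 * c ≤ m ^ 2 + (m ^ 2 - 1) * m := fun p hp' e =>
    hk m fun d hd hd' => by
      subst e
      obtain ⟨i, hi, rfl⟩ := (Nat.dvd_prime_pow hp').1 hd
      interval_cases i <;> simp_all [hp'.one_le]
  by_cases hm : 11 ≤ m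
  · have c9 : 9 * c ≤ m ^ 4 := by
      have := Nat.div_mul_le_self (m ^ 2) 3
      obtain ⟨q, hq⟩ : ∃ q, m ^ 2 = q + 1 := ⟨m ^ 2 - 1, by have := Nat.one_le_pow 2 m (by omega); omega⟩
      have q1 : 120 ≤ q := by nlinarith
      rw [show m ^ 4 = m ^ 2 * m ^ 2 by ring]
      rw [hq] at this k3 ⊢
      simp only [Nat.add_sub_cancel] at k3
      nlinarith [Nat.mul_le_mul_left q this]
    have fin : ∀ Y, Y ≤ z + 1 → m ^ 12 ≤ 729 * Y ^ m → ∃ T, T ^ 3 ≤ (z + 1) ^ m ∧
        ∀ a b, a + 1 = c → b + c ≤ c * f → a * T + b < 2 * T ^ 2 := fun Y hY h => by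
      refine gen' c Y le_rfl hY ?_
      have := Nat.pow_le_pow_left c9 3
      rw [mul_pow, ← pow_mul] at this
      norm_num at this; omega
    by_cases hm' : 23 ≤ m
    · exact fin 4 (by omega) (big hm')
    have zp : ∀ p, p.Prime → p ∣ m → p + 1 ≤ z + 1 := fun p a b =>
      Nat.succ_le_succ (Nat.le_of_dvd (by omega) (hp p a b))
    obtain ⟨j, hj⟩ := h1
    have : m = 11 ∨ m = 13 ∨ m = 15 ∨ m = 17 ∨ m = 19 ∨ m = 21 := by omega
    rcases this with rfl | rfl | rfl | rfl | rfl | rfl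
    · exact fin _ (zp 11 (by norm_num) (by norm_num)) (by norm_num)
    · exact fin _ (zp 13 (by norm_num) (by norm_num)) (by norm_num)
    · exact fin _ (zp 5 (by norm_num) (by norm_num)) (by norm_num)
    · exact fin _ (zp 17 (by norm_num) (by norm_num)) (by norm_num)
    · exact fin _ (zp 19 (by norm_num) (by norm_num)) (by norm_num)
    · exact fin _ (zp 7 (by norm_num) (by norm_num)) (by norm_num)
  obtain ⟨j, hj⟩ := h1
  have : m = 3 ∨ m = 5 ∨ m = 7 ∨ m = 9 := by omega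
  rcases this with rfl | rfl | rfl | rfl
  · have := kp 3 (by norm_num) rfl
    obtain ⟨y, hy⟩ := hp 3 (by norm_num) (by norm_num)
    by_cases e : z = 3
    · subst e
      obtain rfl : f = 1 := by omega
      exact ⟨4, by norm_num, fun a b ha hb => by omega⟩
    · exact gen' 8 10 (by omega) (by omega) (by norm_num)
  · have := kp 5 (by norm_num) rfl
    obtain ⟨y, hy⟩ := hp 5 (by norm_num) (by norm_num)
    by_cases e : z = 5
    · subst e
      obtain rfl : f = 1 := by omega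
      exact ⟨19, by norm_num, fun a b ha hb => by omega⟩
    · exact gen' 36 16 (by omega) (by omega) (by norm_num)
  · have := kp 7 (by norm_num) rfl
    obtain ⟨y, hy⟩ := hp 7 (by norm_num) (by norm_num)
    exact gen' 96 8 (by omega) (by omega) (by norm_num)
  · have := h9 rfl
    obtain ⟨y, hy⟩ := hp 3 (by norm_num) (by norm_num)
    by_cases e : z = 3
    · subst e
      obtain rfl : f = 1 := by omega
      exact ⟨64, by norm_num, fun a b ha hb => by omega⟩
    · exact gen' 80 10 (by omega) (by omega) (by norm_num)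

variable {A V : Type u} [Group A] [Finite A] [AddCommGroup V] [Finite V] [DistribMulAction A V]
  {n : ℕ} {Z E : Subgroup A}

theorem cbound (ih : IH.{u} n) (ho : Odd (Nat.card A)) (s : St Z E) {m : ℕ}
    (hm : Nat.card E = Nat.card Z * m ^ 2) (hn : m ^ 2 < n) (om : Odd m) {H : Subgroup A}
    (h1 : H ≤ centralizer (Z : Set A)) (h2 : ∀ h ∈ H, h ∈ E → h = 1) :
    Nat.card H = 1 ∨ ((∀ k, (∀ d, d ∣ m ^ 2 → d ≠ m ^ 2 → d ≤ k) →
      4 * Nat.card H ≤ m ^ 2 + (m ^ 2 - 1) * k) ∧ (m = 9 → Nat.card H ≤ 80)) := by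
  haveI := s.nZ; haveI := s.nE
  have hs := CA.PF.odd_solvable A ho
  obtain ⟨U, _, _, _, e, es, cU, e1, ec, cr⟩ := modx s.ab s.cr s.ZE
  have cU' : Nat.card U = m ^ 2 := by
    have := relIndex_mul_relIndex ⊥ Z E bot_le s.ZE
    rw [relIndex_bot_left, relIndex_bot_left, hm] at this
    rw [cU]; exact Nat.eq_of_mul_eq_mul_left Nat.card_pos this
  obtain ⟨x, y, hb⟩ := ih A U ho cr (cU' ▸ hn)
  choose sec hsec using es
  have ee : ∀ a b : E, e a = e b → ∃ c ∈ Z, (b : A) = a * c := fun a b h =>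
    ⟨(a⁻¹ * b : E), (e1 _).1 (by rw [map_mul, map_inv, h, inv_mul_cancel]), by simp⟩
  have wd : ∀ a b a' b' : E, e a = e a' → e b = e b' → ⁅(a : A), (b : A)⁆ = ⁅(a' : A), (b' : A)⁆ := by
    intro a b a' b' h h'
    obtain ⟨c, hc, k1⟩ := ee _ _ h
    obtain ⟨d, hd, k2⟩ := ee _ _ h'
    have z1 : ⁅c, (b' : A)⁆ = 1 := (cz (s.EC b'.2) hc).symm.commutator_eq
    have z2 : ⁅(a : A), d⁆ = 1 := (cz (s.EC a.2) hd).commutator_eq
    rw [k1, commutatorElement_mul_left_eq_conj_mul, z1, k2, commutatorElement_mul_right_eq_mul_conj, z2]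
    group
  let ω : U → U → A := fun u v => ⁅(sec (Multiplicative.ofAdd u) : A), (sec (Multiplicative.ofAdd v) : A)⁆
  have we : ∀ a b : E, ω (e a).toAdd (e b).toAdd = ⁅(a : A), (b : A)⁆ := fun a b =>
    wd _ _ _ _ (hsec _) (hsec _)
  have su : ∀ u : U, ∃ a : E, (e a).toAdd = u := fun u => ⟨_, congrArg Multiplicative.toAdd (hsec (Multiplicative.ofAdd u))⟩
  have w1 : ∀ u v v', ω u (v + v') = ω u v * ω u v' := fun u v v' => by
    obtain ⟨a, rfl⟩ := su u; obtain ⟨b, rfl⟩ := su v; obtain ⟨c, rfl⟩ := su v'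
    rw [← toAdd_mul, ← map_mul, we, we, we]
    exact comm_mul_right (cz (s.EC b.2) (s.cm a.2 c.2))
  have w2 : ∀ u v, ω v (-u) = ω u v := fun u v => by
    obtain ⟨a, rfl⟩ := su u; obtain ⟨b, rfl⟩ := su v
    rw [← toAdd_inv, ← map_inv, we, we]
    have := (cz (s.EC a.2) (s.cm a.2 b.2)).eq
    calc ⁅(b : A), ((a⁻¹ : E) : A)⁆ = (a : A)⁻¹ * (⁅(a : A), (b : A)⁆ * a) := by
          simp only [commutatorElement_def, Subgroup.coe_inv]; group
      _ = _ := by rw [← this]; group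
  have w3 : ∀ h ∈ centralizer (Z : Set A), ∀ u v, ω (h • u) (h • v) = ω u v := fun h hh u v => by
    obtain ⟨a, rfl⟩ := su u; obtain ⟨b, rfl⟩ := su v
    rw [ec, ec, we, we]
    have := (cz hh (s.cm a.2 b.2)).eq
    calc _ = h * ⁅(a : A), (b : A)⁆ * h⁻¹ := by simp only [commutatorElement_def]; group
      _ = _ := by rw [this]; group
  have w4 : ∀ u, (∀ v, ω u v = 1) → u = 0 := fun u h => by
    obtain ⟨a, rfl⟩ := su u
    have : e a = 1 := (e1 a).2 (s.cent s.ZE le_rfl ⟨a.2, fun b hb =>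
      (commutatorElement_eq_one_iff_mul_comm.1 ((we a ⟨b, hb⟩).symm.trans (h _))).symm⟩)
    rw [this]; rfl
  have kr : ∀ h ∈ H, (∀ u : U, h • u = u) → h = 1 := fun h hh k => h2 h hh (s.ker hs (h1 hh)
    fun a ha => by
      have := k (e ⟨a, ha⟩).toAdd
      rw [ec] at this
      exact (e1 (⟨h * a * h⁻¹, s.nE.conj_mem _ ha h⟩ * ⟨a, ha⟩⁻¹)).1 (by
        rw [map_mul, map_inv, Multiplicative.toAdd.injective this, mul_inv_cancel]))
  by_cases c1 : Nat.card H = 1
  · exact Or.inl c1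
  refine Or.inr ⟨fun k hk => ?_, fun h9 => ?_⟩
  · rw [← cU'] at hk ⊢
    exact (lev (odd_sub ho H) (cU' ▸ om.pow) ω w1 w2 (fun h => w3 h (h1 h.2)) w4
      (fun h a b => Subtype.ext (kr _ h.2 (hb h a b))) hk).resolve_left c1
  · subst h9
    obtain ⟨G, _, _, _, π, p1, p2, p3⟩ := faith A U
    haveI : ((centralizer (Z : Set A)).map π).Normal := Normal.map inferInstance π p1
    have key := fun g hg g1 x hx => nine (A := G) (V := U) (G := (centralizer (Z : Set A)).map π)
      (ho.of_dvd_nat (card_dvd_of_surjective π p1)) p3 (fun T hT => by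
        obtain ⟨W, a, b⟩ := cr T fun a v hv => p2 a v ▸ hT _ v hv
        exact ⟨W, fun g w hw => by obtain ⟨g, rfl⟩ := p1 g; rw [p2]; exact a g w hw, b⟩) cU' (by
        rintro _ ⟨g, hg, rfl⟩ u u0 hu
        rw [p2] at hu
        have w0 : ω u 0 = 1 := by simpa using w1 u 0 0
        have wn : ∀ v, ω u (-v) = (ω u v)⁻¹ := fun v => by
          rw [eq_inv_iff_mul_eq_one, ← w1, neg_add_cancel, w0]
        refine ⟨{ carrier := {v | ω u v = 1}
                  add_mem' := fun {a b} ha hb => by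
                    show ω u (a + b) = 1
                    rw [w1, show ω u a = 1 from ha, show ω u b = 1 from hb, one_mul]
                  zero_mem' := w0
                  neg_mem' := fun {a} ha => by
                    show ω u (-a) = 1
                    rw [wn, show ω u a = 1 from ha, inv_one] }, fun h => u0 (w4 u fun v =>
                    (AddSubgroup.eq_top_iff' _).1 h v), commutatorElement_self _, fun v => ?_⟩
        show ω u (π g • v - v) = 1
        rw [p2, sub_eq_add_neg, w1, wn]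
        nth_rw 1 [← hu]
        rw [w3 g hg, mul_inv_cancel]) (g := g) hg g1 (x := x) hx
    haveI : Nontrivial U := Finite.one_lt_card_iff_nontrivial.1 (by omega)
    obtain ⟨u, u0⟩ := exists_ne (0 : U)
    have := Nat.card_le_card_of_injective (fun o : Option H => o.elim 0 fun a => (a : A) • u) (by
      have nz : ∀ a : A, a • u ≠ 0 := fun a h => u0 (by simpa using congrArg (a⁻¹ • ·) h)
      rintro (_ | a) (_ | b) h
      · rfl
      · exact absurd h.symm (nz _)
      · exact absurd h (nz _)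
      · have h' : (a : A) • u = (b : A) • u := h
        have hm := H.mul_mem (H.inv_mem b.2) a.2
        have : π ((b : A)⁻¹ * a) = 1 := by
          by_contra hne
          exact u0 (key _ ⟨_, h1 hm, rfl⟩ hne u (by rw [p2, mul_smul, h', inv_smul_smul]))
        rw [Subtype.ext (inv_mul_eq_one.1 (kr _ hm fun v => by rw [← p2, this, one_smul]))])
    rw [Finite.card_option, cU'] at this; omega

theorem prim [Nontrivial V] (ih : IH.{u} (Nat.card V)) (ho : Odd (Nat.card A))
    (h : ∀ B : Subgroup A, B.Normal → (∀ a ∈ B, ∀ b ∈ B, a * b = b * a) → SR V B) : B2 A V := by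
  classical
  have hs := CA.PF.odd_solvable A ho
  obtain ⟨Z, E, s⟩ := exists_St fun B h1 h2 => (h B h1 h2).cyc h2
  haveI := s.nZ; haveI := s.nE; haveI := s.cyc
  have zc : ∀ a ∈ Z, ∀ b ∈ Z, a * b = b * a := fun a ha b hb => (cz (s.EC (s.ZE ha)) hb).eq
  have sr := h Z s.nZ zc
  by_cases hE : E ≤ Z
  · obtain ⟨v, v0⟩ := exists_ne (0 : V)
    obtain ⟨g, hg⟩ := IsCyclic.exists_generator (α := Z)
    refine ⟨v, (g : A) • v, fun a a1 a2 u => ?_⟩
    have k1 := (sr _ (Z.mul_mem (Z.inv_mem g.2) (s.nZ.conj_mem _ g.2 a)) v (by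
      rw [mul_smul, mul_smul, mul_smul, inv_smul_eq_iff.2 a1.symm, a2, inv_smul_smul])).resolve_right v0
    have k2 : Commute a (g : A) := by
      rw [inv_mul_eq_one, eq_mul_inv_iff_mul_eq] at k1; exact k1.symm
    have k3 : a ∈ centralizer (Z : Set A) := fun b hb => by
      obtain ⟨k, hk⟩ := hg ⟨b, hb⟩
      rw [show b = (g : A) ^ k from (congrArg Subtype.val hk).symm]; exact (k2.zpow_right k).symm
    rw [(sr a (hE (s.ker hs k3 fun x hx => by
      rw [(cz k3 (hE hx)).commutator_eq]; exact Z.one_mem)) v a1).resolve_right v0, one_smul]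
  obtain ⟨m, m1, m2, m3⟩ := shape s ho sr
  have om : Odd m := by
    have := odd_sub ho E
    rw [m1, Nat.odd_mul, Nat.odd_pow_iff (by norm_num)] at this; exact this.2
  have m4 : m ≠ 1 := by
    rintro rfl
    exact hE (eq_of_le_of_card_ge s.ZE (by rw [m1]; simp)).ge
  have m5 : 3 ≤ m := by obtain ⟨j, rfl⟩ := om; omega
  have oz := odd_sub ho Z
  have z3 : 3 ≤ Nat.card Z := by
    obtain ⟨p, hp, hd⟩ := Nat.exists_prime_and_dvd m4
    have := Nat.le_of_dvd Nat.card_pos (m3 p hp hd)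
    have := hp.two_le
    obtain ⟨j, hj⟩ := oz; omega
  have zc' : ∀ y ∈ centralizer (Z : Set A), ∀ a ∈ Z, y * a = a * y := fun y hy a ha => (cz hy ha).eq
  have T1 : ∀ g ∈ E, g ∉ Z → Nat.card (fx V g) ^ 3 ≤ Nat.card V := fun g h1 h2 => by
    obtain ⟨y, hy, e⟩ : ∃ y ∈ E, ⁅y, g⁆ ≠ 1 := by
      by_contra hn
      push Not at hn
      exact h2 (s.cent s.ZE le_rfl ⟨h1, fun y hy => commutatorElement_eq_one_iff_mul_comm.1 (hn y hy)⟩)
    exact cube ho sr zc (zc' y (s.EC hy)) (s.cm hy h1) e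
  have T2 : ∀ g ∉ centralizer (Z : Set A), Nat.card (fx V g) ^ 3 ≤ Nat.card V := fun g h1 => by
    obtain ⟨y, hy, e⟩ : ∃ y ∈ Z, ⁅y, g⁆ ≠ 1 := by
      by_contra hn
      push Not at hn
      exact h1 fun y hy => commutatorElement_eq_one_iff_mul_comm.1 (hn y hy)
    exact cube ho sr zc (zc y hy) (commutator_le_left Z ⊤ (commutator_mem_commutator hy trivial)) e
  have T3 : ∀ g ∈ centralizer (Z : Set A), g ∉ E → Nat.card (fx V g) ^ 3 ≤ Nat.card V ^ 2 :=
    fun g h1 h2 => by
      obtain ⟨x, hx, e⟩ : ∃ x ∈ E, ⁅g, x⁆ ∉ Z := by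
        by_contra hn
        push Not at hn
        exact h2 (s.ker hs h1 hn)
      have k1 := T1 ⁅x, g⁆ (commutator_le_left E ⊤ (commutator_mem_commutator hx trivial))
        fun h => e (by simpa using Z.inv_mem h)
      have k2 := Nat.pow_le_pow_left (sq_bound (V := V) g x) 3
      rw [← Nat.pow_le_pow_iff_left (n := 2) (by norm_num)]
      calc _ = (Nat.card (fx V g) ^ 2) ^ 3 := by ring
        _ ≤ Nat.card V ^ 3 * Nat.card V := by
          rw [mul_pow] at k2; exact k2.trans (Nat.mul_le_mul_left _ k1)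
        _ = _ := by ring
  have U1 : ∀ t T : ℕ, t ^ 3 ≤ Nat.card V → T ^ 3 ≤ Nat.card V → t * T ^ 2 ≤ Nat.card V :=
    fun t T a b => by
      rw [← Nat.pow_le_pow_iff_left (n := 3) (by norm_num)]
      calc _ = t ^ 3 * (T ^ 3 * T ^ 3) := by ring
        _ ≤ Nat.card V * (Nat.card V * Nat.card V) := Nat.mul_le_mul a (Nat.mul_le_mul b b)
        _ = _ := by ring
  have U2 : ∀ t T : ℕ, t ^ 3 ≤ Nat.card V ^ 2 → T ^ 3 ≤ Nat.card V →
      t * T ^ 2 ≤ T * Nat.card V := fun t T a b => by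
    have : t * T ≤ Nat.card V := by
      rw [← Nat.pow_le_pow_iff_left (n := 3) (by norm_num)]
      calc _ = t ^ 3 * T ^ 3 := by ring
        _ ≤ Nat.card V ^ 2 * Nat.card V := Nat.mul_le_mul a b
        _ = _ := by ring
    nlinarith [Nat.mul_le_mul_left T this]
  have := Fintype.ofFinite A
  let F : Subgroup A → Finset A := fun K => Finset.univ.filter (· ∈ K)
  have mF : ∀ K x, x ∈ F K ↔ x ∈ K := fun K x => by simp [F]
  have cF : ∀ K, (F K).card = Nat.card K := fun K => by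
    rw [Nat.card_eq_fintype_card, Fintype.card_subtype]
  have dF : ∀ K L : Subgroup A, K ≤ L → (F L \ F K).card + Nat.card K = Nat.card L := fun K L h => by
    rw [← cF, ← cF]; exact Finset.card_sdiff_add_card_eq_card fun x hx => (mF _ _).2 (h ((mF _ _).1 hx))
  have NV : 0 < Nat.card V := Nat.card_pos
  obtain ⟨v, hv⟩ : ∃ v : V, ∀ x ∈ F E \ F Z, x • v ≠ v := by
    by_contra hn
    push Not at hn
    obtain ⟨T, t1, t2⟩ := num1 om m5 z3
    have k1 := Nat.mul_le_mul_right (T ^ 2) (count ho _ (by simp [mF]) (by simp [mF]) hn)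
    rw [Finset.sum_mul] at k1
    have k2 := k1.trans (Finset.sum_le_card_nsmul _ _ (Nat.card V) fun x hx => by
      rw [Finset.mem_sdiff, mF, mF] at hx
      exact U1 _ _ (T1 x hx.1 hx.2) (t1.trans m2))
    have := t2 _ ((dF Z E s.ZE).trans m1)
    rw [smul_eq_mul] at k2
    nlinarith
  have hv' : ∀ x ∈ E, x • v = v → x = 1 := fun x hx e => by
    have v0 : v ≠ 0 := by
      rintro rfl
      exact hE fun y hy => by
        by_contra hn; exact hv y (by simp [mF, hy, hn]) (smul_zero y)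
    by_cases c : x ∈ Z
    · exact (sr x c v e).resolve_right v0
    · exact absurd e (hv x (by simp [mF, hx, c]))
  set H := MulAction.stabilizer A v with hH
  set H0 := H ⊓ centralizer (Z : Set A) with hH0
  obtain ⟨T, t1, t2⟩ := num2 om m5 z3 oz (ho.of_dvd_nat (index_dvd_card _)) m3 (index_cent ho z3)
    (cbound ih ho s m1 (lt_of_lt_of_le (by
      calc m ^ 2 < (2 ^ m) ^ 2 := Nat.pow_lt_pow_left Nat.lt_two_pow_self (by norm_num)
        _ = 4 ^ m := by rw [← pow_mul, mul_comm, pow_mul]; norm_num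
        _ ≤ _ := Nat.pow_le_pow_left (by omega) _) m2) om (H := H0) inf_le_right
      fun h hh he => hv' h he hh.1)
  obtain ⟨w, hw⟩ : ∃ w : V, ∀ x ∈ (F H0 \ F ⊥) ∪ (F H \ F H0), x • w ≠ w := by
    by_contra hn
    push Not at hn
    have k1 := Nat.mul_le_mul_right (T ^ 2) (count ho _ (by simp [mF]) (by
      simp only [Finset.mem_union, Finset.mem_sdiff, mF, inv_mem_iff]; exact fun x hx => hx) hn)
    rw [Finset.sum_union (Finset.disjoint_sdiff.mono_left Finset.sdiff_subset), add_mul,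
      Finset.sum_mul, Finset.sum_mul] at k1
    have k2 := k1.trans (Nat.add_le_add
      (Finset.sum_le_card_nsmul _ _ (T * Nat.card V) fun x hx => by
        rw [Finset.mem_sdiff, mF, mF] at hx
        exact U2 _ _ (T3 x hx.1.2 fun e => hx.2 (hv' x e hx.1.1)) (t1.trans m2))
      (Finset.sum_le_card_nsmul _ _ (Nat.card V) fun x hx => by
        rw [Finset.mem_sdiff, mF, mF] at hx
        exact U1 _ _ (T2 x fun e => hx.2 ⟨hx.1, e⟩) (t1.trans m2)))
    have := t2 _ (F H \ F H0).card (by simpa using dF ⊥ H0 bot_le) (by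
      rw [dF H0 H inf_le_left]
      have := relIndex_mul_relIndex ⊥ H0 H bot_le inf_le_left
      rw [relIndex_bot_left, relIndex_bot_left] at this
      rw [← this]
      refine Nat.mul_le_mul_left _ ?_
      rw [hH0, inf_comm, inf_relIndex_right, ← relIndex_top_right]
      exact relIndex_le_of_le_right le_top (by rw [relIndex_top_right]; exact index_ne_zero_of_finite))
    rw [smul_eq_mul, smul_eq_mul] at k2
    nlinarith
  refine ⟨v, w, fun a a1 a2 u => ?_⟩
  have : a = 1 := by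
    by_contra hn
    refine hw a ?_ a2
    simp only [Finset.mem_union, Finset.mem_sdiff, mF, mem_bot]
    by_cases c : a ∈ H0
    · exact Or.inl ⟨c, hn⟩
    · exact Or.inr ⟨a1, c⟩
  rw [this, one_smul]

theorem transfer {A : Type*} {V : Type u} [Group A] [Finite A] [AddCommGroup V] [Finite V]
    [DistribMulAction A V] (ho : Odd (Nat.card A)) (hcr : CR A V)
    (h : ∀ (G : Type u) [Group G] [Finite G] [DistribMulAction G V], Odd (Nat.card G) → CR G V →
      (∀ g : G, (∀ v : V, g • v = v) → g = 1) → B2 G V) : B2 A V := by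
  obtain ⟨G, _, _, _, π, p1, p2, p3⟩ := faith A V
  obtain ⟨v, w, e⟩ := h G (ho.of_dvd_nat (card_dvd_of_surjective π p1)) (fun T hT => by
    obtain ⟨W, a, b⟩ := hcr T fun a v hv => p2 a v ▸ hT _ v hv
    exact ⟨W, fun g w hw => by obtain ⟨g, rfl⟩ := p1 g; rw [p2]; exact a g w hw, b⟩) p3
  exact ⟨v, w, fun a a1 a2 u => by
    rw [← p2] at a1 a2 ⊢; exact e _ a1 a2 u⟩

theorem ih_all (n : ℕ) : IH.{u} n := by
  induction n with
  | zero => intro A V _ _ _ _ _ _ _ h; omega
  | succ n ih =>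
    intro A V _ _ _ _ _ ho hcr hn
    by_cases c : Nat.card V < n
    · exact ih A V ho hcr c
    obtain rfl : n = Nat.card V := by omega
    refine transfer ho hcr fun G _ _ _ ho hcr hf => ?_
    rcases subsingleton_or_nontrivial V with hV | hV
    · exact ⟨0, 0, fun a _ _ u => Subsingleton.elim _ _⟩
    by_cases hi : Irr G V
    · by_contra hb
      exact hb (prim ih ho fun B _ hc => (semireg ih ho hi hf hc).resolve_right hb)
    · exact reducible ih ho hcr hi

theorem main {A V : Type*} [Group A] [Finite A] [AddCommGroup V] [Finite V]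
    [DistribMulAction A V] (ho : Odd (Nat.card A)) (hcr : CR A V) : B2 A V :=
  transfer ho hcr fun G _ _ _ ho hcr _ => ih_all _ G V ho hcr (Nat.lt_succ_self _)

end CA.H9Reg
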