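import Cfsg.Agent.Lib.Solv.HH8

/-!
Two-elements acting on an abelian group of odd order with a small commutator space lie in
`O_{2',2}`.
-/

set_option autoImplicit false
set_option linter.unusedSectionVars false
set_option linter.unusedVariables false
set_option linter.style.haveILetI false

namespace CA.H9Two
open Subgroup Cfsg CA.OQuo CA.BG CA.BGRep Module CA.H12PSolv CA.HH CA.BG4
open scoped commutatorElement

section aut
variable {Y : Type*} [Group Y] [Finite Y]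

/-- `u` is a two-element whose involution inverts few points and fixes only `u`-fixed points -/
def Gd (u : MulAut Y) (a : ℕ) : Prop :=
  u ^ 2 ^ (a + 1) = 1 ∧ Nat.card {y : Y // (u ^ 2 ^ a) y = y⁻¹} ≤ (2 ^ (a + 1) - 1) ^ 2 ∧
    (u ^ 2 ^ a ≠ 1 → ∀ y, (u ^ 2 ^ a) y = y → u y = y)

theorem eq_one_of_inv (ho : Odd (Nat.card Y)) {y : Y} (h : y = y⁻¹) : y = 1 := by
  have h2 : y ^ 2 = 1 := by rw [sq]; nth_rewrite 2 [h]; exact mul_inv_cancel y
  have h3 : orderOf y ∣ Nat.gcd 2 (Nat.card Y) :=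
    Nat.dvd_gcd (orderOf_dvd_of_pow_eq_one h2) (orderOf_dvd_natCard y)
  rw [show Nat.gcd 2 (Nat.card Y) = 1 from Nat.coprime_two_left.2 ho] at h3
  exact orderOf_eq_one_iff.1 (Nat.dvd_one.1 h3)

theorem sq_surj (ho : Odd (Nat.card Y)) (y : Y) : ∃ w, w * w = y := by
  obtain ⟨t, ht⟩ := ho
  refine ⟨y ^ (t + 1), ?_⟩
  rw [← pow_add, show t + 1 + (t + 1) = Nat.card Y + 1 by omega, pow_succ, pow_card_eq_one', one_mul]

theorem exists_inv {c : MulAut Y} (h2 : c * c = 1) (h1 : c ≠ 1) : ∃ y, y ≠ 1 ∧ c y = y⁻¹ := by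
  obtain ⟨w, hw⟩ : ∃ w, c w ≠ w := by
    by_contra h
    push Not at h
    exact h1 (MulEquiv.ext h)
  refine ⟨w * (c w)⁻¹, fun h => hw (mul_inv_eq_one.1 h).symm, ?_⟩
  rw [map_mul, map_inv, ← MulAut.mul_apply, h2]; simp

theorem Gd.sq {u : MulAut Y} {a : ℕ} (h : Gd u a) : u ^ 2 ^ a * u ^ 2 ^ a = 1 := by
  rw [← pow_add, ← two_mul, ← pow_succ', h.1]

theorem Gd.pos {u : MulAut Y} {a : ℕ} (h : Gd u a) (h1 : u ^ 2 ^ a ≠ 1) : a ≠ 0 := by
  rintro rfl
  obtain ⟨y, hy, hy'⟩ := exists_inv h.sq h1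
  have h2 := h.2.1
  haveI : Nontrivial {y : Y // (u ^ 2 ^ 0) y = y⁻¹} :=
    ⟨⟨y, hy'⟩, ⟨1, by simp⟩, fun h => hy (congrArg Subtype.val h)⟩
  have := Finite.one_lt_card_iff_nontrivial.2 this
  norm_num at h2 this
  omega

theorem comm_apply {c d : MulAut Y} (h : c * d = d * c) (y : Y) : c (d y) = d (c y) := by
  rw [← MulAut.mul_apply, h, MulAut.mul_apply]

theorem inv_eq (hY : ∀ a b : Y, a * b = b * a) (ho : Odd (Nat.card Y)) {u b c : MulAut Y} {a : ℕ}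
    (h : Gd u a) (h1 : u ^ 2 ^ a ≠ 1) (hc1 : c ≠ 1) (hc2 : c * c = 1) (hcu : c * u = u * c)
    (hcb : c * b = b * c) (hb : b * u = c * u * b) : c = u ^ 2 ^ a := by
  have hz2 := h.sq
  have hord : orderOf u = 2 ^ (a + 1) := orderOf_eq_prime_pow h1 h.1
  have ha := h.pos h1
  set z := u ^ 2 ^ a with hz
  have hcz : c * z = z * c := (Commute.pow_right hcu _).eq
  have hcc : ∀ y, c (c y) = y := fun y => by rw [← MulAut.mul_apply, hc2]; rfl
  have hzz : ∀ y, z (z y) = y := fun y => by rw [← MulAut.mul_apply, hz2]; rfl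
  have c1 : ∀ y, c y = y⁻¹ → z y = y⁻¹ := by
    intro y hy
    have e1 : z (y * z y) = y * z y := by rw [map_mul, hzz, hY]
    have e2 : c (y * z y) = (y * z y)⁻¹ := by
      rw [map_mul, comm_apply hcz, hy, map_inv, mul_inv_rev, hY]
    have e3 := h.2.2 h1 _ e1
    have e4 : u (b (y * z y)) = (b (y * z y))⁻¹ := by
      have e5 := congrArg (fun t : MulAut Y => c (t (y * z y))) hb
      simp only [MulAut.mul_apply] at e5
      rw [hcc, e3, comm_apply hcb, e2, map_inv] at e5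
      exact e5.symm
    have e6 : z (b (y * z y)) = b (y * z y) := by
      obtain ⟨a', rfl⟩ : ∃ a', a = a' + 1 := ⟨a - 1, by omega⟩
      have e7 : (u * u) (b (y * z y)) = b (y * z y) := by
        rw [MulAut.mul_apply, e4, map_inv, e4, inv_inv]
      have e8 : ∀ n : ℕ, ((u * u) ^ n) (b (y * z y)) = b (y * z y) := fun n => by
        induction n with
        | zero => rfl
        | succ n ih => rw [pow_succ, MulAut.mul_apply, e7, ih]
      have e9 : z = (u * u) ^ 2 ^ a' := by rw [hz, ← sq, ← pow_mul, ← pow_succ']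
      nth_rewrite 1 [e9]
      exact e8 _
    have e7 := eq_one_of_inv ho ((h.2.2 h1 _ e6).symm.trans e4)
    rw [map_eq_one_iff _ b.injective] at e7
    exact (eq_inv_of_mul_eq_one_right e7)
  have semi : ∀ e ∈ zpowers u, ∀ y, z y = y⁻¹ → y ≠ 1 → e y = y → e = 1 := by
    intro e he y hy hy1 hey
    by_contra he1
    have e1 := pow_mem_zpowers_of_ne_one (p := 2) hord he he1 (mem_zpowers _)
    have e2 : zpowers e ≤ MulAction.stabilizer (MulAut Y) y := zpowers_le.2 hey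
    have e3 : z y = y := e2 e1
    exact hy1 (eq_one_of_inv ho (e3.symm.trans hy))
  have hce : ∀ e ∈ zpowers u, c * e = e * c := fun e he => by
    obtain ⟨n, rfl⟩ := he
    exact (Commute.zpow_right hcu n).eq
  have hze : ∀ e ∈ zpowers u, z * e = e * z := fun e he => by
    obtain ⟨n, rfl⟩ := he
    exact ((Commute.refl u).pow_left _ |>.zpow_right n).eq
  have c2 : ∀ d, z d = d⁻¹ → c d = d → d = 1 := by
    intro d hd hd'
    by_contra hd1
    obtain ⟨y, hy1, hy⟩ := exists_inv hc2 hc1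
    have hy' := c1 y hy
    let f : zpowers u × zpowers u → {y : Y // z y = y⁻¹} := fun e =>
      ⟨e.1.1 y * e.2.1 d, by
        rw [map_mul, comm_apply (hze _ e.1.2), comm_apply (hze _ e.2.2), hy', hd, map_inv, map_inv,
          mul_inv_rev, hY]⟩
    have hf : Function.Injective f := by
      rintro ⟨e1, e2⟩ ⟨e3, e4⟩ he
      have e5 : e1.1 y * e2.1 d = e3.1 y * e4.1 d := congrArg Subtype.val he
      have e6 := congrArg c e5
      rw [map_mul, map_mul, comm_apply (hce _ e1.2), comm_apply (hce _ e2.2),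
        comm_apply (hce _ e3.2), comm_apply (hce _ e4.2), hy, hd', map_inv, map_inv] at e6
      have e7 : (e3.1 y)⁻¹ * e1.1 y = e4.1 d * (e2.1 d)⁻¹ := by
        rw [inv_mul_eq_iff_eq_mul, ← mul_assoc, ← e5, mul_inv_cancel_right]
      have e8 : e3.1 y * (e1.1 y)⁻¹ = e4.1 d * (e2.1 d)⁻¹ := by
        rw [← inv_inv (e3.1 y), inv_mul_eq_iff_eq_mul, ← mul_assoc, ← e6, mul_inv_cancel_right]
      have e9 : (e3.1 y)⁻¹ * e1.1 y = 1 := eq_one_of_inv ho (by
        rw [mul_inv_rev, inv_inv, hY (e1.1 y)⁻¹, e8, e7])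
      have e10 : e4.1 d * (e2.1 d)⁻¹ = 1 := e7 ▸ e9
      have e11 := semi (e3.1⁻¹ * e1.1) (mul_mem (inv_mem e3.2) e1.2) y hy' hy1 (by
        rw [MulAut.mul_apply, ← inv_mul_eq_one.1 e9]; simp)
      have e12 := semi (e4.1⁻¹ * e2.1) (mul_mem (inv_mem e4.2) e2.2) d hd hd1 (by
        rw [MulAut.mul_apply, ← mul_inv_eq_one.1 e10]; simp)
      exact Prod.ext (Subtype.ext (inv_mul_eq_one.1 e11).symm) (Subtype.ext (inv_mul_eq_one.1 e12).symm)
    have e1 := (Nat.card_le_card_of_injective f hf).trans h.2.1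
    rw [Nat.card_prod, Nat.card_zpowers, hord] at e1
    have e2 : 1 ≤ 2 ^ (a + 1) := Nat.one_le_two_pow
    obtain ⟨t, ht⟩ : ∃ t, 2 ^ (a + 1) = t + 1 := ⟨_, (Nat.sub_add_cancel e2).symm⟩
    rw [ht, Nat.add_sub_cancel] at e1
    nlinarith
  have c3 : ∀ y, z y = y⁻¹ → c y = y⁻¹ := fun y hy =>
    eq_inv_of_mul_eq_one_right (c2 (y * c y) (by
      rw [map_mul, ← comm_apply hcz, hy, map_inv, mul_inv_rev, hY]) (by rw [map_mul, hcc, hY]))
  have c4 : ∀ y, z y = y → c y = y := fun y hy => by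
    have e1 : c (y * (c y)⁻¹) = (y * (c y)⁻¹)⁻¹ := by rw [map_mul, map_inv, hcc]; simp
    have e2 : z (y * (c y)⁻¹) = y * (c y)⁻¹ := by rw [map_mul, map_inv, ← comm_apply hcz, hy]
    exact (mul_inv_eq_one.1 (eq_one_of_inv ho (e2.symm.trans (c1 _ e1)))).symm
  refine MulEquiv.ext fun y => ?_
  obtain ⟨w, rfl⟩ := sq_surj ho y
  have e1 : w * w = (w * z w) * (w * (z w)⁻¹) := by
    rw [hY w (z w)⁻¹, mul_assoc, ← mul_assoc (z w), mul_inv_cancel, one_mul]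
  have e2 : z (w * z w) = w * z w := by rw [map_mul, hzz, hY]
  have e3 : z (w * (z w)⁻¹) = (w * (z w)⁻¹)⁻¹ := by rw [map_mul, map_inv, hzz]; simp
  rw [e1, map_mul c, map_mul z, c4 _ e2, c3 _ e3, e2, e3]

theorem two_grp (hY : ∀ a b : Y, a * b = b * a) (ho : Odd (Nat.card Y)) {S : Subgroup (MulAut Y)}
    (hS : IsPi {2} S) {u : MulAut Y} (hu : u ∈ S) {a : ℕ} (h : Gd u a) (h1 : u ^ 2 ^ a ≠ 1) :
    u ^ 2 ^ a ∈ ⁅S, S⁆ ∨ ∀ t ∈ S, Commute (t * u * t⁻¹) u := by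
  have hSp : IsPGroup 2 S := (isPi_iff_isPGroup Nat.prime_two).1 hS
  obtain ⟨B, -, hB⟩ := exists_scn (R := S) hSp.isNilpotent bot_le (top_le_norm _ _) inferInstance
  have hBc := comm_iff_le_cent.1 (scn_comm hB)
  by_cases h2 : u ∈ 𝓒(B)
  · have h3 := scn_mem hB hu h2
    exact Or.inr fun t ht => mem_cent.1 (hBc h3) _ ((mem_normalizer_iff.1 (hB.2.1 ht) u).1 h3)
  left
  obtain ⟨b, hb, hb1, hb2, hb3⟩ := CA.PGBasic.exists_layer_pow (N := B ⊓ 𝓒₁(u)) hSp
    (zpowers_le.2 hu) hB.1 ((zpowers_le.2 hu).trans hB.2.1) (norm_of_comm (scn_comm hB) inf_le_left)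
    (fun h3 => h2 (mem_cent.2 fun y hy => (mem_centralizer_singleton_iff.1 (h3 hy).2)))
  have hc := hb3 u (mem_zpowers u)
  have e1 : ⁅b, u⁆ * u = u * ⁅b, u⁆ := mem_centralizer_singleton_iff.1 hc.2
  have e2 : ⁅b, u⁆ * b = b * ⁅b, u⁆ := mem_cent.1 (hBc hb) _ hc.1
  have e3 : b * u = ⁅b, u⁆ * u * b := by rw [commutatorElement_def]; group
  have e4 : b ^ 2 * u = u * b ^ 2 := mem_centralizer_singleton_iff.1 hb2.2
  rw [← inv_eq hY ho h h1 (c := ⁅b, u⁆) (b := b) (fun h3 => hb1 ⟨hb,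
    mem_centralizer_singleton_iff.2 (commutatorElement_eq_one_iff_mul_comm.1 h3)⟩) ?_ e1 e2 e3]
  · exact commutator_mem_commutator (hB.1 hb) hu
  · generalize ⁅b, u⁆ = c at e1 e2 e3
    have e5 : c * c * (u * b ^ 2) = 1 * (u * b ^ 2) := by
      rw [one_mul]
      nth_rewrite 2 [← e4]
      rw [sq, mul_assoc b b, e3, ← mul_assoc b, ← mul_assoc b, ← e2, mul_assoc c b, e3]
      simp only [mul_assoc]
    exact mul_right_cancel e5

theorem der_sup_zpowers {G : Type*} [Group G] (x : G) (T : Subgroup G) [T.Normal] :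
    ⁅zpowers x ⊔ T, zpowers x ⊔ T⁆ ≤ T := by
  have h0 : T.map (QuotientGroup.mk' T) = ⊥ := by
    rw [Subgroup.map_eq_bot_iff, QuotientGroup.ker_mk']
  rw [← QuotientGroup.ker_mk' T, ← Subgroup.map_eq_bot_iff, QuotientGroup.ker_mk', map_commutator,
    Subgroup.map_sup, h0, sup_bot_eq, MonoidHom.map_zpowers, commutator_eq_bot_iff_le_centralizer]
  exact comm_iff_le_cent.1 (comm_of_cyclic (cyc_zpowers _))

theorem piNat_two {G : Type*} [Group G] {x : G} {n : ℕ} (h : x ^ 2 ^ n = 1) :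
    PiNat {2} (orderOf x) := fun q hq hd =>
  (Nat.prime_dvd_prime_iff_eq hq Nat.prime_two).1
    (hq.dvd_of_dvd_pow (hd.trans (orderOf_dvd_of_pow_eq_one h)))

theorem mem_core (hY : ∀ a b : Y, a * b = b * a) (ho : Odd (Nat.card Y)) {X : Subgroup (MulAut Y)}
    (hs : IsPSolvable 2 X) {u : X} {a : ℕ} (h : Gd (u : MulAut Y) a) :
    u ^ 2 ^ a ∈ pPrimePCore 2 X := by
  by_contra hz
  haveI : Fact (Nat.Prime 2) := ⟨Nat.prime_two⟩
  have h1 : (u : MulAut Y) ^ 2 ^ a ≠ 1 := fun e =>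
    hz (by rw [show u ^ 2 ^ a = 1 from Subtype.ext e]; exact one_mem _)
  have ha := h.pos h1
  let π := QuotientGroup.mk' (pPrimeCore 2 X)
  have hzT : π u ^ 2 ^ a ∉ pCore 2 (X ⧸ pPrimeCore 2 X) := by rw [← map_pow]; exact hz
  have hu1 : u ^ 2 ^ (a + 1) = 1 := Subtype.ext h.1
  have hu2 : π u ^ 2 ^ (a + 1) = 1 := by rw [← map_pow, hu1, map_one]
  have hP : IsPi {2} (zpowers (π u) ⊔ pCore 2 (X ⧸ pPrimeCore 2 X)) :=
    (isPi_zpowers.2 (piNat_two hu2)).sup (isPi_pcore Nat.prime_two) (top_le_norm _ _)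
  obtain ⟨S, hS, huS⟩ := syl_superset Nat.prime_two (isPi_zpowers.2 (piNat_two hu1))
    (H := (zpowers (π u) ⊔ pCore 2 (X ⧸ pPrimeCore 2 X)).comap π)
    (zpowers_le.2 (mem_sup_left (mem_zpowers _)))
  have hSm : S.map π = zpowers (π u) ⊔ pCore 2 (X ⧸ pPrimeCore 2 X) := by
    have := hall_map hS π
    rw [map_comap_eq_self_of_surjective (QuotientGroup.mk'_surjective _)] at this
    exact this.eq_self hP
  rcases two_grp hY ho (S := S.map X.subtype) (PiNat.of_dvd hS.pi (card_map_dvd _ _))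
    (mem_map_of_mem _ (huS (mem_zpowers u))) h h1 with h2 | h2
  · rw [← map_commutator] at h2
    obtain ⟨w, hw, hw'⟩ := h2
    obtain rfl : w = u ^ 2 ^ a := Subtype.ext (by simpa using hw')
    have h3 := mem_map_of_mem π hw
    rw [map_commutator, hSm, map_pow] at h3
    exact hzT (der_sup_zpowers _ _ h3)
  have ho2 : orderOf ((π u : X ⧸ pPrimeCore 2 X) : (X ⧸ pPrimeCore 2 X) ⧸ pCore 2 _) = 2 ^ (a + 1) :=
    orderOf_eq_prime_pow (by rwa [← QuotientGroup.mk_pow, QuotientGroup.eq_one_iff])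
      (by rw [← QuotientGroup.mk_pow, hu2, QuotientGroup.mk_one])
  rcases thmB_PV (psolv_quotient hs _) (p'core_quot Nat.prime_two) ho2 (r := 2)
    (LinearMap.ext fun w => by
      obtain ⟨v, hv, rfl⟩ := pv_surj w
      obtain ⟨t, ht, rfl⟩ := hSm.ge (mem_sup_right hv)
      have e0 : Commute (t * u * t⁻¹) u := Subtype.ext (h2 t (mem_map_of_mem _ ht)).eq
      have e1 : Commute (π t * π u * (π t)⁻¹) (π u) := by simpa using e0.map π
      have e2 : ⁅π u, π t⁆ ∈ pCore 2 (X ⧸ pPrimeCore 2 X) :=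
        comm_le_right (top_le_norm _ ⊤) (commutator_mem_commutator (mem_top _) hv)
      have e3 : ⁅π u, ⁅π u, π t⁆⁆ = 1 := by
        rw [commutatorElement_eq_one_iff_commute, show ⁅π u, π t⁆ = π u * (π t * π u * (π t)⁻¹)⁻¹ by
          rw [commutatorElement_def]; group]
        exact (Commute.refl _).mul_right e1.symm.inv_right
      rw [sq, Module.End.mul_apply, prep_sub_pv _ hv e2, prep_sub_pv _ e2 (e3 ▸ one_mem _),
        LinearMap.zero_apply, pv_eq_zero, e3]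
      exact one_mem _) with h3 | ⟨m, q, j, Q, h3, h4, h5, h6, h7, -, -, h8⟩
  · have : 2 ^ 2 ≤ 2 ^ (a + 1) := Nat.pow_le_pow_right (by norm_num) (by omega)
    omega
  · have e1 : 2 ≤ q ^ j := h5.two_le.trans (Nat.le_self_pow (by omega) q)
    have e2 : 1 ≤ 2 ^ (a + 1 - m) := Nat.one_le_two_pow
    have e3 : 2 ^ m - 1 ≤ 2 := le_trans (Nat.le_mul_of_pos_left _ e2) h8
    obtain ⟨m, rfl⟩ : ∃ m', m = m' + 1 := ⟨m - 1, by omega⟩
    rw [pow_succ] at e3 h7
    omega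

end aut

theorem keyE {G : Type*} [Group G] [Finite G] (hs : Group.IsSolvable G) {N Q : Subgroup G} [Q.Normal]
    (hQN : Q ≤ 𝓝(N)) (hd : ⁅Q, Q⁆ ≤ N) (hQ : IsPi {2}ᶜ Q) {Zs : Set G}
    (hZ : ∀ z ∈ Zs, ∃ u ∈ 𝓝(N), ∃ a : ℕ, z = u ^ 2 ^ a ∧ u ^ 2 ^ (a + 1) = 1 ∧
      N.relIndex ⁅Q, zpowers z⁆ ≤ (2 ^ (a + 1) - 1) ^ 2 ∧
      (¬ ⁅Q, zpowers z⁆ ≤ N → ∀ b ∈ Q ⊓ 𝓒₁(z), ⁅u, b⁆ ∈ N)) {y : G}
    (hy : y ∈ closure {x | x ∈ closure Zs ∧ PiNat {2}ᶜ (orderOf x)}) (hy2 : PiNat {2} (orderOf y)) :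
    ⁅zpowers y, Q⁆ ≤ N := by
  have hc : IsMulCommutative (Q /ᵍ N) := (isMulCommutative_quo_iff hQN).2 hd
  have hY : ∀ a b : ↥(Q /ᵍ N), a * b = b * a := fun a b => hc.is_comm.comm a b
  have hQo : IsPi {2}ᶜ (Q /ᵍ N) := hQ.mim _
  have ho : Odd (Nat.card ↥(Q /ᵍ N)) := Nat.odd_iff.2 (Nat.two_dvd_ne_zero.1
    ((isPi_compl_iff Nat.prime_two).1 hQo))
  have hn : ∀ x : 𝓝(N), qh N x ∈ 𝓝(Q /ᵍ N) := fun x => by
    rw [← mel_coe]; exact mel_mem_normalizer _ x.2 (top_le_norm Q ⊤ (mem_top _))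
  let φ : 𝓝(N) →* MulAut ↥(Q /ᵍ N) := (cact (Q /ᵍ N)).comp ((qh N).codRestrict _ hn)
  have hφ : ∀ x ∈ 𝓝(N), ∀ w : ↥(Q /ᵍ N), (((mel φ.rangeRestrict x : φ.range) : MulAut ↥(Q /ᵍ N)) w : QT N) =
      mel (qh N) x * w * (mel (qh N) x)⁻¹ := fun x hx w => by
    rw [mel_of_mem _ hx, mel_of_mem _ hx]; rfl
  haveI := hs
  have hs' : IsPSolvable 2 φ.range := psolv_map _ φ.rangeRestrict_surjective psolv_of_solvable
  have h1 : closure Zs ≤ mpre φ.rangeRestrict (pPrimePCore 2 φ.range) := by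
    refine (closure_le _).2 fun z hz => ?_
    obtain ⟨u, hu, a, rfl, h2, h3, h4⟩ := hZ z hz
    have hz := pow_mem hu (2 ^ a)
    have hz2 : PiNat {2} (orderOf (u ^ 2 ^ a)) := piNat_two (n := 1) (by
      rw [← pow_mul, ← pow_add, h2])
    refine mem_mpre.2 ⟨hz, ?_⟩
    rw [mel_pow _ hu]
    have e0 : ((mel φ.rangeRestrict u : φ.range) : MulAut ↥(Q /ᵍ N)) ^ 2 ^ a =
        (mel φ.rangeRestrict (u ^ 2 ^ a) : φ.range) := by rw [mel_pow _ hu]; rfl
    refine mem_core hY ho hs' ⟨?_, ?_, ?_⟩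
    · rw [← Subgroup.coe_pow, ← mel_pow _ hu, h2, mel_one]; rfl
    · rw [e0]
      refine le_trans ?_ h3
      rw [← card_quo ((comm_le_left (top_le_norm _ _)).trans hQN), quo_comm hQN (zpowers_le.2 hz),
        mim_zpowers _ hz]
      refine Nat.card_le_card_of_injective (fun w => ⟨w.1.1, ?_⟩) fun w w' h =>
        Subtype.ext (Subtype.ext (Subtype.mk.inj h))
      have e1 := congrArg Subtype.val w.2
      rw [hφ _ hz] at e1
      refine CA.AmbRes.mem_of_pow_mem_of_coprime (n := 2) ((hQo.orderOf w.1.2).coprime'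
        ((piNat_prime Nat.prime_two).2 rfl)) ?_
      have e2 : (w.1.1 : QT N) ^ 2 = ⁅w.1.1, mel (qh N) (u ^ 2 ^ a)⁆ := by
        rw [commutatorElement_def, mul_assoc, mul_assoc, ← mul_assoc (mel _ _), ← conj_inv, e1, sq]
        simp
      rw [e2]
      exact commutator_mem_commutator w.1.2 (mem_zpowers _)
    · rw [e0]
      intro h5 w hw
      have h6 := h4 fun h6 => h5 (MulEquiv.ext fun w => Subtype.ext (by
        rw [hφ _ hz]
        have e1 := quo_cent_of_comm_le hQN (zpowers_le.2 hz) h6 w.2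
        rw [mim_zpowers _ hz] at e1
        rw [mem_cent.1 e1 _ (mem_zpowers _), mul_inv_cancel_right]; rfl))
      have e1 := congrArg Subtype.val hw
      rw [hφ _ hz] at e1
      have e2 : w.1 ∈ (Q ⊓ 𝓒₁(u ^ 2 ^ a)) /ᵍ N := by
        rw [cop_quo_cent1 hz hQN (top_le_norm Q ⊤ (mem_top _))
          (PiNat.coprime' (hQ.of_le inf_le_left) hz2)]
        exact ⟨w.2, mem_centralizer_singleton_iff.2 (mul_inv_eq_iff_eq_mul.1 e1).symm⟩
      obtain ⟨b, hb, hb'⟩ := (mem_mim_of_le (inf_le_left.trans hQN)).1 e2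
      refine Subtype.ext ?_
      rw [hφ _ hu, ← hb', mul_inv_eq_iff_eq_mul, ← commutatorElement_eq_one_iff_mul_comm,
        ← mel_commutator _ hu (hQN hb.1), mel_eq_one_iff (der_le _ (commutator_mem_commutator hu (hQN hb.1))),
        mker_qh]
      exact h6 b hb
  have h2 : closure {x | x ∈ closure Zs ∧ PiNat {2}ᶜ (orderOf x)} ≤
      mpre φ.rangeRestrict (pPrimeCore 2 φ.range) := by
    refine (closure_le _).2 fun x hx => ?_
    obtain ⟨e1, e2⟩ := mem_mpre.1 (h1 hx.1)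
    refine mem_mpre.2 ⟨e1, ?_⟩
    have e3 := (isPi_pcore Nat.prime_two).orderOf e2
    have e4 : PiNat {2}ᶜ (orderOf (QuotientGroup.mk' (pPrimeCore 2 φ.range) (mel φ.rangeRestrict x))) :=
      (piNat_orderOf_mel _ e1 hx.2).of_dvd (orderOf_map_dvd _ _)
    have e5 := (Nat.coprime_self _).1 (e4.coprime' e3)
    exact (QuotientGroup.eq_one_iff _).1 (orderOf_eq_one_iff.1 e5)
  obtain ⟨e1, e2⟩ := mem_mpre.1 (h2 hy)
  have e3 := ((isPi_p'core Nat.prime_two).orderOf e2).coprime' (piNat_orderOf_mel φ.rangeRestrict e1 hy2)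
  have e4 := orderOf_eq_one_iff.1 ((Nat.coprime_self _).1 e3)
  refine comm_le_of_quo_cent (zpowers_le.2 e1) hQN ?_
  rw [mim_zpowers _ e1, zpowers_le]
  refine mem_cent.2 fun w hw => ?_
  have e5 := hφ y e1 ⟨w, hw⟩
  rw [e4] at e5
  exact (eq_mul_inv_iff_mul_eq.1 e5)

end CA.H9Two
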