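import Cfsg.Agent.Lib.Solv.H9Two1

/-!
The exceptional case of Theorem B of Hall and Higman in characteristic two: the element acts
trivially on the fixed points of its involution.
-/

set_option autoImplicit false
set_option linter.unusedSectionVars false
set_option linter.unusedVariables false
set_option linter.style.haveILetI false

namespace CA.H9Two
open Subgroup Cfsg CA.OQuo CA.BG CA.BGRep Module CA.H12PSolv CA.HH CA.BG4
open scoped commutatorElement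

variable {G : Type*} [Group G] [Finite G]

theorem inv_mod {Q : Subgroup G} {z : G} (hz : z * z = 1) (hn : z ∈ 𝓝(Q))
    (hf : Q ≤ ⁅Q, zpowers z⁆) {b : G} (hb : b ∈ Q) : z * b * z⁻¹ * b ∈ ⁅Q, Q⁆ := by
  have hc : ∀ g ∈ Q, ∀ d ∈ ⁅Q, Q⁆, g * d * g⁻¹ ∈ ⁅Q, Q⁆ := fun g hg d hd =>
    (mem_normalizer_iff.1 (norm_comm (le_norm_self Q) (le_norm_self Q) hg) d).1 hd
  have hzq : ∀ g ∈ Q, z * g * z⁻¹ ∈ Q := fun g hg => (mem_normalizer_iff.1 hn g).1 hg
  let I : Subgroup G :=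
    { carrier := {b | b ∈ Q ∧ z * b * z⁻¹ * b ∈ ⁅Q, Q⁆}
      mul_mem' := fun {b c} hb hc' => ⟨mul_mem hb.1 hc'.1, by
        have := mul_mem (mul_mem (hc _ (hzq b hb.1) _ (commutator_mem_commutator (hzq c hc'.1) hb.1))
          hb.2) hc'.2
        convert this using 1
        rw [commutatorElement_def]; group⟩
      one_mem' := ⟨one_mem _, by simp⟩
      inv_mem' := fun {b} hb => ⟨inv_mem hb.1, by
        have := inv_mem (hc b hb.1 _ hb.2)
        convert this using 1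
        group⟩ }
  have hzi : z⁻¹ = z := inv_eq_of_mul_eq_one_right hz
  have : ⁅Q, zpowers z⁆ ≤ I := commutator_le.2 fun g hg e he => by
    obtain ⟨n, rfl⟩ := he
    have h2 : z ^ (2 : ℤ) = 1 := by rw [zpow_two, hz]
    obtain ⟨m, rfl | rfl⟩ := Int.even_or_odd' n
    · simp only [zpow_mul, h2, one_zpow, commutatorElement_one_right]; exact one_mem _
    · simp only [zpow_add, zpow_mul, h2, one_zpow, one_mul, zpow_one]
      refine ⟨comm_le_left (zpowers_le.2 hn) (commutator_mem_commutator hg (mem_zpowers z)), ?_⟩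
      have : z * ⁅g, z⁆ * z⁻¹ * ⁅g, z⁆ = z * g * z * g⁻¹ * (z * z)⁻¹ * g * z * g⁻¹ * z⁻¹ := by
        rw [commutatorElement_def]; group
      rw [this, hz, inv_one, mul_one, inv_mul_cancel_right, mul_assoc (z * g), hz]
      simp
  exact (this (hf hb)).2

theorem comm_pow_mem {Z : Subgroup G} {x b : G} (hn : x ∈ 𝓝(Z)) (h : ⁅x, b⁆ ∈ Z) (n : ℕ) :
    ⁅x ^ n, b⁆ ∈ Z := by
  induction n with
  | zero => simp
  | succ n ih =>
    have := mul_mem ((mem_normalizer_iff.1 hn _).1 ih) h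
    convert this using 1
    simp only [commutatorElement_def, pow_succ']; group

variable {D : Subgroup G} {k W : Type*} [Field k] [AddCommGroup W] [Module k W]

theorem card_ne_zero [CharP k 2] {Q : Subgroup G} (h : IsPi {2}ᶜ Q) : (♯Q : k) ≠ 0 := fun h1 =>
  (isPi_compl_iff Nat.prime_two).1 h ((CharP.cast_eq_zero_iff k 2 _).1 h1)

theorem homog [IsAlgClosed k] [FiniteDimensional k W] [Nontrivial W] [CharP k 2]
    {ρ : Representation k D W} {Q : Subgroup G} {x : G} {a r : ℕ} (hD : Q ⊔ zpowers x = D)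
    (hi : Irr ρ) (hn : x ∈ 𝓝(Q)) (ho : orderOf x = 2 ^ (a + 1)) (hp' : IsPi {2}ᶜ Q)
    (hf : Q ≤ ⁅Q, zpowers (x ^ 2 ^ a)⁆) (h2 : ⁅⁅Q, Q⁆, Q⁆ ≤ rker ρ)
    (hsc : ∀ d ∈ ⁅Q, Q⁆, ∃ c : k, rp ρ d = c • (1 : End k W)) (h0 : Fix ρ Q = ⊥)
    (hr : (rp ρ x - 1) ^ r = 0) (hlt : r < 2 ^ (a + 1)) :
    2 ^ (a + 1) - 1 ≤ r ∧ (Zr ρ Q).relIndex Q = (2 ^ (a + 1) - 1) ^ 2 := by
  classical
  haveI : Fact (Nat.Prime 2) := ⟨Nat.prime_two⟩
  have hQ : Q ≤ D := hD ▸ le_sup_left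
  have hx : x ∈ D := hD ▸ mem_sup_right (mem_zpowers x)
  have hE : zpowers x ≤ D := zpowers_le.2 hx
  have hX : IsPi {2} (zpowers x) := isPi_of_card_eq_pow Nat.prime_two ((Nat.card_zpowers x).trans ho)
  have hy' : zpowers (x ^ 2 ^ a) ≤ zpowers x := zpowers_le.2 (pow_mem (mem_zpowers x) _)
  have hz2 : x ^ 2 ^ a * x ^ 2 ^ a = 1 := by
    rw [← pow_add, ← two_mul, ← pow_succ', ← ho, pow_orderOf_eq_one]
  have hpw : ∀ e ∈ zpowers x, e ≠ 1 → zpowers (x ^ 2 ^ a) ≤ zpowers e := fun e he h1 =>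
    pow_mem_zpowers_of_ne_one ho he h1
  have hpz : ∀ {Z : Subgroup G} {b : G}, x ∈ 𝓝(Z) → ⁅x, b⁆ ∈ Z → ⁅x ^ 2 ^ a, b⁆ ∈ Z :=
    fun h1 h2 => comm_pow_mem h1 h2 _
  have hzn : x ^ 2 ^ a ∈ 𝓝(Q) := pow_mem hn _
  have hzD : x ^ 2 ^ a ∈ D := pow_mem hx _
  generalize x ^ 2 ^ a = z at *
  have hk := card_ne_zero (k := k) hp'
  have hf' : ∀ e ∈ zpowers x, e ≠ 1 → Q ≤ ⁅Q, zpowers e⁆ := fun e he h1 =>
    hf.trans (comm_mono le_rfl (hpw e he h1))
  have hd : ⁅Q, Q⁆ ≤ Zr ρ Q := (le_Zr_iff hQ (der_le Q)).2 h2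
  have hxZ : x ∈ 𝓝(Zr ρ Q) := mem_norm_Zr hQ hx hn
  have hzZ : zpowers z ≤ 𝓝(Zr ρ Q) := hy'.trans (zpowers_le.2 hxZ)
  have hKZ : ⁅Zr ρ Q, zpowers z⁆ ≤ Zr ρ Q := comm_le_left hzZ
  have hKQ := hKZ.trans Zr_le
  have hKn : zpowers x ≤ 𝓝(⁅Zr ρ Q, zpowers z⁆) :=
    norm_comm (zpowers_le.2 hxZ) (norm_of_comm (comm_of_cyclic (cyc_zpowers x)) hy')
  have s1 : ⁅Zr ρ Q, zpowers z⁆ ≤ rker ρ := by
    have hI : BGRep.Inv ρ (Q ⊔ zpowers x) (Fix ρ ⁅Zr ρ Q, zpowers z⁆) :=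
      Inv.sup_left hQ hE (fun y hy w hw g hg => by
        rw [← Module.End.mul_apply, (hKZ hg).2.2 y hy, Module.End.mul_apply, hw g hg])
        (inv_Fix (hKQ.trans hQ) hE hKn)
    rcases hi _ (hI.mono hD.ge) with h | h
    swap
    · exact (Fix_eq_top_iff (hKQ.trans hQ)).1 h
    exfalso
    have hKK : ⁅⁅Zr ρ Q, zpowers z⁆, Q⁆ ≤ rker ρ := (le_Zr_iff hQ hKQ).1 hKZ
    rcases hh_core' (hKQ.trans hQ) hx (hKn (mem_zpowers x)) ho (card_ne_zero (hp'.of_le hKQ))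
      (fun e he h1 => (coprime_commGid hzZ ((hp'.of_le Zr_le).coprime' (hX.of_le hy'))
        (Or.inl ((hX.of_le hy').isSolvable Nat.prime_two))).ge.trans (comm_mono le_rfl (hpw e he h1)))
      ((comm_mono (der_le _) hKQ).trans hKK) inv_top top_ne_bot (by rw [h, inf_bot_eq])
      (fun w _ => by rw [hr]; rfl) with h5 | ⟨m, Z, w, -, -, -, h7, h8, -, -, -, h9⟩
    · omega
    · rw [relIndex_eq_one.2 fun g hg => (h9 g hg).2 fun y hy => by
        rw [(mem_rker.1 (hKK (commutator_mem_commutator hy (hKQ hg)))).2]; rfl] at h7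
      nlinarith
  have hsq : ∀ {Z : Subgroup G} {g : G}, g ∈ Q → g ^ 2 ∈ Z → g ∈ Z := fun hg h =>
    CA.AmbRes.mem_of_pow_mem_of_coprime ((hp'.orderOf hg).coprime'
      ((piNat_prime Nat.prime_two).2 rfl)) h
  have s2 : ∀ g ∈ Zr ρ Q, ⁅x, g⁆ ∈ rker ρ := fun g hg => by
    obtain ⟨c, hc⟩ := hsc _ (inv_mod hz2 hzn hf hg.1)
    have e2 := (rp_comm_iff hg.2.1 hzD).2 (s1 (commutator_mem_commutator hg (mem_zpowers z)))
    rw [rp_mul ρ (mul_mem (mul_mem hzD hg.2.1) (inv_mem hzD)) hg.2.1, rp_conj ρ hzD hg.2.1, ← e2,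
      mul_assoc (rp ρ g), rp_mul_inv ρ hzD, mul_one, ← rp_mul ρ hg.2.1 hg.2.1, ← sq] at hc
    have e3 : g ∈ Zr ρ D := hsq hg.1 ⟨pow_mem hg.2.1 2, pow_mem hg.2.1 2, fun y hy => by
      rw [hc]; simp⟩
    exact (rp_comm_iff hx hg.2.1).1 (e3.2.2 x hx).symm
  have hxb : ∀ b ∈ Q, ⁅x, b⁆ ∈ Q := fun b hb =>
    comm_le_right (zpowers_le.2 hn) (commutator_mem_commutator (mem_zpowers x) hb)
  have s3 : ∀ b ∈ Q, ⁅x, b⁆ ∈ Zr ρ Q → b ∈ Zr ρ Q := fun b hb h => hsq hb (by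
    have := mul_mem (inv_mem (hpz hxZ h)) (hd (inv_mod hz2 hzn hf hb))
    convert this using 1
    rw [commutatorElement_def, sq]; group)
  have hs : ∀ T ∈ Fix (ρ.linHom ρ) Q, ∃ c : k, T = c • (1 : End k W) := by
    haveI := Fintype.ofFinite Q
    have p1 : ∀ g ∈ Q, g ∉ Zr ρ Q → rsum (ρ.linHom ρ) Q (rp ρ g) = 0 := by
      intro g hg h
      by_contra h3
      refine h ⟨hg, hQ hg, fun y hy => ((rp_comm_iff (hQ hy) (hQ hg)).2 ?_).symm⟩
      have h4 := commutator_mem_commutator hy hg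
      obtain ⟨c, hc⟩ := hsc _ h4
      have h5 := LinearMap.congr_fun (rsum_mul_rp (ρ := ρ.linHom ρ) hQ hy) (rp ρ g)
      rw [Module.End.mul_apply, rp_linHom (hQ hy), ← rp_conj ρ (hQ hy) (hQ hg),
        show y * g * y⁻¹ = ⁅y, g⁆ * g by rw [commutatorElement_def]; group,
        rp_mul ρ (hQ (der_le Q h4)) (hQ hg), hc, smul_mul_assoc, one_mul, map_smul] at h5
      have h6 : c = 1 := by
        by_contra h6
        exact h3 ((smul_eq_zero.1 (show (c - 1) • rsum (ρ.linHom ρ) Q (rp ρ g) = 0 by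
          rw [sub_smul, h5, one_smul, sub_self])).resolve_left (sub_ne_zero.2 h6))
      exact mem_rker.2 ⟨hQ (der_le Q h4), by rw [hc, h6, one_smul]⟩
    have p2 : rsum (ρ.linHom ρ) Q 1 = (♯Q : k) • (1 : End k W) :=
      rsum_of_mem_Fix ((mem_Fix_linHom hQ).2 fun y hy => by simp)
    obtain ⟨c, hc⟩ := schur_of_comm hD hi (T := rsum (ρ.linHom ρ) Q (rp ρ x⁻¹))
      ((mem_Fix_linHom hQ).1 (rsum_mem_Fix hQ _)) ((Fix_linHom_zpowers hx).1 (by
        rw [mem_Fix_zpowers hx, ← Module.End.mul_apply, rsum_comm hQ hx hn, Module.End.mul_apply,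
          rp_linHom hx, rp_mul_inv ρ hx, one_mul]))
    have p3 : c • rp ρ x = ∑ b : Q, rp ρ ⁅x, b⁆ := by
      have : rp ρ x * rsum (ρ.linHom ρ) Q (rp ρ x⁻¹) = c • rp ρ x := by rw [hc]; simp
      rw [← this, rsum_eq, LinearMap.sum_apply, Finset.mul_sum]
      refine Finset.sum_congr rfl fun b _ => ?_
      rw [rp_linHom (hQ b.2), commutatorElement_def, rp_mul ρ (mul_mem (mul_mem hx (hQ b.2)) (inv_mem hx))
        (inv_mem (hQ b.2)), rp_conj ρ hx (hQ b.2)]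
      simp only [mul_assoc]
    have hc0 : c ≠ 0 := by
      rintro rfl
      have p4 := congrArg (rsum (ρ.linHom ρ) Q) p3
      rw [zero_smul, map_zero, map_sum, Finset.sum_congr rfl (g := fun b : Q =>
        if b ∈ (Zr ρ Q).subgroupOf Q then (♯Q : k) • (1 : End k W) else 0) fun b _ => by
          split_ifs with h
          · rw [(mem_rker.1 (s2 b h)).2, p2]
          · exact p1 _ (hxb b b.2) fun h' => h (s3 b b.2 h'), Finset.sum_ite, Finset.sum_const_zero,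
        add_zero, Finset.sum_const, ← Fintype.card_subtype, ← Nat.card_eq_fintype_card,
        ← Nat.cast_smul_eq_nsmul k, smul_smul, eq_comm, smul_eq_zero] at p4
      refine p4.elim (mul_ne_zero (fun h => ?_) hk) one_ne_zero
      exact (isPi_compl_iff Nat.prime_two).1 hp' (((CharP.cast_eq_zero_iff k 2 _).1 h).trans
        (card_subgroup_dvd_card ((Zr ρ Q).subgroupOf Q)))
    intro T hT
    rw [mem_Fix_linHom hQ] at hT
    refine schur_of_comm hD hi hT ?_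
    have p5 : (c • rp ρ x) * T = T * (c • rp ρ x) := by
      rw [p3, Finset.sum_mul, Finset.mul_sum]
      exact Finset.sum_congr rfl fun b _ => hT _ (hxb b b.2)
    rw [smul_mul_assoc, mul_smul_comm] at p5
    exact smul_right_injective _ hc0 p5
  have hx1 : x ≠ 1 := fun h => by
    rw [h, orderOf_one] at ho
    exact absurd ho.symm (Nat.one_lt_pow (by omega) one_lt_two).ne'
  obtain ⟨h3, h4⟩ := abs_count hQ hE (zpowers_le.2 hn) hk h2 hs hf'
  obtain ⟨h5, -⟩ := abs_extra hQ hx h2 hs (hf' x (mem_zpowers x) hx1) h0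
  obtain ⟨h7, h8⟩ := cmt_bound r W _ hr
  have he : cmt (rp ρ x - 1) = Fix (ρ.linHom ρ) (zpowers x) := Submodule.ext fun T => by
    rw [Fix_linHom_zpowers hx, mem_cmt, sub_mul, mul_sub, one_mul, mul_one, sub_left_inj]
  rw [he] at h7 h8
  rw [Nat.card_zpowers, ho] at h4
  have hN : 1 < finrank k W := by
    have := finrank_pos (R := k) (M := W)
    by_contra h
    exact h5 (by rw [← h3, show finrank k W = 1 by omega, one_pow])
  obtain ⟨h9, h10⟩ := arithB hN h4 h7 h8 hlt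
  exact ⟨by omega, by rw [← h3, ← h9, Nat.add_sub_cancel]⟩

theorem shift_pow' {R : Type*} [Ring R] {T X C : R} (h : T * X = X * T - C) (hC : Commute X C)
    (j : ℕ) : T * (X - 1) ^ (j + 1) = (X - 1) ^ (j + 1) * T - (j + 1) • ((X - 1) ^ j * C) := by
  have h1 : T * (X - 1) = (X - 1) * T - C := by rw [mul_sub, sub_mul, h]; simp; abel
  have h2 : Commute (X - 1) C := hC.sub_left (Commute.one_left C)
  induction j with
  | zero => simpa using h1
  | succ j ih =>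
    rw [pow_succ' (X - 1) (j + 1), ← mul_assoc, h1, sub_mul, mul_assoc, ih, mul_sub,
      mul_smul_comm, ← mul_assoc, ← mul_assoc, ← pow_succ', ← (h2.pow_left (j + 1)).eq, sub_sub,
      ← pow_succ', ← succ_nsmul]

theorem cent_u [IsAlgClosed k] [FiniteDimensional k W] [Nontrivial W] [CharP k 2]
    {ρ : Representation k D W} {Q : Subgroup G} {u : G} {a : ℕ} (hQ : Q ≤ D) (hu : u ∈ D)
    (hn : u ∈ 𝓝(Q)) (ho : orderOf u = 2 ^ (a + 1)) (hp' : IsPi {2}ᶜ Q) (h2 : ⁅⁅Q, Q⁆, Q⁆ = ⊥)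
    (hsc : ∀ d ∈ ⁅Q, Q⁆, ∃ c : k, rp ρ d = c • (1 : End k W)) (hz : u ^ 2 ^ a ∈ 𝓒(⁅Q, Q⁆))
    (hr : (rp ρ u - 1) ^ (2 ^ (a + 1) - 1) = 0) (h3 : ¬ ⁅Q, zpowers (u ^ 2 ^ a)⁆ ≤ Zr ρ Q)
    {b : G} (hb : b ∈ Q ⊓ 𝓒₁(u ^ 2 ^ a)) : ⁅u, b⁆ ∈ rker ρ := by
  classical
  haveI hp : Fact (Nat.Prime 2) := ⟨Nat.prime_two⟩
  have hX : IsPi {2} (zpowers u) := isPi_of_card_eq_pow hp.out ((Nat.card_zpowers u).trans ho)
  have hy' : zpowers (u ^ 2 ^ a) ≤ zpowers u := zpowers_le.2 (pow_mem (mem_zpowers u) _)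
  set z := u ^ 2 ^ a with hzdef
  have b1 : zpowers z ≤ 𝓝(Q) := hy'.trans (zpowers_le.2 hn)
  have b2 : (♯Q).Coprime ♯(zpowers z) := hp'.coprime' (hX.of_le hy')
  have b3 : Group.IsSolvable (zpowers z) ∨ Group.IsSolvable Q :=
    Or.inl ((hX.of_le hy').isSolvable hp.out)
  have b4 := coprime_cent_prod b1 b2 b3
  have b5 := coprime_commGid b1 b2 b3
  have hle : ⁅Q, zpowers z⁆ ≤ Q := comm_le_left b1
  have b6 : ⁅Q, zpowers z⁆ ≤ 𝓒(Q ⊓ 𝓒(zpowers z)) := BG.three_subgroups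
    (by rw [commutator_eq_bot_iff_le_centralizer.2 (cent_symm inf_le_right)]; exact bot_le)
    ((comm_mono inf_le_left le_rfl).trans (cent_symm (zpowers_le.2 hz)))
  have key : ∀ g ∈ ⁅Q, zpowers z⁆, (∀ h ∈ ⁅Q, zpowers z⁆, ⁅h, g⁆ ∈ rker ρ) → g ∈ Zr ρ Q := by
    intro g hg h
    refine ⟨hle hg, hQ (hle hg), fun y hy => ?_⟩
    rw [← b4] at hy
    obtain ⟨y1, hy1, y2, hy2, rfl⟩ := (mem_sup_norm' (inf_le_left.trans (le_norm_comm_left _ _))).1 hy
    rw [rp_mul ρ (hQ (hle hy1)) (hQ hy2.1), ← mul_assoc,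
      ← (rp_comm_iff (hQ (hle hy1)) (hQ (hle hg))).2 (h y1 hy1), mul_assoc, mul_assoc,
      ← rp_mul ρ (hQ (hle hg)) (hQ hy2.1), ← rp_mul ρ (hQ hy2.1) (hQ (hle hg)),
      mem_cent.1 (b6 hg) y2 hy2]
  have h4 : Fix ρ ⁅Q, zpowers z⁆ = ⊥ := by
    obtain ⟨d, hd, hd'⟩ := SetLike.not_le_iff_exists.1
      (show ¬ ⁅⁅Q, zpowers z⁆, ⁅Q, zpowers z⁆⁆ ≤ rker ρ from fun h4 =>
        h3 fun g hg => key g hg fun h hh => h4 (commutator_mem_commutator hh hg))
    obtain ⟨c, hc⟩ := hsc d (comm_mono hle hle hd)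
    refine eq_bot_iff.2 fun w hw => ?_
    have h5 := hw d (der_le _ hd)
    rw [hc, LinearMap.smul_apply, Module.End.one_apply] at h5
    by_contra h6
    have h7 : c = 1 := by
      by_contra h7
      exact h6 ((smul_eq_zero.1 (show (c - 1) • w = 0 by
        rw [sub_smul, h5, one_smul, sub_self])).resolve_left (sub_ne_zero.2 h7))
    exact hd' (mem_rker.2 ⟨hQ (hle (der_le _ hd)), by rw [hc, h7, one_smul]⟩)
  have hn1 : u ∈ 𝓝(⁅Q, zpowers z⁆) := norm_comm (zpowers_le.2 hn)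
    (norm_of_comm (comm_of_cyclic (cyc_zpowers u)) hy') (mem_zpowers u)
  have hQ1 := hle.trans hQ
  have hb' : b ∈ Q ⊓ 𝓒(zpowers z) := by rw [cent_zpowers]; exact hb
  generalize ⁅Q, zpowers z⁆ = Q1 at *
  by_contra hc
  set σ := rp (ρ.linHom ρ) u - 1 with hσ
  have hσ0 : σ ^ 2 ^ (a + 1) = 0 := by
    rw [hσ, sub_one_pow_char, ← rp_pow _ hu, ← ho, pow_orderOf_eq_one, rp_one, sub_self]
  have hσF : ∀ j, (σ ^ j) (rp ρ b) ∈ Fix (ρ.linHom ρ) Q1 := fun j => by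
    induction j with
    | zero =>
      refine (mem_Fix_linHom hQ1).2 fun y hy => ?_
      rw [pow_zero, Module.End.one_apply, ← rp_mul ρ (hQ1 hy) (hQ hb.1), ← rp_mul ρ (hQ hb.1) (hQ1 hy),
        mem_cent.1 (b6 hy) b hb']
    | succ j ihj =>
      rw [pow_succ', Module.End.mul_apply]
      exact sub_mem (inv_Fix hQ1 (zpowers_le.2 hu) (zpowers_le.2 hn1) u (mem_zpowers u) _ ihj) ihj
  have hfix : ∀ T, σ T = 0 ↔ rp ρ u * T = T * rp ρ u := fun T => by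
    rw [← Fix_linHom_zpowers hu, mem_Fix_zpowers hu, hσ, LinearMap.sub_apply, sub_eq_zero]; rfl
  have hex : ∃ j, (σ ^ (j + 2)) (rp ρ b) = 0 := ⟨2 ^ (a + 1), by
    rw [pow_add, hσ0, zero_mul]; rfl⟩
  obtain ⟨j, hj1, hj2⟩ : ∃ j, (σ ^ (j + 1)) (rp ρ b) ≠ 0 ∧ (σ ^ (j + 2)) (rp ρ b) = 0 := by
    refine ⟨Nat.find hex, ?_, Nat.find_spec hex⟩
    rcases h : Nat.find hex with _ | j
    · rw [zero_add, pow_one, Ne, hfix, rp_comm_iff hu (hQ hb.1)]; exact hc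
    · exact Nat.find_min hex (by omega : j < Nat.find hex)
  have hT' := (mem_Fix_linHom hQ1).1 (hσF (j + 1))
  rw [pow_succ', Module.End.mul_apply, hfix] at hj2
  have e1 : (σ ^ (j + 1)) (rp ρ b) = σ ((σ ^ j) (rp ρ b)) := by rw [pow_succ', Module.End.mul_apply]
  generalize (σ ^ (j + 1)) (rp ρ b) = T' at *
  generalize (σ ^ j) (rp ρ b) = T at *
  have hTX : T * rp ρ u = rp ρ u * T - T' * rp ρ u := by
    rw [e1, hσ, LinearMap.sub_apply, rp_linHom hu, Module.End.one_apply, sub_mul, mul_assoc,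
      rp_inv_mul ρ hu, mul_one]; abel
  have hp2 : 2 ≤ 2 ^ (a + 1) := Nat.le_self_pow (by omega) 2
  have e2 := shift_pow' hTX (Commute.mul_right hj2 (Commute.refl _)) (2 ^ (a + 1) - 2)
  rw [show 2 ^ (a + 1) - 2 + 1 = 2 ^ (a + 1) - 1 by omega, hr, mul_zero, zero_mul, zero_sub, eq_comm,
    neg_eq_zero, ← Nat.cast_smul_eq_nsmul k, smul_eq_zero] at e2
  have e3 : (rp ρ u - 1) ^ (2 ^ (a + 1) - 2) * T' = 0 := by
    have := congrArg (· * rp ρ u⁻¹) (e2.resolve_left fun h => by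
      have := (CharP.cast_eq_zero_iff k 2 _).1 h
      rw [pow_succ] at this hp2
      omega)
    simpa only [mul_assoc, rp_mul_inv ρ hu, mul_one, zero_mul] using this
  have hL : Q1 ⊔ zpowers u ≤ D := sup_le hQ1 (zpowers_le.2 hu)
  have hU : BGRep.Inv ρ (Q1 ⊔ zpowers u) (LinearMap.range T') :=
    Inv.sup_left hQ1 (zpowers_le.2 hu) (fun y hy w ⟨v, hv⟩ => ⟨rp ρ y v, by
      rw [← hv, ← Module.End.mul_apply, ← hT' y hy, Module.End.mul_apply]⟩)
      ((inv_iff_le_sstab (zpowers_le.2 hu)).2 (zpowers_le.2 (mem_sstab_of_finite hu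
        fun w ⟨v, hv⟩ => ⟨rp ρ u v, by
          rw [← hv, ← Module.End.mul_apply, ← hj2, Module.End.mul_apply]⟩)))
  obtain ⟨U, hU', h5, h6, hi⟩ := exists_irr_res hL hU (fun h => hj1 (LinearMap.range_eq_bot.1 h))
  haveI := Submodule.nontrivial_iff_ne_bot.2 h6
  have := homog (ρ := res ρ hL U hU') (r := 2 ^ (a + 1) - 2) rfl hi hn1 ho (hp'.of_le hle) b5.ge
    (class2_res hL hU' le_sup_left ((comm_mono (comm_mono hle hle) hle).trans (h2.le.trans bot_le)))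
    (fun d hd => by
      obtain ⟨c, hc⟩ := hsc d (comm_mono hle hle hd)
      exact ⟨c, LinearMap.ext fun w => Subtype.ext (by
        rw [coe_rp_res hL hU' (mem_sup_left (der_le _ hd)), hc]; rfl)⟩)
    (Fix_res_eq_bot hL hU' le_sup_left (by rw [h4, inf_bot_eq]))
    (LinearMap.ext fun w => Subtype.ext (by
      rw [res_sub_pow hL hU' (mem_sup_right (mem_zpowers u))]
      obtain ⟨v, hv⟩ := h5 w.2
      rw [← hv, ← Module.End.mul_apply, e3]; rfl)) (by omega)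
  omega

/-- all `2 ^ n`-th powers of two-elements -/
def Zs (G : Type*) [Group G] (n : ℕ) : Set G := {z | ∃ g : G, PiNat {2} (orderOf g) ∧ g ^ 2 ^ n = z}

theorem normal_closure_of {S : Set G} (h : ∀ x ∈ S, ∀ g : G, g * x * g⁻¹ ∈ S) :
    (closure S).Normal := by
  refine ⟨fun x hx g => ?_⟩
  have : (closure S).map (MulAut.conj g).toMonoidHom ≤ closure S := by
    rw [MonoidHom.map_closure]
    exact closure_mono (by rintro _ ⟨y, hy, rfl⟩; exact h y hy g)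
  exact this (mem_map_of_mem _ hx)

theorem orderOf_cj (g x : G) : orderOf (g * x * g⁻¹) = orderOf x :=
  (MulAut.conj g).orderOf_eq x

theorem normal_Zs (n : ℕ) : (closure (Zs G n)).Normal := normal_closure_of (by
  rintro _ ⟨x, hx, rfl⟩ g
  exact ⟨g * x * g⁻¹, by rw [orderOf_cj]; exact hx, conj_pow⟩)

theorem normal_el (L : Subgroup G) [hL : L.Normal] (π : Set ℕ) :
    (closure {x | x ∈ L ∧ PiNat π (orderOf x)}).Normal := normal_closure_of fun x hx g =>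
  ⟨hL.conj_mem x hx.1 g, by rw [orderOf_cj]; exact hx.2⟩

theorem z_mem [IsAlgClosed k] [FiniteDimensional k W] [CharP k 2]
    (ρ : Representation k (⊤ : Subgroup G) W) (hf : rker ρ = ⊥) (hs : Group.IsSolvable G)
    (hO : pCore 2 G = ⊥) {n : ℕ} (h1 : Ex 2 G (n + 1))
    (hr : ∀ g : G, PiNat {2} (orderOf g) → (rp ρ g - 1) ^ (2 ^ (n + 1) - 1) = 0) :
    closure (Zs G n) ≤ pPrimePCore 2 G := by
  classical
  haveI hp : Fact (Nat.Prime 2) := ⟨Nat.prime_two⟩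
  haveI := hs
  haveI := normal_Zs (G := G) n
  have hp2 : 2 ≤ 2 ^ (n + 1) := Nat.le_self_pow (by omega) 2
  have habel : ∀ X : Subgroup G, X.Normal → IsPi {2}ᶜ X → IsMulCommutative X →
      closure (Zs G n) ≤ 𝓒(X) := by
    intro X hXn hX hXc
    refine (closure_le _).2 ?_
    rintro _ ⟨g, hg, rfl⟩
    by_contra h3
    rcases thmB_sub (ρ := ρ) le_top (mem_top g) (top_le_norm X ⊤ (mem_top g)) hX (by rw [hf, inf_bot_eq])
      (orderOf_eq_prime_pow (fun h => h3 (h ▸ one_mem _)) (h1 g hg)) h3 (hr g hg) with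
      h4 | ⟨m, q, j, Q', -, -, -, -, -, h5, -, h6, -⟩
    · omega
    · exact h6 (comm_iff_le_cent.2 (h5.trans ((comm_iff_le_cent.1 hXc).trans (cent_anti h5))))
  set L := closure (Zs G n) with hL
  haveI := normal_el L {2}ᶜ
  set J := closure {x | x ∈ L ∧ PiNat {2}ᶜ (orderOf x)} with hJ
  have hJL : J ≤ L := (closure_le _).2 fun x hx => hx.1
  suffices H : IsPi {2}ᶜ J by
    have h2 := le_p'core hp.out H
    have h3 : IsPi {2} (L.map (QuotientGroup.mk' (pPrimeCore 2 G))) := isPi_of_orderOf (by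
      rintro _ ⟨x, hx, rfl⟩
      obtain ⟨t, m, h3, h4⟩ := Nat.exists_eq_pow_mul_and_not_dvd (orderOf_pos x).ne' 2 (by norm_num)
      refine piNat_two (n := t) ?_
      rw [← map_pow]
      refine (QuotientGroup.eq_one_iff _).2 (h2 (subset_closure ⟨pow_mem hx _, ?_⟩))
      exact ((piNat_compl_iff hp.out).2 h3).of_dvd (orderOf_dvd_of_pow_eq_one (by
        rw [← pow_mul, ← h4, pow_orderOf_eq_one])))
    haveI := Normal.map (inferInstance : L.Normal) _ (QuotientGroup.mk'_surjective (pPrimeCore 2 G))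
    exact map_le_iff_le_comap.1 (le_pcore hp.out h3)
  haveI := normal_el J {2}
  set J2 := closure {x | x ∈ J ∧ PiNat {2} (orderOf x)} with hJ2
  have hJ2J : J2 ≤ J := (closure_le _).2 fun x hx => hx.1
  suffices H : J2 ≤ 𝓒(pPrimeCore 2 G) by
    rw [isPi_compl_iff hp.out]
    intro hd
    obtain ⟨X, h2, h3⟩ := exists_card_eq_prime hp.out hd
    have hX := isPi_of_card_eq hp.out h3
    have h4 : X ≤ pPrimeCore 2 G := fun x hx =>
      cent_p'core psolv_of_solvable hO (H (subset_closure ⟨h2 hx, hX.orderOf hx⟩))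
    exact ne_bot_of_prime (h3 ▸ hp.out) (hX.eq_bot ((isPi_p'core hp.out).of_le h4))
  by_contra hc
  obtain ⟨Q, -, ⟨hQn, hQp, hQc⟩, hmin⟩ := exists_minimal_le
    (P := fun Q : Subgroup G => Q.Normal ∧ IsPi {2}ᶜ Q ∧ ¬ J2 ≤ 𝓒(Q))
    ⟨inferInstance, isPi_p'core hp.out, hc⟩
  have hlt : ∀ U : Subgroup G, U.Normal → U < Q → J2 ≤ 𝓒(U) := fun U hU h => by
    by_contra h2
    exact h.ne (hmin U ⟨hU, hQp.of_le h.le, h2⟩ h.le)
  obtain ⟨y, ⟨hy, hy2⟩, hyc⟩ : ∃ y ∈ {x | x ∈ J ∧ PiNat {2} (orderOf x)}, y ∉ 𝓒(Q) := by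
    by_contra h
    push Not at h
    exact hQc ((closure_le _).2 h)
  have hyJ : zpowers y ≤ J2 := zpowers_le.2 (subset_closure ⟨hy, hy2⟩)
  have hGG : ⁅Q, zpowers y⁆ ≤ 𝓒(zpowers y) → False := fun h => hyc (coprime_commGG1P
    (top_le_norm _ _) (hQp.coprime' (isPi_zpowers.2 hy2))
    (Or.inl ((isPi_zpowers.2 hy2).isSolvable hp.out)) h (mem_zpowers y))
  have hQ0 : Q ≠ ⊥ := fun h => hyc (by rw [h]; exact cent_symm (bot_le : ⊥ ≤ 𝓒(⊤)) (mem_top y))
  have hD := hlt _ inferInstance (der_lt_of_solv inferInstance hQ0)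
  have hQJ : ⁅Q, J2⁆ = Q := by
    by_contra h
    exact hGG ((comm_mono le_rfl hyJ).trans ((cent_symm (hlt _ inferInstance
      (lt_of_le_of_ne (comm_le_left (top_le_norm _ _)) h))).trans (cent_anti hyJ)))
  have hDc : ⁅Q, Q⁆ ≤ 𝓒(Q) := cent_symm (hQJ.ge.trans (BG.three_subgroups
    (by rw [commutator_eq_bot_iff_le_centralizer.2 hD]; exact bot_le)
    ((comm_le_left (top_le_norm _ _)).trans (cent_symm hD))))
  have hcl := commutator_eq_bot_iff_le_centralizer.2 hDc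
  have hz := habel _ inferInstance (hQp.of_le (der_le Q))
    (comm_iff_le_cent.2 (hDc.trans (cent_anti (der_le Q))))
  have hDk : ⁅⁅Q, Q⁆, ⁅Q, Q⁆⁆ ≤ rker ρ := (comm_mono le_rfl (der_le Q)).trans (hcl.le.trans bot_le)
  have hcQ : ⁅zpowers y, Q⁆ ≤ Q := comm_le_right (top_le_norm _ _)
  have main : ⁅⁅zpowers y, Q⁆, Q⁆ ≤ rker ρ := le_rker_of_Wt le_top hDk
      (card_ne_zero (hQp.of_le (der_le Q))) le_top fun χ => by
    by_cases h0 : Wt ρ ⁅Q, Q⁆ χ = ⊥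
    · rw [h0]; exact bot_le
    haveI := Submodule.nontrivial_iff_ne_bot.2 h0
    haveI : Nontrivial W := Submodule.nontrivial_iff (R := k) |>.1 ⟨⟨_, _, h0⟩⟩
    have hQS : Q ≤ wstab ⁅Q, Q⁆ χ := (cent_symm hDc).trans (cent_le_wstab χ)
    have hU : BGRep.Inv ρ (wstab ⁅Q, Q⁆ χ) (Wt ρ ⁅Q, Q⁆ χ) := fun x hx w hw => by
      have := rp_mem_Wt le_top (mem_top x) hx.1 hw
      rwa [hx.2] at this
    set σ := res ρ le_top _ hU with hσ
    have hSN : wstab ⁅Q, Q⁆ χ ≤ 𝓝(Zr σ Q) := fun x hx =>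
      mem_norm_Zr hQS hx (top_le_norm Q ⊤ (mem_top x))
    have hsc : ∀ d ∈ ⁅Q, Q⁆, ∃ c : k, rp σ d = c • (1 : End k _) := fun d hd =>
      ⟨χ ⟨d, hd⟩, LinearMap.ext fun w => Subtype.ext (by
        rw [hσ, coe_rp_res le_top hU (hQS (der_le Q hd))]; exact w.2 ⟨d, hd⟩)⟩
    have h3 := keyE hs (hQS.trans hSN) ((le_Zr_iff hQS (der_le Q)).2 (hcl.le.trans bot_le)) hQp
      (Zs := Zs G n) ?_ hy hy2
    · have h4 := (le_Zr_iff hQS hcQ).1 h3
      exact fun w hw x hx => ((mem_rker_res le_top hU).1 (h4 hx)).2 w hw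
    rintro _ ⟨g, hg, rfl⟩
    have hzg := hz (subset_closure ⟨g, hg, rfl⟩)
    by_cases h3 : g ^ 2 ^ n = 1
    · refine ⟨1, one_mem _, 0, by rw [h3, one_pow], one_pow _, ?_, fun _ b _ => ?_⟩
      · rw [h3, zpowers_one_eq_bot, commutator_bot_right, relIndex_bot_right]; norm_num
      · rw [commutatorElement_one_left]; exact one_mem _
    have hex : ∃ j, g ^ 2 ^ j ∈ wstab ⁅Q, Q⁆ χ := ⟨n, cent_le_wstab χ hzg⟩
    obtain ⟨a, ha⟩ := Nat.exists_eq_add_of_le (Nat.find_min' hex (cent_le_wstab χ hzg))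
    have hu : g ^ 2 ^ Nat.find hex ∈ wstab ⁅Q, Q⁆ χ := Nat.find_spec hex
    have ho : orderOf g = 2 ^ (Nat.find hex + a + 1) := ha ▸ orderOf_eq_prime_pow h3 (h1 g hg)
    have hzu : g ^ 2 ^ n = (g ^ 2 ^ Nat.find hex) ^ 2 ^ a := by rw [← pow_mul, ← pow_add, ← ha]
    have ho' : orderOf (g ^ 2 ^ Nat.find hex) = 2 ^ (a + 1) := by
      rw [orderOf_pow_of_dvd (pow_ne_zero _ hp.out.ne_zero) (by rw [ho]; exact pow_dvd_pow 2 (by omega)),
        ho, add_assoc, pow_add, Nat.mul_div_cancel_left _ (pow_pos hp.out.pos _)]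
    have hr' : (rp σ (g ^ 2 ^ Nat.find hex) - 1) ^ (2 ^ (a + 1) - 1) = 0 :=
      LinearMap.ext fun w => Subtype.ext (by
        rw [hσ, res_sub_pow le_top hU hu]
        exact pow_sub_wt le_top hDk (mem_top g) (top_le_norm _ ⊤ (mem_top g)) ho hu
          (fun t ht => Nat.find_min hex ht) (ha ▸ hr g hg) w.2)
    have hun : g ^ 2 ^ Nat.find hex ∈ 𝓝(Q) := top_le_norm Q ⊤ (mem_top _)
    refine ⟨_, hSN hu, a, hzu, by rw [← ho', pow_orderOf_eq_one], ?_, fun h4 b hb => ?_⟩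
    · rw [hzu]
      exact step_count hQS hu hun ho' hQp hcl hsc (hzu ▸ hzg) hr'
    · rw [hzu] at h4 hb
      have h5 := cent_u hQS hu hun ho' hQp hcl hsc (hzu ▸ hzg) hr' h4 hb
      refine ⟨comm_le_right (top_le_norm Q ⊤) (commutator_mem_commutator (mem_top _) hb.1),
        (mem_rker.1 h5).1, fun y hy => ?_⟩
      rw [(mem_rker.1 h5).2, one_mul, mul_one]
  rw [hf, le_bot_iff, commutator_eq_bot_iff_le_centralizer] at main
  have h5 := habel (Q ⊓ 𝓒(Q)) inferInstance (hQp.of_le inf_le_left)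
    (comm_iff_le_cent.2 (inf_le_right.trans (cent_anti inf_le_left)))
  refine hGG ?_
  rw [commutator_comm]
  exact (le_inf hcQ main).trans (cent_symm ((zpowers_le.2 (hJL hy)).trans h5))

theorem ex_drop (hs : Group.IsSolvable G) (hO : pPrimeCore 2 G = ⊥) {n : ℕ} (h : Ex 2 G (n + 1)) :
    closure (Zs (G ⧸ pCore 2 G) n) ≤ pPrimePCore 2 (G ⧸ pCore 2 G) := by
  haveI hp : Fact (Nat.Prime 2) := ⟨Nat.prime_two⟩
  haveI := hs
  refine z_mem (kprep G 2) (rker_kprep psolv_of_solvable hO) inferInstance (pcore_quot hp.out)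
    (h.quot hp.out _) fun y hy => ?_
  obtain ⟨g, h3, rfl⟩ := exists_lift_el hp.out (QuotientGroup.mk'_surjective _) hy
  have := congrArg (Module.End.baseChangeHom (ZMod 2) (Fb 2) (PV G 2)) (prep_exp h h3)
  rwa [map_pow, map_sub, map_one, map_zero, ← rp_kprep] at this

universe u

theorem PL_two (e : ℕ) : ∀ (G : Type u) [Group G] [Finite G], Group.IsSolvable G → Ex 2 G (e + 1) →
    PLengthLE 2 (2 * e + 1) G := by
  haveI hp : Fact (Nat.Prime 2) := ⟨Nat.prime_two⟩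
  induction e with
  | zero =>
    intro G _ _ hs h
    refine PL_of_quot_p'core hp.out (PL_of_quot_pcore hp.out ((PL_zero_iff hp.out).2 fun hd => ?_))
    obtain ⟨x, hx⟩ := exists_prime_orderOf_dvd_card' 2 hd
    obtain ⟨g, h3, rfl⟩ := exists_lift_el hp.out (QuotientGroup.mk'_surjective _)
      (show PiNat {2} (orderOf x) by rw [hx]; exact (piNat_prime hp.out).2 rfl)
    have h4 := prep_exp (h.quot hp.out (pPrimeCore 2 G)) h3
    rw [show 2 ^ (0 + 1) - 1 = 1 by norm_num, pow_one, sub_eq_zero, ← map_one (prep _ 2)] at h4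
    have h5 := prep_injective psolv_of_solvable (p'core_quot hp.out) h4
    rw [QuotientGroup.mk'_apply, h5, orderOf_one] at hx
    omega
  | succ e ih =>
    intro G _ _ hs h
    have h1 := h.quot hp.out (pPrimeCore 2 G)
    have h2 := ex_drop inferInstance (p'core_quot hp.out) h1
    refine PL_of_quot_p'core hp.out (PL_of_quot_pcore hp.out ?_)
    rw [show 2 * (e + 1) = 1 + (2 * e + 1) by ring]
    refine PL_of_ker hp.out (QuotientGroup.mk' (ups 2 _ 2)) (by rw [QuotientGroup.ker_mk'])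
      (ih _ inferInstance fun y hy => ?_)
    obtain ⟨g, h3, rfl⟩ := exists_lift_el hp.out (QuotientGroup.mk'_surjective _) hy
    rw [← map_pow, QuotientGroup.mk'_apply, QuotientGroup.eq_one_iff, ups_two hp.out]
    exact h2 (subset_closure ⟨g, h3, rfl⟩)

end CA.H9Two
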