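import Cfsg.Agent.Lib.Solv.H9Two2

/-!
Local analysis of exceptional two-elements on a symplectic group of odd order.
-/

set_option autoImplicit false
set_option linter.unusedSectionVars false
set_option linter.unusedVariables false
set_option linter.style.haveILetI false

namespace CA.H9Two
open Subgroup Cfsg CA.OQuo CA.BG CA.BGRep Module CA.H12PSolv CA.HH CA.BG4
open scoped commutatorElement

variable {Y : Type*} [Group Y] [Finite Y]

theorem conj_comm (hY : ∀ a b : Y, a * b = b * a) (ho : Odd (Nat.card Y)) {S : Subgroup (MulAut Y)}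
    (hS : IsPi {2} S) {u : MulAut Y} (hu : u ∈ S) {a : ℕ} (h : Gd u a) :
    ∀ t ∈ S, Commute (t * u ^ 2 ^ a * t⁻¹) (u ^ 2 ^ a) := by
  by_cases h1 : u ^ 2 ^ a = 1
  · intro t _; rw [h1]; exact Commute.one_right _
  have hSp : IsPGroup 2 S := (isPi_iff_isPGroup Nat.prime_two).1 hS
  obtain ⟨B, -, hB⟩ := exists_scn (R := S) hSp.isNilpotent bot_le (top_le_norm _ _) inferInstance
  have hBc := comm_iff_le_cent.1 (scn_comm hB)
  suffices h3 : u ^ 2 ^ a ∈ B from fun t ht =>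
    mem_cent.1 (hBc h3) _ ((mem_normalizer_iff.1 (hB.2.1 ht) _).1 h3)
  by_cases h2 : u ∈ 𝓒(B)
  · exact pow_mem (scn_mem hB hu h2) _
  obtain ⟨b, hb, hb1, hb2, hb3⟩ := CA.PGBasic.exists_layer_pow (N := B ⊓ 𝓒₁(u)) hSp
    (zpowers_le.2 hu) hB.1 ((zpowers_le.2 hu).trans hB.2.1) (norm_of_comm (scn_comm hB) inf_le_left)
    (fun h3 => h2 (mem_cent.2 fun y hy => (mem_centralizer_singleton_iff.1 (h3 hy).2)))
  have hc := hb3 u (mem_zpowers u)
  have e1 : ⁅b, u⁆ * u = u * ⁅b, u⁆ := mem_centralizer_singleton_iff.1 hc.2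
  have e2 : ⁅b, u⁆ * b = b * ⁅b, u⁆ := mem_cent.1 (hBc hb) _ hc.1
  have e3 : b * u = ⁅b, u⁆ * u * b := by rw [commutatorElement_def]; group
  have e4 : b ^ 2 * u = u * b ^ 2 := mem_centralizer_singleton_iff.1 hb2.2
  rw [← inv_eq hY ho h h1 (c := ⁅b, u⁆) (b := b) (fun h3 => hb1 ⟨hb,
    mem_centralizer_singleton_iff.2 (commutatorElement_eq_one_iff_mul_comm.1 h3)⟩) ?_ e1 e2 e3]
  · exact hc.1
  · generalize ⁅b, u⁆ = c at e1 e2 e3
    have e5 : c * c * (u * b ^ 2) = 1 * (u * b ^ 2) := by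
      rw [one_mul]
      nth_rewrite 2 [← e4]
      rw [sq, mul_assoc b b, e3, ← mul_assoc b, ← mul_assoc b, ← e2, mul_assoc c b, e3]
      simp only [mul_assoc]
    exact mul_right_cancel e5

/-- the points inverted by `z` -/
def Iv (hY : ∀ a b : Y, a * b = b * a) (z : MulAut Y) : Subgroup Y where
  carrier := {y | z y = y⁻¹}
  mul_mem' := fun {a b} ha hb => by
    show z (a * b) = (a * b)⁻¹
    rw [map_mul, show z a = a⁻¹ from ha, show z b = b⁻¹ from hb, mul_inv_rev, hY]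
  one_mem' := by simp
  inv_mem' := fun {a} ha => by
    show z a⁻¹ = a⁻¹⁻¹
    rw [map_inv, show z a = a⁻¹ from ha]

/-- the shadow of an invariant nondegenerate alternating form -/
def Sy (X : Subgroup (MulAut Y)) : Prop :=
  ∃ O : Y → Subgroup Y, (∀ y, y ∈ O y) ∧ (∀ y, O y = ⊤ → y = 1) ∧
    (∀ c ∈ X, ∀ y y', c y = y → c y' = y'⁻¹ → y' ∈ O y ∧ y ∈ O y') ∧
    ∀ c ∈ X, ∀ y, c y * c⁻¹ y ∈ O y

section
variable (hY : ∀ a b : Y, a * b = b * a) (ho : Odd (Nat.card Y)) {X : Subgroup (MulAut Y)}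
  {z c : MulAut Y} {q : ℕ}
include hY ho

theorem split_sq (hz : z * z = 1) (w : Y) : w * w = (w * z w) * (w * (z w)⁻¹) ∧
    z (w * z w) = w * z w ∧ z (w * (z w)⁻¹) = (w * (z w)⁻¹)⁻¹ := by
  have hzz : ∀ y, z (z y) = y := fun y => by rw [← MulAut.mul_apply, hz]; rfl
  refine ⟨?_, by rw [map_mul, hzz, hY], by rw [map_mul, map_inv, hzz]; simp⟩
  rw [hY w (z w)⁻¹, mul_assoc, ← mul_assoc (z w), mul_inv_cancel, one_mul]

theorem eqz (hz : z * z = 1) (hc : c * c = 1) (hcz : c * z = z * c)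
    (h1 : Nat.card {y : Y // c y = y⁻¹} ≤ Nat.card {y : Y // z y = y⁻¹})
    (h2 : ∀ y, z y = y⁻¹ → c y = y⁻¹) : c = z := by
  have e0 : Iv hY z = Iv hY c := eq_of_le_of_card_ge h2 h1
  have c4 : ∀ y, z y = y → c y = y := fun y hy => by
    have e1 : y * (c y)⁻¹ ∈ Iv hY c := (split_sq hY ho hc y).2.2
    have e2 : z (y * (c y)⁻¹) = y * (c y)⁻¹ := by rw [map_mul, map_inv, ← comm_apply hcz, hy]
    rw [← e0] at e1
    exact (mul_inv_eq_one.1 (eq_one_of_inv ho (e2.symm.trans e1))).symm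
  refine MulEquiv.ext fun y => ?_
  obtain ⟨w, rfl⟩ := sq_surj ho y
  obtain ⟨e1, e2, e3⟩ := split_sq hY ho hz w
  rw [e1, map_mul c, map_mul z, c4 _ e2, h2 _ e3, e2, e3]

theorem perp {O : Y → Subgroup Y} (o1 : ∀ y, y ∈ O y) (o2 : ∀ y, O y = ⊤ → y = 1)
    (o3 : ∀ y y', z y = y → z y' = y'⁻¹ → y ∈ O y') (hz : z * z = 1) (hq : q.Prime)
    (hc : Nat.card {y : Y // z y = y⁻¹} = q ^ 2) {y y' : Y} (hy : z y = y⁻¹) (hy' : z y' = y'⁻¹)
    (h1 : y ≠ 1) (h2 : y' ∈ O y) : y' ∈ zpowers y := by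
  by_contra h3
  have hc' : ♯(Iv hY z) = q ^ 2 := hc
  have e1 : zpowers y ⊔ zpowers y' ≤ Iv hY z := sup_le (zpowers_le.2 hy) (zpowers_le.2 hy')
  have e2 : zpowers y < zpowers y ⊔ zpowers y' :=
    lt_of_le_of_ne le_sup_left fun h => h3 (h ▸ mem_sup_right (mem_zpowers y'))
  have e3 : zpowers y ⊔ zpowers y' = Iv hY z := by
    refine eq_of_le_of_card_ge e1 ?_
    have d1 := card_dvd_of_le e1
    have d2 := card_dvd_of_le (e2.le.trans e1)
    have d3 := card_lt_of_lt e2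
    have d4 : ♯(zpowers y) ≠ 1 := fun h => h1 (zpowers_eq_bot.1 (card_eq_one.1 h))
    rw [hc'] at d1 d2 ⊢
    obtain ⟨i, hi, d5⟩ := (Nat.dvd_prime_pow hq).1 d1
    obtain ⟨j, hj, d6⟩ := (Nat.dvd_prime_pow hq).1 d2
    rw [d5, d6, Nat.pow_lt_pow_iff_right hq.one_lt] at d3
    rw [d6] at d4
    have : j ≠ 0 := fun h => d4 (by rw [h, pow_zero])
    rw [d5, show i = 2 by omega]
  have e4 : Iv hY z ≤ O y := e3 ▸ sup_le (zpowers_le.2 (o1 y)) (zpowers_le.2 h2)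
  refine h1 (o2 y (eq_top_iff.2 fun v _ => ?_))
  obtain ⟨w, rfl⟩ := sq_surj ho v
  obtain ⟨e5, e6, e7⟩ := split_sq hY ho hz w
  rw [e5]
  exact mul_mem (o3 _ _ e6 hy) (e4 e7)

theorem pm (hS : Sy X) (hzX : z ∈ X) (hz : z * z = 1) (hq : q.Prime)
    (hc : Nat.card {y : Y // z y = y⁻¹} = q ^ 2) (hcX : c ∈ X) (hcz : c * z = z * c)
    (h2 : ∀ y, z y = y⁻¹ → c (c y) = y) :
    (∀ y, z y = y⁻¹ → c y = y) ∨ ∀ y, z y = y⁻¹ → c y = y⁻¹ := by
  obtain ⟨O, o1, o2, o3, -⟩ := hS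
  have hI : ∀ y, z y = y⁻¹ → z (c y) = (c y)⁻¹ := fun y hy => by rw [← comm_apply hcz, hy, map_inv]
  by_cases h : ∀ y, z y = y⁻¹ → y * c y = 1
  · exact Or.inr fun y hy => eq_inv_of_mul_eq_one_right (h y hy)
  push Not at h
  obtain ⟨v, hv, hv1⟩ := h
  refine Or.inl fun y hy => ?_
  have e1 : c (v * c v) = v * c v := by rw [map_mul, h2 v hv, hY]
  have e2 : c (y * (c y)⁻¹) = (y * (c y)⁻¹)⁻¹ := by rw [map_mul, map_inv, h2 y hy]; simp
  have e3 := perp hY ho o1 o2 (fun y y' h1 h2 => (o3 z hzX y y' h1 h2).2) hz hq hc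
    ((Iv hY z).mul_mem hv (hI v hv)) ((Iv hY z).mul_mem hy ((Iv hY z).inv_mem (hI y hy))) hv1
    (o3 c hcX _ _ e1 e2).1
  have e4 : zpowers (v * c v) ≤ c.toMonoidHom.eqLocus (MonoidHom.id Y) := zpowers_le.2 e1
  have e5 : c (y * (c y)⁻¹) = y * (c y)⁻¹ := e4 e3
  exact (mul_inv_eq_one.1 (eq_one_of_inv ho (e5.symm.trans e2))).symm

theorem p2 (hS : Sy X) (hzX : z ∈ X) (hz : z * z = 1) (hq : q.Prime)
    (hc : Nat.card {y : Y // z y = y⁻¹} = q ^ 2) (hcX : c ∈ X) (hcz : c * z = z * c) {y : Y}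
    (hy : z y = y⁻¹) (h1 : y ≠ 1) : c y * c⁻¹ y ∈ zpowers y := by
  obtain ⟨O, o1, o2, o3, o4⟩ := hS
  refine perp hY ho o1 o2 (fun y y' h1 h2 => (o3 z hzX y y' h1 h2).2) hz hq hc hy
    ((Iv hY z).mul_mem ?_ ?_) h1 (o4 c hcX y)
  · show z (c y) = (c y)⁻¹
    rw [← comm_apply hcz, hy, map_inv]
  · show z (c⁻¹ y) = (c⁻¹ y)⁻¹
    rw [← comm_apply (Commute.inv_left hcz).eq, hy, map_inv]

end

theorem card_conj (γ z : MulAut Y) :
    Nat.card {y : Y // (γ * z * γ⁻¹) y = y⁻¹} ≤ Nat.card {y : Y // z y = y⁻¹} :=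
  Nat.card_le_card_of_injective (fun y => ⟨γ⁻¹ y.1, by
    have := congrArg (fun t => γ⁻¹ t) y.2
    simpa using this⟩) fun y y' h => Subtype.ext (γ⁻¹.injective (Subtype.mk.inj h))

theorem fix_pow {c : MulAut Y} {y : Y} (h : c y = y) (n : ℕ) : (c ^ n) y = y := by
  induction n with
  | zero => rfl
  | succ n ih => rw [pow_succ, MulAut.mul_apply, h, ih]

theorem sq_comm_inv {G : Type*} [Group G] {b l : G} (hb : b * b = 1)
    (h : Commute (l⁻¹ * b * l⁻¹⁻¹) b) : (l⁻¹ * b * l * b) * (l⁻¹ * b * l * b) = 1 := by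
  rw [inv_inv] at h
  rw [mul_assoc _ b, ← mul_assoc b, ← h.eq, mul_assoc _ b b, hb, mul_one, mul_assoc _ l,
    ← mul_assoc l, ← mul_assoc l, mul_inv_cancel, one_mul, ← mul_assoc, mul_assoc _ b b, hb, mul_one,
    inv_mul_cancel]

theorem LL (hY : ∀ a b : Y, a * b = b * a) (ho : Odd (Nat.card Y)) {X Λ : Subgroup (MulAut Y)}
    (hS : Sy X) (hΛ : Λ ≤ X) {Zs : Set (MulAut Y)} (hcl : Λ ≤ closure Zs) (hZΛ : ∀ b ∈ Zs, b ∈ Λ)
    (h1 : ∀ b ∈ Zs, b * b = 1 ∧ ∀ l ∈ Λ, Commute (l * b * l⁻¹) b) {u M : MulAut Y} {a : ℕ}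
    (hu : u ∈ X) (hun : ∀ l ∈ Λ, u * l * u⁻¹ ∈ Λ) (hg : Gd u a) (hz : u ^ 2 ^ a ∈ Zs)
    (hz1 : u ^ 2 ^ a ≠ 1) (hq : (2 ^ (a + 1) - 1).Prime)
    (hc : Nat.card {y : Y // (u ^ 2 ^ a) y = y⁻¹} = (2 ^ (a + 1) - 1) ^ 2) (hM : M ∈ Λ)
    (hg' : Gd (M * u) a) :
    ((M * u) ^ 2 ^ a = u ^ 2 ^ a ∨ ((M * u) ^ 2 ^ a * u ^ 2 ^ a) * ((M * u) ^ 2 ^ a * u ^ 2 ^ a) = 1 ∧
      ∀ l ∈ Λ, Commute l ((M * u) ^ 2 ^ a * u ^ 2 ^ a)) ∧
    (M * M = 1 → Commute M (u ^ 2 ^ a) → (M * u) ^ 2 ^ a = u ^ 2 ^ a) := by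
  obtain ⟨a', ha⟩ : ∃ a', a = a' + 1 := ⟨a - 1, by have := hg.pos hz1; omega⟩
  have hz2 := hg.sq
  have hz2' := hg'.sq
  have hc' := hg'.2.1
  rw [← hc] at hc'
  have hfix := hg.2.2 hz1
  have huz : u * u ^ 2 ^ a = u ^ 2 ^ a * u := ((Commute.refl u).pow_right _).eq
  have hpw : ∀ v : MulAut Y, v ^ 2 ^ a = (v * v) ^ 2 ^ a' := fun v => by
    rw [← sq, ← pow_mul, ← pow_succ', ha]
  have hzu := hpw u
  have hzu' := hpw (M * u)
  have hcm : ∀ v : MulAut Y, Commute (M * u) v → Commute ((M * u) ^ 2 ^ a) v := fun v h =>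
    h.pow_left _
  have hz'X : (M * u) ^ 2 ^ a ∈ X := pow_mem (mul_mem (hΛ hM) hu) _
  generalize (M * u) ^ 2 ^ a = z' at *
  generalize u ^ 2 ^ a = z at *
  have hzX := hΛ (hZΛ z hz)
  obtain ⟨y0, hy0, hy0'⟩ := exists_inv hz2 hz1
  have hI : ∀ {c : MulAut Y}, c * z = z * c → ∀ y, z y = y⁻¹ → z (c y) = (c y)⁻¹ :=
    fun hcz y hy => by rw [← comm_apply hcz, hy, map_inv]
  have PM := fun {c : MulAut Y} => pm (c := c) hY ho hS hzX hz2 hq hc
  have PM' : ∀ {c : MulAut Y}, c ∈ X → c * z = z * c → c * c = 1 → _ := fun hcX hcz hcc =>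
    PM hcX hcz fun y _ => by rw [← MulAut.mul_apply, hcc]; rfl
  have caseA : M * z = z * M → ((∀ y, z y = y⁻¹ → M y = y) ∨ ∀ y, z y = y⁻¹ → M y = y⁻¹) →
      z' = z := by
    intro hMz h
    refine eqz hY ho hz2 hz2' (hcm z (Commute.mul_left hMz huz)).eq hc' fun y hy => ?_
    have e1 : ∀ y, z y = y⁻¹ → (M * u * (M * u)) y = (u * u) y := fun y hy => by
      simp only [MulAut.mul_apply]
      rcases h with h | h
      · rw [h _ (hI huz y hy), h _ (hI huz _ (hI huz y hy))]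
      · rw [h _ (hI huz y hy), map_inv, map_inv, h _ (hI huz _ (hI huz y hy)), inv_inv]
    have e2 : ∀ n : ℕ, ((M * u * (M * u)) ^ n) y = ((u * u) ^ n) y := fun n => by
      induction n with
      | zero => rfl
      | succ n ih =>
        rw [pow_succ', MulAut.mul_apply, ih, e1 _ (hI (((Commute.mul_left huz huz).pow_left n).eq) y hy),
          pow_succ', MulAut.mul_apply _ (u * u)]
    rw [hzu', e2, ← hzu, hy]
  refine ⟨?_, fun h2 h3 => caseA h3.eq (PM' (hΛ hM) h3.eq h2)⟩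
  by_cases hA : ∀ b ∈ Zs, b * z = z * b
  · let K : Subgroup (MulAut Y) :=
      { carrier := {c | c * z = z * c ∧ ((∀ y, z y = y⁻¹ → c y = y) ∨ ∀ y, z y = y⁻¹ → c y = y⁻¹)}
        mul_mem' := fun {c d} hc hd => ⟨(Commute.mul_left hc.1 hd.1).eq, by
          rcases hc.2 with h | h <;> rcases hd.2 with h' | h'
          · exact Or.inl fun y hy => by rw [MulAut.mul_apply, h' y hy, h y hy]
          · exact Or.inr fun y hy => by rw [MulAut.mul_apply, h' y hy, map_inv, h y hy]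
          · exact Or.inr fun y hy => by rw [MulAut.mul_apply, h' y hy, h y hy]
          · exact Or.inl fun y hy => by rw [MulAut.mul_apply, h' y hy, map_inv, h y hy, inv_inv]⟩
        one_mem' := ⟨by simp, Or.inl fun y _ => rfl⟩
        inv_mem' := fun {c} hc => ⟨(Commute.inv_left hc.1).eq, by
          rcases hc.2 with h | h
          · exact Or.inl fun y hy => by
              nth_rewrite 1 [← h y hy]; exact MulAut.inv_apply_self _ _ _
          · exact Or.inr fun y hy => by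
              have := congrArg (fun t => (c⁻¹ t)⁻¹) (h y hy)
              simpa using this.symm⟩ }
    have : closure Zs ≤ K := (closure_le _).2 fun b hb =>
      ⟨hA b hb, PM' (hΛ (hZΛ b hb)) (hA b hb) (h1 b hb).1⟩
    exact Or.inl (caseA (this (hcl hM)).1 (this (hcl hM)).2)
  push Not at hA
  obtain ⟨b, hb, hbz⟩ := hA
  have hbΛ := hZΛ b hb
  have hbb := (h1 b hb).1
  have hbi : b⁻¹ = b := inv_eq_of_mul_eq_one_right hbb
  have hb2 : b * z * b⁻¹ ≠ z := fun h => hbz (mul_inv_eq_iff_eq_mul.1 h)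
  have orth : ∀ γ ∈ Λ, γ * z * γ⁻¹ ≠ z → ∀ y, z y = y⁻¹ →
      (γ * u * γ⁻¹) y = y ∧ (γ * u⁻¹ * γ⁻¹) y = y := fun γ hγ h y hy => by
    have e1 : γ * z * γ⁻¹ * (γ * z * γ⁻¹) = 1 := by
      rw [conj_mul, hz2, mul_one, mul_inv_cancel]
    have e2 := ((h1 z hz).2 γ hγ).eq
    rcases PM' (mul_mem (mul_mem (hΛ hγ) hzX) (inv_mem (hΛ hγ))) e2 e1 with e3 | e3
    · have e4 : u (γ⁻¹ y) = γ⁻¹ y := hfix _ (by
        have := congrArg (fun t => γ⁻¹ t) (e3 y hy)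
        simpa using this)
      have e5 : u⁻¹ (γ⁻¹ y) = γ⁻¹ y := by
        nth_rewrite 1 [← e4]; exact MulAut.inv_apply_self _ _ _
      constructor
      · rw [MulAut.mul_apply, MulAut.mul_apply, e4]; exact MulAut.apply_inv_self _ _ _
      · rw [MulAut.mul_apply, MulAut.mul_apply, e5]; exact MulAut.apply_inv_self _ _ _
    · exact absurd (eqz hY ho hz2 e1 e2 (card_conj γ z) e3) h
  have huz' : u⁻¹ * z = z * u⁻¹ := (Commute.inv_left huz).eq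
  have hw : ∀ γ ∈ Λ, ((γ * u * γ⁻¹) * u⁻¹ * (b * u * b⁻¹) * (b * γ * u⁻¹ * (b * γ)⁻¹)) *
      ((γ * u * γ⁻¹) * u⁻¹ * (b * u * b⁻¹) * (b * γ * u⁻¹ * (b * γ)⁻¹)) = 1 := fun γ hγ => by
    have := sq_comm_inv hbb ((h1 b hb).2 (u * γ * u⁻¹ * γ⁻¹)⁻¹
      (inv_mem (mul_mem (hun γ hγ) (inv_mem hγ))))
    have e : (γ * u * γ⁻¹) * u⁻¹ * (b * u * b⁻¹) * (b * γ * u⁻¹ * (b * γ)⁻¹) =
        (u * γ * u⁻¹ * γ⁻¹)⁻¹ * b * (u * γ * u⁻¹ * γ⁻¹) * b⁻¹ := by group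
    rw [e, hbi, this]
  have hnot : ∀ n : ℕ, ((u⁻¹ * u⁻¹) ^ n) y0 = y0 → n ∣ 2 ^ a' → False := fun n h hd => by
    obtain ⟨m, hm⟩ := hd
    have e1 := fix_pow h m
    rw [← pow_mul, ← hm, ← mul_inv_rev, inv_pow, ← hzu, inv_eq_of_mul_eq_one_right hz2] at e1
    exact hy0 (eq_one_of_inv ho (e1.symm.trans hy0'))
  have orb : ∀ γ ∈ Λ, γ * z * γ⁻¹ = z ∨ γ * z * γ⁻¹ = b * z * b⁻¹ := fun γ hγ => by
    by_contra h
    push Not at h
    have e0 : b * γ * z * (b * γ)⁻¹ ≠ z := fun e => h.2 (by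
      have : γ * z * γ⁻¹ = b⁻¹ * (b * γ * z * (b * γ)⁻¹) * b⁻¹⁻¹ := by group
      rw [this, e, hbi, hbi])
    have e1 : ∀ y, z y = y⁻¹ → ((γ * u * γ⁻¹) * u⁻¹ * (b * u * b⁻¹) * (b * γ * u⁻¹ * (b * γ)⁻¹)) y =
        u⁻¹ y := fun y hy => by
      rw [MulAut.mul_apply _ (_ * _ * _), (orth _ (mul_mem hbΛ hγ) e0 y hy).2,
        MulAut.mul_apply _ (_ * _), (orth b hbΛ hb2 y hy).1, MulAut.mul_apply _ (_ * _ * _),
        (orth γ hγ h.1 _ (hI huz' y hy)).1]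
    have e2 := congrArg (fun t : MulAut Y => t y0) (hw γ hγ)
    rw [MulAut.mul_apply _ (_ * _ * _ * _), e1 y0 hy0', e1 _ (hI huz' y0 hy0')] at e2
    exact hnot 1 (by rw [pow_one]; exact e2) (one_dvd _)
  have ha0 : a' = 0 := by
    by_contra h
    have e0 : b * b * u⁻¹ * (b * b)⁻¹ = u⁻¹ := by rw [hbb]; simp
    have e1 : ∀ y, z y = y⁻¹ → ((b * u * b⁻¹) * u⁻¹ * (b * u * b⁻¹) * (b * b * u⁻¹ * (b * b)⁻¹)) y =
        u⁻¹ (u⁻¹ y) := fun y hy => by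
      rw [e0, MulAut.mul_apply _ (_ * _ * _), MulAut.mul_apply _ (_ * _),
        (orth b hbΛ hb2 _ (hI huz' y hy)).1, MulAut.mul_apply _ (_ * _ * _),
        (orth b hbΛ hb2 _ (hI huz' _ (hI huz' y hy))).1]
    have e2 := congrArg (fun t : MulAut Y => t y0) (hw b hbΛ)
    rw [MulAut.mul_apply _ (_ * _ * _ * _), e1 y0 hy0', e1 _ (hI huz' _ (hI huz' y0 hy0'))] at e2
    exact hnot 2 (by rw [sq]; exact e2) (dvd_pow_self 2 h)
  subst ha0
  rw [pow_zero, pow_one] at hzu hzu'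
  have hzz2 : b * z * b⁻¹ * z = z * (b * z * b⁻¹) := ((h1 z hz).2 b hbΛ).eq
  have orb2 : ∀ γ ∈ Λ, (γ * z * γ⁻¹ = z ∧ γ * (b * z * b⁻¹) * γ⁻¹ = b * z * b⁻¹) ∨
      (γ * z * γ⁻¹ = b * z * b⁻¹ ∧ γ * (b * z * b⁻¹) * γ⁻¹ = z) := fun γ hγ => by
    have e1 := orb _ (mul_mem hγ hbΛ)
    rw [show γ * b * z * (γ * b)⁻¹ = γ * (b * z * b⁻¹) * γ⁻¹ by group] at e1
    have e2 : γ * (b * z * b⁻¹) * γ⁻¹ ≠ γ * z * γ⁻¹ := fun e => hb2 (by simpa using e)
    rcases orb γ hγ with e3 | e3 <;> rcases e1 with e4 | e4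
    · exact absurd (e4.trans e3.symm) e2
    · exact Or.inl ⟨e3, e4⟩
    · exact Or.inr ⟨e3, e4⟩
    · exact absurd (e4.trans e3.symm) e2
  have huz2 : u * (b * z * b⁻¹) * u⁻¹ = b * z * b⁻¹ := by
    have e1 : u * (b * z * b⁻¹) * u⁻¹ = (u * b * u⁻¹) * (u * z * u⁻¹) * (u * b * u⁻¹)⁻¹ := by group
    have e2 : u * z * u⁻¹ = z := by rw [huz, mul_inv_cancel_right]
    rw [e2] at e1
    refine (orb _ (hun b hbΛ)).elim (fun h => absurd ?_ hb2) fun h => e1.trans h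
    have := e1.trans (h.trans e2.symm)
    simpa using this
  have bz2 : b * (b * z * b⁻¹) * b⁻¹ = z := by
    rw [show b * (b * z * b⁻¹) * b⁻¹ = (b * b) * z * (b * b)⁻¹ by group, hbb]; simp
  have cb : ∀ {c : MulAut Y}, c * (b * z * b⁻¹) * c⁻¹ = b * z * b⁻¹ →
      (b * c * b⁻¹) * z = z * (b * c * b⁻¹) := fun {c} h => by
    rw [← mul_inv_eq_iff_eq_mul]
    nth_rewrite 2 [← bz2]
    rw [← h, ← bz2]
    nth_rewrite 1 [bz2]
    have : b * c * b⁻¹ * z * (b * c * b⁻¹)⁻¹ = b * (c * (b⁻¹ * z * b⁻¹⁻¹) * c⁻¹) * b⁻¹ := by group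
    rw [bz2, this, hbi, hbi]
  have star : ∀ l ∈ Λ, l * z * l⁻¹ = z → (b * l * b⁻¹) * z = z * (b * l * b⁻¹) ∧
      ((∀ y, z y = y⁻¹ → (b * l * b⁻¹) y = l y) ∨ ∀ y, z y = y⁻¹ → (b * l * b⁻¹) y = (l y)⁻¹) := by
    intro l hl h
    have e1 := cb ((orb2 l hl).elim (fun e => e.2) fun e => absurd (h.symm.trans e.1).symm hb2)
    have e2 : l * z = z * l := mul_inv_eq_iff_eq_mul.1 h
    have e3 := PM' (c := l⁻¹ * (b * l * b⁻¹)) (hΛ (mul_mem (inv_mem hl) (mul_mem (mul_mem hbΛ hl)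
      (inv_mem hbΛ)))) (Commute.mul_left (Commute.inv_left e2) e1).eq (by
        have := sq_comm_inv hbb ((h1 b hb).2 l⁻¹ (inv_mem hl))
        rw [hbi]; simpa only [mul_assoc] using this)
    refine ⟨e1, e3.imp (fun e y hy => ?_) fun e y hy => ?_⟩
    · have := congrArg l (e y hy)
      simpa using this
    · have := congrArg l (e y hy)
      simpa using this
  rcases orb2 M hM with ⟨m1, m2⟩ | ⟨m1, m2⟩
  · have e1 : M * z = z * M := mul_inv_eq_iff_eq_mul.1 m1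
    have e2 := (hcm z (Commute.mul_left e1 huz)).eq
    have e3 := cb (c := z') (mul_inv_eq_iff_eq_mul.2 (hcm _ (Commute.mul_left
      (mul_inv_eq_iff_eq_mul.1 m2) (mul_inv_eq_iff_eq_mul.1 huz2))).eq)
    have e4 : b * z' * b⁻¹ * (b * z' * b⁻¹) = 1 := by rw [conj_mul, hz2', mul_one, mul_inv_cancel]
    rcases PM' (mul_mem (mul_mem (hΛ hbΛ) hz'X) (inv_mem (hΛ hbΛ))) e3 e4 with e5 | e5
    · obtain ⟨s1, s2⟩ := star M hM m1
      refine Or.inl (caseA e1 (PM (hΛ hM) e1 fun y hy => ?_))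
      have e6 := e5 y hy
      rw [hzu', show b * (M * u * (M * u)) * b⁻¹ = (b * M * b⁻¹) * (b * u * b⁻¹) * (b * M * b⁻¹) *
        (b * u * b⁻¹) by group, MulAut.mul_apply _ (_ * _ * _), (orth b hbΛ hb2 y hy).1,
        MulAut.mul_apply _ (_ * _), MulAut.mul_apply _ (_ * _ * _),
        (orth b hbΛ hb2 _ (hI s1 y hy)).1] at e6
      rcases s2 with s2 | s2
      · rwa [s2 y hy, s2 _ (hI e1 y hy)] at e6
      · rwa [s2 y hy, map_inv, s2 _ (hI e1 y hy), inv_inv] at e6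
    · have e6 := eqz hY ho hz2 e4 e3 ((card_conj b z').trans hc') e5
      have e7 : z' = b * z * b⁻¹ := by
        rw [← e6, show b * (b * z' * b⁻¹) * b⁻¹ = (b * b) * z' * (b * b)⁻¹ by group, hbb]; simp
      rw [e7]
      refine Or.inr ⟨?_, fun l hl => ?_⟩
      · rw [mul_assoc _ z, ← mul_assoc z, ← hzz2, mul_assoc _ z z, hz2, mul_one, conj_mul, hz2]; simp
      · refine mul_inv_eq_iff_eq_mul.1 ?_
        rw [← conj_mul]
        rcases orb2 l hl with ⟨e8, e9⟩ | ⟨e8, e9⟩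
        · rw [e8, e9]
        · rw [e8, e9, hzz2]
  exfalso
  have hl : M * b ∈ Λ := mul_mem hM hbΛ
  have l1 : M * b * z * (M * b)⁻¹ = z := by
    rw [show M * b * z * (M * b)⁻¹ = M * (b * z * b⁻¹) * M⁻¹ by group, m2]
  have e0 : z' = (M * b) * (b * u * b⁻¹) * (b * (M * b) * b⁻¹) * u := by
    rw [hzu', show (M * b) * (b * u * b⁻¹) * (b * (M * b) * b⁻¹) * u = M * (b * b) * u * M * u by group,
      hbb]; group
  have e1 : z' * z = z * z' := by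
    rw [← mul_inv_eq_iff_eq_mul, hzu', show M * u * (M * u) * z * (M * u * (M * u))⁻¹ =
      M * (u * (M * (u * z * u⁻¹) * M⁻¹) * u⁻¹) * M⁻¹ by group, huz, mul_inv_cancel_right, m1, huz2, m2]
  obtain ⟨s1, s2⟩ := star _ hl l1
  generalize M * b = l at *
  have l2 : l * z = z * l := mul_inv_eq_iff_eq_mul.1 l1
  have e2 : ∀ y, z y = y⁻¹ → z' y = l ((b * l * b⁻¹) (u y)) := fun y hy => by
    rw [e0, MulAut.mul_apply _ (_ * _ * _), MulAut.mul_apply _ (_ * _), MulAut.mul_apply _ l,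
      (orth b hbΛ hb2 _ (hI s1 _ (hI huz y hy))).1]
  have e3 : (∀ y, z y = y⁻¹ → l (l (u y)) = y) ∨ ∀ y, z y = y⁻¹ → l (l (u y)) = y⁻¹ := by
    rcases PM' hz'X e1 hz2' with h | h <;> rcases s2 with h' | h'
    · exact Or.inl fun y hy => by rw [← h' _ (hI huz y hy), ← e2 y hy, h y hy]
    · exact Or.inr fun y hy => by
        rw [← inv_inv (l (u y)), ← h' _ (hI huz y hy), map_inv, ← e2 y hy, h y hy]
    · exact Or.inr fun y hy => by rw [← h' _ (hI huz y hy), ← e2 y hy, h y hy]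
    · exact Or.inl fun y hy => by
        rw [← inv_inv (l (u y)), ← h' _ (hI huz y hy), map_inv, ← e2 y hy, h y hy, inv_inv]
  have e4 : u (u y0) = y0⁻¹ := by rw [← MulAut.mul_apply, ← hzu, hy0']
  have e5 : l (l y0) * l⁻¹ (l⁻¹ y0) = 1 := by
    rcases e3 with h | h
    · have d1 := h _ (hI huz y0 hy0')
      have d2 := congrArg (fun t => l⁻¹ (l⁻¹ t)) (h y0 hy0')
      simp only [MulAut.inv_apply_self] at d2
      rw [e4, map_inv, map_inv] at d1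
      rw [← d2, ← d1, mul_inv_cancel]
    · have d1 := h _ (hI huz y0 hy0')
      have d2 := congrArg (fun t => l⁻¹ (l⁻¹ t)) (h y0 hy0')
      simp only [MulAut.inv_apply_self, map_inv] at d2
      rw [e4, map_inv, map_inv, inv_inj] at d1
      rw [d1, d2, inv_mul_cancel]
  obtain ⟨k, hk⟩ := p2 hY ho hS hzX hz2 hq hc (hΛ hl) l2 hy0' hy0
  have e6 : y0 ^ (k * k) = y0 ^ (2 : ℤ) := by
    have d1 : l (y0 ^ k) * l⁻¹ (y0 ^ k) = (l y0 * l⁻¹ y0) ^ k := by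
      rw [map_zpow, map_zpow, Commute.mul_zpow (hY _ _)]
    simp only at hk
    rw [← hk, ← zpow_mul] at d1
    rw [← d1, hk, map_mul, map_mul, MulAut.apply_inv_self, MulAut.inv_apply_self, zpow_two,
      hY (l (l y0)), mul_assoc, hY y0 (l⁻¹ _), ← mul_assoc (l _), e5, one_mul]
  have e7 : orderOf y0 ∣ 3 ^ 2 := by
    have := (Iv hY z).orderOf_dvd_natCard hy0'
    rwa [show ♯(Iv hY z) = _ from hc, ha] at this
  obtain ⟨i, -, e8⟩ := (Nat.dvd_prime_pow Nat.prime_three).1 e7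
  have e9 : (3 : ℤ) ∣ 2 - k * k := by
    refine Dvd.dvd.trans ?_ (zpow_eq_zpow_iff_modEq.1 e6).dvd
    rw [e8]
    exact_mod_cast dvd_pow_self 3 fun h => hy0 (orderOf_eq_one_iff.1 (by rw [e8, h, pow_zero]))
  have : k % 3 = 0 ∨ k % 3 = 1 ∨ k % 3 = 2 := by omega
  have e10 := Int.mul_emod k k 3
  rcases this with h | h | h <;> rw [h] at e10 <;> omega

end CA.H9Two
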