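import Cfsg.Agent.Lib.Solv.H9Two3

/-!
Exact sizes, the symplectic data on weight spaces, and localisation.
-/

set_option autoImplicit false
set_option linter.unusedSectionVars false
set_option linter.unusedVariables false
set_option linter.style.haveILetI false

namespace CA.H9Two
open Subgroup Cfsg CA.OQuo CA.BG CA.BGRep Module CA.H12PSolv CA.HH CA.BG4
open scoped commutatorElement

universe u

theorem mers {q j s : ℕ} (hq : q.Prime) (hq2 : q ≠ 2) (hj : 1 ≤ j) (hs : 2 ≤ s)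
    (h : 2 ^ s - 1 = q ^ j) : j = 1 := by
  have h1 : q ^ j + 1 = 2 ^ s := by have : 1 ≤ 2 ^ s := Nat.one_le_two_pow; omega
  obtain ⟨r, hr⟩ := hq.odd_of_ne_two hq2
  obtain ⟨i, rfl | rfl⟩ := Nat.even_or_odd' j
  · exfalso
    obtain ⟨t, ht⟩ : Odd (q ^ i) := (hq.odd_of_ne_two hq2).pow
    obtain ⟨s, rfl⟩ : ∃ s', s = s' + 2 := ⟨s - 2, by omega⟩
    rw [mul_comm, pow_mul, ht, pow_add] at h1
    have : (2 * t + 1) ^ 2 = 4 * (t * t + t) + 1 := by ring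
    omega
  have key : ∀ i : ℕ, ∃ c, Odd c ∧ q ^ (2 * i + 1) + 1 = (q + 1) * c := fun i => by
    induction i with
    | zero => exact ⟨1, odd_one, by simp⟩
    | succ i ih =>
      obtain ⟨c, hc, e⟩ := ih
      refine ⟨2 * (q ^ (2 * i + 1) * r) + c, (even_two_mul _).add_odd hc, ?_⟩
      rw [mul_add (q + 1), ← e, show 2 * (i + 1) + 1 = 2 * i + 1 + 2 by ring, pow_add q (2 * i + 1) 2]
      generalize q ^ (2 * i + 1) = A
      rw [hr]; ring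
  obtain ⟨c, hc, e⟩ := key i
  have h2 : c ∣ 2 ^ s := by rw [← h1, e]; exact dvd_mul_left _ _
  have h3 : c = 1 := Nat.Coprime.eq_one_of_dvd ((Nat.coprime_two_right.2 hc).pow_right s) h2
  rw [h3, mul_one, add_left_inj] at e
  exact Nat.pow_right_injective hq.two_le (e.trans (pow_one q).symm)

variable {G : Type u} [Group G] [Finite G]
variable {D : Subgroup G} {k W : Type*} [Field k] [AddCommGroup W] [Module k W]

theorem card_exact [IsAlgClosed k] [FiniteDimensional k W] [Nontrivial W] [CharP k 2]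
    {ρ : Representation k D W} {Q : Subgroup G} {u : G} {a : ℕ} (hQ : Q ≤ D) (hu : u ∈ D)
    (hn : u ∈ 𝓝(Q)) (ho : orderOf u = 2 ^ (a + 1)) (hp' : IsPi {2}ᶜ Q) (h2 : ⁅⁅Q, Q⁆, Q⁆ = ⊥)
    (hsc : ∀ d ∈ ⁅Q, Q⁆, ∃ c : k, rp ρ d = c • (1 : End k W)) (hz : u ^ 2 ^ a ∈ 𝓒(⁅Q, Q⁆))
    (hr : (rp ρ u - 1) ^ (2 ^ (a + 1) - 1) = 0) (h3 : ¬ ⁅Q, zpowers (u ^ 2 ^ a)⁆ ≤ Zr ρ Q) :
    (Zr ρ Q).relIndex ⁅Q, zpowers (u ^ 2 ^ a)⁆ = (2 ^ (a + 1) - 1) ^ 2 := by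
  classical
  haveI hp : Fact (Nat.Prime 2) := ⟨Nat.prime_two⟩
  have hX : IsPi {2} (zpowers u) := isPi_of_card_eq_pow hp.out ((Nat.card_zpowers u).trans ho)
  have hy' : zpowers (u ^ 2 ^ a) ≤ zpowers u := zpowers_le.2 (pow_mem (mem_zpowers u) _)
  set z := u ^ 2 ^ a with hzdef
  have b1 : zpowers z ≤ 𝓝(Q) := hy'.trans (zpowers_le.2 hn)
  have b2 : (♯Q).Coprime ♯(zpowers z) := hp'.coprime' (hX.of_le hy')
  have b3 : Group.IsSolvable (zpowers z) ∨ Group.IsSolvable Q :=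
    Or.inl ((hX.of_le hy').isSolvable hp.out)
  have b4 := coprime_cent_prod b1 b2 b3
  have b5 := coprime_commGid b1 b2 b3
  have hle : ⁅Q, zpowers z⁆ ≤ Q := comm_le_left b1
  have b6 : ⁅Q, zpowers z⁆ ≤ 𝓒(Q ⊓ 𝓒(zpowers z)) := BG.three_subgroups
    (by rw [commutator_eq_bot_iff_le_centralizer.2 (cent_symm inf_le_right)]; exact bot_le)
    ((comm_mono inf_le_left le_rfl).trans (cent_symm (zpowers_le.2 hz)))
  have key : ∀ g ∈ ⁅Q, zpowers z⁆, (∀ h ∈ ⁅Q, zpowers z⁆, ⁅h, g⁆ ∈ rker ρ) → g ∈ Zr ρ Q := by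
    intro g hg h
    refine ⟨hle hg, hQ (hle hg), fun y hy => ?_⟩
    rw [← b4] at hy
    obtain ⟨y1, hy1, y2, hy2, rfl⟩ := (mem_sup_norm' (inf_le_left.trans (le_norm_comm_left _ _))).1 hy
    rw [rp_mul ρ (hQ (hle hy1)) (hQ hy2.1), ← mul_assoc,
      ← (rp_comm_iff (hQ (hle hy1)) (hQ (hle hg))).2 (h y1 hy1), mul_assoc, mul_assoc,
      ← rp_mul ρ (hQ (hle hg)) (hQ hy2.1), ← rp_mul ρ (hQ hy2.1) (hQ (hle hg)),
      mem_cent.1 (b6 hg) y2 hy2]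
  have hone : ∀ d ∈ ⁅Q, Q⁆, ∀ w : W, w ≠ 0 → rp ρ d w = w → d ∈ rker ρ := fun d hd w h6 h5 => by
    obtain ⟨c, hc⟩ := hsc d hd
    rw [hc, LinearMap.smul_apply, Module.End.one_apply] at h5
    have h7 : c = 1 := by
      by_contra h7
      exact h6 ((smul_eq_zero.1 (show (c - 1) • w = 0 by
        rw [sub_smul, h5, one_smul, sub_self])).resolve_left (sub_ne_zero.2 h7))
    exact mem_rker.2 ⟨hQ (der_le _ hd), by rw [hc, h7, one_smul]⟩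
  have h4 : Fix ρ ⁅Q, zpowers z⁆ = ⊥ := by
    obtain ⟨d, hd, hd'⟩ := SetLike.not_le_iff_exists.1
      (show ¬ ⁅⁅Q, zpowers z⁆, ⁅Q, zpowers z⁆⁆ ≤ rker ρ from fun h4 =>
        h3 fun g hg => key g hg fun h hh => h4 (commutator_mem_commutator hh hg))
    refine eq_bot_iff.2 fun w hw => ?_
    by_contra h6
    exact hd' (hone d (comm_mono hle hle hd) w h6 (hw d (der_le _ hd)))
  have hn1 : u ∈ 𝓝(⁅Q, zpowers z⁆) := norm_comm (zpowers_le.2 hn)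
    (norm_of_comm (comm_of_cyclic (cyc_zpowers u)) hy') (mem_zpowers u)
  have hQ1 := hle.trans hQ
  generalize ⁅Q, zpowers z⁆ = Q1 at *
  have hL : Q1 ⊔ zpowers u ≤ D := sup_le hQ1 (zpowers_le.2 hu)
  obtain ⟨U, hU', -, h6, hi⟩ := exists_irr_res (ρ := ρ) hL inv_top top_ne_bot
  haveI := Submodule.nontrivial_iff_ne_bot.2 h6
  have hp2 : 1 ≤ 2 ^ (a + 1) := Nat.one_le_two_pow
  rw [← (homog (ρ := res ρ hL U hU') (r := 2 ^ (a + 1) - 1) rfl hi hn1 ho (hp'.of_le hle) b5.ge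
    (class2_res hL hU' le_sup_left ((comm_mono (comm_mono hle hle) hle).trans (h2.le.trans bot_le)))
    (fun d hd => by
      obtain ⟨c, hc⟩ := hsc d (comm_mono hle hle hd)
      exact ⟨c, LinearMap.ext fun w => Subtype.ext (by
        rw [coe_rp_res hL hU' (mem_sup_left (der_le _ hd)), hc]; rfl)⟩)
    (Fix_res_eq_bot hL hU' le_sup_left (by rw [h4, inf_bot_eq]))
    (LinearMap.ext fun w => Subtype.ext (by
      rw [res_sub_pow hL hU' (mem_sup_right (mem_zpowers u)), hr]; rfl)) (by omega)).2]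
  unfold relIndex
  congr 1
  ext g
  simp only [mem_subgroupOf]
  constructor
  · intro h
    refine ⟨g.2, mem_sup_left g.2, fun y hy => (rp_comm_iff (mem_sup_left g.2) (mem_sup_left hy)).2 ?_⟩
    exact rker_inf_le_rker_res hL hU' ⟨(rp_comm_iff (hQ1 g.2) (hQ1 hy)).1 (h.2.2 y (hle hy)),
      mem_sup_left (der_le _ (commutator_mem_commutator g.2 hy))⟩
  · intro h
    refine key g g.2 fun y hy => ?_
    obtain ⟨w, hw, hw0⟩ := (Submodule.ne_bot_iff _).1 h6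
    have e := (rp_comm_iff (mem_sup_left hy) (mem_sup_left g.2)).1 (h.2.2 y hy).symm
    exact hone _ (commutator_mem_commutator (hle hy) (hle g.2)) w hw0
      (((mem_rker_res hL hU').1 e).2 w hw)

theorem comm_mul_r {Q : Subgroup G} (h : ⁅Q, Q⁆ ≤ 𝓒(Q)) {a b c : G} (ha : a ∈ Q) (hb : b ∈ Q)
    (hc : c ∈ Q) : ⁅a, b * c⁆ = ⁅a, b⁆ * ⁅a, c⁆ := by
  have := mem_cent.1 (h (commutator_mem_commutator ha hc)) b hb
  calc ⁅a, b * c⁆ = ⁅a, b⁆ * (b * ⁅a, c⁆) * b⁻¹ := by simp only [commutatorElement_def]; group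
    _ = _ := by rw [this]; group

theorem comm_mul_l {Q : Subgroup G} (h : ⁅Q, Q⁆ ≤ 𝓒(Q)) {a b c : G} (ha : a ∈ Q) (hb : b ∈ Q)
    (hc : c ∈ Q) : ⁅a * b, c⁆ = ⁅b, c⁆ * ⁅a, c⁆ := by
  have := mem_cent.1 (h (commutator_mem_commutator hb hc)) a ha
  calc ⁅a * b, c⁆ = (a * ⁅b, c⁆) * a⁻¹ * ⁅a, c⁆ := by simp only [commutatorElement_def]; group
    _ = _ := by rw [this]; group

theorem sy_of {σ : Representation k D W} {Q : Subgroup G} (hQ : Q ≤ D) (hn : D ≤ 𝓝(Q))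
    (hQp : IsPi {2}ᶜ Q) (hDc : ⁅Q, Q⁆ ≤ 𝓒(Q))
    (hsc : ∀ d ∈ ⁅Q, Q⁆, ∃ c : k, rp σ d = c • (1 : End k W))
    (φ : D →* MulAut ↥(Q /ᵍ Zr σ Q)) (hφ : ∀ x ∈ D, ∀ w : ↥(Q /ᵍ Zr σ Q), (mel φ x w : QT (Zr σ Q)) =
      mel (qh (Zr σ Q)) x * w * (mel (qh (Zr σ Q)) x)⁻¹) : Sy φ.range := by
  have hDN : D ≤ 𝓝(Zr σ Q) := fun x hx => mem_norm_Zr hQ hx (hn hx)
  have hQN := hQ.trans hDN
  have hZ : ∀ n ∈ Zr σ Q, ∀ b ∈ Q, ⁅n, b⁆ ∈ rker σ ∧ ⁅b, n⁆ ∈ rker σ := fun n h b hb =>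
    ⟨(rp_comm_iff h.2.1 (hQ hb)).1 (h.2.2 b hb), (rp_comm_iff (hQ hb) h.2.1).1 (h.2.2 b hb).symm⟩
  have hcj : ∀ x ∈ D, ∀ d ∈ ⁅Q, Q⁆, d⁻¹ * (x * d * x⁻¹) ∈ rker σ := fun x hx d hd => by
    obtain ⟨c, hc⟩ := hsc d hd
    have h1 := hQ (der_le Q hd)
    refine mem_rker.2 ⟨mul_mem (inv_mem h1) (mul_mem (mul_mem hx h1) (inv_mem hx)), ?_⟩
    rw [rp_mul σ (inv_mem h1) (mul_mem (mul_mem hx h1) (inv_mem hx)), rp_conj σ hx h1,
      show rp σ x * rp σ d = rp σ d * rp σ x by rw [hc]; simp, mul_assoc (rp σ d), rp_mul_inv σ hx,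
      mul_one, rp_inv_mul σ h1]
  have rep : ∀ w : ↥(Q /ᵍ Zr σ Q), ∃ b ∈ Q, mel (qh (Zr σ Q)) b = (w : QT (Zr σ Q)) := fun w =>
    (mem_mim_of_le hQN).1 w.2
  have hcq : ∀ x ∈ D, ∀ b ∈ Q, x * b * x⁻¹ ∈ Q := fun x hx b hb => (mem_normalizer_iff.1 (hn hx) b).1 hb
  let O : ↥(Q /ᵍ Zr σ Q) → Subgroup ↥(Q /ᵍ Zr σ Q) := fun w =>
    { carrier := {v | ∀ b ∈ Q, ∀ c ∈ Q, mel (qh (Zr σ Q)) b = (w : QT (Zr σ Q)) → mel (qh (Zr σ Q)) c = (v : QT (Zr σ Q)) →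
        ⁅b, c⁆ ∈ rker σ}
      mul_mem' := fun {v v'} h h' b hb c hc e1 e2 => by
        obtain ⟨c', hc', e3⟩ := rep v'
        rw [show c = c * c'⁻¹ * c' by group, comm_mul_r hDc hb (mul_mem hc (inv_mem hc')) hc']
        refine mul_mem (h b hb _ (mul_mem hc (inv_mem hc')) e1 ?_) (h' b hb c' hc' e1 e3)
        rw [mel_mul _ (hQN hc) (inv_mem (hQN hc')), mel_inv _ (hQN hc'), e2, e3]; simp
      one_mem' := fun b hb c hc _ e2 => (hZ c ((qel_eq_one_iff (hQN hc)).1 e2) b hb).2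
      inv_mem' := fun {v} h b hb c hc e1 e2 => by
        have e3 := h b hb c⁻¹ (inv_mem hc) e1 (by rw [mel_inv _ (hQN hc), e2]; simp)
        have e4 := comm_mul_r hDc hb hc (inv_mem hc)
        rw [mul_inv_cancel, commutatorElement_one_right] at e4
        rw [eq_inv_of_mul_eq_one_left e4.symm]
        exact inv_mem e3 }
  have hO : ∀ {w v : ↥(Q /ᵍ Zr σ Q)} {b c : G}, b ∈ Q → c ∈ Q → mel (qh (Zr σ Q)) b = (w : QT (Zr σ Q)) →
      mel (qh (Zr σ Q)) c = (v : QT (Zr σ Q)) → ⁅b, c⁆ ∈ rker σ → v ∈ O w := by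
    intro w v b c hb hc e1 e2 h b' hb' c' hc' e3 e4
    have n1 := (qel_eq_iff (hQN hb) (hQN hb')).1 (e1.trans e3.symm)
    have n2 := (qel_eq_iff (hQN hc) (hQN hc')).1 (e2.trans e4.symm)
    rw [show b' = b * (b⁻¹ * b') by group, comm_mul_l hDc hb n1.1 hc', show c' = c * (c⁻¹ * c') by group,
      comm_mul_r hDc hb hc n2.1]
    exact mul_mem (hZ _ n1 _ (mul_mem hc n2.1)).1 (mul_mem h (hZ _ n2 b hb).2)
  refine ⟨O, fun y => ?_, fun y h => ?_, ?_, ?_⟩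
  · obtain ⟨b, hb, e⟩ := rep y
    exact hO hb hb e e (by rw [commutatorElement_self]; exact one_mem _)
  · obtain ⟨b, hb, e⟩ := rep y
    refine Subtype.ext (e.symm.trans ((qel_eq_one_iff (hQN hb)).2 ⟨hb, hQ hb, fun c hc => ?_⟩))
    exact (rp_comm_iff (hQ hb) (hQ hc)).2
      ((h ▸ mem_top (⟨_, mel_mem_mim _ hc⟩ : ↥(Q /ᵍ Zr σ Q)) : _ ∈ O y) b hb c hc e rfl)
  · rintro _ ⟨⟨x, hx⟩, rfl⟩ y y' h1 h2
    obtain ⟨b, hb, e⟩ := rep y
    obtain ⟨c, hc, e'⟩ := rep y'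
    have h3 := congrArg Subtype.val h1
    have h4 := congrArg Subtype.val h2
    rw [← mel_of_mem φ hx, hφ x hx, ← e, ← mel_conj _ (hDN hx) (hQN hb)] at h3
    rw [← mel_of_mem φ hx, hφ x hx, Subgroup.coe_inv, ← e', ← mel_conj _ (hDN hx) (hQN hc),
      ← mel_inv _ (hQN hc)] at h4
    have n1 := (qel_eq_iff (hQN hb) (hQN (hcq x hx b hb))).1 h3.symm
    have n2 := (qel_eq_iff (hQN (inv_mem hc)) (hQN (hcq x hx c hc))).1 h4.symm
    have e1 := hcj x hx _ (commutator_mem_commutator hb hc)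
    have e4 := comm_mul_r hDc hb hc (inv_mem hc)
    rw [mul_inv_cancel, commutatorElement_one_right] at e4
    rw [conjugate_commutatorElement, show x * b * x⁻¹ = b * (b⁻¹ * (x * b * x⁻¹)) by group,
      comm_mul_l hDc hb n1.1 (hcq x hx c hc)] at e1
    nth_rewrite 2 [show x * c * x⁻¹ = c⁻¹ * (c⁻¹⁻¹ * (x * c * x⁻¹)) by group] at e1
    rw [comm_mul_r hDc hb (inv_mem hc) n2.1, eq_inv_of_mul_eq_one_right e4.symm] at e1
    have e5 := (hZ _ n1 _ (hcq x hx c hc)).1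
    have e6 := (hZ _ n2 b hb).2
    have e7 := mem_cent.1 (hDc (commutator_mem_commutator n1.1 (hcq x hx c hc))) _
      (inv_mem (der_le Q (commutator_mem_commutator hb hc)))
    rw [← mul_assoc, e7, mul_assoc, mul_mem_cancel_left e5, ← mul_assoc, mul_mem_cancel_right e6,
      ← mul_inv_rev, inv_mem_iff, ← sq] at e1
    have e8 := CA.AmbRes.mem_of_pow_mem_of_coprime ((hQp.orderOf (der_le Q
      (commutator_mem_commutator hb hc))).coprime' ((piNat_prime Nat.prime_two).2 rfl)) e1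
    exact ⟨hO hb hc e e' e8, hO hc hb e' e (by rw [← commutatorElement_inv]; exact inv_mem e8)⟩
  · rintro _ ⟨⟨x, hx⟩, rfl⟩ y
    obtain ⟨b, hb, e⟩ := rep y
    have h1 := hcq x hx b hb
    have h2 := hcq x⁻¹ (inv_mem hx) b hb
    refine hO hb (mul_mem h1 h2) e ?_ ?_
    · rw [← mel_of_mem φ hx, ← mel_inv φ hx, Subgroup.coe_mul, hφ x hx, hφ _ (inv_mem hx), ← e,
        mel_mul _ (hQN h1) (hQN h2), mel_conj _ (hDN hx) (hQN hb), mel_conj _ (hDN (inv_mem hx)) (hQN hb)]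
    · have e1 := hcj x⁻¹ (inv_mem hx) _ (commutator_mem_commutator h1 hb)
      rw [conjugate_commutatorElement, commutatorElement_inv,
        show x⁻¹ * (x * b * x⁻¹) * x⁻¹⁻¹ = b by group] at e1
      rwa [comm_mul_r hDc hb h1 h2]

theorem pack [IsAlgClosed k] [FiniteDimensional k W] [CharP k 2]
    (ρ : Representation k (⊤ : Subgroup G) W) {n : ℕ} (h1 : Ex 2 G (n + 1))
    (hr : ∀ g : G, PiNat {2} (orderOf g) → (rp ρ g - 1) ^ (2 ^ (n + 1) - 1) = 0)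
    {Q : Subgroup G} [Q.Normal] {q : ℕ} (hq : q.Prime) (hq2 : q ≠ 2) (hQq : IsPi {q} Q)
    (hDc : ⁅Q, Q⁆ ≤ 𝓒(Q)) (hz : closure (Zs G n) ≤ 𝓒(⁅Q, Q⁆)) (χ : ↥⁅Q, Q⁆ → k)
    (h0 : Wt ρ ⁅Q, Q⁆ χ ≠ ⊥) :
    ∃ (Y : Type u) (_ : Group Y) (_ : Finite Y) (φ : wstab ⁅Q, Q⁆ χ →* MulAut Y),
      (∀ a b : Y, a * b = b * a) ∧ Odd (Nat.card Y) ∧ Sy φ.range ∧
      (∀ x ∈ wstab ⁅Q, Q⁆ χ, mel φ x = 1 → Wt ρ ⁅Q, Q⁆ χ ≤ Fix ρ ⁅⁅zpowers x, Q⁆, Q⁆) ∧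
      ∀ g : G, PiNat {2} (orderOf g) → ∀ j a : ℕ, n = j + a → g ^ 2 ^ j ∈ wstab ⁅Q, Q⁆ χ →
        (∀ t < j, g ^ 2 ^ t ∉ wstab ⁅Q, Q⁆ χ) → Gd (mel φ (g ^ 2 ^ j)) a ∧
        (mel φ (g ^ 2 ^ j) ^ 2 ^ a ≠ 1 → (2 ^ (a + 1) - 1).Prime ∧
          Nat.card {y : Y // (mel φ (g ^ 2 ^ j) ^ 2 ^ a) y = y⁻¹} = (2 ^ (a + 1) - 1) ^ 2) := by
  classical
  haveI hp : Fact (Nat.Prime 2) := ⟨Nat.prime_two⟩
  have hQ : IsPi {2}ᶜ Q := hQq.ne hq2
  have hcl := commutator_eq_bot_iff_le_centralizer.2 hDc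
  have hDk : ⁅⁅Q, Q⁆, ⁅Q, Q⁆⁆ ≤ rker ρ := (comm_mono le_rfl (der_le Q)).trans (hcl.le.trans bot_le)
  haveI := Submodule.nontrivial_iff_ne_bot.2 h0
  haveI : Nontrivial W := Submodule.nontrivial_iff (R := k) |>.1 ⟨⟨_, _, h0⟩⟩
  have hQS : Q ≤ wstab ⁅Q, Q⁆ χ := (cent_symm hDc).trans (cent_le_wstab χ)
  have hU : BGRep.Inv ρ (wstab ⁅Q, Q⁆ χ) (Wt ρ ⁅Q, Q⁆ χ) := fun x hx w hw => by
    have := rp_mem_Wt le_top (mem_top x) hx.1 hw
    rwa [hx.2] at this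
  set σ := res ρ le_top _ hU with hσ
  have hSN : wstab ⁅Q, Q⁆ χ ≤ 𝓝(Zr σ Q) := fun x hx =>
    mem_norm_Zr hQS hx (top_le_norm Q ⊤ (mem_top x))
  have hsc : ∀ d ∈ ⁅Q, Q⁆, ∃ c : k, rp σ d = c • (1 : End k _) := fun d hd =>
    ⟨χ ⟨d, hd⟩, LinearMap.ext fun w => Subtype.ext (by
      rw [hσ, coe_rp_res le_top hU (hQS (der_le Q hd))]; exact w.2 ⟨d, hd⟩)⟩
  have hQN := hQS.trans hSN
  have hd : ⁅Q, Q⁆ ≤ Zr σ Q := (le_Zr_iff hQS (der_le Q)).2 (hcl.le.trans bot_le)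
  set N := Zr σ Q with hN
  have hc : IsMulCommutative (Q /ᵍ N) := (isMulCommutative_quo_iff hQN).2 hd
  have hQo : IsPi {2}ᶜ (Q /ᵍ N) := hQ.mim _
  have hn : ∀ x : wstab ⁅Q, Q⁆ χ, qh N (inclusion hSN x) ∈ 𝓝(Q /ᵍ N) := fun x => by
    rw [← mel_coe]; exact mel_mem_normalizer _ (hSN x.2) (top_le_norm Q ⊤ (mem_top _))
  let φ : wstab ⁅Q, Q⁆ χ →* MulAut ↥(Q /ᵍ N) :=
    (cact (Q /ᵍ N)).comp (((qh N).comp (inclusion hSN)).codRestrict _ hn)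
  have hφ : ∀ x ∈ wstab ⁅Q, Q⁆ χ, ∀ w : ↥(Q /ᵍ N), (mel φ x w : QT N) =
      mel (qh N) x * w * (mel (qh N) x)⁻¹ := fun x hx w => by
    rw [mel_of_mem _ hx, mel_of_mem _ (hSN hx)]; rfl
  have hker : ∀ x ∈ wstab ⁅Q, Q⁆ χ, mel φ x = 1 ↔ ⁅Q, zpowers x⁆ ≤ N := fun x hx => by
    constructor
    · intro h
      refine comm_le_of_quo_cent hQN (zpowers_le.2 (hSN hx)) ?_
      rw [mim_zpowers _ (hSN hx), cent_zpowers]
      intro w hw
      have e5 := hφ x hx ⟨w, hw⟩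
      rw [h] at e5
      exact mem_cent1.2 (eq_mul_inv_iff_mul_eq.1 e5)
    · intro h6
      refine MulEquiv.ext fun w => Subtype.ext ?_
      rw [hφ _ hx]
      have e1 := quo_cent_of_comm_le hQN (zpowers_le.2 (hSN hx)) h6 w.2
      rw [mim_zpowers _ (hSN hx)] at e1
      rw [mem_cent.1 e1 _ (mem_zpowers _), mul_inv_cancel_right]; rfl
  refine ⟨↥(Q /ᵍ N), inferInstance, inferInstance, φ, fun a b => hc.is_comm.comm a b,
    Nat.odd_iff.2 (Nat.two_dvd_ne_zero.1 ((isPi_compl_iff Nat.prime_two).1 hQo)),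
    sy_of hQS (top_le_norm _ _) hQ hDc hsc φ hφ, fun x hx h => ?_, fun g hg j a ha hu hmin => ?_⟩
  · have h3 := (hker x hx).1 h
    rw [commutator_comm] at h3
    have h4 := (le_Zr_iff hQS (comm_le_right (top_le_norm _ _))).1 h3
    exact fun w hw x hx => ((mem_rker_res le_top hU).1 (h4 hx)).2 w hw
  have hzg := hz (subset_closure ⟨g, hg, rfl⟩)
  have hzu : g ^ 2 ^ n = (g ^ 2 ^ j) ^ 2 ^ a := by rw [← pow_mul, ← pow_add, ← ha]
  have hu1 : (g ^ 2 ^ j) ^ 2 ^ (a + 1) = 1 := by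
    rw [← pow_mul, ← pow_add, ← add_assoc, ← ha, h1 g hg]
  have hzS := pow_mem hu (2 ^ a)
  have hz2 : (g ^ 2 ^ j) ^ 2 ^ a * (g ^ 2 ^ j) ^ 2 ^ a = 1 := by
    rw [← pow_add, ← two_mul, ← pow_succ', hu1]
  have hz2' : PiNat {2} (orderOf ((g ^ 2 ^ j) ^ 2 ^ a)) := piNat_two (n := 1) (by rw [pow_one, sq, hz2])
  have hu2 : mel φ (g ^ 2 ^ j) ^ 2 ^ (a + 1) = 1 := by rw [← mel_pow _ hu, hu1, mel_one]
  unfold Gd
  rw [← mel_pow _ hu (2 ^ a)]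
  have hcard : Nat.card {y : ↥(Q /ᵍ N) // (mel φ ((g ^ 2 ^ j) ^ 2 ^ a)) y = y⁻¹} =
      N.relIndex ⁅Q, zpowers ((g ^ 2 ^ j) ^ 2 ^ a)⁆ := by
    generalize (g ^ 2 ^ j) ^ 2 ^ a = z at *
    have hle : ⁅Q, zpowers z⁆ ≤ Q := comm_le_left (top_le_norm _ _)
    rw [← card_quo (hle.trans hQN)]
    apply le_antisymm
    · rw [quo_comm hQN (zpowers_le.2 (hSN hzS)), mim_zpowers _ (hSN hzS)]
      refine Nat.card_le_card_of_injective (fun w => ⟨w.1.1, ?_⟩) fun w w' h =>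
        Subtype.ext (Subtype.ext (Subtype.mk.inj h))
      have e1 := congrArg Subtype.val w.2
      rw [hφ _ hzS] at e1
      refine CA.AmbRes.mem_of_pow_mem_of_coprime (n := 2) ((hQo.orderOf w.1.2).coprime'
        ((piNat_prime Nat.prime_two).2 rfl)) ?_
      have e2 : (w.1.1 : QT N) ^ 2 = ⁅w.1.1, mel (qh N) z⁆ := by
        rw [commutatorElement_def, mul_assoc, mul_assoc, ← mul_assoc (mel _ _), ← conj_inv, e1, sq]
        simp
      rw [e2]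
      exact commutator_mem_commutator w.1.2 (mem_zpowers _)
    · refine Nat.card_le_card_of_injective (fun w => ⟨⟨w.1, quo_mono N hle w.2⟩, Subtype.ext ?_⟩)
        fun w w' h => Subtype.ext (Subtype.mk.inj (Subtype.mk.inj h))
      obtain ⟨b, hb, e⟩ := (mem_mim_of_le (hle.trans hQN)).1 w.2
      have e1 := inv_mod hz2 (norm_comm (top_le_norm _ _) (le_norm_self _) (mem_zpowers z))
        (coprime_commGid (top_le_norm _ _) (hQ.coprime' (isPi_zpowers.2 hz2'))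
          (Or.inl ((isPi_zpowers.2 hz2').isSolvable hp.out))).ge hb
      have e2 := (qel_eq_one_iff (hQN (der_le Q (comm_mono hle hle e1)))).2 (hd (comm_mono hle hle e1))
      rw [mel_mul _ (mul_mem (mul_mem (hSN hzS) (hQN (hle hb))) (inv_mem (hSN hzS))) (hQN (hle hb)),
        mel_conj _ (hSN hzS) (hQN (hle hb)), e] at e2
      rw [hφ _ hzS]
      exact eq_inv_of_mul_eq_one_left e2
  rw [hcard]
  by_cases h4 : ⁅Q, zpowers ((g ^ 2 ^ j) ^ 2 ^ a)⁆ ≤ N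
  · have h5 := (hker _ hzS).2 h4
    refine ⟨⟨hu2, ?_, fun h => absurd h5 h⟩, fun h => absurd h5 h⟩
    rw [relIndex_eq_one.2 h4]
    have : 2 ≤ 2 ^ (a + 1) := Nat.le_self_pow (by omega) 2
    exact Nat.one_le_pow _ _ (by omega)
  have h3 : g ^ 2 ^ n ≠ 1 := fun h => h4 (by
    rw [← hzu, h, zpowers_one_eq_bot, commutator_bot_right]; exact bot_le)
  have ho : orderOf g = 2 ^ (j + a + 1) := ha ▸ orderOf_eq_prime_pow h3 (h1 g hg)
  have ho' : orderOf (g ^ 2 ^ j) = 2 ^ (a + 1) := orderOf_eq_prime_pow (hzu ▸ h3) hu1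
  have hr' : (rp σ (g ^ 2 ^ j) - 1) ^ (2 ^ (a + 1) - 1) = 0 :=
    LinearMap.ext fun w => Subtype.ext (by
      rw [hσ, res_sub_pow le_top hU hu]
      exact pow_sub_wt le_top hDk (mem_top g) (top_le_norm _ ⊤ (mem_top g)) ho hu hmin
        (ha ▸ hr g hg) w.2)
  have hun : g ^ 2 ^ j ∈ 𝓝(Q) := top_le_norm Q ⊤ (mem_top _)
  have hex := card_exact hQS hu hun ho' hQ hcl hsc (hzu ▸ hzg) hr' h4
  refine ⟨⟨hu2, hex.le, fun _ w hw => ?_⟩, fun _ => ⟨?_, hex⟩⟩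
  · have e1 := congrArg Subtype.val hw
    rw [hφ _ hzS] at e1
    have e2 : w.1 ∈ (Q ⊓ 𝓒₁((g ^ 2 ^ j) ^ 2 ^ a)) /ᵍ N := by
      rw [cop_quo_cent1 (hSN hzS) hQN (top_le_norm Q ⊤ (mem_top _))
        (PiNat.coprime' (hQ.of_le inf_le_left) hz2')]
      exact ⟨w.2, mem_centralizer_singleton_iff.2 (mul_inv_eq_iff_eq_mul.1 e1).symm⟩
    obtain ⟨b, hb, hb'⟩ := (mem_mim_of_le (inf_le_left.trans hQN)).1 e2
    refine Subtype.ext ?_
    rw [hφ _ hu, ← hb', mul_inv_eq_iff_eq_mul, ← commutatorElement_eq_one_iff_mul_comm,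
      ← mel_commutator _ (hSN hu) (hQN hb.1), qel_eq_one_iff (der_le _
        (commutator_mem_commutator (hSN hu) (hQN hb.1)))]
    have h5 := cent_u hQS hu hun ho' hQ hcl hsc (hzu ▸ hzg) hr' h4 hb
    refine ⟨comm_le_right (top_le_norm Q ⊤) (commutator_mem_commutator (mem_top _) hb.1),
      (mem_rker.1 h5).1, fun y hy => ?_⟩
    rw [(mem_rker.1 h5).2, one_mul, mul_one]
  · have ha0 : a ≠ 0 := by
      rintro rfl
      exact h4 (relIndex_eq_one.1 (by rw [hex]; norm_num))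
    have h5 : 2 ^ 2 ≤ 2 ^ (a + 1) := Nat.pow_le_pow_right (by norm_num) (by omega)
    obtain ⟨i, h6, h7⟩ := eq_pow_of_relIndex hq (hQq.of_le (comm_le_left (top_le_norm _ _)))
      (by omega) hex
    rw [h7, mers hq hq2 h6 (by omega) h7, pow_one]
    exact hq

theorem loc [IsAlgClosed k] [FiniteDimensional k W] [CharP k 2]
    (ρ : Representation k (⊤ : Subgroup G) W) (hf : rker ρ = ⊥) (hs : Group.IsSolvable G)
    (hO : pCore 2 G = ⊥) {n : ℕ} (h1 : Ex 2 G (n + 1))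
    (hr : ∀ g : G, PiNat {2} (orderOf g) → (rp ρ g - 1) ^ (2 ^ (n + 1) - 1) = 0) {y : G}
    (hy : y ∈ closure (Zs G n)) (hy2 : PiNat {2} (orderOf y))
    (H : ∀ (Q : Subgroup G) [Q.Normal] (q : ℕ), q.Prime → q ≠ 2 → IsPi {q} Q → ⁅Q, Q⁆ ≤ 𝓒(Q) →
      closure (Zs G n) ≤ 𝓒(⁅Q, Q⁆) → ∀ χ, Wt ρ ⁅Q, Q⁆ χ ≠ ⊥ →
        Wt ρ ⁅Q, Q⁆ χ ≤ Fix ρ ⁅⁅zpowers y, Q⁆, Q⁆) : y = 1 := by
  classical
  haveI hp : Fact (Nat.Prime 2) := ⟨Nat.prime_two⟩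
  haveI := hs
  haveI := normal_Zs (G := G) n
  have hp2 : 2 ≤ 2 ^ (n + 1) := Nat.le_self_pow (by omega) 2
  have habel : ∀ X : Subgroup G, X.Normal → IsPi {2}ᶜ X → IsMulCommutative X →
      closure (Zs G n) ≤ 𝓒(X) := by
    intro X hXn hX hXc
    refine (closure_le _).2 ?_
    rintro _ ⟨g, hg, rfl⟩
    by_contra h3
    rcases thmB_sub (ρ := ρ) le_top (mem_top g) (top_le_norm X ⊤ (mem_top g)) hX (by rw [hf, inf_bot_eq])
      (orderOf_eq_prime_pow (fun h => h3 (h ▸ one_mem _)) (h1 g hg)) h3 (hr g hg) with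
      h4 | ⟨m, q, j, Q', -, -, -, -, -, h5, -, h6, -⟩
    · omega
    · exact h6 (comm_iff_le_cent.2 (h5.trans ((comm_iff_le_cent.1 hXc).trans (cent_anti h5))))
  have hY := isPi_zpowers.2 hy2
  by_contra hy1
  have hc : y ∉ 𝓒(pPrimeCore 2 G) := fun h => hy1 (mem_bot.1 ((hY.inf_eq_bot (isPi_p'core hp.out)).le
    ⟨mem_zpowers y, cent_p'core psolv_of_solvable hO h⟩))
  obtain ⟨Q, -, ⟨hQn, hQp, hyc⟩, hmin⟩ := exists_minimal_le
    (P := fun Q : Subgroup G => Q.Normal ∧ IsPi {2}ᶜ Q ∧ y ∉ 𝓒(Q))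
    ⟨inferInstance, isPi_p'core hp.out, hc⟩
  have hlt : ∀ U : Subgroup G, U.Normal → U < Q → normalClosure {y} ≤ 𝓒(U) := fun U hU h =>
    normalClosure_le_normal (Set.singleton_subset_iff.2 (by
      by_contra h2
      exact h.ne (hmin U ⟨hU, hQp.of_le h.le, h2⟩ h.le)))
  have hyJ : zpowers y ≤ normalClosure {y} := zpowers_le.2 (subset_normalClosure rfl)
  generalize hJ : normalClosure {y} = J at *
  haveI : J.Normal := hJ ▸ inferInstance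
  have hGG : ⁅Q, zpowers y⁆ ≤ 𝓒(zpowers y) → False := fun h => hyc (coprime_commGG1P
    (top_le_norm _ _) (hQp.coprime' hY) (Or.inl (hY.isSolvable hp.out)) h (mem_zpowers y))
  have hQ0 : Q ≠ ⊥ := fun h => hyc (by rw [h]; exact cent_symm (bot_le : ⊥ ≤ 𝓒(⊤)) (mem_top y))
  have hD := hlt _ inferInstance (der_lt_of_solv inferInstance hQ0)
  have hQJ : ⁅Q, J⁆ = Q := by
    by_contra h
    exact hGG ((comm_mono le_rfl hyJ).trans ((cent_symm (hlt _ inferInstance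
      (lt_of_le_of_ne (comm_le_left (top_le_norm _ _)) h))).trans (cent_anti hyJ)))
  have hDc : ⁅Q, Q⁆ ≤ 𝓒(Q) := cent_symm (hQJ.ge.trans (BG.three_subgroups
    (by rw [commutator_eq_bot_iff_le_centralizer.2 hD]; exact bot_le)
    ((comm_le_left (top_le_norm _ _)).trans (cent_symm hD))))
  have hcl := commutator_eq_bot_iff_le_centralizer.2 hDc
  obtain ⟨q, hq, hqd, -⟩ := exists_min_prime hQ0
  have hq2 : q ≠ 2 := fun h => (isPi_compl_iff hp.out).1 hQp (h ▸ hqd)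
  have hQq : IsPi {q} Q := by
    by_contra h
    have hnil := nil_of_quo_cent (cent_symm hDc) (nil_of_comm ((isMulCommutative_quo_iff
      (top_le_norm _ _)).2 le_rfl))
    have hno : ∀ π : Set ℕ, (𝓞(π, Q)).Normal := fun π =>
      normalizer_eq_top_iff.1 (eq_top_iff.2 (norm_core π (top_le_norm Q ⊤)))
    have e1 := hlt _ (hno {q}) (lt_of_le_of_ne (core_le _ _) fun e => h (e ▸ core_pi _ _))
    have e2 := hlt _ (hno {q}ᶜ) (lt_of_le_of_ne (core_le _ _) fun e =>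
      (isPi_compl_iff hq).1 (e ▸ core_pi _ _) hqd)
    refine hyc (cent_symm ((nil_core_sup {q} hnil).ge.trans (sup_le (cent_symm e1) (cent_symm e2)))
      (hyJ (mem_zpowers y)))
  have hz := habel _ inferInstance (hQp.of_le (der_le Q))
    (comm_iff_le_cent.2 (hDc.trans (cent_anti (der_le Q))))
  have hDk : ⁅⁅Q, Q⁆, ⁅Q, Q⁆⁆ ≤ rker ρ := (comm_mono le_rfl (der_le Q)).trans (hcl.le.trans bot_le)
  have hcQ : ⁅zpowers y, Q⁆ ≤ Q := comm_le_right (top_le_norm _ _)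
  have main : ⁅⁅zpowers y, Q⁆, Q⁆ ≤ rker ρ := le_rker_of_Wt le_top hDk
      (card_ne_zero (hQp.of_le (der_le Q))) le_top fun χ => by
    by_cases h0 : Wt ρ ⁅Q, Q⁆ χ = ⊥
    · rw [h0]; exact bot_le
    exact H Q q hq hq2 hQq hDc hz χ h0
  rw [hf, le_bot_iff, commutator_eq_bot_iff_le_centralizer] at main
  have h5 := habel (Q ⊓ 𝓒(Q)) inferInstance (hQp.of_le inf_le_left)
    (comm_iff_le_cent.2 (inf_le_right.trans (cent_anti inf_le_left)))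
  refine hGG ?_
  rw [commutator_comm]
  exact (le_inf hcQ main).trans (cent_symm ((zpowers_le.2 hy).trans h5))

end CA.H9Two
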