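import Cfsg.Agent.Lib.Solv.H9Two4

/-!
The two-length of a solvable group is bounded by the exponent of its Sylow two-subgroups.
-/

set_option autoImplicit false
set_option linter.unusedSectionVars false
set_option linter.unusedVariables false
set_option linter.style.haveILetI false

namespace CA.H9Two
open Subgroup Cfsg CA.OQuo CA.BG CA.BGRep Module CA.H12PSolv CA.HH CA.BG4
open scoped commutatorElement

universe u

theorem LL2 {Y : Type*} [Group Y] [Finite Y] (hY : ∀ a b : Y, a * b = b * a)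
    (ho : Odd (Nat.card Y)) {X Λ : Subgroup (MulAut Y)}
    (hS : Sy X) (hΛ : Λ ≤ X) {Zs : Set (MulAut Y)} (hcl : Λ ≤ closure Zs) (hZΛ : ∀ b ∈ Zs, b ∈ Λ)
    (h1 : ∀ b ∈ Zs, b * b = 1 ∧ ∀ l ∈ Λ, Commute (l * b * l⁻¹) b) {u M : MulAut Y} {a : ℕ}
    (hu : u ∈ X) (hun : ∀ l ∈ Λ, u * l * u⁻¹ ∈ Λ) (hM : M ∈ Λ)
    (hg : Gd u a ∧ (u ^ 2 ^ a ≠ 1 → (2 ^ (a + 1) - 1).Prime ∧
      Nat.card {y : Y // (u ^ 2 ^ a) y = y⁻¹} = (2 ^ (a + 1) - 1) ^ 2)) (hz : u ^ 2 ^ a ∈ Zs)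
    (hg' : Gd (M * u) a ∧ ((M * u) ^ 2 ^ a ≠ 1 → (2 ^ (a + 1) - 1).Prime ∧
      Nat.card {y : Y // ((M * u) ^ 2 ^ a) y = y⁻¹} = (2 ^ (a + 1) - 1) ^ 2))
    (hz' : (M * u) ^ 2 ^ a ∈ Zs) :
    (((M * u) ^ 2 ^ a * u ^ 2 ^ a) * ((M * u) ^ 2 ^ a * u ^ 2 ^ a) = 1 ∧
      ∀ l ∈ Λ, Commute l ((M * u) ^ 2 ^ a * u ^ 2 ^ a)) ∧
    (M * M = 1 → (∀ l ∈ Λ, Commute M l) → (M * u) ^ 2 ^ a * u ^ 2 ^ a = 1) := by
  by_cases e1 : u ^ 2 ^ a = 1
  · by_cases e2 : (M * u) ^ 2 ^ a = 1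
    · rw [e1, e2]; simp
    have := LL hY ho hS hΛ hcl hZΛ h1 (u := M * u) (M := M⁻¹) (mul_mem (hΛ hM) hu) (fun l hl => by
      have := mul_mem (mul_mem hM (hun l hl)) (inv_mem hM)
      convert this using 1
      group) hg'.1 hz' e2 (hg'.2 e2).1 (hg'.2 e2).2 (inv_mem hM)
      (by rw [inv_mul_cancel_left]; exact hg.1)
    rw [inv_mul_cancel_left, e1, one_mul] at this
    rw [e1, mul_one]
    refine ⟨this.1.resolve_left (Ne.symm e2), fun h2 h3 => (this.2 ?_ (h3 _ (hZΛ _ hz')).inv_left).symm⟩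
    rw [← mul_inv_rev, h2, inv_one]
  have := LL hY ho hS hΛ hcl hZΛ h1 hu hun hg.1 hz e1 (hg.2 e1).1 (hg.2 e1).2 hM hg'.1
  refine ⟨this.1.elim (fun h => ?_) id, fun h2 h3 => ?_⟩
  · rw [h, hg.1.sq]; simp
  · rw [this.2 h2 (h3 _ (hZΛ _ hz)), hg.1.sq]

/-- the central elements of square one -/
def Om {G : Type*} [Group G] (Λ : Subgroup G) : Subgroup G where
  carrier := {x | x ∈ Λ ∧ (∀ l ∈ Λ, Commute l x) ∧ x * x = 1}
  mul_mem' := fun {a b} ha hb => ⟨mul_mem ha.1 hb.1, fun l hl => (ha.2.1 l hl).mul_right (hb.2.1 l hl), by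
    rw [mul_assoc, ← mul_assoc b, (ha.2.1 b hb.1).eq, mul_assoc, hb.2.2, mul_one, ha.2.2]⟩
  one_mem' := ⟨one_mem _, fun l _ => Commute.one_right l, mul_one 1⟩
  inv_mem' := fun {a} ha => ⟨inv_mem ha.1, fun l hl => (ha.2.1 l hl).inv_right, by
    rw [← mul_inv_rev, ha.2.2, inv_one]⟩

theorem Om_conj {G : Type*} [Group G] {Λ : Subgroup G} {g x : G} (hg : g ∈ 𝓝(Λ)) (hx : x ∈ Om Λ) :
    g * x * g⁻¹ ∈ Om Λ :=
  ⟨(mem_normalizer_iff.1 hg x).1 hx.1, fun l hl => by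
    have := (hx.2.1 _ ((mem_normalizer_iff.1 (inv_mem hg) l).1 hl)).map (MulAut.conj g)
    simpa [mul_assoc] using this, by rw [conj_mul, hx.2.2, mul_one, mul_inv_cancel]⟩

theorem pow_form {G : Type*} [Group G] {K : Subgroup G} {g t : G} (hg : ∀ x ∈ K, g * x * g⁻¹ ∈ K)
    (ht : t ∈ K) (m : ℕ) : (t * g) ^ m * (g ^ m)⁻¹ ∈ K := by
  induction m with
  | zero => simp
  | succ m ih =>
    have := mul_mem ht (hg _ ih)
    convert this using 1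
    rw [pow_succ', pow_succ']; group

variable {G : Type u} [Group G] [Finite G]
variable {k W : Type*} [Field k] [AddCommGroup W] [Module k W]

/-- admissible elements -/
def Ad (Λ : Subgroup G) (n : ℕ) : Set G :=
  {h | PiNat {2} (orderOf h) ∧ h ∈ 𝓝(Λ) ∧ h ^ 2 ^ n ∈ Λ}

theorem core [IsAlgClosed k] [FiniteDimensional k W] [CharP k 2]
    (ρ : Representation k (⊤ : Subgroup G) W) (hf : rker ρ = ⊥) (hs : Group.IsSolvable G)
    (hO : pCore 2 G = ⊥) {n : ℕ} (h1 : Ex 2 G (n + 1))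
    (hr : ∀ g : G, PiNat {2} (orderOf g) → (rp ρ g - 1) ^ (2 ^ (n + 1) - 1) = 0) {Λ : Subgroup G}
    (hΛ2 : IsPi {2} Λ) (hΛL : Λ ≤ closure (Zs G n))
    (hcl : Λ ≤ closure ((fun h : G => h ^ 2 ^ n) '' Ad Λ n)) {g t : G} (hg : g ∈ Ad Λ n) (ht : t ∈ Λ) :
    (t * g) ^ 2 ^ n * g ^ 2 ^ n ∈ Om Λ ∧ (t ∈ Om Λ → (t * g) ^ 2 ^ n * g ^ 2 ^ n = 1) := by
  classical
  have hgn : ∀ x ∈ Λ, g * x * g⁻¹ ∈ Λ := fun x hx => (mem_normalizer_iff.1 hg.2.1 x).1 hx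
  have hM := pow_form hgn ht
  have htg : t * g ∈ Ad Λ n := ⟨((isPi_zpowers.2 hg.1).sup hΛ2 (zpowers_le.2 hg.2.1)).orderOf
    (mul_mem (mem_sup_right ht) (mem_sup_left (mem_zpowers g))), mul_mem (le_norm_self Λ ht) hg.2.1,
    (mul_mem_cancel_right (inv_mem hg.2.2)).1 (hM _)⟩
  have hy : (t * g) ^ 2 ^ n * g ^ 2 ^ n ∈ Λ := mul_mem htg.2.2 hg.2.2
  have key : ∀ x ∈ Λ, (∀ (Y : Type u) [Group Y] (D : Subgroup G) (φ : D →* MulAut Y), Λ ≤ D →
      ((mel φ ((t * g) ^ 2 ^ n * g ^ 2 ^ n) * mel φ ((t * g) ^ 2 ^ n * g ^ 2 ^ n) = 1 ∧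
        ∀ l ∈ Λ, Commute (mel φ l) (mel φ ((t * g) ^ 2 ^ n * g ^ 2 ^ n))) ∧
        (t ∈ Om Λ → mel φ ((t * g) ^ 2 ^ n * g ^ 2 ^ n) = 1)) → mel φ x = 1) → x = 1 := by
    intro x hx H
    refine loc ρ hf hs hO h1 hr (hΛL hx) (hΛ2.orderOf hx) fun Q _ q hq hq2 hQq hDc hz χ h0 => ?_
    obtain ⟨Y, _, _, φ, hY, ho, hS, hker, hG⟩ := pack ρ h1 hr hq hq2 hQq hDc hz χ h0
    have hΛD : Λ ≤ wstab ⁅Q, Q⁆ χ := hΛL.trans (hz.trans (cent_le_wstab χ))
    refine hker x (hΛD hx) (H Y _ φ hΛD ?_)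
    generalize wstab ⁅Q, Q⁆ χ = D at *
    have hex : ∀ h ∈ Ad Λ n, ∃ j a, n = j + a ∧ h ^ 2 ^ j ∈ D ∧ ∀ i < j, h ^ 2 ^ i ∉ D := fun h hh => by
      have e : ∃ j, h ^ 2 ^ j ∈ D := ⟨n, hΛD hh.2.2⟩
      obtain ⟨a, ha⟩ := Nat.exists_eq_add_of_le (Nat.find_min' e (hΛD hh.2.2))
      exact ⟨_, a, ha, Nat.find_spec e, fun i hi => Nat.find_min e hi⟩
    have hpw : ∀ {h : G} {j a : ℕ}, n = j + a → h ^ 2 ^ j ∈ D →
        mel φ (h ^ 2 ^ n) = mel φ (h ^ 2 ^ j) ^ 2 ^ a := fun {h j a} ha hj => by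
      rw [← mel_pow φ hj, ← pow_mul, ← pow_add, ← ha]
    have hZ : ∀ b ∈ mel φ '' ((fun h : G => h ^ 2 ^ n) '' Ad Λ n), b ∈ mim φ Λ := by
      rintro _ ⟨_, ⟨h, hh, rfl⟩, rfl⟩
      exact mel_mem_mim φ hh.2.2
    have hcl' : mim φ Λ ≤ closure (mel φ '' ((fun h : G => h ^ 2 ^ n) '' Ad Λ n)) := by
      rw [← mim_closure φ (by rintro _ ⟨h, hh, rfl⟩; exact hΛD hh.2.2)]
      exact mim_mono φ hcl
    have h2 : ∀ b ∈ mel φ '' ((fun h : G => h ^ 2 ^ n) '' Ad Λ n),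
        b * b = 1 ∧ ∀ l ∈ mim φ Λ, Commute (l * b * l⁻¹) b := by
      rintro _ ⟨_, ⟨h, hh, rfl⟩, rfl⟩
      obtain ⟨j, a, ha, hj, hm⟩ := hex h hh
      have e1 := (hG h hh.1 j a ha hj hm).1
      simp only [hpw ha hj]
      refine ⟨e1.sq, fun l hl => conj_comm hY ho (S := mim φ (zpowers h ⊔ Λ))
        (((isPi_zpowers.2 hh.1).sup hΛ2 (zpowers_le.2 hh.2.1)).mim _)
        (mel_mem_mim φ (mem_sup_left (pow_mem (mem_zpowers h) _))) e1 l (mim_mono φ le_sup_right hl)⟩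
    obtain ⟨j, a, ha, hj, hm⟩ := hex g hg
    have hiff : ∀ m, (t * g) ^ m ∈ D ↔ g ^ m ∈ D := fun m => by
      rw [← mul_mem_cancel_left (hΛD (hM m)) (y := g ^ m), inv_mul_cancel_right]
    have hj' := (hiff _).2 hj
    have e0 : mel φ ((t * g) ^ 2 ^ j) = mel φ ((t * g) ^ 2 ^ j * (g ^ 2 ^ j)⁻¹) * mel φ (g ^ 2 ^ j) := by
      rw [← mel_mul φ (hΛD (hM _)) hj, inv_mul_cancel_right]
    have e1 := hG _ htg.1 j a ha hj' fun i hi h => hm i hi ((hiff _).1 h)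
    have e2 : mel φ ((t * g) ^ 2 ^ j) ^ 2 ^ a ∈ mel φ '' ((fun h : G => h ^ 2 ^ n) '' Ad Λ n) :=
      ⟨_, ⟨_, htg, rfl⟩, hpw ha hj'⟩
    rw [mel_mul φ (hΛD htg.2.2) (hΛD hg.2.2), hpw ha hj, hpw ha hj']
    rw [e0] at e1 e2 ⊢
    have := LL2 hY ho hS (mim_le_range φ Λ) hcl' hZ h2 (u := mel φ (g ^ 2 ^ j))
      (mim_le_range φ ⊤ (mel_mem_mim φ (mem_top _)))
      (fun l hl => (mem_normalizer_iff.1 (mel_mem_normalizer φ hj (pow_mem hg.2.1 _)) l).1 hl)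
      (mel_mem_mim φ (hM (2 ^ j))) (hG g hg.1 j a ha hj hm) ⟨_, ⟨g, hg, rfl⟩, hpw ha hj⟩ e1 e2
    refine ⟨⟨this.1.1, fun l hl => this.1.2 _ (mel_mem_mim φ hl)⟩, fun h => ?_⟩
    have e3 := pow_form (K := Om Λ) (fun x hx => Om_conj hg.2.1 hx) h (2 ^ j)
    refine this.2 (by rw [← mel_mul φ (hΛD e3.1) (hΛD e3.1), e3.2.2, mel_one]) fun l hl => ?_
    obtain ⟨l, hl', rfl⟩ := (mem_mim_of_le hΛD).1 hl
    show _ * _ = _ * _
    rw [← mel_mul φ (hΛD e3.1) (hΛD hl'), ← mel_mul φ (hΛD hl') (hΛD e3.1), (e3.2.1 l hl').eq]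
  refine ⟨⟨hy, fun l hl => commutatorElement_eq_one_iff_commute.1 (key _
    (der_le Λ (commutator_mem_commutator hl hy)) fun Y _ D φ hD H => ?_),
    key _ (mul_mem hy hy) fun Y _ D φ hD H => ?_⟩, fun h => key _ hy fun Y _ D φ hD H => H.2 h⟩
  · rw [mel_commutator φ (hD hl) (hD hy), commutatorElement_eq_one_iff_commute]
    exact H.1.2 l hl
  · rw [mel_mul φ (hD hy) (hD hy), H.1.1]

theorem lift [IsAlgClosed k] [FiniteDimensional k W] [CharP k 2]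
    (ρ : Representation k (⊤ : Subgroup G) W) (hf : rker ρ = ⊥) (hs : Group.IsSolvable G)
    (hO : pCore 2 G = ⊥) {n : ℕ} (h1 : Ex 2 G (n + 1))
    (hr : ∀ g : G, PiNat {2} (orderOf g) → (rp ρ g - 1) ^ (2 ^ (n + 1) - 1) = 0) :
    closure (Zs (G ⧸ pPrimeCore 2 G) n) ≤ pCore 2 _ ∧
    ∀ g t : G ⧸ pPrimeCore 2 G, PiNat {2} (orderOf g) → t ∈ closure (Zs (G ⧸ pPrimeCore 2 G) n) →
      (t * g) ^ 2 ^ n * g ^ 2 ^ n ∈ Om (closure (Zs (G ⧸ pPrimeCore 2 G) n)) ∧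
      (t ∈ Om (closure (Zs (G ⧸ pPrimeCore 2 G) n)) → (t * g) ^ 2 ^ n * g ^ 2 ^ n = 1) := by
  have hLP := z_mem ρ hf hs hO h1 hr
  haveI := normal_Zs (G := G) n
  let π := QuotientGroup.mk' (pPrimeCore 2 G)
  have hπ : Function.Surjective π := QuotientGroup.mk'_surjective _
  obtain ⟨T, hT, -⟩ := syl_superset Nat.prime_two (isPi_bot {2}) (H := pPrimePCore 2 G) bot_le
  set Λ := closure (Zs G n) ⊓ T with hΛ
  have hΛ2 : IsPi {2} Λ := hT.pi.of_le inf_le_right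
  have had : ∀ h' : G ⧸ pPrimeCore 2 G, PiNat {2} (orderOf h') → ∃ h ∈ Ad Λ n, π h = h' := by
    intro h' hh
    have hP : IsPi {2} (zpowers h' ⊔ pCore 2 (G ⧸ pPrimeCore 2 G)) :=
      (isPi_zpowers.2 hh).sup (isPi_pcore Nat.prime_two) (top_le_norm _ _)
    obtain ⟨S, hS, hTS⟩ := syl_superset Nat.prime_two hT.pi
      (H := (zpowers h' ⊔ pCore 2 (G ⧸ pPrimeCore 2 G)).comap π)
      (hT.le.trans (comap_mono le_sup_right))
    have hSm : S.map π = zpowers h' ⊔ pCore 2 (G ⧸ pPrimeCore 2 G) := by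
      have := hall_map hS π
      rw [map_comap_eq_self_of_surjective hπ] at this
      exact this.eq_self hP
    obtain ⟨h, hh1, hh2⟩ := hSm.ge (mem_sup_left (mem_zpowers h'))
    have e1 : S ⊓ pPrimePCore 2 G = T :=
      hT.eq_of_le (hS.pi.of_le inf_le_left) (le_inf hTS hT.le) inf_le_right
    have e2 : h ^ 2 ^ n ∈ closure (Zs G n) := subset_closure ⟨h, hS.pi.orderOf hh1, rfl⟩
    refine ⟨h, ⟨hS.pi.orderOf hh1, ?_, e2, e1 ▸ ⟨pow_mem hh1 _, hLP e2⟩⟩, hh2⟩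
    rw [hΛ, ← e1]
    exact norm_inf (top_le_norm _ _) (norm_inf (le_norm_self S) (top_le_norm _ _)) hh1
  have inj : ∀ x ∈ Λ, π x = 1 → x = 1 := fun x hx h => mem_bot.1
    ((hΛ2.inf_eq_bot (isPi_p'core Nat.prime_two)).le ⟨hx, (QuotientGroup.eq_one_iff x).1 h⟩)
  have c1 : closure ((fun h : G => h ^ 2 ^ n) '' Ad Λ n) ≤ Λ :=
    (closure_le _).2 (by rintro _ ⟨h, hh, rfl⟩; exact hh.2.2)
  have c2 : closure (Zs (G ⧸ pPrimeCore 2 G) n) ≤ (closure ((fun h : G => h ^ 2 ^ n) '' Ad Λ n)).map π :=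
    (closure_le _).2 (by
      rintro _ ⟨h', hh, rfl⟩
      obtain ⟨h, h2, rfl⟩ := had h' hh
      exact ⟨h ^ 2 ^ n, subset_closure ⟨h, h2, rfl⟩, map_pow _ _ _⟩)
  have c3 : closure (Zs G n) ≤ (closure (Zs (G ⧸ pPrimeCore 2 G) n)).comap π :=
    (closure_le _).2 (by
      rintro _ ⟨h, hh, rfl⟩
      exact subset_closure ⟨π h, hh.of_dvd (orderOf_map_dvd _ _), (map_pow _ _ _).symm⟩)
  have c4 : Λ ≤ closure ((fun h : G => h ^ 2 ^ n) '' Ad Λ n) := fun x hx => by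
    obtain ⟨x', h2, h3⟩ := c2 (c3 hx.1)
    have := inj (x'⁻¹ * x) (mul_mem (inv_mem (c1 h2)) hx) (by rw [map_mul, map_inv, h3, inv_mul_cancel])
    rwa [← inv_mul_eq_one.1 this]
  refine ⟨c2.trans (map_le_iff_le_comap.2 (c1.trans (inf_le_left.trans hLP))), fun g' t' hg ht => ?_⟩
  obtain ⟨g, h2, rfl⟩ := had g' hg
  obtain ⟨t, h3, rfl⟩ := c2 ht
  have h4 := c1 h3
  obtain ⟨e1, e2⟩ := core ρ hf hs hO h1 hr hΛ2 inf_le_left c4 h2 h4
  rw [← map_mul, ← map_pow, ← map_pow, ← map_mul]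
  refine ⟨⟨c3 e1.1.1, fun l hl => ?_, by rw [← map_mul, e1.2.2, map_one]⟩, fun h => ?_⟩
  · obtain ⟨l, h5, rfl⟩ := c2 hl
    exact (e1.2.1 l (c1 h5)).map π
  · rw [e2 ⟨h4, fun l hl => commutatorElement_eq_one_iff_commute.1 (inj _
      (der_le Λ (commutator_mem_commutator hl h4)) ?_), inj _ (mul_mem h4 h4) ?_⟩, map_one]
    · rw [map_mul, h.2.2]
    · rw [map_commutatorElement, commutatorElement_eq_one_iff_commute]
      exact h.2.1 _ (c3 hl.1)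

/-- a faithful module on which two-elements have small Jordan blocks -/
def Good (G : Type u) [Group G] (r : ℕ) : Prop :=
  ∃ (W : Type u) (_ : AddCommGroup W) (_ : Module (ZMod 2) W) (_ : FiniteDimensional (ZMod 2) W)
    (ρ : Representation (ZMod 2) (⊤ : Subgroup G) W), rker ρ = ⊥ ∧
    ∀ g : G, PiNat {2} (orderOf g) → (rp ρ g - 1) ^ r = 0

/-- the direct sum of two representations -/
def rprod {D : Subgroup G} {W' : Type*} [AddCommGroup W'] [Module k W'] (ρ : Representation k D W)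
    (ρ' : Representation k D W') : Representation k D (W × W') where
  toFun x := (ρ x).prodMap (ρ' x)
  map_one' := by rw [map_one, map_one]; rfl
  map_mul' x y := by rw [map_mul, map_mul]; rfl

theorem rp_rprod {D : Subgroup G} {W' : Type*} [AddCommGroup W'] [Module k W']
    (ρ : Representation k D W) (ρ' : Representation k D W') {x : G} (hx : x ∈ D) (w : W × W') :
    rp (rprod ρ ρ') x w = (rp ρ x w.1, rp ρ' x w.2) := by
  rw [rp_of_mem _ hx, rp_of_mem _ hx, rp_of_mem _ hx]; rfl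

theorem rprod_sub_pow {D : Subgroup G} {W' : Type*} [AddCommGroup W'] [Module k W']
    (ρ : Representation k D W) (ρ' : Representation k D W') {x : G} (hx : x ∈ D) (n : ℕ) (w : W × W') :
    ((rp (rprod ρ ρ') x - 1) ^ n) w = (((rp ρ x - 1) ^ n) w.1, ((rp ρ' x - 1) ^ n) w.2) := by
  induction n with
  | zero => rfl
  | succ n ih =>
    simp only [pow_succ', Module.End.mul_apply, ih, LinearMap.sub_apply, rp_rprod ρ ρ' hx]
    rfl

theorem good_of_chain {V : Type u} [AddCommGroup V] [Module (ZMod 2) V] [FiniteDimensional (ZMod 2) V]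
    (ρ : Representation (ZMod 2) (⊤ : Subgroup G) V) (hf : rker ρ = ⊥) (hO : pCore 2 G = ⊥)
    {U1 U2 : Submodule (ZMod 2) V} (i1 : BGRep.Inv ρ ⊤ U1) (i2 : BGRep.Inv ρ ⊤ U2) {r : ℕ}
    (h : ∀ g : G, PiNat {2} (orderOf g) → (∀ v, ((rp ρ g - 1) ^ r) v ∈ U2) ∧
      (∀ v ∈ U2, ((rp ρ g - 1) ^ r) v ∈ U1) ∧ ∀ v ∈ U1, ((rp ρ g - 1) ^ r) v = 0) : Good G r := by
  haveI hp : Fact (Nat.Prime 2) := ⟨Nat.prime_two⟩
  have i3 : BGRep.Inv (res ρ le_rfl U2 i2) ⊤ (U1.comap U2.subtype) := fun x hx w hw => by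
    show (rp (res ρ le_rfl U2 i2) x w : V) ∈ U1
    rw [coe_rp_res le_rfl i2 hx]
    exact i1 x hx _ hw
  set σ := rprod (res ρ le_rfl U1 i1) (rprod (quo (res ρ le_rfl U2 i2) le_rfl _ i3)
    (quo ρ le_rfl U2 i2)) with hσ
  refine ⟨_, _, _, inferInstance, σ, ?_, fun g hg => LinearMap.ext fun w => ?_⟩
  · haveI : (rker σ).Normal := normalizer_eq_top_iff.1 (eq_top_iff.2 (le_norm_rker σ))
    refine eq_bot_iff.2 ((le_pcore hp.out (isPi_of_orderOf fun x hx => piNat_two (n := 2) ?_)).trans hO.le)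
    have e := fun w => LinearMap.congr_fun (mem_rker.1 hx).2 w
    have hx' := mem_top x
    simp only [hσ, rp_rprod _ _ hx', Module.End.one_apply, Prod.ext_iff] at e
    have e1 : ∀ v ∈ U1, (rp ρ x - 1) v = 0 := fun v hv => by
      have := congrArg Subtype.val (e (⟨v, hv⟩, 0, 0)).1
      rw [coe_rp_res le_rfl i1 hx'] at this
      exact sub_eq_zero.2 this
    have e2 : ∀ v ∈ U2, (rp ρ x - 1) v ∈ U1 := fun v hv => by
      have := (e (0, (U1.comap U2.subtype).mkQ ⟨v, hv⟩, 0)).2.1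
      rw [rp_quo_mk le_rfl i3 hx', Submodule.mkQ_apply, Submodule.mkQ_apply, Submodule.Quotient.eq,
        Submodule.mem_comap, map_sub, Submodule.subtype_apply, coe_rp_res le_rfl i2 hx'] at this
      exact this
    have e3 : ∀ v, (rp ρ x - 1) v ∈ U2 := fun v => by
      have := (e (0, 0, U2.mkQ v)).2.2
      rw [rp_quo_mk le_rfl i2 hx', Submodule.mkQ_apply, Submodule.mkQ_apply, Submodule.Quotient.eq] at this
      exact this
    have e4 : (rp ρ x - 1) ^ 2 ^ 2 = 0 := LinearMap.ext fun v => by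
      rw [show 2 ^ 2 = 1 + 1 + 1 + 1 by rfl, pow_succ, pow_succ, pow_succ, pow_one]
      exact e1 _ (e2 _ (e3 _))
    rw [sub_one_pow_char, sub_eq_zero, ← rp_pow ρ hx'] at e4
    exact mem_bot.1 (hf ▸ mem_rker.2 ⟨mem_top _, e4⟩)
  · obtain ⟨e1, e2, e3⟩ := h g hg
    have hx' := mem_top g
    obtain ⟨w1, w2, w3⟩ := w
    obtain ⟨w2, rfl⟩ := Submodule.mkQ_surjective _ w2
    obtain ⟨w3, rfl⟩ := Submodule.mkQ_surjective _ w3
    rw [hσ, rprod_sub_pow _ _ hx', rprod_sub_pow _ _ hx', quo_sub_pow le_rfl i3 hx',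
      quo_sub_pow le_rfl i2 hx']
    refine Prod.ext (Subtype.ext ?_) (Prod.ext ((Submodule.Quotient.mk_eq_zero _).2 ?_)
      ((Submodule.Quotient.mk_eq_zero _).2 (e1 _)))
    · exact (res_sub_pow le_rfl i1 hx' r w1).trans (e3 _ w1.2)
    · rw [Submodule.mem_comap, Submodule.subtype_apply, res_sub_pow le_rfl i2 hx']
      exact e2 _ w2.2

/-- the action on the Frattini quotient of the two-core -/
noncomputable def tp (G : Type u) [Group G] [Finite G] [Fact (Nat.Prime 2)] :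
    Representation (ZMod 2) (⊤ : Subgroup (G ⧸ pCore 2 G)) (PV G 2) :=
  (prep G 2).comp (⊤ : Subgroup (G ⧸ pCore 2 G)).subtype

theorem rp_tp [Fact (Nat.Prime 2)] (x : G ⧸ pCore 2 G) : rp (tp G) x = prep G 2 x :=
  rp_of_mem _ (mem_top x)

theorem rker_tp [Fact (Nat.Prime 2)] (hs : IsPSolvable 2 G) (hO : pPrimeCore 2 G = ⊥) :
    rker (tp G) = ⊥ := eq_bot_iff.2 fun x hx => by
  have := (mem_rker.1 hx).2
  rw [rp_tp, ← map_one (prep G 2)] at this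
  exact mem_bot.2 (prep_injective hs hO this)

/-- the image of a subgroup in the Frattini quotient of the two-core -/
def img (G : Type u) [Group G] [Finite G] [Fact (Nat.Prime 2)] (K : Subgroup G) :
    Submodule (ZMod 2) (PV G 2) where
  carrier := {w | w.val ∈ K.map (QuotientGroup.mk' (Phi (pCore 2 G)))}
  add_mem' := fun {a b} ha hb => by
    rw [Set.mem_setOf_eq, EV.val_add]; exact mul_mem ha hb
  zero_mem' := by rw [Set.mem_setOf_eq, EV.val_zero]; exact one_mem _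
  smul_mem' := fun c a ha => by
    rw [Set.mem_setOf_eq, EV.val_smul]; exact pow_mem ha _

theorem mem_img [Fact (Nat.Prime 2)] {K : Subgroup G} {w : PV G 2} :
    w ∈ img G K ↔ ∃ v ∈ K, QuotientGroup.mk' (Phi (pCore 2 G)) v = w.val := Iff.rfl

theorem good_step (hs : Group.IsSolvable G) (hO : pPrimeCore 2 G = ⊥) {n : ℕ} (h1 : Ex 2 G (n + 1))
    (hL : closure (Zs G n) ≤ pCore 2 G)
    (H : ∀ g t : G, PiNat {2} (orderOf g) → t ∈ closure (Zs G n) →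
      (t * g) ^ 2 ^ n * g ^ 2 ^ n ∈ Om (closure (Zs G n)) ∧
      (t ∈ Om (closure (Zs G n)) → (t * g) ^ 2 ^ n * g ^ 2 ^ n = 1)) :
    Good (G ⧸ pCore 2 G) (2 ^ n - 1) := by
  haveI hp : Fact (Nat.Prime 2) := ⟨Nat.prime_two⟩
  haveI := hs
  haveI := normal_Zs (G := G) n
  have inv : ∀ K : Subgroup G, (∀ g : G, ∀ x ∈ K, g * x * g⁻¹ ∈ K) →
      BGRep.Inv (tp G) ⊤ (img G K) := fun K hK x _ w hw => by
    obtain ⟨g, rfl⟩ := QuotientGroup.mk_surjective x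
    obtain ⟨v, hv, e⟩ := mem_img.1 hw
    rw [rp_tp]
    exact mem_img.2 ⟨g * v * g⁻¹, hK g v hv, by rw [val_prep, ← e]; rfl⟩
  refine good_of_chain (tp G) (rker_tp psolv_of_solvable hO) (pcore_quot hp.out)
    (inv (Om (closure (Zs G n))) fun g x hx => Om_conj (top_le_norm _ ⊤ (mem_top g)) hx)
    (inv (closure (Zs G n)) fun g x hx => Normal.conj_mem inferInstance x hx g) fun y hy => ?_
  obtain ⟨g, hg, rfl⟩ := exists_lift_el hp.out (QuotientGroup.mk'_surjective _) hy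
  have hz : g ^ 2 ^ n * g ^ 2 ^ n = 1 := by rw [← pow_add, ← two_mul, ← pow_succ', h1 g hg]
  have key : ∀ (v : G) (hv : v ∈ pCore 2 G),
      (((rp (tp G) (QuotientGroup.mk' _ g) - 1) ^ (2 ^ n - 1) : End (ZMod 2) (PV G 2)) (pv v hv)).val =
      QuotientGroup.mk' (Phi (pCore 2 G)) ((v * g) ^ 2 ^ n * g ^ 2 ^ n) := fun v hv => by
    rw [rp_tp, ← geom_sum_char, map_mul, QuotientGroup.mk'_apply, QuotientGroup.mk'_apply,
      QuotientGroup.mk'_apply, mk_mul_pow g hv, mul_assoc, ← QuotientGroup.mk_mul, hz,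
      QuotientGroup.mk_one, mul_one]
  have rep : ∀ K ≤ pCore 2 G, ∀ w ∈ img G K, ∃ (v : G) (h : v ∈ K) (hv : v ∈ pCore 2 G), pv v hv = w :=
    fun K hK w hw => by
      obtain ⟨v, hv, e⟩ := mem_img.1 hw
      exact ⟨v, hv, hK hv, EV.ext' e⟩
  refine ⟨fun w => ?_, fun w hw => ?_, fun w hw => ?_⟩
  · obtain ⟨v, hv, rfl⟩ := pv_surj w
    refine mem_img.2 ⟨_, mul_mem (subset_closure ⟨v * g, ?_, rfl⟩) (subset_closure ⟨g, hg, rfl⟩),
      (key v hv).symm⟩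
    exact ((isPi_zpowers.2 hg).sup (isPi_pcore hp.out) (top_le_norm _ _)).orderOf
      (mul_mem (mem_sup_right hv) (mem_sup_left (mem_zpowers g)))
  · obtain ⟨v, h, hv, rfl⟩ := rep _ hL w hw
    exact mem_img.2 ⟨_, (H g v hg h).1, (key v hv).symm⟩
  · obtain ⟨v, h, hv, rfl⟩ := rep (Om (closure (Zs G n))) (fun x hx => hL hx.1) w hw
    rw [← EV.val_eq_one, key v hv, (H g v hg h.1).2 h, map_one]

theorem PL_of_good (e : ℕ) : ∀ (G : Type u) [Group G] [Finite G], Group.IsSolvable G →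
    pCore 2 G = ⊥ → Good G (2 ^ (e + 1) - 1) → PLengthLE 2 e G := by
  haveI hp : Fact (Nat.Prime 2) := ⟨Nat.prime_two⟩
  induction e with
  | zero =>
    intro G _ _ hs hO ⟨W, _, _, _, ρ, hf, hr⟩
    refine (PL_zero_iff hp.out).2 fun hd => ?_
    obtain ⟨x, hx⟩ := exists_prime_orderOf_dvd_card' 2 hd
    have h4 := hr x (by rw [hx]; exact (piNat_prime hp.out).2 rfl)
    rw [show 2 ^ (0 + 1) - 1 = 1 by norm_num, pow_one, sub_eq_zero] at h4
    rw [mem_bot.1 (hf.le (mem_rker.2 ⟨mem_top x, h4⟩)), orderOf_one] at hx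
    omega
  | succ e ih =>
    intro G _ _ hs hO ⟨W, _, _, _, ρ, hf, hr⟩
    have h1 : Ex 2 G (e + 1 + 1) := fun x hx => by
      have h2 : (rp ρ x - 1) ^ 2 ^ (e + 1 + 1) = 0 := pow_eq_zero_of_le (Nat.sub_le _ _) (hr x hx)
      rw [sub_one_pow_char, sub_eq_zero, ← rp_pow ρ (mem_top x)] at h2
      exact mem_bot.1 (hf ▸ mem_rker.2 ⟨mem_top _, h2⟩)
    obtain ⟨h2, h3⟩ := lift (bc (Fb 2) ρ) (by rw [rker_bc, hf]) hs hO h1 fun g hg => by
      have := congrArg (Module.End.baseChangeHom (ZMod 2) (Fb 2) W) (hr g hg)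
      rwa [map_pow, map_sub, map_one, map_zero, ← rp_bc _ (mem_top g)] at this
    exact PL_of_quot_p'core hp.out (PL_of_quot_pcore hp.out (ih _ inferInstance (pcore_quot hp.out)
      (good_step inferInstance (p'core_quot hp.out) (h1.quot hp.out _) h2 h3)))

theorem PL_exp (hs : Group.IsSolvable G) {e : ℕ} (h : Ex 2 G e) : PLengthLE 2 e G := by
  haveI hp : Fact (Nat.Prime 2) := ⟨Nat.prime_two⟩
  haveI := hs
  rcases e with _ | e
  · refine (PL_zero_iff hp.out).2 fun hd => ?_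
    obtain ⟨x, hx⟩ := exists_prime_orderOf_dvd_card' 2 hd
    have h4 := h x (by rw [hx]; exact (piNat_prime hp.out).2 rfl)
    rw [pow_zero, pow_one] at h4
    rw [h4, orderOf_one] at hx
    omega
  refine PL_of_quot_p'core hp.out (PL_of_quot_pcore hp.out (PL_of_good e _ inferInstance
    (pcore_quot hp.out) ⟨_, _, _, inferInstance, tp _,
      rker_tp psolv_of_solvable (p'core_quot hp.out), fun y hy => ?_⟩))
  obtain ⟨g, h3, rfl⟩ := exists_lift_el hp.out (QuotientGroup.mk'_surjective _) hy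
  rw [rp_tp]
  exact prep_exp (h.quot hp.out _) h3

end CA.H9Two
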