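import Cfsg.Agent.Lib.Solv.HH4
import Cfsg.Agent.Lib.Odd.BG4x2
import Cfsg.Agent.Lib.Odd.BG4a
import Cfsg.Agent.Lib.Loc.AmbRes

/-!
A `p`-group acting on an abelian `p'`-group: powers with small commutator subgroups commute.
-/

set_option autoImplicit false
set_option linter.unusedSectionVars false
set_option linter.unusedVariables false
set_option linter.style.haveILetI false

namespace CA.HH
open Subgroup Cfsg CA.OQuo CA.BG CA.BGRep Module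
open scoped commutatorElement

universe u

section
variable {G : Type*} [Group G] [Finite G] {Y R E D : Subgroup G} {e f u z : G} {p : ℕ}

/-- `z` is a `p ^ a`-th power in `R` with small commutator subgroup on `Y` -/
def Sm (p : ℕ) (R Y : Subgroup G) (z : G) : Prop :=
  ∃ u ∈ R, ∃ a : ℕ, z = u ^ p ^ a ∧ ♯(⁅Y, zpowers z⁆) ≤ (p ^ (a + 1) - 1) ^ 2

theorem Sm.mem (h : Sm p R Y z) : z ∈ R := by
  obtain ⟨u, hu, a, rfl, -⟩ := h
  exact pow_mem hu _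

theorem Sm.mono {Y' : Subgroup G} (h : Sm p R Y z) (hY : Y' ≤ Y) : Sm p R Y' z := by
  obtain ⟨u, hu, a, h1, h2⟩ := h
  exact ⟨u, hu, a, h1, (card_le_of_le' (comm_mono hY le_rfl)).trans h2⟩

theorem Sm.mim {Q : Type*} [Group Q] [Finite Q] (h : Sm p R Y z) (φ : D →* Q) (hR : R ≤ D) (hY : Y ≤ D) :
    Sm p (mim φ R) (mim φ Y) (mel φ z) := by
  have hz := h.mem
  obtain ⟨u, hu, a, h1, h2⟩ := h
  refine ⟨mel φ u, mel_mem_mim φ hu, a, by rw [h1, mel_pow φ (hR hu)], ?_⟩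
  rw [← mim_zpowers φ (hR hz), ← mim_commutator φ hY (zpowers_le.2 (hR hz))]
  exact (Nat.le_of_dvd Nat.card_pos (card_mim_dvd φ _)).trans h2

theorem indep3 (hY : IsMulCommutative Y) (he : e ∈ 𝓝(Y)) (hef : Commute e f)
    (h1 : Y ⊓ 𝓒₁(f) = ⊥) (h2 : Y ⊓ 𝓒₁(f ^ 2) = ⊥) {a b c : G} (ha : a ∈ Y ⊓ 𝓒₁(e))
    (hb : b ∈ Y ⊓ 𝓒₁(f * e)) (hc : c ∈ Y ⊓ 𝓒₁(f ^ 2 * e)) (h : a * b * c = 1) :
    a = 1 ∧ b = 1 ∧ c = 1 := by
  have cm : ∀ {x y : G}, x ∈ Y → y ∈ Y → Commute x y := fun hx hy =>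
    mem_cent.1 (comm_iff_le_cent.1 hY hy) _ hx
  have ha' : Commute a e := mem_cent1.1 ha.2
  have hb' : Commute b (f * e) := mem_cent1.1 hb.2
  have hc' : Commute c (f ^ 2 * e) := mem_cent1.1 hc.2
  have e1 : Commute e (f * e) := hef.mul_right (Commute.refl e)
  have e2 : Commute e (f ^ 2 * e) := (hef.pow_right 2).mul_right (Commute.refl e)
  have hb1 : e * b * e⁻¹ ∈ Y := conj_mem_of_mem_norm he hb.1
  have hc1 : e * c * e⁻¹ ∈ Y := conj_mem_of_mem_norm he hc.1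
  have h3 : (e * b * e⁻¹) * (e * c * e⁻¹) = b * c := by
    have h4 : e * (a * b * c) * e⁻¹ = a * ((e * b * e⁻¹) * (e * c * e⁻¹)) := by
      calc e * (a * b * c) * e⁻¹ = (e * a * e⁻¹) * ((e * b * e⁻¹) * (e * c * e⁻¹)) := by group
        _ = _ := by rw [← ha'.eq, mul_inv_cancel_right]
    rw [h, mul_one, mul_inv_cancel, ← h, mul_assoc a] at h4
    exact (mul_left_cancel h4).symm
  have h5 : b⁻¹ * (e * b * e⁻¹) = c * (e * c * e⁻¹)⁻¹ := by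
    rw [inv_mul_eq_iff_eq_mul, ← mul_assoc, ← h3, mul_inv_cancel_right]
  have k1 : Commute (b⁻¹ * (e * b * e⁻¹)) (f * e) :=
    hb'.inv_left.mul_left ((e1.mul_left hb').mul_left e1.inv_left)
  have k2 : Commute (b⁻¹ * (e * b * e⁻¹)) (f ^ 2 * e) := h5 ▸
    hc'.mul_left ((e2.mul_left hc').mul_left e2.inv_left).inv_left
  have k3 : b⁻¹ * (e * b * e⁻¹) = 1 := by
    have : Commute (b⁻¹ * (e * b * e⁻¹)) f := by
      have := k2.mul_right k1.inv_right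
      rwa [show f ^ 2 * e * (f * e)⁻¹ = f by rw [sq]; group] at this
    exact mem_bot.1 (h1 ▸ ⟨Y.mul_mem (Y.inv_mem hb.1) hb1, mem_cent1.2 this⟩)
  have kb : b = 1 := by
    have h6 : Commute b e := by
      rw [inv_mul_eq_one, eq_mul_inv_iff_mul_eq] at k3; exact k3
    have := hb'.mul_right h6.inv_right
    rw [mul_inv_cancel_right] at this
    exact mem_bot.1 (h1 ▸ ⟨hb.1, mem_cent1.2 this⟩)
  have kc : c = 1 := by
    rw [k3, eq_comm, mul_inv_eq_one, eq_mul_inv_iff_mul_eq] at h5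
    have := hc'.mul_right (show Commute c e from h5).inv_right
    rw [mul_inv_cancel_right] at this
    exact mem_bot.1 (h2 ▸ ⟨hc.1, mem_cent1.2 this⟩)
  rw [kb, kc, mul_one, mul_one] at h
  exact ⟨h, kb, kc⟩

theorem indep3' (hY : IsMulCommutative Y) (he : e ∈ 𝓝(Y)) (hu : u ∈ 𝓝(Y)) (hef : Commute e f)
    (huf : Commute u f) (hf : u * e * u⁻¹ = f * e)
    (h1 : Y ⊓ 𝓒₁(f) = ⊥) (h2 : Y ⊓ 𝓒₁(f ^ 2) = ⊥) {a b c : G} (ha : a ∈ Y ⊓ 𝓒₁(e))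
    (hb : b ∈ Y ⊓ 𝓒₁(e)) (hc : c ∈ Y ⊓ 𝓒₁(e))
    (h : a * (u * b * u⁻¹) * (u * (u * c * u⁻¹) * u⁻¹) = 1) : a = 1 ∧ b = 1 ∧ c = 1 := by
  have k : ∀ {x y : G}, x ∈ Y ⊓ 𝓒₁(y) → u * x * u⁻¹ ∈ Y ⊓ 𝓒₁(u * y * u⁻¹) := fun {x y} hx =>
    ⟨conj_mem_of_mem_norm hu hx.1, mem_cent1.2 (by
      have := mem_cent1.1 hx.2
      calc u * x * u⁻¹ * (u * y * u⁻¹) = u * (x * y) * u⁻¹ := by group
        _ = _ := by rw [this]; group)⟩
  have hf2 : u * (u * e * u⁻¹) * u⁻¹ = f ^ 2 * e := by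
    rw [hf, ← mul_assoc, huf.eq, mul_assoc f, mul_assoc f, hf, sq, mul_assoc]
  obtain ⟨a1, a2, a3⟩ := indep3 hY he hef h1 h2 ha (hf ▸ k hb) (hf2 ▸ k (k hc)) h
  exact ⟨a1, by simpa using a2, by simpa using a3⟩

theorem cube_le (hY : IsMulCommutative Y) (he : e ∈ 𝓝(Y)) (hu : u ∈ 𝓝(Y)) (hef : Commute e f)
    (huf : Commute u f) (hf : u * e * u⁻¹ = f * e)
    (h1 : Y ⊓ 𝓒₁(f) = ⊥) (h2 : Y ⊓ 𝓒₁(f ^ 2) = ⊥) {M : Subgroup G} (hD : D ≤ Y ⊓ 𝓒₁(e)) (hM : D ≤ M)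
    (huM : u ∈ 𝓝(M)) : ♯D ^ 3 ≤ ♯M := by
  have cm : ∀ {x y : G}, x ∈ Y → y ∈ Y → Commute x y := fun hx hy =>
    mem_cent.1 (comm_iff_le_cent.1 hY hy) _ hx
  let φ : D × D × D → M := fun t => ⟨t.1 * (u * t.2.1 * u⁻¹) * (u * (u * t.2.2 * u⁻¹) * u⁻¹),
    mul_mem (mul_mem (hM t.1.2) (conj_mem_of_mem_norm huM (hM t.2.1.2)))
      (conj_mem_of_mem_norm huM (conj_mem_of_mem_norm huM (hM t.2.2.2)))⟩
  have hφ : Function.Injective φ := by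
    rintro ⟨a, b, c⟩ ⟨a', b', c'⟩ h
    have h' : (a : G) * (u * b * u⁻¹) * (u * (u * c * u⁻¹) * u⁻¹) =
      a' * (u * b' * u⁻¹) * (u * (u * c' * u⁻¹) * u⁻¹) := congrArg Subtype.val h
    have m1 := (hD a.2).1
    have m2 := conj_mem_of_mem_norm hu (hD b.2).1
    have m1' := (hD a'.2).1
    have m2' := conj_mem_of_mem_norm hu (hD b'.2).1
    obtain ⟨a1, a2, a3⟩ := indep3' hY he hu hef huf hf h1 h2 (hD (mul_mem (inv_mem a'.2) a.2))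
      (hD (mul_mem (inv_mem b'.2) b.2)) (hD (mul_mem c.2 (inv_mem c'.2))) (by
        calc (a' : G)⁻¹ * a * (u * ((b' : G)⁻¹ * b) * u⁻¹) * (u * (u * (c * (c' : G)⁻¹) * u⁻¹) * u⁻¹)
            = (a' : G)⁻¹ * (a * (u * b' * u⁻¹)⁻¹) * (u * b * u⁻¹) * (u * (u * c * u⁻¹) * u⁻¹) *
              (u * (u * c' * u⁻¹) * u⁻¹)⁻¹ := by group
          _ = (a' : G)⁻¹ * (u * b' * u⁻¹)⁻¹ * (a * (u * b * u⁻¹) * (u * (u * c * u⁻¹) * u⁻¹)) *
              (u * (u * c' * u⁻¹) * u⁻¹)⁻¹ := by rw [(cm m1 (inv_mem m2')).eq]; group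
          _ = (a' : G)⁻¹ * ((u * b' * u⁻¹)⁻¹ * a') * (u * b' * u⁻¹) := by rw [h']; group
          _ = 1 := by rw [← (cm m1' (inv_mem m2')).eq]; group)
    rw [inv_mul_eq_one] at a1 a2
    rw [mul_inv_eq_one] at a3
    exact Prod.ext (Subtype.ext a1.symm) (Prod.ext (Subtype.ext a2.symm) (Subtype.ext a3))
  have := Nat.card_le_card_of_injective φ hφ
  rwa [Nat.card_prod, Nat.card_prod, ← sq, ← pow_succ'] at this

theorem sq_le_comm (hY : IsMulCommutative Y) (he : e ∈ 𝓝(Y)) (hu : u ∈ 𝓝(Y)) (hef : Commute e f)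
    (huf : Commute u f) (hf : u * e * u⁻¹ = f * e)
    (h1 : Y ⊓ 𝓒₁(f) = ⊥) (h2 : Y ⊓ 𝓒₁(f ^ 2) = ⊥) :
    ♯(Y ⊓ 𝓒₁(e)) ^ 2 ≤ ♯(⁅Y, zpowers u⁆) := by
  have cm : ∀ {x y : G}, x ∈ Y → y ∈ Y → Commute x y := fun hx hy =>
    mem_cent.1 (comm_iff_le_cent.1 hY hy) _ hx
  let φ : ↥(Y ⊓ 𝓒₁(e)) × ↥(Y ⊓ 𝓒₁(e)) → ↥⁅Y, zpowers u⁆ := fun t => ⟨⁅t.1 * (u * t.2 * u⁻¹), u⁆,
    commutator_mem_commutator (mul_mem t.1.2.1 (conj_mem_of_mem_norm hu t.2.2.1)) (mem_zpowers u)⟩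
  have hφ : Function.Injective φ := by
    rintro ⟨a, b⟩ ⟨a', b'⟩ h
    have h' : ⁅(a : G) * (u * b * u⁻¹), u⁆ = ⁅(a' : G) * (u * b' * u⁻¹), u⁆ := congrArg Subtype.val h
    have m2' := conj_mem_of_mem_norm hu b'.2.1
    set x : G := (a' : G)⁻¹ * a with hx
    set y : G := (b' : G)⁻¹ * b with hy
    have hxm : x ∈ Y ⊓ 𝓒₁(e) := mul_mem (inv_mem a'.2) a.2
    have hym : y ∈ Y ⊓ 𝓒₁(e) := mul_mem (inv_mem b'.2) b.2
    have h3 : ((a' : G) * (u * b' * u⁻¹))⁻¹ * (a * (u * b * u⁻¹)) = x * (u * y * u⁻¹) := by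
      calc ((a' : G) * (u * b' * u⁻¹))⁻¹ * (a * (u * b * u⁻¹))
          = ((u * b' * u⁻¹)⁻¹ * x) * (u * b * u⁻¹) := by rw [hx]; group
        _ = _ := by rw [← (cm hxm.1 (inv_mem m2')).eq, hy]; group
    have h4 : x * (u * y * u⁻¹) * u = u * (x * (u * y * u⁻¹)) := by
      rw [← h3]
      simp only [commutatorElement_def] at h'
      have h5 := mul_right_cancel h'
      calc ((a' : G) * (u * b' * u⁻¹))⁻¹ * (a * (u * b * u⁻¹)) * u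
          = ((a' : G) * (u * b' * u⁻¹))⁻¹ * (a * (u * b * u⁻¹) * u * (a * (u * b * u⁻¹))⁻¹) *
            (a * (u * b * u⁻¹)) := by group
        _ = _ := by rw [h5]; group
    obtain ⟨a1, -, a3⟩ := indep3' hY he hu hef huf hf h1 h2 hxm (mul_mem hym (inv_mem hxm)) (inv_mem hym) (by
      have m3 := conj_mem_of_mem_norm hu (conj_mem_of_mem_norm hu hym.1)
      have m4 := conj_mem_of_mem_norm hu hxm.1
      calc x * (u * (y * x⁻¹) * u⁻¹) * (u * (u * y⁻¹ * u⁻¹) * u⁻¹)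
          = (x * (u * y * u⁻¹) * u) * u⁻¹ * ((u * x * u⁻¹)⁻¹ * (u * (u * y * u⁻¹) * u⁻¹)⁻¹) := by group
        _ = (u * x * u⁻¹) * (u * (u * y * u⁻¹) * u⁻¹) * ((u * x * u⁻¹)⁻¹ * (u * (u * y * u⁻¹) * u⁻¹)⁻¹) := by
          rw [h4]; group
        _ = 1 := by rw [(cm m4 m3).eq]; group)
    rw [inv_eq_one] at a3
    rw [hx, inv_mul_eq_one] at a1
    rw [hy, inv_mul_eq_one] at a3
    exact Prod.ext (Subtype.ext a1.symm) (Subtype.ext a3.symm)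
  have := Nat.card_le_card_of_injective φ hφ
  rwa [Nat.card_prod, ← sq] at this

theorem arithS {p a d : ℕ} (hp : 3 ≤ p) (h : d ^ 3 ≤ (p ^ (a + 2) - 1) ^ 2) : d ≤ (p ^ (a + 1) - 1) ^ 2 := by
  by_contra hd
  have h1 : p ≤ p ^ (a + 1) := Nat.le_self_pow (by omega) p
  obtain ⟨t, ht⟩ : ∃ t, p ^ (a + 1) = t + 3 := ⟨p ^ (a + 1) - 3, by omega⟩
  have h2 : p ^ (a + 2) - 1 ≤ (t + 2) ^ 3 := by
    have : p ^ (a + 2) ≤ (t + 3) * (t + 3) := by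
      rw [pow_succ, ht]; exact Nat.mul_le_mul_left _ (by omega)
    have h3 : (t + 3) * (t + 3) ≤ (t + 2) ^ 3 + 1 := by nlinarith [Nat.zero_le (t ^ 3), Nat.zero_le (t ^ 2)]
    omega
  rw [ht, show t + 3 - 1 = t + 2 from rfl] at hd
  have h4 : ((t + 2) ^ 2) ^ 3 < d ^ 3 := Nat.pow_lt_pow_left (by omega) (by omega)
  have h5 : (p ^ (a + 2) - 1) ^ 2 ≤ ((t + 2) ^ 3) ^ 2 := Nat.pow_le_pow_left h2 2
  rw [← pow_mul] at h4 h5
  norm_num at h4 h5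
  omega

theorem Sm.step (hp : p.Prime) (h2 : p ≠ 2) (hR : IsPi {p} R) (hY : IsMulCommutative Y)
    (hn : R ≤ 𝓝(Y)) (hER : E ≤ R) (hE : El p 2 E) (hEn : R ≤ 𝓝(E))
    (hc : ∀ f ∈ R, f ∈ 𝓒(R) → f ≠ 1 → Y ⊓ 𝓒₁(f) = ⊥) (he : e ∈ E) (he' : e ∉ 𝓒(R))
    (h0 : Y ⊓ 𝓒₁(e) ≠ ⊥) (h : Sm p R Y z) : Sm p (R ⊓ 𝓒(E)) (Y ⊓ 𝓒₁(e)) z := by
  obtain ⟨u, hu, a, hz, hb⟩ := h
  by_cases hu0 : u ∈ 𝓒(E)
  · exact ⟨u, ⟨hu, hu0⟩, a, hz, (card_le_of_le' (comm_mono inf_le_left le_rfl)).trans hb⟩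
  haveI := Fact.mk hp
  have hp3 : 3 ≤ p := by have := hp.two_le; omega
  have hF0 : E ⊓ 𝓒(R) ≠ ⊥ := CA.AmbSyl.inf_centralizer_ne_bot (hR.isPGroup hp)
    ((hE.pi hp).isPGroup hp) hEn (hE.ne_bot hp)
  have hF : ♯(E ⊓ 𝓒(R)) = p := hE.card_eq hp inf_le_left hF0 fun h => he' (h.ge he).2
  have hcm : ⁅E, R⁆ ≤ E ⊓ 𝓒(R) := CA.BG4.comm_le_of_card hp hR le_rfl hER hEn
    (norm_inf hEn (norm_cent (le_norm_self R))) inf_le_left (by rw [hE.card, hF, sq])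
  have hf : ⁅u, e⁆ ∈ E ⊓ 𝓒(R) := by
    rw [← commutatorElement_inv]
    exact inv_mem (hcm (commutator_mem_commutator he hu))
  have he1 : e ≠ 1 := fun h => he' (h ▸ one_mem _)
  have hpe : ∀ x ∈ E, x ≠ 1 → orderOf x = p := fun x hx h1 =>
    orderOf_eq_prime (hE.elem.2 x hx) h1
  have hf1 : ⁅u, e⁆ ≠ 1 := fun h => hu0 (by
    have := hE.sup_eq hp (X := zpowers e) (by rw [Nat.card_zpowers, hpe e he he1]) hF
      (zpowers_le.2 he) inf_le_left fun h => he' (h.le (mem_zpowers e)).2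
    rw [← this, cent_sup, cent_zpowers]
    exact ⟨mem_cent1.2 (commutatorElement_eq_one_iff_mul_comm.1 h),
      cent_symm (inf_le_right : E ⊓ 𝓒(R) ≤ 𝓒(R)) hu⟩)
  have hf2 : ⁅u, e⁆ ^ 2 ≠ 1 := fun h => by
    have := orderOf_dvd_of_pow_eq_one h
    rw [hpe _ hf.1 hf1] at this
    exact h2 ((Nat.prime_dvd_prime_iff_eq hp Nat.prime_two).1 this)
  have k1 := hc _ (hER hf.1) hf.2 hf1
  have k2 := hc _ (pow_mem (hER hf.1) 2) (pow_mem hf.2 2) hf2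
  have hef : Commute e ⁅u, e⁆ := mem_cent.1 hf.2 e (hER he)
  have huf : Commute u ⁅u, e⁆ := mem_cent.1 hf.2 u hu
  have hue : u * e * u⁻¹ = ⁅u, e⁆ * e := by rw [commutatorElement_def]; group
  rcases a with _ | a
  · exfalso
    rw [pow_zero, pow_one] at hz
    subst hz
    have h3 := (sq_le_comm hY (hn (hER he)) (hn hu) hef huf hue k1 k2).trans hb
    have h4 := CA.BG4.card_modEq_cent hp (hR.of_le (zpowers_le.2 (hER hf.1))) (K := Y ⊓ 𝓒₁(e))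
      (norm_inf (zpowers_le.2 (hn (hER hf.1))) (norm_cent1 (zpowers_le.2 (mem_cent1.2 hef.symm))))
    rw [cent_zpowers, BG.eq_bot_mono (inf_le_inf_right _ inf_le_left) k1, card_bot] at h4
    have h5 : 1 < ♯(Y ⊓ 𝓒₁(e)) := (one_lt_card_iff_ne_bot _).2 h0
    have h6 := Nat.le_of_dvd (by omega) ((Nat.modEq_iff_dvd' h5.le).1 h4.symm)
    have h8 := (Nat.pow_le_pow_iff_left (by omega)).1 h3
    simp only [zero_add, pow_one] at h8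
    omega
  · have hup : u ^ p ∈ R ⊓ 𝓒(E) := by
      haveI : ((𝓒(E)).subgroupOf R).Normal :=
        normal_subgroupOf_of_le_normalizer (norm_cent hEn)
      obtain ⟨k, hk⟩ := p2_relIndex_cent_dvd hp hR hEn hE
      have := pow_index_mem ((𝓒(E)).subgroupOf R) ⟨u, hu⟩
      refine ⟨pow_mem hu p, ?_⟩
      rw [hk, pow_mul]
      exact pow_mem this k
    have hz' : z = (u ^ p) ^ p ^ a := by rw [hz, ← pow_mul, pow_succ']
    have hzm : z ∈ R ⊓ 𝓒(E) := hz' ▸ pow_mem hup _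
    refine ⟨u ^ p, hup, a, hz', arithS hp3 (le_trans (cube_le hY (hn (hER he)) (hn hu) hef huf hue k1 k2
      (comm_le_left ?_) (comm_mono inf_le_left le_rfl) ?_) hb)⟩
    · exact norm_inf (zpowers_le.2 (hn hzm.1))
        (norm_cent1 (zpowers_le.2 (mem_cent1.2 (mem_cent.1 hzm.2 e he).symm)))
    · refine norm_comm (zpowers_le.2 (hn hu)) (le_trans ?_ (cent_le_norm _)) (mem_zpowers u)
      rw [cent_zpowers, zpowers_le, hz]
      exact mem_cent1.2 (Commute.self_pow u _)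

end

theorem sm_comm {p : ℕ} (hp : p.Prime) (h2 : p ≠ 2) (n : ℕ) : ∀ (G : Type u) [Group G] [Finite G]
    (R Y : Subgroup G) (z z' : G), ♯R + ♯Y = n → IsPi {p} R → IsPi {p}ᶜ Y → IsMulCommutative Y →
    R ≤ 𝓝(Y) → Sm p R Y z → Sm p R Y z' → ⁅z, z'⁆ ∈ 𝓒(Y) := by
  induction n using Nat.strong_induction_on with
  | _ n ih =>
  intro G _ _ R Y z z' hn hR hY hc hN h1 h1'
  have hcR : ⁅z, z'⁆ ∈ R := der_le R (commutator_mem_commutator h1.mem h1'.mem)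
  by_cases hC : R ⊓ 𝓒(Y) = ⊥
  swap
  · have a1 : R ≤ 𝓝(R ⊓ 𝓒(Y)) := norm_inf (le_norm_self R) (norm_cent hN)
    have a2 : Y ≤ 𝓝(R ⊓ 𝓒(Y)) := (cent_symm inf_le_right).trans (cent_le_norm _)
    have := ih _ (by
      have := card_quo_lt_of_le a1 inf_le_left hC
      have := Nat.le_of_dvd Nat.card_pos (card_mim_dvd (qh (R ⊓ 𝓒(Y))) Y)
      omega) _ (R /ᵍ (R ⊓ 𝓒(Y))) (Y /ᵍ (R ⊓ 𝓒(Y))) _ _ rfl (hR.mim _) (hY.mim _)
      (isMulCommutative_mim _ hc) (norm_quo _ hN) (h1.mim _ a1 a2) (h1'.mim _ a1 a2)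
    rw [← mel_commutator _ (a1 h1.mem) (a1 h1'.mem), ← zpowers_le, ← mim_zpowers _ (a1 hcR)] at this
    have a3 := comm_le_of_quo_cent (zpowers_le.2 (a1 hcR)) a2 this
    have a4 : ⁅zpowers ⁅z, z'⁆, Y⁆ ≤ R ⊓ Y :=
      le_inf (a3.trans inf_le_left) (comm_le_right (zpowers_le.2 (hN hcR)))
    rw [inf_eq_bot_of_cop (hR.coprime hY), le_bot_iff, commutator_eq_bot_iff_le_centralizer] at a4
    exact a4 (mem_zpowers _)
  by_cases hcy : IsCyclic R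
  · rw [commutatorElement_eq_one_iff_mul_comm.2
      (mem_cent.1 (comm_iff_le_cent.1 (comm_of_cyclic hcy) h1'.mem) z h1.mem)]
    exact one_mem _
  by_contra hne
  have hsub : ∀ Y1 < Y, R ≤ 𝓝(Y1) → ⁅z, z'⁆ ∈ 𝓒(Y1) := fun Y1 hlt hn1 =>
    ih _ (by have := card_lt_of_lt hlt; omega) G R Y1 z z' rfl hR (hY.of_le hlt.le)
      (comm_iff_le_cent.2 (hlt.le.trans ((comm_iff_le_cent.1 hc).trans (cent_anti hlt.le)))) hn1
      (h1.mono hlt.le) (h1'.mono hlt.le)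
  have hcent : ∀ f ∈ R, f ∈ 𝓒(R) → f ≠ 1 → Y ⊓ 𝓒₁(f) = ⊥ := fun f hf hfc hf1 => by
    by_contra h0
    have b1 : zpowers f ≤ 𝓝(Y) := zpowers_le.2 (hN hf)
    have b2 : (♯Y).Coprime ♯(zpowers f) := hY.coprime' (hR.of_le (zpowers_le.2 hf))
    have b3 : R ≤ 𝓝(zpowers f) := (cent_symm (zpowers_le.2 hfc)).trans (cent_le_norm _)
    have b4 := coprime_cent_prod b1 b2 (Or.inl ((hR.of_le (zpowers_le.2 hf)).isSolvable hp))
    have b5 := coprime_abel_cent_TI b1 b2 hc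
    apply hne
    rw [← b4, cent_sup]
    refine ⟨hsub _ (lt_of_le_of_ne (comm_le_left b1) fun h => h0 ?_) (norm_comm hN b3),
      hsub _ (lt_of_le_of_ne inf_le_left fun h => hf1 ?_) (norm_inf hN (norm_cent b3))⟩
    · rwa [h, cent_zpowers] at b5
    · exact mem_bot.1 (hC ▸ ⟨hf, cent_symm (inf_eq_left.1 h) (mem_zpowers f)⟩)
  obtain ⟨E, hER, hE, hEn⟩ := CA.BG4.exists_normal_el2 hp h2 hR hcy
  refine hne (le_cent1_iff.1 (coprime_abelian_gen_cent1 hE.comm (hE.not_cyclic hp) (hER.trans hN)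
    (hY.coprime' (hE.pi hp)) fun e he he1 => ?_))
  by_cases h0 : Y ⊓ 𝓒₁(e) = ⊥
  · rw [h0]; exact bot_le
  have he' : e ∉ 𝓒(R) := fun h => h0 (hcent e (hER he) h he1)
  refine le_cent1_iff.2 (ih _ ?_ G (R ⊓ 𝓒(E)) (Y ⊓ 𝓒₁(e)) z z' rfl (hR.of_le inf_le_left)
    (hY.of_le inf_le_left) (comm_iff_le_cent.2 (inf_le_left.trans ((comm_iff_le_cent.1 hc).trans
      (cent_anti inf_le_left)))) (norm_inf (inf_le_left.trans hN) (norm_cent1 (inf_le_right.trans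
        (le_cent1_iff.2 (cent_symm le_rfl he)))))
    (h1.step hp h2 hR hc hN hER hE hEn hcent he he' h0) (h1'.step hp h2 hR hc hN hER hE hEn hcent he he' h0))
  have b1 : R ⊓ 𝓒(E) < R := lt_of_le_of_ne inf_le_left fun h => he' (cent_symm (inf_eq_left.1 h) he)
  have := card_lt_of_lt b1
  have := card_le_of_le' (inf_le_left : Y ⊓ 𝓒₁(e) ≤ Y)
  omega

end CA.HH
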