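import Cfsg.Agent.Lib.Solv.HH7

/-!
The Hall-Higman bound `l_p ≤ 2 e_p` for odd `p`.
-/

set_option autoImplicit false
set_option linter.unusedSectionVars false
set_option linter.unusedVariables false
set_option linter.style.haveILetI false

namespace CA.HH
open Subgroup Cfsg CA.OQuo CA.BG CA.BGRep Module CA.H12PSolv
open scoped commutatorElement

universe u

variable {G : Type*} [Group G] [Finite G] {p : ℕ}

section
variable {D : Subgroup G} {k W : Type*} [Field k] [AddCommGroup W] [Module k W]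

theorem step_count [IsAlgClosed k] [FiniteDimensional k W] [Nontrivial W] [hp : Fact p.Prime]
    [CharP k p] {ρ : Representation k D W} {Q : Subgroup G} {u : G} {a : ℕ} (hQ : Q ≤ D) (hu : u ∈ D)
    (hn : u ∈ 𝓝(Q)) (ho : orderOf u = p ^ (a + 1)) (hp' : IsPi {p}ᶜ Q) (h2 : ⁅⁅Q, Q⁆, Q⁆ = ⊥)
    (hsc : ∀ d ∈ ⁅Q, Q⁆, ∃ c : k, rp ρ d = c • (1 : End k W)) (hz : u ^ p ^ a ∈ 𝓒(⁅Q, Q⁆))
    (hr : (rp ρ u - 1) ^ (p ^ (a + 1) - 1) = 0) :
    (Zr ρ Q).relIndex ⁅Q, zpowers (u ^ p ^ a)⁆ ≤ (p ^ (a + 1) - 1) ^ 2 := by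
  have hX : IsPi {p} (zpowers u) := isPi_of_card_eq_pow hp.out ((Nat.card_zpowers u).trans ho)
  have hy' : zpowers (u ^ p ^ a) ≤ zpowers u := zpowers_le.2 (pow_mem (mem_zpowers u) _)
  set z := u ^ p ^ a with hzdef
  have b1 : zpowers z ≤ 𝓝(Q) := hy'.trans (zpowers_le.2 hn)
  have b2 : (♯Q).Coprime ♯(zpowers z) := hp'.coprime' (hX.of_le hy')
  have b3 : Group.IsSolvable (zpowers z) ∨ Group.IsSolvable Q :=
    Or.inl ((hX.of_le hy').isSolvable hp.out)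
  have b4 := coprime_cent_prod b1 b2 b3
  have b5 := coprime_commGid b1 b2 b3
  have hle : ⁅Q, zpowers z⁆ ≤ Q := comm_le_left b1
  have b6 : ⁅Q, zpowers z⁆ ≤ 𝓒(Q ⊓ 𝓒(zpowers z)) := BG.three_subgroups
    (by rw [commutator_eq_bot_iff_le_centralizer.2 (cent_symm inf_le_right)]; exact bot_le)
    ((comm_mono inf_le_left le_rfl).trans (cent_symm (zpowers_le.2 hz)))
  have key : ∀ g ∈ ⁅Q, zpowers z⁆, (∀ h ∈ ⁅Q, zpowers z⁆, ⁅h, g⁆ ∈ rker ρ) → g ∈ Zr ρ Q := by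
    intro g hg h
    refine ⟨hle hg, hQ (hle hg), fun y hy => ?_⟩
    rw [← b4] at hy
    obtain ⟨y1, hy1, y2, hy2, rfl⟩ := (mem_sup_norm' (inf_le_left.trans (le_norm_comm_left _ _))).1 hy
    rw [rp_mul ρ (hQ (hle hy1)) (hQ hy2.1), ← mul_assoc,
      ← (rp_comm_iff (hQ (hle hy1)) (hQ (hle hg))).2 (h y1 hy1), mul_assoc, mul_assoc,
      ← rp_mul ρ (hQ (hle hg)) (hQ hy2.1), ← rp_mul ρ (hQ hy2.1) (hQ (hle hg)),
      mem_cent.1 (b6 hg) y2 hy2]
  have hp2 : 2 ≤ p ^ (a + 1) := hp.out.two_le.trans (Nat.le_self_pow (by omega) p)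
  by_cases h3 : ⁅⁅Q, zpowers z⁆, ⁅Q, zpowers z⁆⁆ ≤ rker ρ
  · rw [relIndex_eq_one.2 fun g hg => key g hg fun h hh => h3 (commutator_mem_commutator hh hg)]
    exact Nat.one_le_pow _ _ (by omega)
  have h4 : Fix ρ ⁅Q, zpowers z⁆ = ⊥ := by
    obtain ⟨d, hd, hd'⟩ := SetLike.not_le_iff_exists.1 h3
    obtain ⟨c, hc⟩ := hsc d (comm_mono hle hle hd)
    refine eq_bot_iff.2 fun w hw => ?_
    have h5 := hw d (der_le _ hd)
    rw [hc, LinearMap.smul_apply, Module.End.one_apply] at h5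
    by_contra h6
    have h7 : c = 1 := by
      by_contra h7
      exact h6 ((smul_eq_zero.1 (show (c - 1) • w = 0 by
        rw [sub_smul, h5, one_smul, sub_self])).resolve_left (sub_ne_zero.2 h7))
    exact hd' (mem_rker.2 ⟨hQ (hle (der_le _ hd)), by rw [hc, h7, one_smul]⟩)
  have hk : (♯(⁅Q, zpowers z⁆) : k) ≠ 0 := fun h1 => (isPi_compl_iff hp.out).1 (hp'.of_le hle)
    ((CharP.cast_eq_zero_iff k p _).1 h1)
  rcases hh_core' (hle.trans hQ) hu (norm_comm (zpowers_le.2 hn)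
      (norm_of_comm (comm_of_cyclic (cyc_zpowers u)) hy') (mem_zpowers u)) ho hk
      (fun e he h1 => b5.ge.trans (comm_mono le_rfl (pow_mem_zpowers_of_ne_one ho he h1)))
      ((comm_mono (comm_mono hle hle) hle).trans (h2.le.trans bot_le)) inv_top top_ne_bot
      (by rw [h4, inf_bot_eq]) (fun w _ => by rw [hr]; rfl) with
    h5 | ⟨m, Z, w, -, h5, h6, h7, -, -, -, h8, h9⟩
  · omega
  have h10 : Z ≤ Zr ρ Q := fun g hg => key g (h6 hg) fun h hh => by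
    have h11 := (h9 g (h6 hg)).1 hg h hh
    have h12 := comm_mono hle hle (commutator_mem_commutator hh (h6 hg))
    obtain ⟨c, hc⟩ := hsc _ h12
    rw [hc, LinearMap.smul_apply, Module.End.one_apply] at h11
    have h13 : c = 1 := by
      by_contra h13
      exact h8 ((smul_eq_zero.1 (show (c - 1) • w = 0 by
        rw [sub_smul, h11, one_smul, sub_self])).resolve_left (sub_ne_zero.2 h13))
    exact mem_rker.2 ⟨hQ (der_le _ h12), by rw [hc, h13, one_smul]⟩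
  refine (relIndex_le_of_le_left h10 FiniteIndex.index_ne_zero).trans ?_
  rw [h7]
  exact Nat.pow_le_pow_left (Nat.sub_le_sub_right (Nat.pow_le_pow_right hp.out.pos h5) 1) 2

theorem cent_le_wstab {A : Subgroup G} (χ : A → k) : 𝓒(A) ≤ wstab A χ := fun x hx =>
  ⟨cent_le_norm _ hx, funext fun a => congrArg χ (Subtype.ext (by
    rw [coe_mel_cact (cent_le_norm _ (inv_mem hx)), ← mem_cent.1 (inv_mem hx) a a.2]; group))⟩

theorem pow_sub_wt [FiniteDimensional k W] [Nontrivial W] [hp : Fact p.Prime] [CharP k p]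
    {ρ : Representation k D W} {A : Subgroup G} (hA : A ≤ D) (hc : ⁅A, A⁆ ≤ rker ρ) {χ : A → k}
    {g : G} (hg : g ∈ D) (hn : g ∈ 𝓝(A)) {j a : ℕ} (ho : orderOf g = p ^ (j + a + 1))
    (h1 : g ^ p ^ j ∈ wstab A χ) (h2 : ∀ t < j, g ^ p ^ t ∉ wstab A χ)
    (hr : (rp ρ g - 1) ^ (p ^ (j + a + 1) - 1) = 0) {w : W} (hw : w ∈ Wt ρ A χ) :
    ((rp ρ (g ^ p ^ j) - 1) ^ (p ^ (a + 1) - 1)) w = 0 := by
  haveI : CharP (End k W) p := charP_of_injective_algebraMap (algebraMap k (End k W)).injective p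
  letI : Algebra (ZMod p) (End k W) := ZMod.algebra _ p
  have hst : ∀ v ∈ Wt ρ A χ, rp ρ (g ^ p ^ j) v ∈ Wt ρ A χ := fun v hv => by
    have := rp_mem_Wt hA (pow_mem hg _) h1.1 hv
    rwa [h1.2] at this
  have hw' : ∀ i : ℕ, ((rp ρ (g ^ p ^ j) - 1) ^ i) w ∈ Wt ρ A χ := fun i => by
    induction i with
    | zero => exact hw
    | succ i ih =>
      rw [pow_succ', Module.End.mul_apply]
      exact sub_mem (hst _ ih) ih
  have hw1 := hw' (p ^ (a + 1) - 1)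
  set v := ((rp ρ (g ^ p ^ j) - 1) ^ (p ^ (a + 1) - 1)) w with hv
  have h3 : (∑ i ∈ Finset.range (p ^ j), rp ρ g ^ i) v = 0 := by
    rw [geom_sum_char, hv, rp_pow _ hg, ← sub_one_pow_char, ← pow_mul, ← Module.End.mul_apply,
      ← pow_add, show p ^ j - 1 + p ^ j * (p ^ (a + 1) - 1) = p ^ (j + a + 1) - 1 by
        have := Nat.one_le_pow j p hp.out.pos
        have h4 : p ^ j ≤ p ^ j * p ^ (a + 1) := Nat.le_mul_of_pos_right _ (pow_pos hp.out.pos _)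
        rw [Nat.mul_sub, add_assoc, pow_add p j (a + 1)]; omega, hr]
    rfl
  obtain ⟨N, hN⟩ : ∃ N, p ^ j = N + 1 := ⟨p ^ j - 1, by have := Nat.one_le_pow j p hp.out.pos; omega⟩
  rw [hN, Finset.sum_range_succ', LinearMap.add_apply, LinearMap.sum_apply, pow_zero,
    Module.End.one_apply, add_eq_zero_iff_eq_neg] at h3
  have h4 : -v ∈ ⨆ (ψ) (_ : ψ ≠ χ), Wt ρ A ψ := by
    rw [← h3]
    refine Submodule.sum_mem _ fun i hi => ?_
    rw [← rp_pow _ hg]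
    refine Submodule.mem_iSup_of_mem (wact A (g ^ (i + 1)) χ) (Submodule.mem_iSup_of_mem (fun h => ?_)
      (rp_mem_Wt hA (pow_mem hg _) (pow_mem hn _) hw1))
    obtain ⟨t, i', h5, h6⟩ := Nat.exists_eq_pow_mul_and_not_dvd (Nat.succ_ne_zero i) p hp.out.ne_one
    have h7 : p ^ t < p ^ j := by
      have : p ^ t ≤ i + 1 := Nat.le_of_dvd (by omega) ⟨i', h6⟩
      have := Finset.mem_range.1 hi
      omega
    refine h2 t ((Nat.pow_lt_pow_iff_right hp.out.one_lt).1 h7)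
      (CA.AmbRes.mem_of_pow_mem_of_coprime (n := i') ?_ ?_)
    · exact (((Nat.Prime.coprime_iff_not_dvd hp.out).2 h5).pow_left _).coprime_dvd_left
        (ho ▸ orderOf_pow_dvd _)
    · rw [← pow_mul, ← h6]; exact ⟨pow_mem hn _, h⟩
  exact (Submodule.disjoint_def.1 (iSupIndep_Wt hA hc χ)) v hw1 (by simpa using neg_mem h4)

theorem pow_commute [IsAlgClosed k] [FiniteDimensional k W] [hp : Fact p.Prime] [CharP k p]
    (h2 : p ≠ 2) (ρ : Representation k (⊤ : Subgroup G) W) (hf : rker ρ = ⊥) (hs : IsPSolvable p G)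
    (hO : pCore p G = ⊥) {P : Subgroup G} (hP : IsPi {p} P) {n : ℕ}
    (h1 : ∀ g ∈ P, g ^ p ^ (n + 1) = 1) (hr : ∀ g ∈ P, (rp ρ g - 1) ^ (p ^ (n + 1) - 1) = 0)
    {g h : G} (hg : g ∈ P) (hh : h ∈ P) : ⁅g ^ p ^ n, h ^ p ^ n⁆ = 1 := by
  classical
  by_contra hc1
  set c := ⁅g ^ p ^ n, h ^ p ^ n⁆ with hc
  have hcP : c ∈ P := der_le P (commutator_mem_commutator (pow_mem hg _) (pow_mem hh _))
  have hA : CA.AmbRes.ncl (zpowers c) P ≤ P := CA.AmbRes.ncl_le_of_le (zpowers_le.2 hcP)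
  have hcA : zpowers c ≤ CA.AmbRes.ncl (zpowers c) P := CA.AmbRes.le_ncl _ _
  obtain ⟨q, Q, hQ, hcr⟩ := exists_crit (top_le_norm (pPrimeCore p G) P) hA (CA.AmbRes.norm_ncl _ _)
    ((isPi_p'core hp.out).coprime' hP) (Or.inl (hP.isSolvable hp.out)) fun h => hc1 (mem_bot.1
      ((hP.inf_eq_bot (isPi_p'core hp.out)).le ⟨hcP, cent_p'core hs hO (cent_symm h (hcA (mem_zpowers c)))⟩))
  have hQp : IsPi {p}ᶜ Q := (isPi_p'core hp.out).of_le hQ
  suffices H : c ∈ 𝓒(Q) from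
    hcr.nc (cent_symm (CA.AmbRes.ncl_le (zpowers_le.2 H) (norm_cent hcr.norm)))
  have hp2 : 2 ≤ p ^ (n + 1) := hp.out.two_le.trans (Nat.le_self_pow (by omega) p)
  have habel : ∀ X ≤ Q, IsMulCommutative X → P ≤ 𝓝(X) → ∀ g ∈ P, g ^ p ^ n ∈ 𝓒(X) := by
    intro X hX hXc hXn g hg
    by_contra h3
    rcases thmB_sub (ρ := ρ) le_top (mem_top g) (hXn hg) (hQp.of_le hX) (by rw [hf, inf_bot_eq])
      (orderOf_eq_prime_pow (fun h => h3 (h ▸ one_mem _)) (h1 g hg)) h3 (hr g hg) with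
      h4 | ⟨m, q, j, Q', -, -, -, -, -, h5, -, h6, -⟩
    · omega
    · exact h6 (comm_iff_le_cent.2 (h5.trans ((comm_iff_le_cent.1 hXc).trans (cent_anti h5))))
  by_cases hab : IsMulCommutative Q
  · exact der_le _ (commutator_mem_commutator (habel Q le_rfl hab hcr.norm g hg)
      (habel Q le_rfl hab hcr.norm h hh))
  have hDc : ⁅Q, Q⁆ ≤ 𝓒(Q) := commutator_eq_bot_iff_le_centralizer.1 hcr.class2
  have hDn : P ≤ 𝓝(⁅Q, Q⁆) := norm_comm hcr.norm hcr.norm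
  have hz := habel _ (der_le Q) (comm_iff_le_cent.2 (hDc.trans (cent_anti (der_le Q)))) hDn
  have hDk : ⁅⁅Q, Q⁆, ⁅Q, Q⁆⁆ ≤ rker ρ := (comm_mono le_rfl (der_le Q)).trans (hcr.class2.le.trans bot_le)
  have hk : (♯(⁅Q, Q⁆) : k) ≠ 0 := fun h1 => (isPi_compl_iff hp.out).1 (hQp.of_le (der_le Q))
    ((CharP.cast_eq_zero_iff k p _).1 h1)
  have hcQ : ⁅zpowers c, Q⁆ ≤ Q := comm_le_right ((zpowers_le.2 hcP).trans hcr.norm)
  have main : ⁅⁅zpowers c, Q⁆, Q⁆ ≤ rker ρ := le_rker_of_Wt le_top hDk hk le_top fun χ => by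
    by_cases h0 : Wt ρ ⁅Q, Q⁆ χ = ⊥
    · rw [h0]; exact bot_le
    haveI := Submodule.nontrivial_iff_ne_bot.2 h0
    haveI : Nontrivial W := Submodule.nontrivial_iff (R := k) |>.1 ⟨⟨_, _, h0⟩⟩
    set S := P ⊓ wstab ⁅Q, Q⁆ χ with hS
    have hL : Q ⊔ S ≤ wstab ⁅Q, Q⁆ χ := sup_le ((cent_symm hDc).trans (cent_le_wstab χ)) inf_le_right
    have hU : BGRep.Inv ρ (Q ⊔ S) (Wt ρ ⁅Q, Q⁆ χ) := fun x hx w hw => by
      have := rp_mem_Wt le_top (mem_top x) (hL hx).1 hw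
      rwa [(hL hx).2] at this
    set σ := res ρ le_top _ hU with hσ
    set N := Zr σ Q with hN
    have hSQ : S ≤ 𝓝(Q) := inf_le_left.trans hcr.norm
    have hSN : S ≤ 𝓝(N) := fun x hx => mem_norm_Zr le_sup_left (mem_sup_right hx) (hSQ hx)
    have hQN : Q ≤ 𝓝(N) := fun x hx => mem_norm_Zr le_sup_left (mem_sup_left hx) (le_norm_self Q hx)
    have hsc : ∀ d ∈ ⁅Q, Q⁆, ∃ c : k, rp σ d = c • (1 : End k _) := fun d hd =>
      ⟨χ ⟨d, hd⟩, LinearMap.ext fun w => Subtype.ext (by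
        rw [hσ, coe_rp_res le_top hU (mem_sup_left (der_le Q hd))]; exact w.2 ⟨d, hd⟩)⟩
    have hzS : ∀ g ∈ P, g ^ p ^ n ∈ S := fun g hg => ⟨pow_mem hg _, cent_le_wstab χ (hz g hg)⟩
    have hSm : ∀ g ∈ P, Sm p (S /ᵍ N) (Q /ᵍ N) (mel (qh N) (g ^ p ^ n)) := by
      intro g hg
      by_cases h3 : g ^ p ^ n = 1
      · refine ⟨1, one_mem _, 0, by rw [h3, mel_one, one_pow], ?_⟩
        rw [h3, mel_one, zpowers_one_eq_bot, commutator_bot_right, card_bot]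
        exact Nat.one_le_pow _ _ (by have := hp.out.two_le; simp; omega)
      have hex : ∃ j, g ^ p ^ j ∈ wstab ⁅Q, Q⁆ χ := ⟨n, (hzS g hg).2⟩
      obtain ⟨a, ha⟩ := Nat.exists_eq_add_of_le (Nat.find_min' hex (hzS g hg).2)
      have hu : g ^ p ^ Nat.find hex ∈ S := ⟨pow_mem hg _, Nat.find_spec hex⟩
      have ho : orderOf g = p ^ (Nat.find hex + a + 1) := ha ▸ orderOf_eq_prime_pow h3 (h1 g hg)
      have hzu : g ^ p ^ n = (g ^ p ^ Nat.find hex) ^ p ^ a := by rw [← pow_mul, ← pow_add, ← ha]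
      refine ⟨_, mel_mem_mim _ hu, a, by rw [hzu, mel_pow _ (hSN hu)], ?_⟩
      rw [← mim_zpowers _ (hSN (hzS g hg)), ← quo_comm hQN (zpowers_le.2 (hSN (hzS g hg))),
        card_quo ((comm_le_left (zpowers_le.2 (hSQ (hzS g hg)))).trans hQN), hzu]
      refine step_count le_sup_left (mem_sup_right hu) (hSQ hu) ?_ hQp hcr.class2 hsc
        (hzu ▸ hz g hg) (LinearMap.ext fun w => Subtype.ext ?_)
      · rw [orderOf_pow_of_dvd (pow_ne_zero _ hp.out.ne_zero) (by rw [ho]; exact pow_dvd_pow p (by omega)),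
          ho, add_assoc, pow_add, Nat.mul_div_cancel_left _ (pow_pos hp.out.pos _)]
      · rw [hσ, res_sub_pow le_top hU (mem_sup_right hu)]
        exact pow_sub_wt le_top hDk (mem_top g) (hDn hg) ho hu.2 (fun t ht => Nat.find_min hex ht)
          (ha ▸ hr g hg) w.2
    have h3 := sm_comm hp.out h2 _ _ _ _ _ _ rfl ((hP.of_le inf_le_left).mim _) (hQp.mim _)
      ((isMulCommutative_quo_iff hQN).2 ((le_Zr_iff le_sup_left (der_le Q)).2
        (hcr.class2.le.trans bot_le))) (norm_quo _ hSQ) (hSm g hg) (hSm h hh)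
    have hcS : c ∈ S := der_le S (commutator_mem_commutator (hzS g hg) (hzS h hh))
    rw [← mel_commutator _ (hSN (hzS g hg)) (hSN (hzS h hh)), ← zpowers_le,
      ← mim_zpowers _ (hSN hcS)] at h3
    have h4 := (le_Zr_iff le_sup_left hcQ).1 (comm_le_of_quo_cent (zpowers_le.2 (hSN hcS)) hQN h3)
    exact fun w hw x hx => ((mem_rker_res le_top hU).1 (h4 hx)).2 w hw
  rw [hf, le_bot_iff, commutator_eq_bot_iff_le_centralizer] at main
  have h5 : ⁅Q, zpowers c⁆ ≤ 𝓒(zpowers c) := by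
    rw [commutator_comm]
    exact (le_inf hcQ main).trans ((hcr.center_eq hab).le.trans (hcr.phi_cent.trans (cent_anti hcA)))
  exact coprime_commGG1P ((zpowers_le.2 hcP).trans hcr.norm) (hQp.coprime' (hP.of_le (zpowers_le.2 hcP)))
    (Or.inl ((hP.of_le (zpowers_le.2 hcP)).isSolvable hp.out)) h5 (mem_zpowers c)

end

theorem prep_exp [hp : Fact p.Prime] {k : ℕ} (h : ∀ x : G, PiNat {p} (orderOf x) → x ^ p ^ k = 1)
    {g : G} (h2 : PiNat {p} (orderOf g)) : (prep G p (g : G ⧸ pCore p G) - 1) ^ (p ^ k - 1) = 0 := by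
  have hP := (isPi_zpowers.2 h2).sup (isPi_pcore hp.out) (top_le_norm _ _)
  refine LinearMap.ext fun w => ?_
  obtain ⟨v, hv, rfl⟩ := pv_surj w
  have := mk_mul_pow g hv (p ^ k)
  rw [h g h2, h _ (hP.orderOf (mul_mem (mem_sup_right hv) (mem_sup_left (mem_zpowers g)))),
    QuotientGroup.mk_one, mul_one, geom_sum_char, eq_comm, EV.val_eq_one] at this
  exact this

/-- `p`-elements have order dividing `p ^ e` -/
def Ex (p : ℕ) (G : Type*) [Group G] (e : ℕ) : Prop := ∀ x : G, PiNat {p} (orderOf x) → x ^ p ^ e = 1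

/-- the `p ^ e`-th powers in a `p`-subgroup commute -/
def Cm (p : ℕ) (G : Type*) [Group G] (e : ℕ) : Prop :=
  ∀ P : Subgroup G, IsPi {p} P → ∀ g ∈ P, ∀ h ∈ P, ⁅g ^ p ^ e, h ^ p ^ e⁆ = 1

theorem Ex.quot (hp : p.Prime) {e : ℕ} (h : Ex p G e) (N : Subgroup G) [N.Normal] : Ex p (G ⧸ N) e := by
  intro y hy
  obtain ⟨g, h2, rfl⟩ := exists_lift_el hp (QuotientGroup.mk'_surjective _) hy
  rw [← map_pow, h g h2, map_one]

theorem Cm.quot (hp : p.Prime) {e : ℕ} (h : Cm p G e) (N : Subgroup G) [N.Normal] : Cm p (G ⧸ N) e := by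
  intro P hP
  obtain ⟨P', h1, rfl⟩ := exists_lift hp (QuotientGroup.mk'_surjective _) hP
  rintro _ ⟨a, ha, rfl⟩ _ ⟨b, hb, rfl⟩
  rw [← map_pow, ← map_pow, ← map_commutatorElement, h P' h1 a ha b hb, map_one]

theorem cm_of_ex [hp : Fact p.Prime] (h2 : p ≠ 2) (hs : IsPSolvable p G) (hO : pPrimeCore p G = ⊥)
    {e : ℕ} (h : Ex p G (e + 1)) : Cm p (G ⧸ pCore p G) e := by
  intro P hP a ha b hb
  refine pow_commute h2 (kprep G p) (rker_kprep hs hO) (psolv_quotient hs _) (pcore_quot hp.out) hP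
    (fun g hg => h.quot hp.out _ g (hP.orderOf hg)) (fun y hy => ?_) ha hb
  obtain ⟨g, h3, rfl⟩ := exists_lift_el hp.out (QuotientGroup.mk'_surjective _) (hP.orderOf hy)
  have := congrArg (Module.End.baseChangeHom (ZMod p) (Fb p) (PV G p)) (prep_exp h h3)
  rwa [map_pow, map_sub, map_one, map_zero, ← rp_kprep] at this

theorem ex_of_cm [hp : Fact p.Prime] (h2 : p ≠ 2) (hs : IsPSolvable p G) (hO : pPrimeCore p G = ⊥)
    {e : ℕ} (h : Ex p G (e + 1)) (hc : Cm p G e) : Ex p (G ⧸ pCore p G) e := by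
  intro y hy
  by_contra h1
  obtain ⟨g, h3, rfl⟩ := exists_lift_el hp.out (QuotientGroup.mk'_surjective _) hy
  have ho := orderOf_eq_prime_pow h1 (by rw [← map_pow, h g h3, map_one])
  have hP := (isPi_zpowers.2 h3).sup (isPi_pcore hp.out) (top_le_norm _ _)
  have hp3 : 3 ≤ p := by have := hp.out.two_le; omega
  have hpe := Nat.one_le_pow e p hp.out.pos
  have h4 : 3 * p ^ e ≤ p ^ (e + 1) := by rw [pow_succ']; exact Nat.mul_le_mul_right _ hp3
  rcases thmB_PV hs hO ho (r := p ^ e + (p ^ e - 1)) (LinearMap.ext fun w => by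
    obtain ⟨v, hv, rfl⟩ := pv_surj w
    have h5 := mk_mul_pow g hv (p ^ e)
    have h6 := congrArg (QuotientGroup.mk (s := Phi (pCore p G))) (commutatorElement_eq_one_iff_mul_comm.1
      (hc _ hP g (mem_sup_left (mem_zpowers g)) (v * g)
        (mul_mem (mem_sup_right hv) (mem_sup_left (mem_zpowers g)))))
    rw [QuotientGroup.mk_mul, QuotientGroup.mk_mul, h5, geom_sum_char, ← mul_assoc,
      mul_left_inj] at h6
    rw [pow_add, Module.End.mul_apply, sub_one_pow_char, LinearMap.sub_apply, Module.End.one_apply,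
      LinearMap.zero_apply, sub_eq_zero, ← map_pow]
    refine EV.ext' ?_
    have h7 := val_prep (g ^ p ^ e) (((prep G p (g : G ⧸ pCore p G) - 1) ^ (p ^ e - 1)) (pv v hv))
    rw [h6, mul_inv_cancel_right] at h7
    exact h7) with h5 | ⟨m, q, j, Q, h5, h6, -, -, -, -, -, h7⟩
  · omega
  · have h8 : p ^ (e + 1 - m) * p ^ m = p ^ (e + 1) := by rw [← pow_add]; congr 1; omega
    have h9 : p ^ (e + 1 - m) ≤ p ^ e := Nat.pow_le_pow_right hp.out.pos (by omega)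
    rw [Nat.mul_sub, h8] at h7
    omega

theorem PL_two_mul {G : Type u} [Group G] [Finite G] [hp : Fact p.Prime] (h2 : p ≠ 2)
    (hs : IsPSolvable p G) {e : ℕ} (h : Ex p G e) : PLengthLE p (2 * e) G := by
  refine PL_ind (fun G _ k => ∃ e, (k = 2 * e ∧ Ex p G e) ∨ (k = 2 * e + 1 ∧ Ex p G (e + 1) ∧ Cm p G e))
    ?_ ?_ ?_ _ G hs ⟨e, Or.inl ⟨rfl, h⟩⟩
  · rintro G _ _ ⟨e, ⟨h1, h⟩ | ⟨h1, -⟩⟩ hd
    · obtain rfl : e = 0 := by omega
      obtain ⟨x, hx⟩ := exists_prime_orderOf_dvd_card' p hd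
      have := h x (by rw [hx]; exact (piNat_prime hp.out).2 rfl)
      rw [pow_zero, pow_one] at this
      rw [this, orderOf_one] at hx
      exact hp.out.one_lt.ne hx
    · omega
  · rintro G _ _ k ⟨e, ⟨h1, h⟩ | ⟨h1, h, h'⟩⟩
    · exact ⟨e, Or.inl ⟨h1, h.quot hp.out _⟩⟩
    · exact ⟨e, Or.inr ⟨h1, h.quot hp.out _, h'.quot hp.out _⟩⟩
  · rintro G _ _ k hs hO ⟨e, ⟨h1, h⟩ | ⟨h1, h, h'⟩⟩
    · obtain ⟨e, rfl⟩ : ∃ f, e = f + 1 := ⟨e - 1, by omega⟩
      exact ⟨e, Or.inr ⟨by omega, h.quot hp.out _, cm_of_ex h2 hs hO h⟩⟩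
    · exact ⟨e, Or.inl ⟨by omega, ex_of_cm h2 hs hO h h'⟩⟩

end CA.HH
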