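import Cfsg.Agent.Lib.Odd.BG3b

/-!
Hall-Higman-Shult type lemmas for representations in coprime characteristic.
-/

set_option autoImplicit false
set_option linter.unusedSectionVars false
set_option linter.unusedVariables false
set_option linter.style.haveILetI false

namespace CA.HS
open Subgroup Cfsg CA.OQuo CA.BG CA.BGRep Module
open scoped commutatorElement

variable {G : Type*} [Group G] [Finite G] {D : Subgroup G} {k W : Type*} [Field k] [AddCommGroup W]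
  [Module k W] {ρ : Representation k D W} {A B C E K L M N Q R T X Y Z : Subgroup G} {x y δ : G}

theorem cop_le (hA : A ≤ 𝓝(N)) (hK : K ≤ 𝓝(N)) (hn : A ≤ 𝓝(K)) (hc : (♯K).Coprime ♯A)
    (hs : Group.IsSolvable K) (hY : Y ≤ K) (h : ⁅Y, A⁆ ≤ N) : Y ≤ (K ⊓ 𝓒(A)) ⊔ N := by
  rw [← quo_le_quo_iff' (hY.trans hK) (inf_le_left.trans hK), cop_quo_cent' hA hK hn hc (Or.inr hs)]
  exact le_inf (quo_mono N hY) (quo_cent_of_comm_le (hY.trans hK) hA h)

theorem mem_of_comm (hx : x ∈ 𝓝(N)) (hK : K ≤ 𝓝(N)) (hn : x ∈ 𝓝(K))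
    (hc : (♯K).Coprime (orderOf x)) (h : K ⊓ 𝓒₁(x) ≤ N) (hy : y ∈ K) (h1 : ⁅y, x⁆ ∈ N) : y ∈ N := by
  have := cop_quo_cent1 hx hK hn (hc.coprime_dvd_left (card_dvd inf_le_left))
  rw [quo_eq_bot_of_le h] at this
  rw [← qel_eq_one_iff (hK hy), ← mem_bot, this]
  refine ⟨mel_mem_mim _ hy, mem_cent1.2 ?_⟩
  rwa [← commutatorElement_eq_one_iff_mul_comm, ← mel_commutator _ (hK hy) hx,
    qel_eq_one_iff (le_normalizer h1)]

theorem cent_le_der (hn : X ≤ 𝓝(E)) (hc : (♯E).Coprime ♯X) (hs : Group.IsSolvable E)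
    (h : ⁅E, X⁆ = E) : E ⊓ 𝓒(X) ≤ ⁅E, E⁆ := by
  have a := le_norm_comm_left E E
  have b := norm_comm hn hn
  rw [← quo_eq_bot_iff (inf_le_left.trans a), cop_quo_cent' b a hn hc (Or.inr hs)]
  exact coprime_abel_cent_eq_bot (norm_quo _ hn) (cop_mim hc _)
    ((isMulCommutative_quo_iff a).2 le_rfl) (by rw [← quo_comm a b, h])

theorem wt_fix (hA : A ≤ D) (hE : E ≤ D) (hn : E ≤ 𝓝(A)) (hc : ⁅A, A⁆ ≤ rker ρ)
    (hk : (♯E : k) ≠ 0) (h0 : Fix ρ E = ⊥) (χ : A → k) :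
    Wt ρ A χ ⊓ Fix ρ (E ⊓ wstab A χ) = ⊥ := by
  classical
  haveI := Fintype.ofFinite E
  rw [eq_bot_iff]
  rintro w ⟨hw, h1⟩
  have h := h0.le (rsum_mem_Fix hE w)
  rw [Submodule.mem_bot, rsum_eq, LinearMap.sum_apply,
    ← Finset.sum_filter_add_sum_filter_not _ (fun e : E => e ∈ (wstab A χ).subgroupOf E),
    Finset.sum_congr rfl (f := fun e : E => rp ρ e w) (g := fun _ => w)
      (s₂ := Finset.univ.filter fun e : E => e ∈ (wstab A χ).subgroupOf E) (fun e he => h1 _ ⟨e.2, (Finset.mem_filter.1 he).2⟩),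
    Finset.sum_const, add_eq_zero_iff_eq_neg] at h
  have h2 := Submodule.disjoint_def.1 (iSupIndep_Wt hA hc χ) _ (nsmul_mem hw _) (by
    rw [h]
    exact neg_mem (Submodule.sum_mem _ fun e he => le_iSup₂ (f := fun ψ (_ : ψ ≠ χ) => Wt ρ A ψ)
      (wact A e χ) (fun e' => (Finset.mem_filter.1 he).2 ⟨hn e.2, e'⟩)
      (rp_mem_Wt hA (hE e.2) (hn e.2) hw)))
  rw [← Nat.cast_smul_eq_nsmul k, smul_eq_zero, ← Fintype.card_subtype,
    ← Nat.card_eq_fintype_card] at h2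
  exact h2.resolve_left (natCast_ne_zero_of_dvd (card_subgroup_dvd_card _) hk)

theorem Fix_bot' (ρ : Representation k D W) : Fix ρ ⊥ = ⊤ := (Fix_eq_top_iff bot_le).2 bot_le

theorem stab_ne_bot (hA : A ≤ D) (hE : E ≤ D) (hn : E ≤ 𝓝(A)) (hc : ⁅A, A⁆ ≤ rker ρ)
    (hk : (♯E : k) ≠ 0) (h0 : Fix ρ E = ⊥) {χ : A → k} (h : Wt ρ A χ ≠ ⊥) :
    E ⊓ wstab A χ ≠ ⊥ := fun e => h (by
  have := wt_fix hA hE hn hc hk h0 χ
  rwa [e, Fix_bot', inf_top_eq] at this)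

theorem inv_Wt (hM : M ≤ D) (hL : L ≤ D) (h : ⁅M, L⁆ ≤ rker ρ) (χ : M → k) :
    Inv ρ L (Wt ρ M χ) := fun x hx w hw a => by
  rw [← Module.End.mul_apply, (comm_le_rker_iff hM hL).1 h a a.2 x hx, Module.End.mul_apply, hw,
    map_smul]

theorem inv_Wt' (hM : M ≤ D) (hL : L ≤ D) {χ : M → k} (h : L ≤ wstab M χ) :
    Inv ρ L (Wt ρ M χ) := fun x hx w hw => (h hx).2 ▸ rp_mem_Wt hM (hL hx) (h hx).1 hw

theorem eq_of_mem_Wt (hM : M ≤ D) (hc : ⁅M, M⁆ ≤ rker ρ) {χ ψ : M → k} {w : W} (h0 : w ≠ 0)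
    (h1 : w ∈ Wt ρ M χ) (h2 : w ∈ Wt ρ M ψ) : χ = ψ := by
  by_contra h
  exact h0 (Submodule.disjoint_def.1 ((iSupIndep_Wt hM hc).pairwiseDisjoint h) _ h1 h2)

theorem mem_wstab_cj {χ : M → k} (hx : x ∈ 𝓝(M)) :
    y ∈ wstab M (wact M x χ) ↔ y ∈ cj x (wstab M χ) := by
  rw [mem_cj]
  refine ⟨fun h => ⟨mul_mem (mul_mem (inv_mem hx) h.1) hx, ?_⟩, fun h => ?_⟩
  · rw [wact_mul (mul_mem (inv_mem hx) h.1) hx, wact_mul (inv_mem hx) h.1, h.2, wact_inv_wact hx]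
  · have h1 : y ∈ 𝓝(M) := by simpa [mul_assoc] using mul_mem (mul_mem hx h.1) (inv_mem hx)
    refine ⟨h1, ?_⟩
    conv_rhs => rw [← h.2]
    rw [← wact_mul h1 hx, ← wact_mul hx h.1]
    congr 1; group

/-- a cyclic `p`-group `A` together with a subgroup `T` of order at most `p` -/
structure CT (p : ℕ) (A T : Subgroup G) : Prop where
  cyc : IsCyclic A
  pi : IsPi {p} A
  le : T ≤ A
  dvd : ♯T ∣ p

theorem CT.le_of {p : ℕ} (h : CT p A T) (hB : B ≤ A) (h1 : B ≠ ⊥) : T ≤ B :=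
  le_of_cyc_of_dvd h.cyc h.le hB (h.dvd.trans ((h.pi.of_le hB).dvd_card h1))

theorem CT.mono {p : ℕ} (h : CT p A T) (hB : B ≤ A) (h1 : B ≠ ⊥) : CT p B T :=
  ⟨cyc_of_le h.cyc hB, h.pi.of_le hB, h.le_of hB h1, h.dvd⟩

theorem CT.norm {p : ℕ} (h : CT p A T) : A ≤ 𝓝(T) := norm_of_comm (comm_of_cyclic h.cyc) h.le

theorem CT.cent_le {p : ℕ} (h : CT p A T) (hx : x ∈ A) (h1 : x ≠ 1) : 𝓒₁(x) ≤ 𝓒(T) :=
  cent_zpowers x ▸ cent_anti (h.le_of (zpowers_le.2 hx) (ne_bot_of_mem (mem_zpowers x) h1))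

theorem CT.mim {p : ℕ} (h : CT p A T) {G' : Type*} [Group G'] [Finite G'] (f : D →* G') :
    CT p (mim f A) (mim f T) :=
  ⟨isCyclic_mim f h.cyc, h.pi.mim f, mim_mono f h.le, (card_mim_dvd f T).trans h.dvd⟩

theorem ct_prime (h : (♯A).Prime) : CT (♯A) A A :=
  ⟨isCyclic_of_prime h, isPi_of_card_eq h rfl, le_rfl, dvd_rfl⟩

theorem comm_comm_le (hQ : Q ≤ D) (hR : R ≤ D) (hT : T ≤ D) (hn : R ≤ 𝓝(Q))
    (h : ⁅Q, T⁆ ≤ rker ρ) : ⁅Q, ⁅R, T⁆⁆ ≤ rker ρ := by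
  rw [comm_symm]
  exact three_subgroups_rker hR hT hQ ((comm_mono (comm_symm T Q ▸ h) le_rfl).trans
    (comm_le_left (hR.trans (le_norm_rker ρ)))) ((comm_mono (comm_le_left hn) le_rfl).trans h)

theorem phi_cent (hQ : Q ≤ D) (hR : R ≤ D) (h : ⁅Q, R⁆ = Q) (h1 : ⁅Phi Q, R⁆ ≤ rker ρ) :
    ⁅Phi Q, Q⁆ ≤ rker ρ := by
  have := comm_comm_le ((Phi_le Q).trans hQ) hQ hR (le_norm_Phi Q) h1
  rwa [h] at this

variable [IsAlgClosed k] [FiniteDimensional k W]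

theorem ab_comm {p : ℕ} (hA : A ≤ D) (hE : E ≤ D) (hn : E ≤ 𝓝(A)) (hc : ⁅A, A⁆ ≤ rker ρ)
    (hkA : (♯A : k) ≠ 0) (hk : (♯E : k) ≠ 0) (h0 : Fix ρ E = ⊥) (hT : CT p E T) :
    ⁅A, T⁆ ≤ rker ρ := by
  refine le_rker_of_Wt hA hc hkA (comm_le_of_le hA (hT.le.trans hE)) fun χ => ?_
  by_cases h : Wt ρ A χ = ⊥
  · rw [h]; exact bot_le
  exact Wt_le_Fix hA (hT.le.trans hE)
    ((hT.le_of inf_le_left (stab_ne_bot hA hE hn hc hk h0 h)).trans inf_le_right)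

theorem comm_bound (f : End k W) {r : ℕ} (hk : (r : k) ≠ 0) (hf : f ^ r = 1)
    {C : Submodule k (End k W)} (hC : ∀ T : End k W, f * T = T * f → T ∈ C) :
    finrank k W ≤ finrank k C ∧
      (finrank k W - finrank k (LinearMap.range (f - 1))) ^ 2 ≤ finrank k C ∧
      ∀ S : Finset k, (∀ ω u, u ≠ 0 → f u = ω • u → ω ∈ S) →
        finrank k W ^ 2 ≤ S.card * finrank k C := by
  classical
  obtain ⟨b, ω, hb, hω⟩ := CChar.CharRep.exists_eigenbasis_of_pow_eq_one f hk hf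
  let I := {ij : Fin (finrank k W) × Fin (finrank k W) // ω ij.1 = ω ij.2}
  have li : LinearIndependent k fun t : I => (⟨b.end t.1, hC _ (b.ext fun l => by
      simp only [Module.End.mul_apply, hb, map_smul, Basis.end_apply_apply]
      split_ifs with h
      · rw [hb, t.2, h]
      · simp)⟩ : C) :=
    LinearIndependent.of_comp C.subtype (b.end.linearIndependent.comp _ Subtype.val_injective)
  have h1 : Fintype.card I ≤ finrank k C := li.fintype_card_le_finrank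
  have h3 : ∀ S : Finset k, (∀ i, ω i ∈ S) →
      Fintype.card I = ∑ z ∈ S, (Finset.univ.filter fun i => ω i = z).card ^ 2 := fun S hm => by
    rw [Fintype.card_subtype, Finset.card_eq_sum_card_fiberwise
      (f := fun ij : Fin (finrank k W) × Fin (finrank k W) => ω ij.1) (fun i _ => hm i.1)]
    refine Finset.sum_congr rfl fun z _ => ?_
    rw [sq, ← Finset.card_product]
    congr 1
    ext ij
    simp only [Finset.mem_filter, Finset.mem_univ, true_and, Finset.mem_product]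
    exact ⟨fun h => ⟨h.2, h.1 ▸ h.2⟩, fun h => ⟨h.1.trans h.2.symm, h.1⟩⟩
  refine ⟨le_trans ?_ h1, le_trans ?_ h1, fun S hS => ?_⟩
  · conv_lhs => rw [← Fintype.card_fin (finrank k W)]
    exact Fintype.card_le_of_injective (fun i => ⟨(i, i), rfl⟩) fun i j h =>
      congrArg (fun t : I => t.1.1) h
  · rw [h3 (insert 1 (Finset.univ.image ω)) (by simp)]
    refine le_trans (Nat.pow_le_pow_left ?_ 2) (Finset.single_le_sum
      (f := fun z => (Finset.univ.filter fun i => ω i = z).card ^ 2) (fun _ _ => Nat.zero_le _)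
      (Finset.mem_insert_self _ _))
    have li2 : LinearIndependent k fun t : {i // ¬ ω i = 1} => (⟨b t.1, (ω t - 1)⁻¹ • b t.1, by
        rw [map_smul, LinearMap.sub_apply, hb, Module.End.one_apply, smul_sub, smul_smul, ← sub_smul, ← mul_sub_one,
          inv_mul_cancel₀ (sub_ne_zero.2 t.2), one_smul]⟩ : LinearMap.range (f - 1)) :=
      LinearIndependent.of_comp (LinearMap.range (f - 1)).subtype
        (b.linearIndependent.comp _ Subtype.val_injective)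
    have h4 := li2.fintype_card_le_finrank
    rw [Fintype.card_subtype] at h4
    have h5 := Finset.card_filter_add_card_filter_not (s := Finset.univ) fun i => ω i = 1
    rw [Finset.card_univ, Fintype.card_fin] at h5
    omega
  · have hm : ∀ i, ω i ∈ S := fun i => hS _ _ (b.ne_zero i) (hb i)
    have h2 : finrank k W = ∑ z ∈ S, (Finset.univ.filter fun i => ω i = z).card := by
      rw [← Finset.card_eq_sum_card_fiberwise (fun i _ => hm i), Finset.card_univ, Fintype.card_fin]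
    refine le_trans ?_ (Nat.mul_le_mul_left _ h1)
    rw [h3 S hm]; conv_lhs => rw [h2]
    exact sq_sum_le_card_mul_sum_sq

theorem hh_irr [Nontrivial W] (hD : E ⊔ zpowers δ = D) (hi : Irr ρ) (hn : δ ∈ 𝓝(E))
    (hkE : (♯E : k) ≠ 0) (hkC : (orderOf δ : k) ≠ 0) (hc : (♯E).Coprime (orderOf δ))
    (hZ : ∀ z ∈ Zr ρ E, ∃ c : k, rp ρ z = c • (1 : End k W)) (hd : ⁅E, E⁆ ≤ Zr ρ E)
    (hf : ∀ c ∈ zpowers δ, c ≠ 1 → E ⊓ 𝓒₁(c) ≤ Zr ρ E) :
    (∀ T ∈ Fix (ρ.linHom ρ) E, ∃ c : k, T = c • (1 : End k W)) ∧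
      finrank k W ^ 2 = (Zr ρ E).relIndex E ∧ finrank k W ^ 2 + orderOf δ =
        orderOf δ * finrank k (Fix (ρ.linHom ρ) (zpowers δ)) + 1 := by
  classical
  have hK : E ≤ D := hD ▸ le_sup_left
  have hR : zpowers δ ≤ D := hD ▸ le_sup_right
  have hx := hR (mem_zpowers δ)
  have hn' := zpowers_le.2 hn
  have hsD : ∀ T ∈ Fix (ρ.linHom ρ) D, ∃ c : k, T = c • (1 : End k W) := fun T hT =>
    hi.schur T fun x hx => ((mem_Fix_linHom le_rfl).1 hT x hx).symm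
  have hsc : ∀ T ∈ Fix (ρ.linHom ρ) E, rp ρ δ * T = T * rp ρ δ → ∃ c : k, T = c • (1 : End k W) :=
    fun T h h' => hsD T (Fix_anti _ hD.ge (by
      rw [Fix_sup hK hR]
      refine ⟨h, (mem_Fix_zpowers hx).2 ?_⟩
      rw [rp_linHom hx, h', mul_assoc, rp_mul_inv ρ hx, mul_one]))
  have htr : ∀ g ∈ E, g ∉ Zr ρ E → LinearMap.trace k W (rp ρ g) = 0 := by
    intro g hg h
    by_contra h2
    refine h ⟨hg, hK hg, fun y hy => ((rp_comm_iff (hK hy) (hK hg)).2 ?_).symm⟩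
    have h3 := hd (commutator_mem_commutator hy hg)
    obtain ⟨c, hc⟩ := hZ _ h3
    have h4 := trace_rp_conj (ρ := ρ) (hK hy) (rp ρ g)
    rw [← rp_conj ρ (hK hy) (hK hg), show y * g * y⁻¹ = ⁅y, g⁆ * g by
      rw [commutatorElement_def]; group, rp_mul ρ h3.2.1 (hK hg), hc, smul_mul_assoc, one_mul,
      map_smul, smul_eq_mul] at h4
    rw [mem_rker, hc, (mul_eq_right₀ h2).1 h4, one_smul]
    exact ⟨h3.2.1, rfl⟩
  have hdim := finrank_ne_zero_of_scalar le_rfl (natCast_ne_zero_of_dvd (n := orderOf δ * ♯E)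
    (by rw [← hD, sup_comm, ← Nat.card_zpowers]; exact card_sup_dvd hn')
    (by rw [Nat.cast_mul]; exact mul_ne_zero hkC hkE)) hsD
  haveI := Fintype.ofFinite E
  have hsK : ∀ T ∈ Fix (ρ.linHom ρ) E, ∃ c : k, T = c • (1 : End k W) := by
    intro T hT
    refine hsc T hT ?_
    by_cases hx1 : δ = 1
    · rw [hx1, rp_one, one_mul, mul_one]
    obtain ⟨c, hc'⟩ := hsc (rsum (ρ.linHom ρ) E (rp ρ δ)) (rsum_mem_Fix hK _) (by
      have := LinearMap.congr_fun (rsum_comm (ρ := ρ.linHom ρ) hK hx hn) (rp ρ δ)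
      rw [Module.End.mul_apply, Module.End.mul_apply, rp_linHom hx, rp_linHom hx,
        mul_assoc (rp ρ δ) (rp ρ δ), rp_mul_inv ρ hx, mul_one] at this
      rw [← this, mul_assoc _ (rp ρ δ⁻¹), rp_inv_mul ρ hx, mul_one, this])
    have h2 : ∑ y : E, rp ρ ⁅(y : G), δ⁆ = c • rp ρ δ⁻¹ := by
      rw [← one_mul (rp ρ δ⁻¹), ← smul_mul_assoc, ← hc', rsum_eq, LinearMap.sum_apply, Finset.sum_mul]
      refine Finset.sum_congr rfl fun y _ => ?_
      rw [rp_linHom (hK y.2), ← rp_conj ρ (hK y.2) hx, commutatorElement_def,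
        rp_mul ρ (D.mul_mem (D.mul_mem (hK y.2) hx) (D.inv_mem (hK y.2))) (D.inv_mem hx)]
    have hm : ∀ y : E, ⁅(y : G), δ⁆ ∈ E := fun y =>
      comm_le_left hn' (commutator_mem_commutator y.2 (mem_zpowers δ))
    have h3 : c ≠ 0 := by
      intro h
      have h4 := congrArg (LinearMap.trace k W) h2
      rw [h, zero_smul, map_zero, map_sum, Finset.sum_congr rfl (g := fun y : E =>
        if y ∈ (Zr ρ E).subgroupOf E then (finrank k W : k) else 0) fun y _ => by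
          split_ifs with h5
          · obtain ⟨c, hc⟩ := hZ _ (mem_subgroupOf.1 h5)
            rw [(mem_rker.1 ((rp_comm_iff (hK y.2) hx).1 (by rw [hc]; simp))).2, LinearMap.trace_one]
          · exact htr _ (hm y) fun h6 => h5 (mem_subgroupOf.2 (mem_of_comm (mem_norm_Zr hK hx hn)
              (norm_of_der_le hd Zr_le) hn hc (hf _ (mem_zpowers δ) hx1) y.2 h6)),
        ← Finset.sum_filter, Finset.sum_const, nsmul_eq_mul, ← Fintype.card_subtype,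
        ← Nat.card_eq_fintype_card] at h4
      exact mul_ne_zero (natCast_ne_zero_of_dvd (card_subgroup_dvd_card _) hkE) hdim h4
    have h5 : rp ρ δ⁻¹ * T = T * rp ρ δ⁻¹ := by
      refine smul_right_injective _ h3 ?_
      show c • (_ * T) = c • (T * _)
      rw [← smul_mul_assoc, ← mul_smul_comm, ← h2, Finset.sum_mul, Finset.mul_sum]
      exact Finset.sum_congr rfl fun y _ => (mem_Fix_linHom hK).1 hT _ (hm y)
    rw [← mul_one (rp ρ δ * T), ← rp_inv_mul ρ hx, ← mul_assoc, mul_assoc _ T, ← h5, ← mul_assoc,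
      rp_mul_inv ρ hx, one_mul]
  have hZr : Zr ρ E ≤ rker (ρ.linHom ρ) := fun z hz => by
    obtain ⟨c, hc⟩ := hZ z hz
    refine mem_rker.2 ⟨hz.2.1, LinearMap.ext fun T => ?_⟩
    rw [rp_linHom hz.2.1, show rp ρ z * T = T * rp ρ z by rw [hc]; simp, mul_assoc,
      rp_mul_inv ρ hz.2.1, mul_one]; rfl
  refine ⟨hsK, sq_finrank_eq_relIndex hK hkE hsK Zr_le hZ htr, ?_⟩
  have hfree := finrank_free (ρ := ρ.linHom ρ) hK hR hn' (hd.trans hZr) hkE fun e he h => by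
    have a := zpowers_le.2 he
    have := cop_comm_sup_cent (a.trans hn') (hc.coprime_dvd_right (Nat.card_zpowers δ ▸ card_dvd a))
      (Or.inl (solv_of_nil (nil_of_cyc (cyc_zpowers e))))
    conv_rhs => rw [← this]
    rw [Fix_sup (comm_le_of_le hK (a.trans hR)) (inf_le_left.trans hK), cent_zpowers,
      (Fix_eq_top_iff (inf_le_left.trans hK)).2 ((hf e he h).trans hZr), inf_top_eq]
  rwa [hD, finrank_Fix_linHom le_rfl hsD, finrank_Fix_linHom hK hsK, Module.finrank_linearMap,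
    mul_one, ← sq, Nat.card_zpowers] at hfree

omit [IsAlgClosed k] in
theorem rank_res (hL : L ≤ D) {U : Submodule k W} (hU : Inv ρ L U) (hx : x ∈ L) :
    finrank k (LinearMap.range (rp (res ρ hL U hU) x - 1)) ≤
      finrank k (LinearMap.range (rp ρ x - 1)) := by
  rw [← Submodule.finrank_map_subtype_eq]
  refine Submodule.finrank_mono ?_
  rintro _ ⟨_, ⟨w, rfl⟩, rfl⟩
  exact ⟨w, by simp [coe_rp_res hL hU hx]⟩

omit [IsAlgClosed k] [FiniteDimensional k W] in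
theorem scal_res (hL : L ≤ D) {U : Submodule k W} (hU : Inv ρ L U) (hx : x ∈ L) {c : k}
    (h : ∀ w ∈ U, rp ρ x w = c • w) : rp (res ρ hL U hU) x = c • 1 :=
  LinearMap.ext fun w => Subtype.ext (by rw [coe_rp_res hL hU hx, h w w.2]; rfl)

omit [IsAlgClosed k] [FiniteDimensional k W] in
theorem mem_rker_of_scal (hx : x ∈ D) {c : k} (h : rp ρ x = c • 1) {w : W} (h0 : w ≠ 0)
    (h1 : rp ρ x w = w) : x ∈ rker ρ := by
  rw [h] at h1
  exact mem_rker.2 ⟨hx, by rw [h, smul_left_injective k h0 (h1.trans (one_smul k w).symm), one_smul]⟩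

/-- The Hall-Higman dimension count. -/
theorem hh [Nontrivial W] (hE : E ≤ D) (hx : δ ∈ D) (hn : δ ∈ 𝓝(E))
    (hkE : (♯E : k) ≠ 0) (hkC : (orderOf δ : k) ≠ 0) (hc : (♯E).Coprime (orderOf δ))
    (hZ : ∀ z ∈ Zr ρ E, ∃ c : k, rp ρ z = c • (1 : End k W)) (hd : ⁅E, E⁆ ≤ Zr ρ E)
    (hf : ∀ c ∈ zpowers δ, c ≠ 1 → E ⊓ 𝓒₁(c) ≤ Zr ρ E) :
    ∃ (U : Submodule k W) (m : ℕ), U ≠ ⊥ ∧ Inv ρ (E ⊔ zpowers δ) U ∧
      (∀ U', U' ≤ U → Inv ρ E U' → U' = ⊥ ∨ U' = U) ∧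
      finrank k U ^ 2 = (Zr ρ E).relIndex E ∧ finrank k U ^ 2 + orderOf δ = orderOf δ * m + 1 ∧
      finrank k U ≤ m ∧ (finrank k U - finrank k (LinearMap.range (rp ρ δ - 1))) ^ 2 ≤ m ∧
      ∀ S : Finset k, (∀ ω, ∀ u ∈ U, u ≠ 0 → rp ρ δ u = ω • u → ω ∈ S) →
        finrank k U ^ 2 ≤ S.card * m := by
  have hL := sup_le hE (zpowers_le.2 hx)
  obtain ⟨U, hU, -, h0, hi⟩ := exists_irr_res (ρ := ρ) hL inv_top top_ne_bot
  haveI : Nontrivial U := Submodule.nontrivial_iff_ne_bot.2 h0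
  have a : E ≤ E ⊔ zpowers δ := le_sup_left
  have b : δ ∈ E ⊔ zpowers δ := mem_sup_right (mem_zpowers δ)
  have hz : Zr (res ρ hL U hU) E = Zr ρ E := by
    obtain ⟨u, hu, hu0⟩ := (Submodule.ne_bot_iff _).1 h0
    refine le_antisymm ((le_Zr_iff hE Zr_le).2 fun z hz => ?_) ((le_Zr_iff a Zr_le).2
      ((le_inf ((le_Zr_iff hE Zr_le).1 le_rfl) (comm_le_of_le (Zr_le.trans a) a)).trans
        (rker_inf_le_rker_res hL hU)))
    have h1 := hd (comm_mono Zr_le le_rfl hz)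
    obtain ⟨c, hc⟩ := hZ z h1
    exact mem_rker_of_scal h1.2.1 hc hu0
      (((mem_rker_res hL hU).1 ((le_Zr_iff a Zr_le).1 le_rfl hz)).2 u hu)
  obtain ⟨h1, h2, h3⟩ := hh_irr rfl hi hn hkE hkC hc (fun z h => by
    rw [hz] at h
    obtain ⟨c, hc⟩ := hZ z h
    exact ⟨c, scal_res hL hU (a h.1) fun w _ => by rw [hc]; rfl⟩) (hz ▸ hd) (hz ▸ hf)
  obtain ⟨h4, h5, h6⟩ := comm_bound (rp (res ρ hL U hU) δ) hkC
    (by rw [← rp_pow _ b, pow_orderOf_eq_one, rp_one])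
    (C := Fix ((res ρ hL U hU).linHom (res ρ hL U hU)) (zpowers δ)) fun T hT => by
      rw [mem_Fix_zpowers b, rp_linHom b, hT, mul_assoc, rp_mul_inv _ b, mul_one]
  refine ⟨U, _, h0, hU, fun U' h7 h8 => ?_, hz ▸ h2, h3, h4, le_trans (Nat.pow_le_pow_left
    (Nat.sub_le_sub_left (rank_res hL hU b) _) 2) h5, fun S hS => h6 S fun ω u h7 h8 =>
      hS ω u u.2 (fun e => h7 (Subtype.ext e)) (by rw [← coe_rp_res hL hU b, h8]; rfl)⟩
  refine or_iff_not_imp_left.2 fun h9 => le_antisymm h7 fun u hu => ?_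
  obtain ⟨v, hv, hv0⟩ := (Submodule.ne_bot_iff _).1 h9
  obtain ⟨f, hf⟩ := LinearMap.exists_extend_of_notMem (0 : (⊥ : Submodule k U) →ₗ[k] U)
    (v := ⟨v, h7 hv⟩) (by simpa using hv0) ⟨u, hu⟩
  have : ∀ g ∈ Submodule.span k (Set.range fun y : E => rp (res ρ hL U hU) y),
      ((g ⟨v, h7 hv⟩ : U) : W) ∈ U' := fun g hg => by
    induction hg using Submodule.span_induction with
    | mem _ h => obtain ⟨y, rfl⟩ := h; rw [coe_rp_res hL hU (a y.2)]; exact h8 _ y.2 _ hv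
    | zero => exact U'.zero_mem
    | add _ _ _ _ h h' => exact U'.add_mem h h'
    | smul c _ _ h => exact U'.smul_mem c h
  simpa [hf.2] using this f (by rw [span_rp_eq_top a hkE h1]; trivial)

theorem hh_fix [Nontrivial W] (hE : E ≤ D) (hx : δ ∈ D) (hn : δ ∈ 𝓝(E))
    (hkE : (♯E : k) ≠ 0) (hkC : (orderOf δ : k) ≠ 0) (hc : (♯E).Coprime (orderOf δ))
    (hZ : ∀ z ∈ Zr ρ E, ∃ c : k, rp ρ z = c • (1 : End k W)) (hd : ⁅E, E⁆ ≤ Zr ρ E)
    (hf : ∀ c ∈ zpowers δ, c ≠ 1 → E ⊓ 𝓒₁(c) ≤ Zr ρ E) (h0 : Fix ρ (zpowers δ) = ⊥)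
    (h1 : ¬ E ≤ Zr ρ E) :
    ∃ U : Submodule k W, Inv ρ (E ⊔ zpowers δ) U ∧ (∀ U', U' ≤ U → Inv ρ E U' → U' = ⊥ ∨ U' = U) ∧
      finrank k U ^ 2 = (Zr ρ E).relIndex E ∧ orderOf δ = finrank k U + 1 ∧
      ∀ ω : k, ω ^ orderOf δ = 1 → ω ≠ 1 → ∃ u ∈ U, u ≠ 0 ∧ rp ρ δ u = ω • u := by
  classical
  obtain ⟨U, m, -, a, b, c, d, e, -, f⟩ := hh hE hx hn hkE hkC hc hZ hd hf
  have ho := orderOf_pos δ
  let S := (Polynomial.nthRootsFinset (orderOf δ) (1 : k)).erase 1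
  have hS : S.card + 1 ≤ orderOf δ := by
    rw [Finset.card_erase_add_one ((Polynomial.mem_nthRootsFinset ho 1).2 (one_pow _))]
    exact (Multiset.toFinset_card_le _).trans (Polynomial.card_nthRoots _ 1)
  have hm : ∀ ω (u : W), u ≠ 0 → rp ρ δ u = ω • u → ω ∈ S := fun ω u h2 h3 => by
    refine Finset.mem_erase.2 ⟨fun h => h2 ((Submodule.mem_bot k).1 (h0 ▸
      (mem_Fix_zpowers hx).2 (by rw [h3, h, one_smul]))), (Polynomial.mem_nthRootsFinset ho 1).2 ?_⟩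
    have := (Module.End.HasEigenvector.pow_apply ⟨Module.End.mem_eigenspace_iff.2 h3, h2⟩
      (orderOf δ)).symm
    rw [← rp_pow _ hx, pow_orderOf_eq_one, rp_one, Module.End.one_apply] at this
    exact smul_left_injective k h2 (this.trans (one_smul k u).symm)
  have h2 : 2 ≤ finrank k U := by
    by_contra h
    have := relIndex_ne_zero' (Zr ρ E) E
    rw [← c] at this
    have h3 : finrank k U = 1 := by
      have : finrank k U ≠ 0 := fun h => this (by rw [h]; rfl)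
      omega
    rw [h3] at c
    exact h1 (relIndex_eq_one.1 c.symm)
  have h3 := f S fun ω u _ => hm ω u
  have h4 : orderOf δ ≤ finrank k U + 1 := by nlinarith
  have h5 : m + 1 ≤ orderOf δ := by nlinarith
  refine ⟨U, a, b, c, by omega, fun ω h6 h7 => ?_⟩
  by_contra! h8
  have h9 := f (S.erase ω) fun ω' u hu h h' => Finset.mem_erase.2
    ⟨by rintro rfl; exact h8 u hu h h', hm ω' u h h'⟩
  have := Finset.card_erase_add_one (s := S) (Finset.mem_erase.2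
    ⟨h7, (Polynomial.mem_nthRootsFinset ho 1).2 h6⟩)
  nlinarith

theorem sq_index [Nontrivial W] (hE : E ≤ D) (hkE : (♯E : k) ≠ 0)
    (hZ : ∀ z ∈ Zr ρ E, ∃ c : k, rp ρ z = c • (1 : End k W)) (hd : ⁅E, E⁆ ≤ Zr ρ E) :
    ∃ d, d ^ 2 = (Zr ρ E).relIndex E := by
  obtain ⟨U, m, -, -, -, c, -⟩ := hh (δ := 1) hE (one_mem _) (one_mem _) hkE (by simp) (by simp)
    hZ hd fun c hc h => absurd (by simpa using hc) h
  exact ⟨_, c⟩

end CA.HS
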