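import Cfsg.Agent.Lib.Solv.HS1
import Cfsg.Agent.S3784

/-!
Groups whose Frattini subgroup acts by scalars; Hall-Higman-Shult lemmas for cyclic operators.
-/

set_option autoImplicit false
set_option linter.unusedSectionVars false
set_option linter.unusedVariables false
set_option linter.style.haveILetI false

namespace CA.HS
open Subgroup Cfsg CA.OQuo CA.BG CA.BGRep Module
open scoped commutatorElement

variable {G : Type*} [Group G] [Finite G] {D : Subgroup G} {k W : Type*} [Field k] [AddCommGroup W]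
  [Module k W] {ρ : Representation k D W} {A B C E K L M N Q R T X Y Z : Subgroup G} {x y δ : G}
  {p q r : ℕ}

theorem min_ce (hs : Group.IsSolvable Q) (hX : X ≤ 𝓝(Q)) (hR : R ≤ X) (hXR : X ≤ 𝓝(R))
    (hc : (♯Q).Coprime ♯R) (h : ¬ ⁅Q, R⁆ ≤ N) : ∃ L ≤ Q, X ≤ 𝓝(L) ∧ ¬ ⁅L, R⁆ ≤ N ∧ ⁅L, R⁆ = L ∧
      ⁅Phi L, R⁆ ≤ N ∧ ∀ L' < L, X ≤ 𝓝(L') → ⁅L', R⁆ ≤ N := by
  obtain ⟨L, a, ⟨b, c⟩, d⟩ := exists_minimal_le (P := fun L => X ≤ 𝓝(L) ∧ ¬ ⁅L, R⁆ ≤ N) ⟨hX, h⟩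
  have e : ∀ L' < L, X ≤ 𝓝(L') → ⁅L', R⁆ ≤ N := fun L' h1 h2 => by
    by_contra h3; exact h1.ne (d _ ⟨h2, h3⟩ h1.le)
  refine ⟨L, a, b, c, d _ ⟨norm_comm b hXR, ?_⟩ (comm_le_left (hR.trans b)), e _ (Phi_lt ?_)
    (b.trans (norm_Phi L)), e⟩
  · rwa [cop_comm_comm (hR.trans b) (cop_mono hc a le_rfl) (Or.inr (solv_of_le hs a))]
  · rintro rfl; exact c (by simp)

theorem comm_sup_rker (hM : M ≤ D) (hA : A ≤ D) (hB : B ≤ D) (h1 : ⁅M, A⁆ ≤ rker ρ)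
    (h2 : ⁅M, B⁆ ≤ rker ρ) : ⁅M, A ⊔ B⁆ ≤ rker ρ :=
  have n := le_norm_rker ρ
  (comm_symm _ _).le.trans (comm_sup_le_of_norm (hA.trans n) (hB.trans n) (hM.trans n)
    ((comm_symm _ _).le.trans h1) ((comm_symm _ _).le.trans h2))

/-- the Frattini subgroup of the `q`-group `Q` acts by scalars -/
structure Sc (ρ : Representation k D W) (q : ℕ) (Q : Subgroup G) : Prop where
  prime : q.Prime
  le : Q ≤ D
  pi : IsPi {q} Q
  ch : (♯Q : k) ≠ 0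
  sc : ∀ z ∈ Phi Q, ∃ c : k, rp ρ z = c • (1 : End k W)

theorem Sc.comm (h : Sc ρ q Q) (hX : X ≤ D) : ⁅Phi Q, X⁆ ≤ rker ρ :=
  (comm_le_rker_iff ((Phi_le Q).trans h.le) hX).2 fun a ha b _ => by
    obtain ⟨c, hc⟩ := h.sc a ha
    rw [hc]; simp

theorem Sc.solv (h : Sc ρ q Q) (hE : E ≤ Q) : Group.IsSolvable E :=
  (h.pi.of_le hE).isSolvable h.prime

theorem Sc.phi_le (h : Sc ρ q Q) : Phi Q ≤ Zr ρ Q := (le_Zr_iff h.le (Phi_le Q)).2 (h.comm h.le)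

theorem Sc.der_le (h : Sc ρ q Q) (hE : E ≤ Q) : ⁅E, E⁆ ≤ Zr ρ Q :=
  ((der_mono hE).trans (der_le_Phi h.prime h.pi)).trans h.phi_le

theorem Sc.normZ (h : Sc ρ q Q) (hX : X ≤ D) (hn : X ≤ 𝓝(Q)) : X ≤ 𝓝(Zr ρ Q) :=
  fun _ hx => mem_norm_Zr h.le (hX hx) (hn hx)

theorem Sc.zz (h : Sc ρ q Q) : ⁅Zr ρ Q, Q⁆ ≤ rker ρ := (le_Zr_iff h.le Zr_le).1 le_rfl

theorem Sc.nd (h : Sc ρ q Q) (hE : E ≤ Q) (hz : Zr ρ E ≤ Zr ρ Q) (hX : X ≤ D) (hn : X ≤ 𝓝(E))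
    (hc : (♯Q).Coprime ♯X) : Zr ρ ⁅E, X⁆ ≤ Zr ρ Q := by
  have a := hE.trans h.le
  have b := comm_le_left hn
  have n := le_norm_rker ρ
  refine le_trans ((le_Zr_iff a (Zr_le.trans b)).2 ?_) hz
  conv_lhs => rw [comm_symm]; arg 1; rw [← cop_comm_sup_cent hn (cop_mono hc hE le_rfl)
    (Or.inr (h.solv hE))]
  refine comm_sup_le_of_norm ((b.trans a).trans n) ((inf_le_left.trans a).trans n)
    ((Zr_le.trans (b.trans a)).trans n) ((comm_symm _ _).le.trans ((le_Zr_iff (b.trans a) Zr_le).1 le_rfl))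
    ((comm_mono le_rfl Zr_le).trans ?_)
  rw [comm_symm]
  refine three_subgroups_rker a hX (inf_le_left.trans a) ?_ ((comm_mono ((comm_le_der
    (inf_le_left.trans hE) hE).trans (der_le_Phi h.prime h.pi)) le_rfl).trans (h.comm hX))
  rw [comm_eq_bot_iff.2 (cent_symm inf_le_right)]; simp

theorem Sc.zr_eq (h : Sc ρ q Q) (hE : E ≤ Q) (hz : Zr ρ E ≤ Zr ρ Q) : Zr ρ E = Zr ρ Q ⊓ E :=
  le_antisymm (le_inf hz Zr_le) ((le_Zr_iff (hE.trans h.le) inf_le_right).2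
    ((comm_mono inf_le_left hE).trans h.zz))

theorem Sc.like (h : Sc ρ q Q) (hE : E ≤ Q) (hz : Zr ρ E ≤ Zr ρ Q) (hX : X ≤ D) (hn : X ≤ 𝓝(E))
    (hc : (♯Q).Coprime ♯X) (h1 : ⁅E, X⁆ = E) (h2 : ⁅Zr ρ Q, X⁆ ≤ rker ρ) :
    ∀ z ∈ Zr ρ E, ∃ y ∈ ⁅Q, Q⁆, rp ρ z = rp ρ y := fun z hz' => by
  have n := le_norm_rker ρ
  have hc' := cop_mono hc hE le_rfl
  obtain ⟨a, ha, b, hb, rfl⟩ := (mem_sup_norm ((inf_le_left.trans (hE.trans h.le)).trans n)).1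
    (cop_le (hX.trans n) ((hE.trans h.le).trans n) hn hc' (h.solv hE) Zr_le
      ((comm_mono hz le_rfl).trans h2) hz')
  exact ⟨a, der_mono hE (cent_le_der hn hc' (h.solv hE) h1 ha),
    rp_eq_of_mem_rker (h.le (hE ha.1)) (by simpa using hb)⟩

theorem Sc.pm (h : Sc ρ 2 Q) (hy : y ∈ ⁅Q, Q⁆) : rp ρ y = 1 ∨ rp ρ y = -1 := by
  let S : Subgroup G :=
    { carrier := {z | z ∈ D ∧ ∃ c : k, c * c = 1 ∧ rp ρ z = c • 1}
      one_mem' := ⟨one_mem _, 1, by simp [rp_one]⟩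
      mul_mem' := fun {a b} ⟨h1, c, h2, h3⟩ ⟨h4, d, h5, h6⟩ => ⟨mul_mem h1 h4, c * d,
        by linear_combination d * d * h2 + h5, by rw [rp_mul ρ h1 h4, h3, h6]; simp [smul_smul, mul_comm]⟩
      inv_mem' := fun {a} ⟨h1, c, h2, h3⟩ => ⟨inv_mem h1, c, h2, by
        rw [← rp_inv_mul ρ h1, h3, mul_smul_comm, smul_smul, h2, one_smul, mul_one]⟩ }
  have : ⁅Q, Q⁆ ≤ S := commutator_le.2 fun a ha b hb => by
    have h1 := der_le_Phi h.prime h.pi (commutator_mem_commutator ha hb)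
    have h2 := h.le (Phi_le Q h1)
    obtain ⟨c, hc⟩ := h.sc _ h1
    have h3 := (mem_rker.1 (h.comm h.le (commutator_mem_commutator
      (pow_mem_Phi h.prime h.pi ha) hb))).2
    rw [show ⁅a ^ 2, b⁆ = a * ⁅a, b⁆ * a⁻¹ * ⁅a, b⁆ by
        simp only [commutatorElement_def, pow_two]; group,
      rp_mul ρ (mul_mem (mul_mem (h.le ha) h2) (inv_mem (h.le ha))) h2, rp_conj ρ (h.le ha) h2, hc,
      mul_smul_comm _ (rp ρ a), smul_mul_assoc, mul_one, rp_mul_inv ρ (h.le ha), smul_mul_smul_comm,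
      mul_one] at h3
    rcases subsingleton_or_nontrivial W with hW | hW
    · exact ⟨h2, 1, by simp, Subsingleton.elim _ _⟩
    exact ⟨h2, c, smul_left_injective k one_ne_zero (h3.trans (one_smul k _).symm), hc⟩
  obtain ⟨-, c, h1, h2⟩ := this hy
  rcases mul_self_eq_one_iff.1 h1 with rfl | rfl <;> simp [h2]

/-- A Gauss sum. -/
theorem Sc.gauss [Nontrivial W] (h : Sc ρ 2 Q) (hE : E ≤ Q) (hz : Zr ρ E ≤ Zr ρ Q)
    (h2 : (2 : k) ≠ 0) (hl : ∀ z ∈ Zr ρ E, ∃ y ∈ ⁅Q, Q⁆, rp ρ z = rp ρ y) :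
    ∃ e : ℤ, e ^ 2 = (Zr ρ Q).relIndex E ∧ ∀ r : ℕ, r.Prime → r ≠ 2 → ∀ X, X ≤ D → IsPi {r} X →
      X ≤ 𝓝(E) → E ⊓ 𝓒(X) ≤ Zr ρ Q → (r : ℤ) ∣ e - 1 := by
  classical
  haveI := Fintype.ofFinite E
  have hD := hE.trans h.le
  have pm : ∀ z ∈ Zr ρ E, rp ρ z = 1 ∨ rp ρ z = -1 := fun z hz => by
    obtain ⟨y, a, b⟩ := hl z hz; rw [b]; exact h.pm a
  have ne : (-1 : End k W) ≠ 1 := fun e => h2 (smul_left_injective k (one_ne_zero (α := End k W))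
    (by simp only [two_smul, zero_smul]; nth_rewrite 1 [← e]; simp))
  obtain ⟨σ, hσ⟩ : ∃ σ : G → ℤ, ∀ z, σ z = if rp ρ z = 1 then 1 else -1 := ⟨_, fun _ => rfl⟩
  have mul : ∀ a ∈ Zr ρ E, ∀ b ∈ Zr ρ E, σ (a * b) = σ a * σ b := fun a ha b hb => by
    simp only [hσ, rp_mul ρ ha.2.1 hb.2.1]
    rcases pm a ha with e | e <;> rcases pm b hb with e' | e' <;> simp [e, e', ne]
  have hze := h.zr_eq hE hz
  have sq : ∀ y ∈ E, y * y ∈ Zr ρ E := fun y hy => hze.ge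
    ⟨h.phi_le (pow_two y ▸ pow_mem_Phi h.prime h.pi (hE hy)), mul_mem hy hy⟩
  have cm : ∀ a ∈ E, ∀ b ∈ E, ⁅a, b⁆ ∈ Zr ρ E := fun a ha b hb => hze.ge
    ⟨h.der_le hE (commutator_mem_commutator ha hb), BG.der_le E (commutator_mem_commutator ha hb)⟩
  have cj : ∀ a ∈ D, ∀ z ∈ D, σ (a * z * a⁻¹) = σ z := fun a ha z hz => by
    simp only [hσ, rp_conj ρ ha hz]
    congr 1
    refine propext ⟨fun e => ?_, fun e => by rw [e, mul_one, rp_mul_inv ρ ha]⟩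
    rw [← one_mul (rp ρ z), ← mul_one (_ * rp ρ z), ← rp_inv_mul ρ ha]
    calc _ = rp ρ a⁻¹ * (rp ρ a * rp ρ z * rp ρ a⁻¹) * rp ρ a := by simp only [mul_assoc]
      _ = _ := by rw [e, mul_one]
  have ss : ∀ z, σ z * σ z = 1 := fun z => by rw [hσ]; split_ifs <;> rfl
  have inner : ∀ w : E, σ (w * w) * ∑ y : E, σ ⁅(y : G)⁻¹, (w : G)⁆ =
      if w ∈ (Zr ρ E).subgroupOf E then (♯E : ℤ) else 0 := fun w => by
    split_ifs with e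
    · rw [Finset.sum_congr rfl (g := fun _ => 1) fun y _ => by
        rw [hσ, if_pos (mem_rker.1 ((rp_comm_iff (hD (inv_mem y.2)) (hD w.2)).1
          ((mem_subgroupOf.1 e).2.2 _ (inv_mem y.2)).symm)).2], mul (w : G) e (w : G) e, ss]
      simp
    · obtain ⟨a, ha, h3⟩ : ∃ a ∈ E, σ ⁅a⁻¹, (w : G)⁆ = -1 := by
        by_contra! h3
        refine e ⟨w.2, hD w.2, fun y hy => ((rp_comm_iff (hD hy) (hD w.2)).2 (mem_rker.2
          ⟨(cm _ hy _ w.2).2.1, ?_⟩)).symm⟩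
        by_contra h4
        exact h3 _ (inv_mem hy) (by rw [inv_inv, hσ, if_neg h4])
      have h4 := Equiv.sum_comp (Equiv.mulRight (⟨a, ha⟩ : E)) fun y : E => σ ⁅(y : G)⁻¹, (w : G)⁆
      rw [Finset.sum_congr rfl (g := fun y : E => - σ ⁅(y : G)⁻¹, (w : G)⁆) fun y _ => by
        have h5 := cm _ (inv_mem y.2) _ w.2
        show σ ⁅((y : G) * a)⁻¹, (w : G)⁆ = _
        rw [show ⁅((y : G) * a)⁻¹, (w : G)⁆ = a⁻¹ * ⁅(y : G)⁻¹, (w : G)⁆ * a⁻¹⁻¹ * ⁅a⁻¹, (w : G)⁆ by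
          simp only [commutatorElement_def]; group, mul _ (conj_mem_of_mem_norm (mem_norm_Zr hD
          (hD (inv_mem ha)) (le_normalizer (inv_mem ha))) h5) _ (cm _ (inv_mem ha) _ w.2),
          cj _ (hD (inv_mem ha)) _ h5.2.1, h3, mul_neg_one], Finset.sum_neg_distrib] at h4
      rw [show ∑ y : E, σ ⁅(y : G)⁻¹, (w : G)⁆ = 0 by omega, mul_zero]
  have key : (∑ y : E, σ (y * y)) ^ 2 = ♯(Zr ρ E) * ♯E := by
    rw [pow_two, Finset.sum_mul_sum, Finset.sum_congr rfl (g := fun y : E =>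
      ∑ w : E, σ (w * w) * σ ⁅(y : G)⁻¹, (w : G)⁆) fun y _ => by
        rw [← Equiv.sum_comp (Equiv.mulLeft y) fun w : E => σ (y * y) * σ (w * w)]
        refine Finset.sum_congr rfl fun w _ => ?_
        show _ * σ (y * w * (y * w)) = _
        rw [show (y : G) * w * (y * w) = y * y * (⁅(y : G)⁻¹, (w : G)⁆ * (w * w)) by
          simp only [commutatorElement_def]; group, mul _ (sq _ y.2) _ (mul_mem
          (cm _ (inv_mem y.2) _ w.2) (sq _ w.2)), mul _ (cm _ (inv_mem y.2) _ w.2) _ (sq _ w.2),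
          ← mul_assoc, ss, one_mul, mul_comm], Finset.sum_comm]
    rw [Finset.sum_congr rfl fun w _ => (Finset.mul_sum _ _ _).symm.trans (inner w),
      ← Finset.sum_filter, Finset.sum_const, nsmul_eq_mul, ← Fintype.card_subtype,
      ← Nat.card_eq_fintype_card]
    congr 2
    exact Nat.card_congr (subgroupOfEquivOfLe Zr_le).toEquiv
  have hi : (♯E : ℤ) = ♯(Zr ρ E) * (Zr ρ Q).relIndex E := by
    rw [← card_mul_relIndex (Zr_le (ρ := ρ)), hze, inf_relIndex_right]; simp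
  have hp : (♯(Zr ρ E) : ℤ) ≠ 0 := by exact_mod_cast card_ne_zero' _
  obtain ⟨e, he⟩ : (♯(Zr ρ E) : ℤ) ∣ ∑ y : E, σ (y * y) :=
    (Int.pow_dvd_pow_iff two_ne_zero).1 ⟨(Zr ρ Q).relIndex E, by rw [key, hi]; ring⟩
  have he2 : e ^ 2 = (Zr ρ Q).relIndex E := by
    rw [he, hi] at key
    exact mul_left_cancel₀ (pow_ne_zero 2 hp) (by linear_combination key)
  refine ⟨e, he2, fun r hr hr2 X hX hXr hn hf => ?_⟩
  haveI := Fact.mk hr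
  let Ω := {y : E // ¬ rp ρ (y * y) = 1}
  have neg : ∀ z, σ z = -1 ↔ ¬ rp ρ z = 1 := fun z => by rw [hσ]; split_ifs with e <;> simp [e]
  letI : MulAction X Ω :=
    { smul := fun x y => ⟨⟨x * y.1 * x⁻¹, conj_mem_of_norm hn x.2 y.1.2⟩, (neg _).1 (by
        rw [← (neg _).2 y.2, ← cj _ (hX x.2) _ (hD (mul_mem y.1.2 y.1.2))]
        congr 1; simp [mul_assoc])⟩
      one_smul := fun y => Subtype.ext (Subtype.ext (by
        show ((1 : X) : G) * _ * ((1 : X) : G)⁻¹ = _; simp))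
      mul_smul := fun a b y => Subtype.ext (Subtype.ext (by
        show ((a * b : X) : G) * _ * ((a * b : X) : G)⁻¹ = a * (b * _ * (b : G)⁻¹) * (a : G)⁻¹
        simp [mul_assoc])) }
  have h3 := (hXr.isPGroup hr).card_modEq_card_fixedPoints Ω
  rw [show MulAction.fixedPoints X Ω = ∅ from Set.eq_empty_of_forall_notMem fun y hy => by
    have h4 : (y.1 : G) ∈ Zr ρ E := hze.ge ⟨hf ⟨y.1.2, mem_cent.2 fun x hx =>
      mul_inv_eq_iff_eq_mul.1 (congrArg (fun t : Ω => (t.1 : G)) (hy ⟨x, hx⟩))⟩, y.1.2⟩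
    have := (neg _).2 y.2
    rw [mul _ h4 _ h4, ss] at this; omega] at h3
  have h4 : ∑ y : E, σ (y * y) = ♯E - 2 * Nat.card Ω := by
    simp only [hσ]
    rw [Finset.sum_ite, Nat.card_eq_fintype_card (α := E), Nat.card_eq_fintype_card (α := Ω),
      Fintype.card_subtype (fun y : E => ¬ rp ρ (y * y) = 1), ← Finset.card_univ (α := E),
      ← Finset.card_filter_add_card_filter_not fun y : E => rp ρ (y * y) = 1]
    simp; ring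
  have h5 : (r : ℤ) ∣ ♯(Zr ρ E) * e * (e - 1) := by
    refine Dvd.dvd.trans (dvd_mul_of_dvd_right (Int.natCast_dvd_natCast.2
      ((Nat.modEq_zero_iff_dvd (n := r) (a := Nat.card Ω)).1 (by simpa using h3))) 2) (dvd_of_eq ?_)
    rw [he, hi, ← he2] at h4
    linear_combination h4
  have h6 : ¬ (r : ℤ) ∣ ♯E := fun e => hr2 (h.pi.of_le hE r hr (by exact_mod_cast e))
  have hr' := Nat.prime_iff_prime_int.1 hr
  rw [hi, ← he2] at h6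
  rcases hr'.dvd_or_dvd h5 with a | a
  · rcases hr'.dvd_or_dvd a with a | a
    · exact absurd (a.mul_right _) h6
    · exact absurd ((dvd_pow a two_ne_zero).mul_left _) h6
  · exact a

theorem mul_le_of_gauss {e : ℤ} {r s d i : ℕ} (hr : r.Prime) (hs : s.Prime) (h : r ≠ s)
    (h1 : (r : ℤ) ∣ e - 1) (h2 : (s : ℤ) ∣ e - 1) (h3 : e ^ 2 = i) (h4 : i ≠ 1) (h5 : i ≤ d ^ 2) :
    r * s ≤ d + 1 := by
  have h6 := (Nat.isCoprime_iff_coprime.2 ((Nat.coprime_primes hr hs).2 h)).mul_dvd h1 h2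
  have h7 := Int.le_of_dvd (abs_pos.2 (sub_ne_zero.2 (by rintro rfl; omega))) ((dvd_abs _ _).2 h6)
  have h8 : |e| ≤ d := abs_le_of_sq_le_sq' (by rw [h3]; exact_mod_cast h5) (by positivity) |> abs_le.2
  have := abs_sub e 1
  simp only [abs_one] at this
  have h9 : (r : ℤ) * s ≤ d + 1 := by linarith
  exact_mod_cast h9

variable [IsAlgClosed k] [FiniteDimensional k W]

theorem Sc.hh_T [Nontrivial W] (h : Sc ρ q Q) (hE : E ≤ Q) (hz : Zr ρ E ≤ Zr ρ Q) (hT : CT p B T)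
    (hB : B ≤ D) (hn : B ≤ 𝓝(E)) (hc : (♯Q).Coprime ♯B) (h1 : ⁅E, T⁆ = E)
    (h2 : ⁅Zr ρ Q, T⁆ ≤ rker ρ) : (∀ z ∈ Zr ρ E, ∃ c : k, rp ρ z = c • (1 : End k W)) ∧
      ⁅E, E⁆ ≤ Zr ρ E ∧ ∀ c ∈ B, c ≠ 1 → E ⊓ 𝓒₁(c) ≤ Zr ρ E := by
  have a : ⁅E, E⁆ ≤ Zr ρ E := (h.zr_eq hE hz).ge.trans' (le_inf (h.der_le hE) (BG.der_le E))
  refine ⟨fun z hz' => ?_, a, fun c hc' e => ((inf_le_inf_left _ (hT.cent_le hc' e)).trans
    (cent_le_der (hT.le.trans hn) (cop_mono hc hE hT.le) (h.solv hE) h1)).trans a⟩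
  obtain ⟨y, a, b⟩ := h.like hE hz (hT.le.trans hB) (hT.le.trans hn) (cop_mono hc le_rfl hT.le)
    h1 h2 z hz'
  rw [b]; exact h.sc _ (der_le_Phi h.prime h.pi a)

theorem Sc.pow_of_sq (h : Sc ρ q Q) (hE : E ≤ Q) {d : ℕ} (h1 : d ^ 2 = (Zr ρ Q).relIndex E)
    (h2 : ¬ E ≤ Zr ρ Q) : ∃ e, d = q ^ (e + 1) := by
  obtain ⟨_ | e, he⟩ := (((h.pi.of_le hE).relIndex (Zr ρ Q)).of_dvd (m := d)
    (h1 ▸ dvd_pow_self d two_ne_zero)).exists_pow h.prime (by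
      rintro rfl; exact relIndex_ne_zero' _ _ h1.symm)
  · rw [he] at h1; exact absurd (relIndex_eq_one.1 h1.symm) h2
  · exact ⟨e, he⟩

theorem Sc.hh_fix [Nontrivial W] (h : Sc ρ q Q) (hE : E ≤ Q) (hz : Zr ρ E ≤ Zr ρ Q) (hT : CT p B T)
    (hB : B ≤ D) (hn : B ≤ 𝓝(E)) (hc : (♯Q).Coprime ♯B) (hk : (♯B : k) ≠ 0) (h1 : ⁅E, T⁆ = E)
    (h2 : ⁅Zr ρ Q, T⁆ ≤ rker ρ) (h0 : Fix ρ B = ⊥) (h3 : ¬ E ≤ Zr ρ Q) :
    ∃ e, (q ^ (e + 1)) ^ 2 = (Zr ρ Q).relIndex E ∧ ♯B = q ^ (e + 1) + 1 ∧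
      ∃ (δ : G) (U : Submodule k W), zpowers δ = B ∧ Inv ρ (E ⊔ B) U ∧
      (∀ U', U' ≤ U → Inv ρ E U' → U' = ⊥ ∨ U' = U) ∧
      ∀ ω : k, ω ^ ♯B = 1 → ω ≠ 1 → ∃ u ∈ U, u ≠ 0 ∧ rp ρ δ u = ω • u := by
  obtain ⟨δ, rfl⟩ := exists_zpowers_of_cyc hT.cyc
  obtain ⟨a, b, c⟩ := h.hh_T hE hz hT hB hn hc h1 h2
  rw [Nat.card_zpowers] at *
  obtain ⟨U, u1, u2, u3, u4, u5⟩ := HS.hh_fix (hE.trans h.le) (hB (mem_zpowers δ))
    (hn (mem_zpowers δ)) (natCast_ne_zero_of_dvd (card_dvd hE) h.ch) hk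
    (hc.coprime_dvd_left (card_dvd hE)) a b c h0 fun e => h3 (e.trans hz)
  rw [h.zr_eq hE hz, inf_relIndex_right] at u3
  obtain ⟨e, he⟩ := h.pow_of_sq hE u3 h3
  exact ⟨e, he ▸ u3, he ▸ u4, δ, U, rfl, u1, u2, u5⟩

theorem exists_sc (hq : q.Prime) (hQ : IsPi {q} Q) (hk : (♯Q : k) ≠ 0) (hL : L ≤ D) (hQL : Q ≤ L)
    (hA : A ≤ D) (hn : A ≤ 𝓝(Q)) (h1 : ⁅Phi Q, L⁆ ≤ rker ρ) (h2 : ¬ ⁅Q, Q⁆ ≤ rker ρ) :
    ∃ (B : Subgroup G) (W' : Submodule k W) (ρ' : Representation k (L ⊔ B : Subgroup G) W'),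
      B ≤ A ∧ Nontrivial W' ∧ Sc ρ' q Q ∧ ¬ ⁅Q, Q⁆ ≤ rker ρ' ∧
      ((♯A : k) ≠ 0 → Fix ρ A = ⊥ → B ≠ ⊥ ∧ Fix ρ' B = ⊥) ∧
      (∀ X ≤ L ⊔ B, X ≤ rker ρ → X ≤ rker ρ') ∧
      (∀ x ∈ L ⊔ B, finrank k (LinearMap.range (rp ρ' x - 1)) ≤
        finrank k (LinearMap.range (rp ρ x - 1))) ∧
      ∀ a ∈ A, a ∉ B → finrank k W' ≤ finrank k (LinearMap.range (rp ρ a - 1)) := by
  have hM := (Phi_le Q).trans hQL
  have hc := (comm_mono le_rfl hM).trans h1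
  have hn' := hn.trans (norm_Phi Q)
  obtain ⟨μ, hμ⟩ := not_forall.1 fun e => h2 (le_rker_of_Wt (hM.trans hL) hc
    (natCast_ne_zero_of_dvd (card_dvd (Phi_le Q)) hk) ((der_le Q).trans (hQL.trans hL)) e)
  have h0 : Wt ρ (Phi Q) μ ≠ ⊥ := fun e => hμ (e ▸ bot_le)
  have hB : A ⊓ wstab (Phi Q) μ ≤ D := inf_le_left.trans hA
  have hI := (inv_Wt (hM.trans hL) hL h1 μ).sup_left hL hB (inv_Wt' (hM.trans hL) hB inf_le_right)
  refine ⟨_, _, res ρ (sup_le hL hB) _ hI, inf_le_left, Submodule.nontrivial_iff_ne_bot.2 h0,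
    ⟨hq, hQL.trans le_sup_left, hQ, hk, fun z hz => ⟨μ ⟨z, hz⟩, scal_res _ hI
      (mem_sup_left (hM hz)) fun w hw => hw ⟨z, hz⟩⟩⟩, fun e => hμ fun w hw x hx =>
      ((mem_rker_res _ hI).1 (e hx)).2 w hw, fun a b => ⟨stab_ne_bot (hM.trans hL) hA hn' hc a b h0,
      Fix_res_eq_bot _ hI le_sup_right (wt_fix (hM.trans hL) hA hn' hc a b μ)⟩,
    fun X a b => (le_inf b a).trans (rker_inf_le_rker_res _ hI), fun x hx => rank_res _ hI hx,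
    fun a ha h => ?_⟩
  refine LinearMap.finrank_le_finrank_of_injective (f := (rp ρ a - 1).rangeRestrict.domRestrict _)
    ((injective_iff_map_eq_zero _).2 fun w hw => Subtype.ext ?_)
  by_contra e
  have h3 : rp ρ a w = w := sub_eq_zero.1 (congrArg Subtype.val hw)
  exact h ⟨ha, hn' ha, eq_of_mem_Wt (hM.trans hL) hc e
    (h3 ▸ rp_mem_Wt (hM.trans hL) (hA ha) (hn' ha) w.2) w.2⟩

theorem Sc.zT (h : Sc ρ q Q) (hT : CT p B T) (hB : B ≤ D) (hn : B ≤ 𝓝(Q)) (hk : (♯B : k) ≠ 0)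
    (h0 : Fix ρ B = ⊥) : ⁅Zr ρ Q, T⁆ ≤ rker ρ :=
  ab_comm (Zr_le.trans h.le) hB (h.normZ hB hn) ((comm_mono le_rfl Zr_le).trans h.zz)
    (natCast_ne_zero_of_dvd (card_dvd Zr_le) h.ch) hk h0 hT

omit [IsAlgClosed k] [FiniteDimensional k W] in
theorem Sc.not_le (h : Sc ρ q Q) (h1 : ¬ ⁅Q, Q⁆ ≤ rker ρ) : ¬ Q ≤ Zr ρ Q :=
  fun e => h1 ((comm_mono e le_rfl).trans h.zz)

/-- The non-exceptional case. -/
theorem x1 (hT : CT p A T) (hA : A ≤ D) (hkA : (♯A : k) ≠ 0) (h0 : Fix ρ A = ⊥) (hq : q.Prime)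
    (hne : ∀ e, ¬ q ^ (e + 1) + 1 ∣ ♯A) (hK : K ≤ D) (hKq : IsPi {q} K) (hk : (♯K : k) ≠ 0)
    (hn : A ≤ 𝓝(K)) (hc : (♯K).Coprime ♯A) : ⁅K, T⁆ ≤ rker ρ := by
  by_contra h
  obtain ⟨Q, a, b, c, d, e, -⟩ := min_ce (hKq.isSolvable hq) hn hT.le hT.norm
    (cop_mono hc le_rfl hT.le) h
  have hkQ := natCast_ne_zero_of_dvd (card_dvd a) hk
  have h1 := fun e => c (ab_comm (a.trans hK) hA b e hkQ hkA h0 hT)
  obtain ⟨B, W', ρ', b1, _, b2, b3, b4, -⟩ := exists_sc hq (hKq.of_le a) hkQ (a.trans hK) le_rfl hA b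
    (phi_cent (a.trans hK) (hT.le.trans hA) d e) h1
  obtain ⟨b5, b6⟩ := b4 hkA h0
  have hkB := natCast_ne_zero_of_dvd (card_dvd b1) hkA
  obtain ⟨e, -, h2, -⟩ := b2.hh_fix le_rfl le_rfl (hT.mono b1 b5) le_sup_right (b1.trans b)
    (cop_mono hc a b1) hkB d (b2.zT (hT.mono b1 b5) le_sup_right (b1.trans b) hkB b6) b6 (b2.not_le b3)
  exact hne e (h2 ▸ card_dvd b1)

/-- The exceptional case for odd `p`. -/
theorem x2 (hp : p.Prime) (hp2 : p ≠ 2) (hT : CT p A T) (hA : A ≤ D) (hkA : (♯A : k) ≠ 0)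
    (h0 : Fix ρ A = ⊥) (hK : K ≤ D) (hK2 : IsPi {2} K) (hk : (♯K : k) ≠ 0) (hn : A ≤ 𝓝(K))
    (hr : r.Prime) (hr2 : r ≠ 2) (hrp : r ≠ p) (hR : R ≤ D) (hRr : IsPi {r} R) (hRK : R ≤ 𝓝(K))
    (hAR : A ≤ 𝓝(R)) (hRT : R ≤ 𝓒(T)) (hC : ⁅K ⊓ 𝓒(T), R⁆ ≤ rker ρ) : ⁅K, R⁆ ≤ rker ρ := by
  by_contra h
  have p2 := Nat.prime_two
  have hc := hK2.coprime_ne hT.pi hp2.symm
  have hc' := hK2.coprime_ne hRr hr2.symm
  have hTD := hT.le.trans hA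
  have n := le_norm_rker ρ
  obtain ⟨Q, a, b, c, d, e, f⟩ := min_ce (hK2.isSolvable p2) (sup_le hRK hn) le_sup_left
    (sup_le le_normalizer hAR) hc' h
  have hQ := a.trans hK
  have hs := (hK2.of_le a).isSolvable p2
  have b' := le_sup_right.trans b
  have hQT : ⁅Q, T⁆ = Q := by
    by_contra e
    refine c ?_
    rw [← cop_comm_sup_cent (hT.le.trans b') (cop_mono hc a hT.le) (Or.inr hs)]
    exact comm_sup_le_of_norm ((comm_le_of_le hQ hTD).trans n) ((inf_le_left.trans hQ).trans n)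
      (hR.trans n) (f _ (lt_of_le_of_ne (comm_le_left (hT.le.trans b')) e)
      (norm_comm b (sup_le (norm_of_cent hRT) hT.norm)))
      ((comm_mono (inf_le_inf_right _ a) le_rfl).trans hC)
  have hkQ := natCast_ne_zero_of_dvd (card_dvd a) hk
  have h1 := fun e => c ((comm_le_left (le_sup_left.trans b)).trans
    (hQT.ge.trans (ab_comm hQ hA b' e hkQ hkA h0 hT)))
  obtain ⟨B, W', ρ', b1, _, b2, b3, b4, -⟩ := exists_sc p2 (hK2.of_le a) hkQ (sup_le hQ hR)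
    le_sup_left hA b' (comm_sup_rker ((Phi_le Q).trans hQ) hQ hR (phi_cent hQ hR d e) e) h1
  obtain ⟨b5, b6⟩ := b4 hkA h0
  have hkB := natCast_ne_zero_of_dvd (card_dvd b1) hkA
  have hT' := hT.mono b1 b5
  have hz := b2.zT hT' le_sup_right (b1.trans b') hkB b6
  obtain ⟨e, h3, h2, -⟩ := b2.hh_fix le_rfl le_rfl hT' le_sup_right (b1.trans b')
    (cop_mono hc a b1) hkB hQT hz b6 (b2.not_le b3)
  have hb : Q ≠ ⊥ := by rintro rfl; exact c (by simp)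
  obtain ⟨s, s1, s2⟩ := b2.gauss le_rfl le_rfl (natCast_ne_zero_of_dvd
    ((hK2.of_le a).dvd_card hb) hkQ) (b2.like le_rfl le_rfl (hT'.le.trans le_sup_right)
    (hT.le.trans b') (cop_mono hc a hT.le) hQT hz)
  have h4 := mul_le_of_gauss hr hp hrp (s2 r hr hr2 R (le_sup_of_le_left le_sup_right) hRr
    (le_sup_left.trans b) ((cent_le_der (le_sup_left.trans b) (cop_mono hc' a le_rfl) hs d).trans
    (b2.der_le le_rfl))) (s2 p hp hp2 T (hT'.le.trans le_sup_right) (hT.pi.of_le hT.le)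
    (hT.le.trans b') ((cent_le_der (hT.le.trans b') (cop_mono hc a hT.le) hs hQT).trans
    (b2.der_le le_rfl))) s1 (fun e => b2.not_le b3 (relIndex_eq_one.1 e)) h3.ge
  obtain ⟨j, hj⟩ := hT'.pi.exists_card hp
  rw [hj] at h2
  have := hr.two_le
  have := hp.two_le
  rcases Cfsg.Agent.S3784.result p 2 j (e + 1) hp p2 (by
    rcases j with _ | j
    · simp at h2
    · omega) (by omega) h2 with h5 | ⟨-, -, -, h5⟩ | ⟨h5, h6⟩
  · exact hp2 h5.1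
  · nlinarith
  · have : p = 3 := (Nat.prime_dvd_prime_iff_eq hp Nat.prime_three).1 (hp.dvd_of_dvd_pow (n := 2)
      (h5 ▸ dvd_pow_self p (by rintro rfl; simp at h5) : p ∣ 9))
    rw [h6, this] at h4
    omega

end CA.HS
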