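import Cfsg.Agent.Lib.Solv.HS2

/-!
The exceptional Hall-Higman-Shult cases for cyclic `2`-groups of operators.
-/

set_option autoImplicit false
set_option linter.unusedSectionVars false
set_option linter.unusedVariables false
set_option linter.style.haveILetI false

namespace CA.HS
open Subgroup Cfsg CA.OQuo CA.BG CA.BGRep Module
open scoped commutatorElement

variable {G : Type*} [Group G] [Finite G] {D : Subgroup G} {k W : Type*} [Field k] [AddCommGroup W]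
  [Module k W] {ρ : Representation k D W} {A B C E K L M N Q R T X Y Z : Subgroup G} {x y δ : G}
  {p q r : ℕ}

theorem arith4 {d h m t : ℕ} (h1 : 3 ≤ d) (h2 : d ≠ 4) (h3 : 4 ≤ h) (h4 : d = 3 → 5 ≤ h)
    (h5 : d ^ 2 + h = h * m + 1) (h6 : d ≤ m) (h7 : (d - t) ^ 2 ≤ m) (h8 : t ≤ 2) : False := by
  by_cases e : d = 3
  · have := h4 e
    subst e
    nlinarith
  obtain ⟨c, rfl⟩ : ∃ c, d = c + 5 := ⟨d - 5, by omega⟩
  have h9 : (c + 3) ^ 2 ≤ m := (Nat.pow_le_pow_left (by omega) 2).trans h7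
  obtain ⟨m, rfl⟩ : ∃ n, m = n + 1 := ⟨m - 1, by omega⟩
  nlinarith [Nat.mul_le_mul_right m h3]

theorem card_le_comm_mul (hn : A ≤ 𝓝(K)) (hc : (♯K).Coprime ♯A) (hs : Group.IsSolvable K) :
    ♯K ≤ ♯⁅K, A⁆ * ♯(K ⊓ 𝓒(A)) := by
  conv_lhs => rw [← cop_comm_sup_cent hn hc (Or.inr hs), sup_comm]
  rw [mul_comm]
  exact Nat.le_of_dvd (Nat.mul_pos (card_pos' _) (card_pos' _))
    (card_sup_dvd (inf_le_left.trans (le_norm_comm_left K A)))

theorem Sc.elem (h : Sc ρ q Q) (hE : E ≤ Q) : IsElementaryAbelian q (E /ᵍ Zr ρ Q) :=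
  (elem_quo_iff (hE.trans (h.normZ h.le le_normalizer))).2 ⟨h.der_le hE, fun x hx =>
    h.phi_le (pow_mem_Phi h.prime h.pi (hE hx))⟩

variable [FiniteDimensional k W]

theorem rank_fix (hx : δ ∈ D) : finrank k (LinearMap.range (rp ρ δ - 1)) +
    finrank k (Fix ρ (zpowers δ)) = finrank k W := by
  rw [show Fix ρ (zpowers δ) = LinearMap.ker (rp ρ δ - 1) from Submodule.ext fun w => by
    rw [mem_Fix_zpowers hx, LinearMap.mem_ker, LinearMap.sub_apply, sub_eq_zero]; rfl]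
  exact LinearMap.finrank_range_add_finrank_ker _

variable [IsAlgClosed k]

/-- Operators of small rank. -/
theorem x4 (hT : CT p (zpowers δ) T) (hx : δ ∈ D) (hkB : (orderOf δ : k) ≠ 0) (hr : r.Prime)
    (hr2 : r ≠ 2) (h4 : 4 ≤ orderOf δ) (h5 : r = 3 → 5 ≤ orderOf δ) (hK : K ≤ D) (hKr : IsPi {r} K)
    (hk : (♯K : k) ≠ 0) (hn : δ ∈ 𝓝(K)) (hc : (♯K).Coprime (orderOf δ))
    (h2 : finrank k (LinearMap.range (rp ρ δ - 1)) ≤ 2) : ⁅K, T⁆ ≤ rker ρ := by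
  by_contra h
  have hB := zpowers_le.2 hx
  have hc' : (♯K).Coprime ♯(zpowers δ) := Nat.card_zpowers δ ▸ hc
  obtain ⟨Q, a, b, c, d, e, f⟩ := min_ce (hKr.isSolvable hr) (zpowers_le.2 hn) hT.le hT.norm
    (cop_mono hc' le_rfl hT.le) h
  have hQ := a.trans hK
  have hkQ := natCast_ne_zero_of_dvd (card_dvd a) hk
  by_cases h1 : ⁅Q, Q⁆ ≤ rker ρ
  · have h6 := finrank_free hQ hB b h1 hkQ fun e he h => Fix_anti ρ (d.ge.trans (comm_mono le_rfl
      (hT.le_of (zpowers_le.2 he) (ne_bot_of_mem (mem_zpowers e) h))))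
    have h7 := rank_fix (ρ := ρ) hx
    have h8 := Submodule.finrank_lt fun h => c (d.le.trans ((Fix_eq_top_iff hQ).1 h))
    have h9 := Submodule.finrank_mono (Fix_anti ρ (le_sup_left (a := Q) (b := zpowers δ)))
    obtain ⟨t, ht⟩ := Nat.exists_eq_add_of_le
      (Submodule.finrank_mono (Fix_anti ρ (le_sup_right (a := Q) (b := zpowers δ))))
    rw [Nat.card_zpowers, ht] at h6
    rcases t with _ | t
    · rw [add_zero] at h6; omega
    · nlinarith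
  obtain ⟨B, W', ρ', b1, _, b2, b3, -, b5, b6, b7⟩ := exists_sc hr (hKr.of_le a) hkQ hQ le_rfl hB b
    (phi_cent hQ (hT.le.trans hB) d e) h1
  have ho : Odd ♯Q := Nat.coprime_two_right.1
    ((isPi_compl_iff_coprime Nat.prime_two).1 ((hKr.of_le a).ne hr2))
  by_cases hδ : δ ∈ B
  swap
  · exact b3 fun x hx => mem_rker.2 ⟨b2.le (der_le Q hx), eq_one_of_nilp (der_unip b2.le ho
      ((b7 δ (mem_zpowers δ) hδ).trans h2) hx) hkQ (rp_pow_card ρ' b2.le (der_le Q hx))⟩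
  have hB' : zpowers δ ≤ Q ⊔ B := le_sup_of_le_right (zpowers_le.2 hδ)
  obtain ⟨a1, a2, a3⟩ := b2.hh_T le_rfl le_rfl hT hB' b (cop_mono hc' a le_rfl) d (b5 _
    (comm_le_of_le (Zr_le.trans b2.le) (hT.le.trans hB'))
    (f _ (lt_of_le_of_ne Zr_le fun e => b2.not_le b3 e.ge) (b2.normZ hB' b)))
  obtain ⟨U, m, -, -, -, u1, u2, u3, u4, -⟩ := hh b2.le (hB' (mem_zpowers δ)) (b (mem_zpowers δ))
    hkQ hkB (hc.coprime_dvd_left (card_dvd a)) a1 a2 a3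
  obtain ⟨e, he⟩ := b2.pow_of_sq le_rfl u1 (b2.not_le b3)
  have h6 : r ∣ finrank k U := he ▸ dvd_pow_self r e.succ_ne_zero
  have h7 := hr.two_le
  refine arith4 (le_trans (by omega) (Nat.le_of_dvd (he ▸ Nat.pow_pos hr.pos) h6)) (fun h => hr2
    ((Nat.prime_dvd_prime_iff_eq hr Nat.prime_two).1 (hr.dvd_of_dvd_pow (n := 2) (h ▸ h6 :)))) h4
    (fun h => h5 ((Nat.prime_dvd_prime_iff_eq hr Nat.prime_three).1 (h ▸ h6))) u2 u3 u4
    ((b6 δ (hB' (mem_zpowers δ))).trans h2)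

theorem hom_fix (hE : E ≤ D) (hx : δ ∈ D) (hn : δ ∈ 𝓝(E)) (hk : (orderOf δ : k) ≠ 0)
    (h0 : Fix ρ (zpowers δ) = ⊥) {U : Submodule k W} (hU : Inv ρ E U)
    (hi : ∀ U', U' ≤ U → Inv ρ E U' → U' = ⊥ ∨ U' = U)
    (hω : ∀ ω : k, ω ^ orderOf δ = 1 → ω ≠ 1 → ∃ u ∈ U, u ≠ 0 ∧ rp ρ δ u = ω • u) {f : End k W}
    (hf : f ∈ Fix (ρ.linHom ρ) E) {u : W} (hu : u ∈ U) : rp (ρ.linHom ρ) δ f u = f u := by
  have hB := zpowers_le.2 hx
  have hI := inv_Fix (ρ := ρ.linHom ρ) hE hB (zpowers_le.2 hn)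
  have h1 := iSup_Wt (ρ := res _ hB _ hI) le_rfl (by
    rw [comm_eq_bot_iff.2 (comm_iff_le_cent.1 inferInstance)]; exact bot_le)
    (by rwa [Nat.card_zpowers])
  refine Submodule.iSup_induction _ (motive := fun g : Fix (ρ.linHom ρ) E =>
    rp (ρ.linHom ρ) δ g u = g.1 u) (h1.ge (Submodule.mem_top (x := ⟨f, hf⟩))) (fun χ g hg => ?_)
    (by simp) fun a b ha hb => by simp [ha, hb]
  have h2 := hg ⟨δ, mem_zpowers δ⟩
  obtain ⟨ω, hω'⟩ : ∃ ω, ω = χ ⟨δ, mem_zpowers δ⟩ := ⟨_, rfl⟩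
  rw [← hω'] at h2
  have h3 : rp (ρ.linHom ρ) δ g = ω • g.1 := by
    rw [← coe_rp_res hB hI (mem_zpowers δ), h2]; rfl
  by_cases h4 : ω = 1
  · rw [h3, h4, one_smul]
  by_cases h5 : g = 0
  · simp [h5]
  have h6 := (Module.End.HasEigenvector.pow_apply ⟨Module.End.mem_eigenspace_iff.2 h2, h5⟩
      (orderOf δ)).symm
  rw [← rp_pow _ (mem_zpowers δ), pow_orderOf_eq_one, rp_one, Module.End.one_apply] at h6
  have h7 := smul_left_injective k h5 (h6.trans (one_smul k g).symm)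
  have h8 : ω ≠ 0 := by rintro rfl; simp [(orderOf_pos δ).ne'] at h7
  obtain ⟨v, hv, v0, h9⟩ := hω ω⁻¹ (by rw [inv_pow, h7, inv_one]) (by simpa using h4)
  have h10 : g.1 v = 0 := (Submodule.mem_bot k).1 (h0 ▸ (mem_Fix_zpowers hx).2 (by
    have := LinearMap.congr_fun h3 (rp ρ δ v)
    rwa [rp_linHom hx, Module.End.mul_apply, Module.End.mul_apply, rp_inv_apply ρ hx, h9,
      LinearMap.smul_apply, map_smul, smul_smul, mul_inv_cancel₀ h8, one_smul] at this))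
  have h11 := (hi (U ⊓ LinearMap.ker g.1) inf_le_left (hU.inf fun x hx w hw => by
    rw [LinearMap.mem_ker, ← Module.End.mul_apply, ← (mem_Fix_linHom hE).1 g.2 x hx,
      Module.End.mul_apply, LinearMap.mem_ker.1 hw, map_zero])).resolve_left fun e =>
    v0 ((Submodule.mem_bot k).1 (e ▸ ⟨hv, h10⟩))
  rw [h3, LinearMap.smul_apply, LinearMap.mem_ker.1 (h11.ge hu).2, smul_zero]

theorem Sc.cent_mod (h : Sc ρ q Q) (hQ : E ⊔ C = Q) (hC : ⁅C, E⁆ ≤ rker ρ) (hx : δ ∈ D)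
    (hn : δ ∈ 𝓝(C)) {u : W} (h0 : u ≠ 0)
    (hu : ∀ f ∈ Fix (ρ.linHom ρ) E, rp (ρ.linHom ρ) δ f u = f u) (hy : y ∈ C) :
    ⁅y⁻¹, δ⁆ ∈ Zr ρ Q := by
  have a : E ≤ D := (hQ ▸ le_sup_left : E ≤ Q).trans h.le
  have b' : C ≤ Q := hQ ▸ le_sup_right
  have b := b'.trans h.le
  have c : ∀ x ∈ C, rp ρ x ∈ Fix (ρ.linHom ρ) E := fun x hx => (mem_Fix_linHom a).2 fun z hz =>
    ((comm_le_rker_iff b a).1 hC x hx z hz).symm
  have d : ∀ x ∈ C, rp ρ (δ * x * δ⁻¹) u = rp ρ x u := fun x hx' => by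
    rw [rp_conj ρ hx (b hx'), ← rp_linHom hx, hu _ (c x hx')]
  have e : ⁅y⁻¹, δ⁆ = y⁻¹ * (δ * y * δ⁻¹) := by simp only [commutatorElement_def]; group
  have m : ∀ x ∈ C, δ * x * δ⁻¹ ∈ C := fun x hx => conj_mem_of_mem_norm hn hx
  have hz : ⁅y⁻¹, δ⁆ ∈ C := e ▸ mul_mem (inv_mem hy) (m y hy)
  have f : ∀ x ∈ C, rp ρ ⁅y⁻¹, δ⁆ (rp ρ x u) = rp ρ x u := fun x hx => by
    rw [e, rp_mul_apply ρ (b (inv_mem hy)) (b (m y hy)), ← d x hx,
      ← rp_mul_apply ρ (b (m y hy)) (b (m x hx)), conj_mul, d _ (mul_mem hy hx),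
      rp_mul_apply ρ (b hy) (b hx), rp_inv_apply ρ (b hy), d x hx]
  refine ⟨b' hz, b hz, fun x hx => ((mem_Fix_linHom h.le).1 ?_ x hx).symm⟩
  rw [← hQ, Fix_sup a b]
  refine ⟨c _ hz, (mem_Fix_linHom b).2 fun x hx => (rp_comm_iff (b hx) (b hz)).2 ?_⟩
  have g := der_le_Phi h.prime h.pi (commutator_mem_commutator (b' hx) (b' hz))
  obtain ⟨s, hs⟩ := h.sc _ g
  refine mem_rker_of_scal (h.le (Phi_le Q g)) hs (rp_ne_zero ρ (b hz) (rp_ne_zero ρ (b hx) h0)) ?_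
  have := f 1 (one_mem _)
  rw [rp_one, Module.End.one_apply] at this
  rw [← rp_mul_apply ρ (b hz) (b hx), ← rp_mul_apply ρ (h.le (Phi_le Q g)) (b (mul_mem hz hx)),
    show ∀ a b : G, ⁅a, b⁆ * (b * a) = a * b from fun a b => by
      simp only [commutatorElement_def]; group, rp_mul_apply ρ (b hx) (b hz), this,
    rp_mul_apply ρ (b hz) (b hx), f x hx]

/-- The exceptional case for `p = 2`. -/
theorem x3 (hT : CT 2 A T) (hA : A ≤ D) (hkA : (♯A : k) ≠ 0) (h0 : Fix ρ A = ⊥) (hq : q.Prime)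
    (hK : K ≤ D) (hKq : IsPi {q} K) (hk : (♯K : k) ≠ 0) (hn : A ≤ 𝓝(K)) (hc : (♯K).Coprime ♯A)
    (hr : r.Prime) (hqr : q ≠ r) (hR : R ≤ D) (hRr : IsPi {r} R) (hRK : R ≤ 𝓝(K))
    (hAR : A ≤ 𝓝(R)) (hcR : (♯R).Coprime ♯A) (hRT : ⁅R, T⁆ = R) : ⁅K, R⁆ ≤ rker ρ := by
  by_contra h
  have p2 := Nat.prime_two
  have hTD := hT.le.trans hA
  obtain ⟨Q, a, b, c, d, e, -⟩ := min_ce (hKq.isSolvable hq) (sup_le hRK hn) le_sup_left
    (sup_le le_normalizer hAR) (hKq.coprime_ne hRr hqr) h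
  have hQ := a.trans hK
  have b' := le_sup_right.trans b
  have b'' := le_sup_left.trans b
  have hkQ := natCast_ne_zero_of_dvd (card_dvd a) hk
  obtain ⟨B, W', ρ', b1, _, b2, b3, b4, -⟩ := exists_sc hq (hKq.of_le a) hkQ (sup_le hQ hR)
    le_sup_left hA b' (comm_sup_rker ((Phi_le Q).trans hQ) hQ hR (phi_cent hQ hR d e) e)
    fun e => c (hRT ▸ comm_comm_le hQ hR hTD b'' (ab_comm hQ hA b' e hkQ hkA h0 hT))
  obtain ⟨b5, b6⟩ := b4 hkA h0
  have hkB := natCast_ne_zero_of_dvd (card_dvd b1) hkA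
  have hT' := hT.mono b1 b5
  have h2 := hT'.pi.dvd_card b5
  have hBQ := b1.trans b'
  have hTQ := hT'.le.trans hBQ
  have hs := b2.solv le_rfl
  have hc1 := cop_mono hc a b1
  have hc2 := cop_mono hc1 le_rfl hT'.le
  have nQ := b2.normZ b2.le le_normalizer
  have nR := b2.normZ (le_sup_of_le_left le_sup_right) b''
  have nB := b2.normZ le_sup_right hBQ
  have nT := hT'.le.trans nB
  have key : ¬ ⁅R /ᵍ Zr ρ' Q, T /ᵍ Zr ρ' Q⁆ ≤ 𝓒(Q /ᵍ Zr ρ' Q) := fun e => by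
    rw [← quo_comm nR nT, hRT] at e
    exact b2.not_le b3 (d.ge.trans (comm_le_of_quo_cent nQ nR (cent_symm e)))
  have hE := comm_le_left hTQ
  obtain ⟨e, h4, h5, δ, U, rfl, u1, u2, u3⟩ := b2.hh_fix hE
    (b2.nd le_rfl le_rfl (hT'.le.trans le_sup_right) hTQ hc2) hT' le_sup_right
    (norm_comm hBQ hT'.norm) hc1 hkB (cop_comm_comm hTQ hc2 (Or.inr hs))
    (b2.zT hT' le_sup_right hBQ hkB b6) b6 fun e => key ((comm_mono le_rfl (cent_symm
      (quo_cent_of_comm_le nQ nT e))).trans (comm_le_right (norm_cent (norm_quo _ b''))))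
  have hq2 : q ≠ 2 := by
    rintro rfl
    exact not_dvd_of_coprime p2 hc1 (b2.pi.dvd_card (by rintro rfl; exact c (by simp))) h2
  have hr2 : r ≠ 2 := by
    rintro rfl
    exact not_dvd_of_coprime p2 hcR (hRr.dvd_card (by rintro rfl; exact c (by simp)))
      (h2.trans (card_dvd b1))
  have q2 := hq.two_le
  obtain rfl : e = 0 := by
    obtain ⟨j, hj⟩ := hT'.pi.exists_card p2
    rw [hj] at h5
    rcases Cfsg.Agent.S3784.result 2 q j (e + 1) p2 hq (by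
      rcases j with _ | j
      · simp [hq.ne_zero] at h5
      · omega) (by omega) h5 with h6 | h6 | ⟨h6, h7⟩
    · omega
    · omega
    · exact absurd (hq.dvd_of_dvd_pow (n := 3) (h7 ▸ dvd_pow_self q (by omega) : q ∣ 8))
        fun h => hq2 ((Nat.prime_dvd_prime_iff_eq hq p2).1 h)
  rw [Nat.card_zpowers] at h2 h5 hkB u3
  rw [zero_add, pow_one] at h5
  have hδ : δ ∈ Q ⊔ R ⊔ zpowers δ := mem_sup_right (mem_zpowers δ)
  obtain ⟨u, hu, u0, -⟩ := u3 (-1) (Even.neg_one_pow (even_iff_two_dvd.2 h2)) fun e =>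
    natCast_ne_zero_of_dvd h2 hkB (by push_cast; linear_combination -e)
  have hC := fun y hy => b2.cent_mod (y := y) (cop_comm_sup_cent hTQ hc2 (Or.inr hs)) (by
      rw [comm_symm]
      refine three_subgroups_rker b2.le (hT'.le.trans le_sup_right) (inf_le_left.trans b2.le) ?_
        ((comm_mono ((comm_le_der inf_le_left le_rfl).trans (der_le_Phi hq b2.pi)) le_rfl).trans
          (b2.comm (hT'.le.trans le_sup_right)))
      rw [comm_eq_bot_iff.2 (cent_symm inf_le_right)]; simp) hδ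
    (norm_inf hBQ (norm_cent hT'.norm) (mem_zpowers δ)) u0 (fun f hf => hom_fix (hE.trans b2.le) hδ
      (norm_comm hBQ hT'.norm (mem_zpowers δ)) hkB b6 (u1.mono le_sup_left) u2 u3 hf hu) hy
  haveI := Fact.mk hq
  have hV := b2.elem le_rfl
  have n0 := nB (mem_zpowers δ)
  have ho : orderOf (mel (qh (Zr ρ' Q)) δ) = orderOf δ := by
    rw [← Nat.card_zpowers, ← mim_zpowers _ n0, card_quo_of_cop nB (cop_mono hc1 Zr_le le_rfl),
      Nat.card_zpowers]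
  have hm := norm_quo (Zr ρ' Q) hBQ
  have hT2 := hT'.mim (qh (Zr ρ' Q))
  rw [mim_zpowers _ n0] at hm hT2
  refine key (rker_krep (hV := hV) ▸ x4 hT2 (hm (mem_zpowers _)) (cast_ne_zero_Fb ?_) hr hr2
    (by omega) (by omega) (norm_quo _ b'') (hRr.mim _)
    (cast_ne_zero_Fb ((isPi_compl_iff hq).1 ((hRr.mim _).ne hqr.symm)))
    (mel_mem_normalizer _ n0 (b1.trans hAR (mem_zpowers δ)) |> id) ?_ ?_)
  · rw [ho, h5]
    exact fun h => hq.one_lt.ne' (Nat.dvd_one.1 ((Nat.dvd_add_right (by simp)).1 h))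
  · rw [ho, ← Nat.card_zpowers]
    exact (cop_mono hcR le_rfl b1).coprime_dvd_left (card_mim_dvd _ _)
  have h6 := rank_fix (ρ := krep hV) (hm (mem_zpowers _))
  have h7 := card_le_comm_mul (norm_quo (Zr ρ' Q) hTQ) (cop_mim hc2 _) (solv_quo _ hs)
  rw [← quo_comm nQ nT, card_quo (hE.trans nQ), ← h4, ← cop_quo_cent' nT nQ hTQ hc2 (Or.inr hs),
    ← pow_finrank_krep (hV := hV)] at h7
  have h8 := h7.trans (Nat.mul_le_mul_left _ (card_le_of_le' (K := Q /ᵍ Zr ρ' Q ⊓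
    𝓒(zpowers (mel (qh (Zr ρ' Q)) δ))) (le_inf (quo_mono _ inf_le_left) fun z hz => by
      obtain ⟨y, hy, rfl⟩ := (mem_mim_of_le (inf_le_left.trans nQ)).1 hz
      rw [cent_zpowers, mem_cent1, ← commutatorElement_eq_one_iff_mul_comm,
        ← mel_commutator _ (nQ hy.1) n0, qel_eq_one_iff (comm_le_of_le nQ nB (commutator_mem_commutator hy.1 (mem_zpowers δ)))]
      simpa using hC _ (inv_mem hy))))
  rw [← pow_finrank_Fix_krep (hV := hV) hm, ← pow_mul, ← pow_add,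
    Nat.pow_le_pow_iff_right hq.one_lt] at h8
  omega

end CA.HS
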