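import Cfsg.Agent.Lib.Solv.HS3
import Cfsg.Agent.Lib.Odd.BGMisc

/-!
Fixed-point-free operator groups of order dividing a product of two primes.
-/

set_option autoImplicit false
set_option linter.unusedSectionVars false
set_option linter.unusedVariables false
set_option linter.style.haveILetI false

namespace CA.HS
open Subgroup Cfsg CA.OQuo CA.BG CA.BGRep Module
open scoped commutatorElement

variable {G : Type*} [Group G] [Finite G] {D : Subgroup G} {k W : Type*} [Field k] [AddCommGroup W]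
  [Module k W] {ρ : Representation k D W} {A B C E H K L M N Q R S T X Y Z : Subgroup G} {x y δ : G}
  {p q r : ℕ}

/-- `A` acts coprimely and without fixed points on the solvable group `H` -/
structure St (A H : Subgroup G) : Prop where
  norm : A ≤ 𝓝(H)
  solv : Group.IsSolvable H
  cop : (♯H).Coprime ♯A
  fpf : H ⊓ 𝓒(A) = ⊥

theorem St.mono (h : St A H) (hK : K ≤ H) (hn : A ≤ 𝓝(K)) : St A K :=
  ⟨hn, solv_of_le h.solv hK, cop_mono h.cop hK le_rfl, BG.eq_bot_mono (inf_le_inf_right _ hK) h.fpf⟩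

theorem St.quo (h : St A H) (hA : A ≤ 𝓝(N)) (hH : H ≤ 𝓝(N)) : St (A /ᵍ N) (H /ᵍ N) :=
  ⟨norm_quo N h.norm, solv_quo N h.solv, cop_mim h.cop _, by
    rw [← cop_quo_cent' hA hH h.norm h.cop (Or.inr h.solv), h.fpf, mim_bot]⟩

theorem St.comm (h : St A H) : ⁅H, A⁆ = H := coprime_comm_eq_of_cent h.norm h.cop (Or.inr h.solv) h.fpf

/-- proper subgroups have prime order and complements of prime order -/
def KP (A : Subgroup G) : Prop := ∀ X ≤ A, X ≠ ⊥ → X ≠ A →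
  (♯X).Prime ∧ ∃ Y : Subgroup G, (♯Y).Prime ∧ X ⊔ Y = A ∧ (A ≤ 𝓝(X) ∨ A ≤ 𝓝(Y))

theorem KP.solv (h : KP A) : Group.IsSolvable A := by
  have c : ∀ X : Subgroup G, (♯X).Prime → Group.IsSolvable X := fun X hX =>
    solv_of_nil (nil_of_cyc (isCyclic_of_prime hX))
  by_cases hb : A = ⊥
  · rw [hb]; infer_instance
  obtain ⟨X, a, b⟩ := exists_prime_card_le hb
  by_cases e : X = A
  · exact e ▸ c X b
  obtain ⟨-, Y, d, rfl, f | f⟩ := h X a (ne_bot_of_prime b) e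
  · rw [sup_comm]; exact solv_sup (c Y d) (c X b) (le_sup_right.trans f)
  · exact solv_sup (c X b) (c Y d) (le_sup_left.trans f)

theorem norm_of_min (hX : X ≤ A) (h1 : (♯X).Prime) (h2 : (X.relIndex A).Prime)
    (h : X.relIndex A ≤ ♯X) : A ≤ 𝓝(X) := by
  refine (normal_subgroupOf_iff_le_normalizer hX).1 (normal_of_index_eq_minFac_card ?_)
  rw [← card_mul_relIndex hX]
  have h3 := Nat.minFac_prime (n := ♯X * X.relIndex A) fun e =>
    h1.ne_one (Nat.eq_one_of_mul_eq_one_right e)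
  have h4 := Nat.minFac_le_of_dvd h2.two_le (dvd_mul_left (X.relIndex A) ♯X)
  rcases h3.dvd_mul.1 (Nat.minFac_dvd _) with a | a
  · exact le_antisymm (((Nat.prime_dvd_prime_iff_eq h3 h1).1 a).symm ▸ h) h4
  · exact ((Nat.prime_dvd_prime_iff_eq h3 h2).1 a).symm

theorem kp_of (hp : p.Prime) (hq : q.Prime) (h : ♯A ∣ p * q) (h' : p ≠ q ∨ ∀ x ∈ A, x ^ p = 1) :
    KP A := fun X hX h1 h2 => by
  obtain ⟨c, hc⟩ := h
  have a := card_mul_relIndex hX
  have b := congrArg ArithmeticFunction.cardFactors hc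
  have c0 : c ≠ 0 := by rintro rfl; exact mul_ne_zero hp.ne_zero hq.ne_zero hc
  rw [← a, ArithmeticFunction.cardFactors_mul hp.ne_zero hq.ne_zero,
    ArithmeticFunction.cardFactors_mul (a ▸ card_ne_zero' A) c0,
    ArithmeticFunction.cardFactors_mul (card_ne_zero' X) (relIndex_ne_zero' X A),
    ArithmeticFunction.cardFactors_apply_prime hp,
    ArithmeticFunction.cardFactors_apply_prime hq] at b
  have d := ArithmeticFunction.cardFactors_pos_iff_one_lt.2 ((one_lt_card_iff_ne_bot X).2 h1)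
  have e := (ArithmeticFunction.cardFactors_pos_iff_one_lt (n := X.relIndex A)).2 (by
    have := relIndex_ne_zero' X A
    have : X.relIndex A ≠ 1 := fun e => h2 (le_antisymm hX (relIndex_eq_one.1 e))
    omega)
  have f : (♯X).Prime := ArithmeticFunction.cardFactors_eq_one_iff_prime.1 (by omega)
  have g : (X.relIndex A).Prime := ArithmeticFunction.cardFactors_eq_one_iff_prime.1 (by omega)
  obtain ⟨Y, y1, y2, y3⟩ : ∃ Y ≤ A, ♯Y = X.relIndex A ∧ ¬ Y ≤ X := by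
    by_cases e : X.relIndex A = ♯X
    · have h3 : ♯X * ♯X ∣ p * q := ⟨c, by rw [hc, ← a, e]⟩
      have h4 : ♯X = p ∧ ♯X = q := by
        rcases f.dvd_mul.1 ((dvd_mul_left _ _).trans h3) with i | i
        · have i := (Nat.prime_dvd_prime_iff_eq f hp).1 i
          rw [i] at h3 ⊢
          exact ⟨rfl, (Nat.prime_dvd_prime_iff_eq hp hq).1 (Nat.dvd_of_mul_dvd_mul_left hp.pos h3)⟩
        · have i := (Nat.prime_dvd_prime_iff_eq f hq).1 i
          rw [i] at h3 ⊢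
          exact ⟨(Nat.prime_dvd_prime_iff_eq hq hp).1 (Nat.dvd_of_mul_dvd_mul_right hq.pos h3), rfl⟩
      obtain ⟨x, x1, x2⟩ := SetLike.not_le_iff_exists.1 fun e => h2 (le_antisymm hX e)
      haveI := Fact.mk hp
      exact ⟨zpowers x, zpowers_le.2 x1, by
        rw [e, h4.1, Nat.card_zpowers, orderOf_eq_prime (h'.resolve_left
          (fun i => i (h4.1.symm.trans h4.2)) x x1) (by rintro rfl; exact x2 (one_mem _))],
        fun e => x2 (e (mem_zpowers x))⟩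
    · obtain ⟨Y, y1, y2⟩ := exists_card_eq_prime g (a ▸ dvd_mul_left _ _ : X.relIndex A ∣ ♯A)
      exact ⟨Y, y1, y2, fun i => e ((Nat.prime_dvd_prime_iff_eq g f).1 (y2 ▸ card_dvd i))⟩
  refine ⟨f, Y, y2 ▸ g, BG4.sup_eq_of_relIndex g hX rfl y1 y3,
    (le_total _ _).imp (norm_of_min hX f g) fun i => ?_⟩
  have j : Y.relIndex A = ♯X := Nat.eq_of_mul_eq_mul_left g.pos (by
    rw [mul_comm _ ♯X, a, ← y2, card_mul_relIndex y1])
  exact norm_of_min y1 (y2 ▸ g) (j ▸ f) (by rwa [j, y2])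

theorem le_norm_ncl (H C : Subgroup G) : H ≤ 𝓝(⁅H, C⁆ ⊔ C) :=
  norm_of_comm_le_left (le_sup_of_le_left (comm_sup_le_of_norm le_normalizer (le_norm_comm_right _ _)
    (le_norm_comm_left _ _) (comm_le_left (le_norm_comm_left _ _)) (comm_symm _ _).le))

theorem St.exists_J (h : St A H) (hXY : X ⊔ Y = A) (hn : A ≤ 𝓝(X) ∨ A ≤ 𝓝(Y)) :
    ∃ J ≤ ⁅H, X⁆, H ≤ 𝓝(J) ∧ (∀ Z ≤ 𝓝(H), Z ≤ 𝓝(Y) → Z ≤ 𝓝(J)) ∧
      H /ᵍ J ⊓ 𝓒(Y /ᵍ J) = ⊥ := by
  have a : X ≤ A := hXY ▸ le_sup_left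
  have b : Y ≤ A := hXY ▸ le_sup_right
  have c := le_norm_comm_left H X
  have h1 : H ⊓ 𝓒(Y) ≤ ⁅H, X⁆ := by
    rcases hn with hn | hn
    · have d := norm_comm h.norm hn
      rw [← quo_eq_bot_iff (inf_le_left.trans c), eq_bot_iff, ← (h.quo d c).fpf, ← hXY,
        quo_sup (a.trans d) (b.trans d)]
      exact le_inf (quo_mono _ inf_le_left) (le_cent_sup (quo_cent_of_comm_le
        (inf_le_left.trans c) (a.trans d) (comm_mono inf_le_left le_rfl)) (cent_quo _ inf_le_right))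
    · rw [← coprime_comm_eq_of_cent (a.trans (norm_inf h.norm (norm_cent hn)))
        (cop_mono h.cop inf_le_left a) (Or.inr (solv_of_le h.solv inf_le_left))
        (by rw [inf_assoc, ← cent_sup, sup_comm, hXY, h.fpf])]
      exact comm_mono inf_le_left le_rfl
  have h2 : ∀ Z ≤ 𝓝(H), Z ≤ 𝓝(Y) → Z ≤ 𝓝(⁅H, H ⊓ 𝓒(Y)⁆ ⊔ H ⊓ 𝓒(Y)) := fun Z i j =>
    norm_sup (norm_comm i (norm_inf i (norm_cent j))) (norm_inf i (norm_cent j))
  refine ⟨_, sup_le ((comm_mono le_rfl h1).trans (comm_le_right c)) h1, le_norm_ncl _ _, h2, ?_⟩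
  rw [← cop_quo_cent' (h2 Y (b.trans h.norm) le_normalizer) (le_norm_ncl _ _) (b.trans h.norm)
    (cop_mono h.cop le_rfl b) (Or.inr h.solv), quo_eq_bot_of_le le_sup_right]

theorem St.le_of_comm (h : St A (Q ⊔ R)) (hK : KP A) (hRQ : R ≤ 𝓝(Q)) (hAR : A ≤ 𝓝(R))
    (hc : (♯Q).Coprime ♯R) (hQR : ⁅Q, R⁆ = Q) (hX : X ≤ A) (h1 : X ≠ ⊥) (h2 : X ≠ A)
    (hQ : Q ≤ 𝓝(N)) (hR : R ≤ 𝓝(N)) (hN : X ≤ 𝓝(N)) (h3 : ⁅Q, X⁆ ≤ N) : Q ≤ N := by
  obtain ⟨-, Y, a, b, c⟩ := hK X hX h1 h2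
  obtain ⟨J, d, e, f, g⟩ := h.exists_J b c
  have i : Y ≤ A := b ▸ le_sup_right
  have j := f Y (i.trans h.norm) le_normalizer
  have h4 := (comm_le_of_quo_nil e (prime_Frobenius_sol_kernel_nil (solv_quo J h.solv)
    (norm_quo J (i.trans h.norm)) (by rwa [card_quo_of_cop j (cop_mono h.cop
      (d.trans (comm_le_left (hX.trans h.norm))) i)]) g) le_sup_left le_sup_right hc).trans d
  rw [hQR] at h4
  have h5 := quo_mono N h4
  rw [quo_comm (sup_le hQ hR) hN, quo_sup hQ hR, sup_comm] at h5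
  rw [← quo_eq_bot_iff hQ, eq_bot_iff, ← inf_eq_bot_of_cop (cop_mim hc (qh N))]
  refine le_inf le_rfl (h5.trans ((comm_le_of_mul_cent fun z hz => ?_).trans
    (comm_le_left (norm_quo N (hX.trans hAR)))))
  obtain ⟨u, hu, v, hv, e⟩ := (mem_sup_norm (norm_quo N hRQ)).1 hz
  exact ⟨u, hu, v, quo_cent_of_comm_le hQ hN h3 hv, e⟩

theorem stab_lemma (hr : r.Prime) (hR : IsPi {r} R) (hn : A ≤ 𝓝(R)) (hc : (♯R).Coprime ♯A)
    (hs : Group.IsSolvable A) (S : Subgroup G) : ∃ x ∈ R, ∀ y ∈ R, A ⊓ cj y S ≤ cj x S := by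
  by_cases hb : R = ⊥
  · exact ⟨1, one_mem _, fun y hy => by rw [show y = 1 from mem_bot.1 (hb ▸ hy)]; exact inf_le_right⟩
  have hs' := hR.isSolvable hr
  have a : A ⊔ R ≤ 𝓝(R) := sup_le hn le_normalizer
  obtain ⟨B, hB⟩ := hall_exists {r}ᶜ (solv_of_le (solv_sup hs hs' hn) (inf_le_left (b := S)))
  have b := hB.le.trans inf_le_left
  obtain ⟨x, hx, h1⟩ := coprime_conj_le hn hc b (hR.coprime hB.pi) (Or.inl hs)
  have h2 : (A ⊔ R) ⊓ S ≤ B ⊔ R := (quo_le_quo_iff' (inf_le_left.trans a) (b.trans a)).1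
    ((hB.quo (inf_le_left.trans a)).eq_self (IsPi.of_le (K := A /ᵍ R) (((isPi_compl_iff hr).2
      (not_dvd_of_coprime hr hc (hR.dvd_card hb))).mim _)
      ((quo_mono R inf_le_left).trans (quo_sup_self hn).le))).ge
  refine ⟨x, hx, fun y hy => ?_⟩
  have h3 : A ⊓ cj y S ≤ (cj x B ⊔ R) ⊓ A := le_inf (by
    rw [← cj_of_mem hx, ← cj_sup, cj_of_mem (mem_sup_right hx), ← cj_of_mem (mem_sup_right hy)]
    refine le_trans ?_ (cj_mono y h2)
    rw [cj_inf, cj_of_mem (mem_sup_right hy)]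
    exact inf_le_inf_right _ le_sup_left) inf_le_left
  rw [sup_inf_of_le_left (h1.trans hn) h1, inf_eq_bot_of_cop hc, sup_bot_eq] at h3
  exact h3.trans (cj_mono x (hB.le.trans inf_le_right))

theorem Sc.ker_le (h : Sc ρ q Q) (hL : L ≤ Q) (h1 : L ≤ rker ρ) : L ≤ Zr ρ Q :=
  (le_Zr_iff h.le hL).2 ((comm_mono h1 h.le).trans (comm_le_left (le_norm_rker ρ)))

variable [FiniteDimensional k W] [IsAlgClosed k]

theorem Sc.sq [Nontrivial W] (h : Sc ρ q Q) (hX : X ≤ D) (hn : X ≤ 𝓝(Q)) (hc : (♯Q).Coprime ♯X)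
    (h2 : ⁅Zr ρ Q, X⁆ ≤ rker ρ) (h3 : ¬ ⁅Q, X⁆ ≤ Zr ρ Q) :
    ∃ e, (q ^ (e + 1)) ^ 2 = (Zr ρ Q).relIndex ⁅Q, X⁆ := by
  have hE := comm_le_left hn
  have hz := h.nd le_rfl le_rfl hX hn hc
  obtain ⟨d, hd⟩ := sq_index (hE.trans h.le) (natCast_ne_zero_of_dvd (card_dvd hE) h.ch)
    (fun z hz' => by
      obtain ⟨y, a, b⟩ := h.like hE hz hX (le_norm_comm_right _ _) hc
        (cop_comm_comm hn hc (Or.inr (h.solv le_rfl))) h2 z hz'
      rw [b]; exact h.sc _ (der_le_Phi h.prime h.pi a))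
    ((h.zr_eq hE hz).ge.trans' (le_inf (h.der_le hE) (BG.der_le _)))
  rw [h.zr_eq hE hz, inf_relIndex_right] at hd
  obtain ⟨e, he⟩ := h.pow_of_sq hE hd h3
  exact ⟨e, he ▸ hd⟩

theorem Sc.lemB [Nontrivial W] (h : Sc ρ q Q) (hX : X ≤ D) (hs : (♯X).Prime) (hkX : (♯X : k) ≠ 0)
    (h0 : Fix ρ X = ⊥) (hXQ : X ≤ 𝓝(Q)) (hc : (♯Q).Coprime ♯X) (hr : r.Prime) (hqr : q ≠ r)
    (hR : R ≤ D) (hRr : IsPi {r} R) (hRQ : R ≤ 𝓝(Q)) (hXR : X ≤ 𝓝(R)) (hcR : (♯R).Coprime ♯X)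
    (hQR : ⁅Q, R⁆ = Q) (hR' : ⁅Q, ⁅R, R⁆⁆ ≤ rker ρ) : ⁅Q, X⁆ ≤ rker ρ := by
  by_contra h1
  have hT := ct_prime hs
  have hE := comm_le_left hXQ
  have sQ := h.solv le_rfl
  have sR := hRr.isSolvable hr
  have hz := h.nd le_rfl le_rfl hX hXQ hc
  have hZ := h.zT hT hX hXQ hkX h0
  have hEX := cop_comm_comm hXQ hc (Or.inr sQ)
  have h3 : ¬ ⁅Q, X⁆ ≤ Zr ρ Q := fun e => h1 (hEX.ge.trans ((comm_mono e le_rfl).trans hZ))
  obtain ⟨e, h4, h5, -⟩ := h.hh_fix hE hz hT hX (le_norm_comm_right _ _) hc hkX hEX hZ h0 h3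
  have hb : Q ≠ ⊥ := by rintro rfl; exact h1 (by simp)
  have p2 := Nat.prime_two
  have hs2 : ♯X ≠ 2 := by
    have := Nat.one_lt_pow (n := e + 1) e.succ_ne_zero h.prime.one_lt; omega
  obtain rfl : q = 2 := by
    by_contra h6
    exact (Nat.not_even_iff_odd.2 (hs.odd_of_ne_two hs2))
      (h5 ▸ ((h.prime.odd_of_ne_two h6).pow).add_one)
  have cQR := h.pi.coprime_ne hRr hqr
  have nQ := h.normZ h.le le_normalizer
  have nR := h.normZ hR hRQ
  have nX := h.normZ hX hXQ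
  have hR0 := comm_le_left hXR
  by_cases h6 : ⁅Q, ⁅R, X⁆⁆ ≤ Zr ρ Q
  · obtain ⟨s, s1, s2⟩ := h.gauss hE hz (natCast_ne_zero_of_dvd (h.pi.dvd_card hb) h.ch)
      (h.like hE hz hX (le_norm_comm_right _ _) hc hEX hZ)
    have h7 := mul_le_of_gauss hr hs (by
        rintro rfl
        refine not_dvd_of_coprime hr hcR (hRr.dvd_card ?_) dvd_rfl
        rintro rfl; exact hb (by simpa using hQR.symm))
      (s2 r hr hqr.symm (R ⊓ 𝓒(X)) (inf_le_left.trans hR) (hRr.inf_left _)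
        (norm_comm (inf_le_left.trans hRQ) (norm_of_cent inf_le_right)) (by
        rw [← quo_eq_bot_iff ((inf_le_left.trans hE).trans nQ), eq_bot_iff,
          ← coprime_abel_cent_eq_bot (norm_quo _ hRQ) (cop_mim cQR _) (h.elem le_rfl).1
            (by rw [← quo_comm nQ nR, hQR])]
        refine le_inf (quo_mono _ (inf_le_left.trans hE)) ?_
        conv_rhs => rw [← cop_comm_sup_cent hXR hcR (Or.inr sR),
          quo_sup (hR0.trans nR) (inf_le_left.trans nR)]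
        exact le_cent_sup (quo_cent_of_comm_le ((inf_le_left.trans hE).trans nQ) (hR0.trans nR)
          ((comm_mono (inf_le_left.trans hE) le_rfl).trans h6)) (cent_quo _ inf_le_right)))
      (s2 _ hs hs2 X hX hT.pi (le_norm_comm_right _ _) ((cent_le_der (le_norm_comm_right _ _)
        (cop_mono hc hE le_rfl) (h.solv hE) hEX).trans (h.der_le hE))) s1
      (fun e => h3 (relIndex_eq_one.1 e)) h4.ge
    have := hr.two_le
    have := hs.pos
    nlinarith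
  have c0 := cop_mono cQR le_rfl hR0
  have n0 := hR0.trans hRQ
  have hQ0 := comm_le_left n0
  obtain ⟨e', h7⟩ := h.sq (hR0.trans hR) n0 c0 (comm_comm_le (Zr_le.trans h.le) hR hX nR hZ) h6
  haveI := Fact.mk p2
  have hV := h.elem hQ0
  have a1 := norm_quo (Zr ρ Q) (le_norm_comm_right Q ⁅R, X⁆)
  have a0 := norm_comm hXQ (le_norm_comm_right R X)
  have a2 := norm_quo (Zr ρ Q) a0
  have a3 : ♯(X /ᵍ Zr ρ Q) = ♯X := card_quo_of_cop nX (cop_mono hc Zr_le le_rfl)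
  have h8 := finrank_free (ρ := krep hV) a1 a2 (norm_quo _ (le_norm_comm_right R X)) (by
      rw [rker_krep, ← quo_comm (hR0.trans nR) (hR0.trans nR)]
      have := (comm_mono hQ0 (der_mono hR0)).trans hR'
      exact cent_symm (quo_cent_of_comm_le (hQ0.trans nQ) (((BG.der_le _).trans hR0).trans nR)
        (h.ker_le ((comm_mono hQ0 ((BG.der_le _).trans n0)).trans (comm_le_left le_rfl)) this)))
    (cast_ne_zero_Fb ((isPi_compl_iff p2).1 (((hRr.of_le hR0).mim _).ne hqr.symm)))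
    fun z hz z1 => by
      rw [← eq_zpowers_of_prime (a3 ▸ hs) hz z1, ← quo_comm (hR0.trans nR) nX,
        cop_comm_comm hXR hcR (Or.inr sR)]
  have h9 := Fix_krep_eq_bot (hV := hV) a1 (coprime_abel_cent_eq_bot a1
    (cop_mim (cop_mono c0 hQ0 le_rfl) _) hV.1 (by
      rw [← quo_comm (hQ0.trans nQ) (hR0.trans nR), cop_comm_comm n0 c0 (Or.inr sQ)]))
  rw [Fix_sup a1 a2, h9, bot_inf_eq, finrank_bot, a3, h5] at h8
  have h10 := (card_le_comm_mul a2 (cop_mim (cop_mono hc hQ0 le_rfl) _) (solv_quo _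
    (h.solv hQ0))).trans (Nat.mul_le_mul_right _ (card_le_of_le' (comm_mono (quo_mono _ hQ0) le_rfl)))
  rw [← quo_comm nQ nX, card_quo (hE.trans nQ), ← h4, ← pow_finrank_Fix_krep (hV := hV) a2,
    ← pow_finrank_krep (hV := hV), ← pow_mul, ← pow_add, Nat.pow_le_pow_iff_right p2.one_lt] at h10
  rw [← card_quo (hQ0.trans nQ), ← pow_finrank_krep (hV := hV), ← pow_mul] at h7
  have h11 := Nat.pow_right_injective le_rfl h7
  have h12 := Nat.lt_two_pow_self (n := e + 1)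
  generalize finrank (Fb 2) (Fix (krep hV) (X /ᵍ Zr ρ Q)) = b at h8 h10
  rcases b with _ | _ | b
  · omega
  · rw [pow_succ] at h8; omega
  · nlinarith

/-- Operator groups of order dividing a product of two primes. -/
theorem thmY (hK : KP A) (hS : St A (Q ⊔ R)) (hA : A ≤ D) (hkA : (♯A : k) ≠ 0) (h0 : Fix ρ A = ⊥)
    (hq : q.Prime) (hQ : Q ≤ D) (hQq : IsPi {q} Q) (hk : (♯Q : k) ≠ 0) (hAQ : A ≤ 𝓝(Q))
    (hr : r.Prime) (hqr : q ≠ r) (hR : R ≤ D) (hRr : IsPi {r} R) (hAR : A ≤ 𝓝(R))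
    (hRQ : R ≤ 𝓝(Q)) : ⁅Q, R⁆ ≤ rker ρ := by
  by_contra h
  obtain ⟨R, r1, ⟨hAR, h⟩, r2⟩ := exists_minimal_le
    (P := fun L => A ≤ 𝓝(L) ∧ ¬ ⁅Q, L⁆ ≤ rker ρ) ⟨hAR, h⟩
  replace hR := r1.trans hR
  replace hRr := hRr.of_le r1
  have hR' : ⁅Q, ⁅R, R⁆⁆ ≤ rker ρ := by
    by_contra e
    exact (der_lt_of_solv (hRr.isSolvable hr) (by rintro rfl; exact h (by simp))).ne
      (r2 _ ⟨norm_comm hAR hAR, e⟩ (der_le R))
  obtain ⟨Q, a, b, c, d, e, -⟩ := min_ce (hQq.isSolvable hq) (sup_le (r1.trans hRQ) hAQ) le_sup_left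
    (sup_le le_normalizer hAR) (hQq.coprime_ne hRr hqr) h
  replace hAQ := le_sup_right.trans b
  replace hRQ := le_sup_left.trans b
  replace hS := hS.mono (sup_le_sup a r1) (norm_sup hAQ hAR)
  replace hQ := a.trans hQ
  replace hQq := hQq.of_le a
  replace hk := natCast_ne_zero_of_dvd (card_dvd a) hk
  have key := fun X N => hS.le_of_comm (X := X) (N := N) hK hRQ hAR (hQq.coprime_ne hRr hqr) d
  have cR := cop_mono hS.cop le_sup_right le_rfl
  by_cases h1 : ⁅Q, Q⁆ ≤ rker ρ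
  · obtain ⟨χ, hχ⟩ := not_forall.1 fun e => c (d.le.trans (le_rker_of_Wt hQ h1 hk hQ e))
    have g : ∀ y ∈ R, cj y (wstab Q χ) = wstab Q (wact Q y χ) ∧ Wt ρ Q (wact Q y χ) ≠ ⊥ :=
      fun y hy => ⟨Subgroup.ext fun _ => (mem_wstab_cj (hRQ hy)).symm,
        Wt_wact_ne_bot hQ (hR hy) (hRQ hy) fun e => hχ (e ▸ bot_le)⟩
    obtain ⟨x, hx, h2⟩ := stab_lemma hr hRr hAR cR hK.solv (wstab Q χ)
    have g' : ∀ L ≤ D, L ≤ cj x (wstab Q χ) → ¬ Q ≤ ⁅Q, L⁆ := fun L i j l =>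
      wact_ne_one (hRQ hx) (fun e => hχ (by rw [e, Wt_one])) (eq_one_of_Wt_le hQ h1 (g x hx).2
        ((Wt_le_Fix hQ i ((g x hx).1 ▸ j)).trans (Fix_anti ρ l)))
    have g0 : ∀ y ∈ R, A ⊓ cj y (wstab Q χ) ≠ ⊥ := fun y hy =>
      (g y hy).1 ▸ stab_ne_bot hQ hA hAQ h1 hkA h0 (g y hy).2
    have g1 : A ⊓ cj x (wstab Q χ) ≠ A := fun e =>
      g' A hA (e.ge.trans inf_le_right) (hS.mono le_sup_left hAQ).comm.ge
    have g2 := (hK _ inf_le_left (g0 x hx) g1).1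
    have g3 := inf_le_left.trans hA (c := D) (a := A ⊓ cj x (wstab Q χ))
    refine g' _ (sup_le (comm_le_of_le hR g3) g3) (sup_le (commutator_le.2 fun y hy z hz =>
      mul_mem (mem_cj_inv.1 ?_) (inv_mem hz.2)) inf_le_right) (key _ _ inf_le_left (g0 x hx) g1
      (le_norm_comm_left _ _) (norm_comm hRQ (le_norm_ncl _ _)) (norm_comm (inf_le_left.trans hAQ)
      (le_norm_of_le le_sup_right)) (comm_mono le_rfl le_sup_right))
    have m := mul_mem (inv_mem hy) hx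
    rw [← cj_mul]
    exact (le_of_inf_ne_bot_of_prime g2 (ne_bot_mono
      (le_inf (le_inf inf_le_left (h2 _ m)) inf_le_right) (g0 _ m))) hz
  obtain ⟨B, W', ρ', b1, _, b2, b3, b4, b5, -⟩ := exists_sc hq hQq hk (sup_le hQ hR)
    le_sup_left hA hAQ (comm_sup_rker ((Phi_le Q).trans hQ) hQ hR (phi_cent hQ hR d e) e) h1
  obtain ⟨b6, b7⟩ := b4 hkA h0
  have b8 : B ≠ A := by
    rintro rfl
    exact b3 ((der_le_Phi hq hQq).trans ((hS.mono ((Phi_le Q).trans le_sup_left)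
      (hAQ.trans (norm_Phi Q))).comm.ge.trans (b2.comm le_sup_right)))
  have n := le_norm_rker ρ'
  have hR2 : R ≤ Q ⊔ R ⊔ B := le_sup_of_le_left le_sup_right
  exact b3 ((der_le Q).trans (key B _ b1 b6 b8 (b2.le.trans n) (hR2.trans n) (le_sup_right.trans n)
    (b2.lemB le_sup_right (hK B b1 b6 b8).1 (natCast_ne_zero_of_dvd (card_dvd b1) hkA) b7
    (b1.trans hAQ) (cop_mono hS.cop le_sup_left b1) hr hqr hR2 hRr hRQ (b1.trans hAR)
    (cop_mono cR le_rfl b1) d (b5 _ (comm_le_of_le b2.le ((der_le R).trans hR2))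
    ((comm_mono a le_rfl).trans hR')))))

end CA.HS
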