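import Cfsg.Agent.Lib.Solv.HS4
import Cfsg.Agent.Lib.Solv.FpfRed
import Cfsg.Agent.Lib.Odd.BG4b

/-!
Iterated nilpotent residuals and reduction to faithful modules.
-/

set_option autoImplicit false
set_option linter.unusedSectionVars false
set_option linter.unusedVariables false
set_option linter.style.haveILetI false

universe u

namespace CA.HS
open Subgroup Cfsg CA.OQuo CA.BG CA.BGRep Module
open scoped commutatorElement

section
variable {G : Type*} [Group G] [Finite G] {D : Subgroup G} {k W : Type*} [Field k] [AddCommGroup W]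
  [Module k W] {ρ : Representation k D W} {A B C E H K L M N Q R S T V X Y Z : Subgroup G}
  {x y δ : G} {p q r n : ℕ} {G' : Type*} [Group G'] [Finite G']

/-- the nilpotent residual -/
def gam (H : Subgroup G) : Subgroup G := ⨅ n, H.lowerCentralSeries n

theorem gam_spec (H : Subgroup G) : ∃ n, ∀ m, n ≤ m → H.lowerCentralSeries m = gam H := by
  obtain ⟨n, h⟩ := WellFoundedLT.antitone_chain_condition H.lowerCentralSeries_antitone
  refine ⟨n, fun m hm => le_antisymm (le_iInf fun j => ?_) (iInf_le _ m)⟩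
  rw [← h m hm, h (max n j) (le_max_left _ _)]
  exact H.lowerCentralSeries_antitone (le_max_right _ _)

theorem gam_le_lcs (H : Subgroup G) (n : ℕ) : gam H ≤ H.lowerCentralSeries n := iInf_le _ n

theorem gam_mono (h : K ≤ H) : gam K ≤ gam H := iInf_mono fun n => lcs_mono h n

theorem norm_gam (H : Subgroup G) : 𝓝(H) ≤ 𝓝(gam H) := by
  obtain ⟨n, h⟩ := gam_spec H
  rw [← h n le_rfl]; exact norm_lcs H n

theorem mim_gam (f : D →* G') (hH : H ≤ D) : mim f (gam H) = gam (mim f H) := by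
  obtain ⟨n, h⟩ := gam_spec H
  obtain ⟨m, h'⟩ := gam_spec (mim f H)
  rw [← h _ (le_max_left n m), ← h' _ (le_max_right n m), mim_lcs f hH]

theorem gam_eq_bot_iff : gam H = ⊥ ↔ Group.IsNilpotent H := by
  obtain ⟨n, h⟩ := gam_spec H
  exact ⟨fun e => nil_iff_lcs.2 ⟨n, (h n le_rfl).trans e⟩, fun e =>
    let ⟨m, hm⟩ := nil_iff_lcs.1 e; BG.eq_bot_mono (gam_le_lcs H m) hm⟩

/-- the iterated nilpotent residual -/
def gi (H : Subgroup G) : ℕ → Subgroup G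
  | 0 => H
  | n + 1 => gam (gi H n)

theorem gi_anti (H : Subgroup G) : Antitone (gi H) :=
  antitone_nat_of_succ_le fun n => gam_le_lcs _ 0

theorem gi_le (H : Subgroup G) (n : ℕ) : gi H n ≤ H := gi_anti H (Nat.zero_le n)

theorem norm_gi (H : Subgroup G) : ∀ n, 𝓝(H) ≤ 𝓝(gi H n)
  | 0 => le_rfl
  | n + 1 => (norm_gi H n).trans (norm_gam _)

theorem mim_gi (f : D →* G') (hH : H ≤ D) : ∀ n, mim f (gi H n) = gi (mim f H) n
  | 0 => rfl
  | n + 1 => by rw [gi, mim_gam f ((gi_le H n).trans hH), mim_gi f hH n, gi]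

theorem gi_succ_of_nil (h : gi H n ≤ N) (hN : Group.IsNilpotent N) : gi H (n + 1) = ⊥ :=
  gam_eq_bot_iff.2 (nil_of_le hN h)

theorem gi_le_sup (h : S ⊔ C = H) (hn : H ≤ 𝓝(S)) (n : ℕ) : gi H n ≤ gi C n ⊔ S := by
  have a : C ≤ 𝓝(S) := (h ▸ le_sup_right : C ≤ H).trans hn
  rw [← quo_le_quo_iff' ((gi_le H n).trans hn) ((gi_le C n).trans a), mim_gi _ hn, mim_gi _ a, ← h,
    quo_self_sup a]

theorem chain_of (h : gi (⊤ : Subgroup G) n = ⊥) : ∃ F : Fin (n + 1) → Subgroup G, F 0 = ⊥ ∧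
    F (Fin.last n) = ⊤ ∧ Monotone F ∧ (∀ i, (F i).Normal) ∧
    ∀ i : Fin n, ∃ k : ℕ, (F i.succ).lowerCentralSeries k ≤ F i.castSucc := by
  refine ⟨fun i => gi ⊤ (n - i), h, by simp [gi], fun i j e => gi_anti _ (Nat.sub_le_sub_left e n),
    fun i => normalizer_eq_top_iff.1 (top_le_iff.1 (le_normalizer.trans (norm_gi _ _))), fun i => ?_⟩
  obtain ⟨m, hm⟩ := gam_spec (gi (⊤ : Subgroup G) (n - i.succ))
  refine ⟨m, (hm m le_rfl).le.trans ?_⟩
  show _ ≤ gi ⊤ (n - i.castSucc)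
  rw [show n - i.castSucc = n - i.succ + 1 by have := i.2; simp; omega]
  exact le_rfl

theorem exists_qrep (ρ : Representation k D W) (hN : rker ρ = N) :
    ∃ ρ' : Representation k (D /ᵍ N : Subgroup (QT N)) W, rker ρ' = ⊥ ∧
      ∀ L ≤ D, Fix ρ' (L /ᵍ N) = Fix ρ L := by
  subst hN
  have n := le_norm_rker ρ
  let φ := (mres (qh _) n).liftOfSurjective (mres_surjective _ n) ⟨MonoidHom.toHomUnits ρ,
    fun x hx => by
      rw [ker_mres, mker_qh] at hx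
      exact Units.ext ((rp_of_mem ρ x.2).symm.trans (mem_rker.1 hx).2)⟩
  have key : ∀ x ∈ D, rp ((Units.coeHom _).comp φ) (mel (qh (rker ρ)) x) = rp ρ x := fun x hx => by
    rw [rp_of_mem _ (mel_mem_mim _ hx), rp_of_mem _ hx, show (⟨_, mel_mem_mim _ hx⟩ :
      (D /ᵍ rker ρ : Subgroup _)) = mres (qh _) n ⟨x, hx⟩ from
      Subtype.ext (coe_mres _ n ⟨x, hx⟩).symm]
    exact congrArg Units.val (MonoidHom.liftOfRightInverse_comp_apply _ _ _ _ _)
  refine ⟨(Units.coeHom _).comp φ, eq_bot_iff.2 fun z hz => ?_, fun L hL => Submodule.ext fun w =>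
    ⟨fun h x hx => key x (hL hx) ▸ h _ (mel_mem_mim _ hx), fun h z hz => ?_⟩⟩
  · obtain ⟨x, hx, rfl⟩ := (mem_mim_of_le n).1 (rker_le _ hz)
    exact (qel_eq_one_iff (n hx)).2 (mem_rker.2 ⟨hx, key x hx ▸ (mem_rker.1 hz).2⟩)
  · obtain ⟨x, hx, rfl⟩ := (mem_mim_of_le (hL.trans n)).1 hz
    rw [key x (hL hx), h x hx]

/-- a faithful module in characteristic `l` without fixed points -/
structure Md (l : ℕ) (ρ : Representation k D W) (A H : Subgroup G) : Prop where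
  st : St A H
  le : H ≤ D
  leA : A ≤ D
  ker : rker ρ = ⊥
  fix : Fix ρ A = ⊥
  ch : ∀ n : ℕ, ¬ l ∣ n → (n : k) ≠ 0
  chA : (♯A : k) ≠ 0
  prime : l.Prime
  core : 𝓞({l}, H) = ⊥

theorem Md.chq {l : ℕ} (m : Md l ρ A H) (h : q ≠ l) (hQ : IsPi {q} Q) : (♯Q : k) ≠ 0 :=
  m.ch _ ((isPi_compl_iff m.prime).1 (hQ.ne h))

theorem Md.chc {l : ℕ} (m : Md l ρ A H) (q : ℕ) : (♯𝓞({q}, H) : k) ≠ 0 := by
  by_cases h : q = l
  · rw [h, m.core]; simp
  · exact m.chq h (core_pi _ _)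

theorem comm_le_of_syl (hn : A ≤ 𝓝(L)) (hc : (♯L).Coprime ♯A) (hs : Group.IsSolvable L) (hT : T ≤ A)
    (hAT : A ≤ 𝓝(T)) (hL : L ≤ 𝓝(N)) (hN : T ≤ 𝓝(N)) (h : ∀ r, r.Prime → r ∣ ♯L → ∀ R ≤ L,
      IsPi {r} R → A ≤ 𝓝(R) → ⁅R, T⁆ = R → R ≤ N) : ⁅L, T⁆ ≤ N := by
  refine comm_le_of_quo_cent hL hN ((quo_le_iff hL).2 (le_of_forall_syl fun r hr hd => ?_))
  obtain ⟨P, a, b⟩ := coprime_Sylow_exists hr hn hc (Or.inr hs)
  have c := comm_le_left (hT.trans b)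
  exact ⟨P, a, (quo_le_iff (a.le.trans hL)).1 (quo_cent_of_comm_le (a.le.trans hL) hN
    (h r hr hd _ (c.trans a.le) (a.pi.of_le c) (norm_comm b hAT) (cop_comm_comm (hT.trans b)
    (cop_mono hc a.le hT) (Or.inr (solv_of_le hs a.le)))))⟩

theorem comm_quo_le_core (hn : A ≤ 𝓝(H)) (hc : (♯H).Coprime ♯A) (hs : Group.IsSolvable H)
    (hT : T ≤ A) (hAT : A ≤ 𝓝(T)) (hH : H ≤ 𝓝(N)) (hN : T ≤ 𝓝(N)) (h : ∀ r, r.Prime → r ≠ q →
      ∀ R ≤ H, IsPi {r} R → A ≤ 𝓝(R) → ⁅R, T⁆ = R → R ≤ N) :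
    ⁅H, T⁆ /ᵍ N ≤ 𝓞({q}, H /ᵍ N) := by
  obtain ⟨L, a, b⟩ := coprime_Hall_exists {q}ᶜ hn hc hs
  rw [quo_comm hH hN]
  exact coprime_comm_pcore (norm_quo N (hT.trans hn)) (cop_mim (cop_mono hc le_rfl hT) _)
    (solv_quo N hs) (a.quo hH) (quo_cent_of_comm_le (a.le.trans hH) hN (comm_le_of_syl b
    (cop_mono hc a.le le_rfl) (solv_of_le hs a.le) hT hAT (a.le.trans hH) hN
    fun r hr hd R c => h r hr (a.pi r hr hd) R (c.trans a.le)))

theorem comm_le_fit (hn : A ≤ 𝓝(H)) (hc : (♯H).Coprime ♯A) (hs : Group.IsSolvable H)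
    (hT : T ≤ A) (hAT : A ≤ 𝓝(T)) (h : ∀ q r, q.Prime → r.Prime → r ≠ q →
      ∀ R ≤ H, IsPi {r} R → A ≤ 𝓝(R) → ⁅R, T⁆ = R → R ≤ 𝓒(𝓞({q}, H))) : ⁅H, T⁆ ≤ 𝓕(H) := by
  have a := comm_le_left (hT.trans hn)
  refine chief_stab_sub_Fitting hs a (le_norm_comm_left _ _) fun V U h1 hU => ?_
  obtain ⟨q, hq, h2⟩ := BG4.chief_le_core_sup h1 hU
  have b := norm_cent (le_norm_core {q} H)
  refine BG4.cent_chief_of hq (core_le _ _) (le_norm_core _ _) (core_pi _ _) a (le_norm_comm_left _ _)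
    ?_ h1 h2
  rw [← card_quo (a.trans b)]
  exact (core_pi _ _).of_le (comm_quo_le_core hn hc hs hT hAT b
    (norm_cent (norm_core _ (hT.trans hn))) fun r hr => h q r hq hr)

theorem x1_grp (hT : CT p A T) (hS : St A V) (hr : r.Prime) (hne : ∀ e, ¬ r ^ (e + 1) + 1 ∣ ♯A)
    (hR : IsPi {r} R) (hRV : R ≤ 𝓝(V)) (hc : (♯V).Coprime ♯R) (hn : A ≤ 𝓝(R))
    (hcR : (♯R).Coprime ♯A) : ⁅R, T⁆ ≤ 𝓒(V) := by
  have a := comm_le_left (hT.le.trans hn)
  refine cent_of_sections (X := R ⊔ A) hS.solv (sup_le hRV hS.norm) (a.trans le_sup_left)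
    (cop_mono hc le_rfl a) fun N U l hl h2 h3 h4 h5 h6 h7 h8 => ?_
  haveI := Fact.mk hl
  have b := le_sup_right.trans h4
  have c := (hS.mono h3 (le_sup_right.trans h5)).quo b h6
  rw [quo_comm (le_sup_left.trans h4) (hT.le.trans b), ← rker_krep (hV := h7)]
  exact x1 (hT.mim _) c.norm (cast_ne_zero_Fb (not_dvd_card_mim _ (not_dvd_of_coprime hl hS.cop h8)))
    (Fix_krep_eq_bot c.norm c.fpf) hr (fun e h => hne e (h.trans (card_mim_dvd _ _)))
    (norm_quo N (le_sup_left.trans h5)) (hR.mim _)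
    (cast_ne_zero_Fb (not_dvd_card_mim _ (not_dvd_of_coprime hl hc h8))) (norm_quo N hn)
    (cop_mim hcR _)

theorem exists_ct (hp : p.Prime) (hA : IsCyclic A) (h : ♯A ∣ p ^ (n + 1)) :
    ∃ T, CT p A T ∧ ♯(A /ᵍ T) ∣ p ^ n := by
  have a : IsPi {p} A := (piNat_pow hp _).of_dvd h
  by_cases hb : A = ⊥
  · exact ⟨⊥, ⟨hA, a, bot_le, by simp⟩, by rw [hb, mim_bot]; simp⟩
  obtain ⟨T, b, c⟩ := exists_card_eq_prime hp (a.dvd_card hb)
  refine ⟨T, ⟨hA, a, b, c.dvd⟩, Nat.dvd_of_mul_dvd_mul_right hp.pos ?_⟩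
  rwa [← pow_succ, ← c, card_quo_mul (norm_of_comm (comm_of_cyclic hA) b) b, c]

theorem St.gi_cent (h : St A H) (hT : CT p A T) (h1 : ∀ K, St (A /ᵍ T) K → gi K n = ⊥) :
    gi (H ⊓ 𝓒(T)) n = ⊥ := by
  have a : H ⊓ 𝓒(T) ≤ 𝓝(T) := norm_of_cent inf_le_right
  have := h1 _ ((h.mono inf_le_left (norm_inf h.norm (norm_cent hT.norm))).quo hT.norm a)
  rw [← mim_gi _ a, quo_eq_bot_iff ((gi_le _ n).trans a)] at this
  exact BG.eq_bot_mono (le_inf ((gi_le _ n).trans inf_le_left) this)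
    (inf_eq_bot_of_cop (cop_mono h.cop le_rfl hT.le))

variable [IsAlgClosed k] [FiniteDimensional k W] {l : ℕ}

theorem Md.nil (m : Md l ρ A H) (hK : KP A) : Group.IsNilpotent H := by
  refine nil_of_le (fit_nil H) (m.st.comm.ge.trans (comm_le_fit m.st.norm m.st.cop m.st.solv le_rfl
    le_normalizer fun q r hq hr h R a b c _ => cent_symm (comm_eq_bot_iff.1 (eq_bot_iff.2 ?_))))
  have d := norm_core {q} m.st.norm
  exact m.ker ▸ thmY hK (m.st.mono (sup_le (core_le _ _) a) (norm_sup d c)) m.leA m.chA m.fix hq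
    ((core_le _ _).trans m.le) (core_pi _ _) (m.chc q) d hr h.symm (a.trans m.le) b c
    (a.trans (le_norm_core _ _))

theorem Md.two (m : Md l ρ A H) (hT : CT 2 A T) : ⁅H, T⁆ ≤ 𝓕(H) := by
  refine comm_le_fit m.st.norm m.st.cop m.st.solv hT.le hT.norm
    fun q r hq hr h R a b c e => cent_symm (comm_eq_bot_iff.1 (eq_bot_iff.2 ?_))
  exact m.ker ▸ x3 hT m.leA m.chA m.fix hq ((core_le _ _).trans m.le) (core_pi _ _) (m.chc q)
    (norm_core {q} m.st.norm) (cop_mono m.st.cop (core_le _ _) le_rfl) hr h.symm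
    (a.trans m.le) b (a.trans (le_norm_core _ _)) c (cop_mono m.st.cop a le_rfl) e

theorem Md.odd (m : Md l ρ A H) (hp : p.Prime) (hp2 : p ≠ 2) (hT : CT p A T) :
    ⁅H, T⁆ ≤ 𝓞({2}, H) := by
  have b : ∀ X : Subgroup G, X ≤ 𝓝((⊥ : Subgroup G)) := BG4.le_norm_bot
  obtain ⟨L, a, c⟩ := coprime_Hall_exists {2}ᶜ m.st.norm m.st.cop m.st.solv
  refine coprime_comm_pcore (hT.le.trans m.st.norm) (cop_mono m.st.cop le_rfl hT.le) m.st.solv a
    (comm_eq_bot_iff.1 (eq_bot_iff.2 (comm_le_of_syl c (cop_mono m.st.cop a.le le_rfl)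
    (solv_of_le m.st.solv a.le) hT.le hT.norm (b _) (b _) fun r hr hd R d e f g => ?_)))
  have hne : ∀ e, ¬ r ^ (e + 1) + 1 ∣ ♯A := fun e h => hp2 (hT.pi 2 Nat.prime_two (Dvd.dvd.trans
    (even_iff_two_dvd.1 ((hr.odd_of_ne_two (a.pi r hr hd)).pow.add_one)) h)).symm
  have i := d.trans a.le
  have j := cop_mono m.st.cop i le_rfl
  by_cases h : r = l
  · subst h
    rw [← m.core]
    refine e.le_core_of_le_fit ((le_inf i (cent_symm (fit_le_of_core fun q hq _ => ?_))).trans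
      (cent_fit_le m.st.solv))
    by_cases h : q = r
    · rw [h, m.core]; exact bot_le
    exact cent_symm (g ▸ x1_grp hT (m.st.mono (core_le _ _) (norm_core _ m.st.norm)) hr
      hne e (i.trans (le_norm_core _ _)) ((core_pi _ _).coprime_ne e h) f j)
  exact g.ge.trans (m.ker ▸ x1 hT m.leA m.chA m.fix hr hne (i.trans m.le) e (m.chq h e) f j)

theorem Md.odd_step (m : Md l ρ A H) (hp : p.Prime) (hp2 : p ≠ 2) (hT : CT p A T)
    (h : gi (H ⊓ 𝓒(T)) (n + 1) = ⊥) : gi H (n + 1) = ⊥ := by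
  by_cases hb : A = ⊥
  · exact BG.eq_bot_mono ((gi_le _ _).trans m.st.comm.ge) (by simp [hb])
  have a := (cop_le_sup_cent (hT.le.trans m.st.norm) (cop_mono m.st.cop le_rfl hT.le)
    (Or.inr m.st.solv) (m.odd hp hp2 hT)).antisymm' (sup_le (core_le _ _) inf_le_left)
  have b := gam_eq_bot_iff.1 h
  obtain ⟨Y, hY⟩ : ∃ Y, Y = gi (H ⊓ 𝓒(T)) n := ⟨_, rfl⟩
  have c : Y ≤ H ⊓ 𝓒(T) := hY ▸ gi_le _ n
  have nY : 𝓝(H ⊓ 𝓒(T)) ≤ 𝓝(Y) := hY ▸ norm_gi _ n
  rw [← hY] at b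
  have d : Y ≤ 𝓝(𝓞({2}, H)) := (c.trans inf_le_left).trans (le_norm_core _ _)
  have e : Y ⊔ 𝓞({2}, H) ≤ 𝓝(𝓞({2}, H)) := sup_le d le_normalizer
  refine gi_succ_of_nil (hY ▸ gi_le_sup a (le_norm_core _ _) n) (nil_of_le (fit_nil (Y ⊔ 𝓞({2}, H)))
    (sup_le ((fit_eq_self b).ge.trans (fit_le_of_core fun r hr hd => ?_)) (le_fit
    ((core_pi _ _).isNilpotent Nat.prime_two) le_sup_right e)))
  have f := core_le {r} Y
  by_cases h2 : r = 2
  · subst h2
    exact le_sup_of_le_left le_rfl |>.trans (le_fit (((core_pi _ _).sup (core_pi _ _)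
      (f.trans d)).isNilpotent hr) (sup_le_sup_right f _) (sup_le (norm_sup (le_norm_core _ _) d)
      (le_norm_of_le le_sup_right)))
  refine le_fit ((core_pi _ _).isNilpotent hr) (le_sup_of_le_left f) (sup_le (le_norm_core _ _)
    (norm_of_cent (comm_eq_bot_iff.1 (eq_bot_iff.2 ?_))))
  have g := (f.trans c).trans inf_le_left
  refine m.ker ▸ x2 hp hp2 hT m.leA m.chA m.fix ((core_le _ _).trans m.le) (core_pi _ _) (m.chc 2)
    (norm_core _ m.st.norm) hr h2 ?_ (g.trans m.le) (core_pi _ _) (f.trans d)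
    (norm_core _ ((norm_inf m.st.norm (norm_cent hT.norm)).trans nY))
    ((f.trans c).trans inf_le_right) (le_of_eq_of_le (comm_eq_bot_iff.2 (cent_of_norm_disjoint
    (norm_core _ ((le_norm_of_le (inf_le_inf_right _ (core_le _ _))).trans nY))
    (norm_inf (f.trans d) (norm_cent (norm_of_cent ((f.trans c).trans inf_le_right))))
    (inf_eq_bot_of_cop (((core_pi _ _).inf_left _).coprime_ne (core_pi _ _) (Ne.symm h2))))) bot_le)
  rintro rfl
  exact not_dvd_of_coprime hr m.st.cop (hd.trans (card_dvd ((fit_le _).trans (c.trans inf_le_left))))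
    (hT.pi.dvd_card hb)

end

/-- Reduction to faithful modules. -/
theorem reduce {P : ∀ {Γ : Type u} [Group Γ], Subgroup Γ → Subgroup Γ → Subgroup Γ → Prop}
    (hP : ∀ {Γ : Type u} [Group Γ] [Finite Γ] (A H L N : Subgroup Γ), A ≤ 𝓝(N) → H ≤ 𝓝(N) →
      P A H L → P (A /ᵍ N) (H /ᵍ N) (L /ᵍ N))
    (hmod : ∀ {Γ : Type u} [Group Γ] [Finite Γ] (A H L D : Subgroup Γ) (l : ℕ) [Fact l.Prime]
      (W : Type u) [AddCommGroup W] [Module (Fb l) W] [FiniteDimensional (Fb l) W]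
      (ρ : Representation (Fb l) D W), Md l ρ A H → P A H L → L = ⊥)
    {G : Type u} [Group G] [Finite G] {A H L : Subgroup G} (h : St A H) (hL : L ≤ H)
    (hn : 𝓝(H) ≤ 𝓝(L)) (hp : P A H L) : L ≤ 𝓕(H) := by
  have n0 : H ⊔ A ≤ 𝓝(H) := sup_le le_normalizer h.norm
  refine chief_stab_sub_Fitting' h.solv le_sup_left n0 hL (n0.trans hn) fun V U c hU => ?_
  have hH := le_sup_left.trans c.2.2.2.1
  have hA := le_sup_right.trans c.2.2.2.1
  have hUH := hU.trans (fit_le H)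
  have hm := c.minnormal_quo
  obtain ⟨l, hl, hW⟩ := hm.elem (solv_quo V (solv_of_le h.solv hUH))
  haveI := Fact.mk hl
  rw [quo_sup hH hA] at hm
  have h1 := h.quo hA hH
  have a := le_sup_left.trans hm.2.1
  have b := le_sup_right.trans hm.2.1
  obtain ⟨ρ, r1, r2⟩ := exists_qrep (krep hW) rker_krep
  refine comm_le_of_quo_cent (hL.trans hH) (hUH.trans hH) ((quo_eq_bot_iff
    ((quo_mono V hL).trans (norm_cent a))).1 (hmod _ _ _ _ l _ ρ ⟨h1.quo (norm_cent b) (norm_cent a),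
    quo_mono _ a, quo_mono _ b, r1, by
      rw [r2 _ b, Fix_krep_eq_bot b (h1.mono (quo_mono V hUH) b).fpf], fun n => cast_ne_zero_Fb,
    cast_ne_zero_Fb (not_dvd_card_mim _ (not_dvd_of_coprime hl h1.cop
      (((isPi_of_elem hl hW).dvd_card hm.1).trans (card_dvd (quo_mono V hUH))))), hl,
    hm.core_quo_cent hl (isPi_of_elem hl hW) le_sup_left (sup_le le_normalizer h1.norm)⟩
    (hP _ _ _ _ (norm_cent b) (norm_cent a) (hP _ _ _ _ hA hH hp))))

theorem reduce_gi {P : ∀ {Γ : Type u} [Group Γ], Subgroup Γ → Prop} {n : ℕ}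
    (hP : ∀ {Γ : Type u} [Group Γ] [Finite Γ] (A N : Subgroup Γ), P A → P (A /ᵍ N))
    (hmod : ∀ {Γ : Type u} [Group Γ] [Finite Γ] (A H D : Subgroup Γ) (l : ℕ) [Fact l.Prime]
      (W : Type u) [AddCommGroup W] [Module (Fb l) W] [FiniteDimensional (Fb l) W]
      (ρ : Representation (Fb l) D W), Md l ρ A H → P A → gi H n = ⊥)
    {G : Type u} [Group G] [Finite G] {A H : Subgroup G} (h : St A H) (hp : P A) :
    gi H (n + 1) = ⊥ :=
  gi_succ_of_nil (reduce (P := fun A H L => P A ∧ L = gi H n)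
    (fun A H L N _ b c => ⟨hP A N c.1, by rw [c.2, mim_gi _ b]⟩)
    (fun A H L D l _ W _ _ _ ρ m c => c.2.trans (hmod A H D l W ρ m c.1)) h (gi_le H n)
    (norm_gi H n) ⟨hp, rfl⟩) (fit_nil H)

theorem ward {p q : ℕ} (hp : p.Prime) (hq : q.Prime) {G : Type u} [Group G] [Finite G]
    {A H : Subgroup G} (h : St A H) (h1 : ♯A ∣ p * q) (h2 : p ≠ q ∨ ∀ x ∈ A, x ^ p = 1) :
    gi H 2 = ⊥ :=
  reduce_gi (n := 1) (P := fun A => ♯A ∣ p * q ∧ (p ≠ q ∨ ∀ x ∈ A, x ^ p = 1))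
    (fun A N c => ⟨(card_mim_dvd _ _).trans c.1, c.2.imp_right (pow_eq_one_mim _)⟩)
    (fun A H D l _ W _ _ _ ρ m c => gam_eq_bot_iff.2 (m.nil (kp_of hp hq c.1 c.2))) h ⟨h1, h2⟩

theorem shult {p : ℕ} (hp : p.Prime) (hp2 : p ≠ 2) : ∀ (n : ℕ) {G : Type u} [Group G] [Finite G]
    {A H : Subgroup G}, St A H → IsCyclic A → ♯A ∣ p ^ n → gi H n = ⊥
  | 0 => fun h _ a => h.comm.symm.trans (by simp [card_eq_one.1 (Nat.dvd_one.1 a)])
  | 1 => fun h _ a => by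
    rcases (Nat.dvd_prime hp).1 (pow_one p ▸ a) with b | b
    · exact BG.eq_bot_mono ((gi_le _ _).trans h.comm.ge) (by simp [card_eq_one.1 b])
    · exact gam_eq_bot_iff.2 (prime_Frobenius_sol_kernel_nil h.solv h.norm (b ▸ hp) h.fpf)
  | n + 2 => fun h a b => reduce_gi (P := fun A => IsCyclic A ∧ ♯A ∣ p ^ (n + 2))
      (fun A N c => ⟨isCyclic_mim _ c.1, (card_mim_dvd _ _).trans c.2⟩)
      (fun A H D l _ W _ _ _ ρ m c => by
        obtain ⟨T, d, e⟩ := exists_ct hp c.1 c.2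
        exact m.odd_step hp hp2 d (m.st.gi_cent d fun K f =>
          shult hp hp2 (n + 1) f (isCyclic_mim _ c.1) e)) h ⟨a, b⟩

theorem gross (h4 : ∀ {G : Type u} [Group G] [Finite G] {A H : Subgroup G}, St A H → IsCyclic A →
    ♯A ∣ 2 ^ 2 → gi H 2 = ⊥) : ∀ (n : ℕ) {G : Type u} [Group G] [Finite G]
    {A H : Subgroup G}, St A H → IsCyclic A → ♯A ∣ 2 ^ (n + 2) → gi H (2 * n + 2) = ⊥
  | 0 => h4
  | n + 1 => fun h a b => reduce_gi (P := fun A => IsCyclic A ∧ ♯A ∣ 2 ^ (n + 3)) (n := 2 * n + 3)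
      (fun A N c => ⟨isCyclic_mim _ c.1, (card_mim_dvd _ _).trans c.2⟩)
      (fun A H D l _ W _ _ _ ρ m c => by
        obtain ⟨T, d, e⟩ := exists_ct Nat.prime_two c.1 c.2
        have := gi_le_sup (cop_comm_sup_cent (d.le.trans m.st.norm) (cop_mono m.st.cop le_rfl d.le)
          (Or.inr m.st.solv)) (le_norm_comm_left _ _) (2 * n + 2)
        rw [m.st.gi_cent d fun K f => gross h4 n f (isCyclic_mim _ c.1) e, bot_sup_eq] at this
        exact gi_succ_of_nil (this.trans (m.two d)) (fit_nil H)) h ⟨a, b⟩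

section action
variable {A G : Type*} [Group A] [Finite A] [Group G] [Finite G] [MulDistribMulAction A G]

theorem st_sd (hs : Group.IsSolvable G) (hc : (Nat.card A).Coprime (Nat.card G))
    (hf : ∀ g : G, (∀ a : A, a • g = g) → g = 1) :
    St (SemidirectProduct.inr : A →* G ⋊[MulDistribMulAction.toMulAut A G] A).range
      SemidirectProduct.inl.range := by
  have h := CA.FpfRed.setup_sd hs hc hf
  haveI := h.normal
  exact ⟨le_normalizer_of_normal, h.solv, (h.cop_of le_rfl le_rfl).symm, eq_bot_iff.2 fun x hx =>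
    h.fpf x hx.1 fun a => hx.2 _ ⟨a, rfl⟩⟩

end action

theorem eq_bot_of_gi_range {G G' : Type*} [Group G] [Finite G] [Group G'] [Finite G'] {f : G →* G'}
    (hf : Function.Injective f) {n : ℕ} (h : gi f.range n = ⊥) : gi (⊤ : Subgroup G) n = ⊥ := by
  rwa [MonoidHom.range_eq_map, ← mim_top_comp, ← mim_gi _ le_rfl, mim_top_comp,
    map_eq_bot_iff_of_injective _ hf] at h

end CA.HS
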