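import Cfsg.Agent.Lib.Solv.SS2
import Cfsg.Agent.Lib.Grp.Fus3

/-!
Subgroups which are strongly closed in their normalizers.
-/

set_option autoImplicit false
set_option linter.unusedSectionVars false
set_option linter.unusedVariables false
set_option linter.style.haveILetI false

namespace CA.HSub
open Subgroup Cfsg CA.BG CA.OQuo
open scoped commutatorElement

variable {G : Type*} [Group G] [Finite G] {p d : ℕ} {A D E H K L M N P Q T : Subgroup G} {x g : G}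

theorem le_Phi (hp : p.Prime) (hE : IsPi {p} E) (hA : A ≤ E)
    (h : ∀ M ≤ E, M.relIndex E = p → A ≤ M) : A ≤ Phi E := by
  haveI := Fact.mk hp
  rw [← map_subgroupOf_eq_of_le hA]
  refine map_mono (PGFrattini.le_frattini fun M hM => ?_)
  rw [← comap_map_eq_self_of_injective E.subtype_injective M]
  refine comap_mono (h _ (map_subtype_le M) ?_)
  rw [relIndex, subgroupOf, comap_map_eq_self_of_injective E.subtype_injective]
  exact (PGBasic.isCoatom_iff_index_eq (hE.isPGroup hp)).1 hM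

/-- `T` acts trivially on the `K`-invariant sections of order `p` of `Q`. -/
def Triv (p : ℕ) (K Q T : Subgroup G) : Prop := ∀ V U : Subgroup G, V ≤ U → U ≤ Q → K ≤ 𝓝(V) →
  K ≤ 𝓝(U) → V.relIndex U = p → ⁅U, T⁆ ≤ V

theorem triv_of_cop (hp : p.Prime) (hQ : IsPi {p} Q) (h : (♯K).Coprime (p - 1)) : Triv p K Q K :=
  fun V U a b c d e => comm_le_of_prime_cop (BG4.norm_of_relIndex hp (hQ.of_le b) a e) d c (e ▸ hp)
    (e ▸ h)

theorem Triv.cent (h : Triv p K Q T) (hp : p.Prime) (hQ : IsPi {p} Q) (hT : T ≤ K) (hT' : IsPi {p}ᶜ T)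
    (hE : E ≤ Q) (h1 : K ≤ 𝓝(E)) (h2 : ∀ M ≤ E, M.relIndex E = p → K ≤ 𝓝(M)) : T ≤ 𝓒(E) :=
  coprime_cent_Phi (hT.trans h1) ((hQ.of_le hE).coprime hT') (le_Phi hp (hQ.of_le hE)
    (comm_le_left (hT.trans h1)) fun M a b => h M E a hE (h2 M a b) h1 b)

theorem Triv.cent_cyc (h : Triv p K Q T) (hp : p.Prime) (hQ : IsPi {p} Q) (hT : T ≤ K)
    (hT' : IsPi {p}ᶜ T) (hE : E ≤ Q) (h1 : K ≤ 𝓝(E)) (hc : IsCyclic E) : T ≤ 𝓒(E) :=
  h.cent hp hQ hT hT' hE h1 fun M a _ => h1.trans (norm_le_norm_of_cyc hc a)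

theorem exists_mul (hp : p.Prime) (hQ : IsPi {p} Q) (hD : D ≤ Q) (h2 : ♯D < ♯Q) (hA : A ≤ Q)
    (h3 : ♯A ≤ ♯D) : ∃ E, A < E ∧ E ≤ Q ∧ ∀ M ≤ E, M.relIndex E = p → ♯M = ♯D := by
  obtain ⟨i, hi⟩ := (hQ.of_le hA).exists_card hp
  obtain ⟨j, hj⟩ := (hQ.of_le hD).exists_card hp
  obtain ⟨k, hk⟩ := hQ.exists_card hp
  rw [hi, hj, Nat.pow_le_pow_iff_right hp.one_lt] at h3
  rw [hj, hk, Nat.pow_lt_pow_iff_right hp.one_lt] at h2
  obtain ⟨E, a, b, c⟩ := exists_card_between hp hQ hA hi (h3.trans j.le_succ)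
    (hk ▸ Nat.pow_le_pow_right hp.pos h2)
  exact ⟨E, a.lt_of_ne fun e => absurd (Nat.pow_right_injective hp.two_le (hi.symm.trans (e ▸ c)))
    (by omega), b, fun M e f => Nat.eq_of_mul_eq_mul_right hp.pos (by
    rw [hj, ← pow_succ, ← c, ← card_mul_relIndex e, f])⟩

theorem Triv.cent_of_card (h : Triv p K Q T) (hp : p.Prime) (hQ : IsPi {p} Q) (hT : T ≤ K)
    (hT' : IsPi {p}ᶜ T) (hn : K ≤ 𝓝(Q)) (hD : D ≤ Q) (h1 : 1 < ♯D) (h2 : ♯D < ♯Q)
    (h3 : ∀ E ≤ Q, ♯E = ♯D ∨ ♯D = 2 ∧ ♯E = 4 → K ≤ 𝓝(E)) : T ≤ 𝓒(Q) := fun g hg => by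
  haveI := Fact.mk hp
  by_contra hc
  obtain ⟨E, a, -, b, c⟩ := Fus3.exists_small_subgroup (hQ.isPGroup hp) (hn (hT hg)) hc
    ((piNat_compl_iff_coprime hp).1 (hT'.orderOf hg))
  obtain ⟨x, hx, h4⟩ := SetLike.not_le_iff_exists.1 fun e => b (le_cent1_iff.1 e)
  have h5 := zpowers_le.2 (a hx)
  have h6 : ∀ F, zpowers x ≤ F → ¬ T ≤ 𝓒(F) := fun F e f =>
    h4 (mem_cent1_symm.1 (cent_le_cent1 (e (mem_zpowers x)) (f hg)))
  by_cases h7 : ♯(zpowers x) ≤ ♯D
  · obtain ⟨F, e, f, i⟩ := exists_mul hp hQ hD h2 h5 h7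
    have h8 : ∀ M ≤ F, M.relIndex F = p → K ≤ 𝓝(M) := fun M j k =>
      h3 M (j.trans f) (Or.inl (i M j k))
    by_cases h9 : IsCyclic F
    · obtain ⟨M, j, k, l, -⟩ := BG4.exists_below hp (hQ.of_le f) e
      exact h6 M j (h.cent_cyc hp hQ hT hT' (k.trans f) (h8 M k l) (cyc_of_le h9 k))
    · refine h6 F e.le (h.cent hp hQ hT hT' f (fun k hk => mem_norm_of_cj_le ?_) h8)
      rintro _ ⟨y, hy, rfl⟩
      obtain ⟨M, j, k, l, -⟩ := BG4.exists_below hp (hQ.of_le f) (lt_of_le_of_ne (zpowers_le.2 hy)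
        fun e => h9 (e ▸ cyc_zpowers y))
      exact k (conj_mem_of_norm (h8 M k l) hk (j (mem_zpowers y)))
  · have h8 := Nat.le_of_dvd (card_pos' D) ((hQ.of_le hD).dvd_card ((one_lt_card_iff_ne_bot D).1 h1))
    rw [Nat.card_zpowers] at h7
    obtain h9 | ⟨rfl, h9⟩ := c x hx
    · exact h7 ((orderOf_le_of_pow_eq_one hp.pos h9).trans h8)
    have h10 := orderOf_dvd_of_pow_eq_one h9
    have h11 := Nat.le_of_dvd (by decide) h10
    obtain ⟨j, hj⟩ := (hQ.of_le hD).exists_card hp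
    have h12 : orderOf x = 4 := by
      have : 3 ≤ orderOf x := by omega
      interval_cases orderOf x <;> simp_all
    refine h6 _ le_rfl (h.cent_cyc hp hQ hT hT' h5 (h3 _ h5 (Or.inr ⟨?_, ?_⟩)) (cyc_zpowers x))
    · have : ♯D ≠ 3 := fun e => absurd ((hQ.of_le hD) 3 Nat.prime_three e.symm.dvd) (by decide)
      omega
    · rw [Nat.card_zpowers, h12]

/-- `E` is strongly closed in its normalizer. -/
def HS (E : Subgroup G) : Prop := ∀ g, cj g E ⊓ 𝓝(E) ≤ E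

theorem HS.norm (h : HS E) (hQ : Group.IsNilpotent Q) (hE : E ≤ Q) : 𝓝(Q) ≤ 𝓝(E) := by
  have h1 : Q ≤ 𝓝(E) := by_contra fun h1 => by
    obtain ⟨y, a, b⟩ := SetLike.exists_of_lt (lt_norm_of_nilpotent hQ
      (inf_lt_left.2 h1 : Q ⊓ 𝓝(E) < Q))
    exact b ⟨a.1, mem_norm_of_cj_le ((le_inf le_rfl (((cj_mono y (le_inf hE le_normalizer)).trans
      (cj_of_mem_norm a.2).le).trans inf_le_right)).trans (h y))⟩
  exact fun g hg => mem_norm_of_cj_le ((le_inf le_rfl (((cj_mono g hE).trans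
    (cj_of_mem_norm hg).le).trans h1)).trans (h g))

theorem HS.of_map {E : Subgroup H} (h : HS (E.map H.subtype)) : HS E := fun g x hx => by
  obtain ⟨⟨y, hy, rfl⟩, h2⟩ := hx
  exact (mem_map_iff_mem H.subtype_injective).1 (h g ⟨⟨y, ⟨y, hy, rfl⟩, rfl⟩,
    le_normalizer_map _ ⟨_, h2, rfl⟩⟩)

/-- The hypothesis on a Sylow subgroup. -/
def Hyp (P : Subgroup G) : Prop := IsCyclic P ∨ ∃ D ≤ P, 1 < ♯D ∧ ♯D < ♯P ∧
  ∀ E ≤ P, ♯E = ♯D ∨ ♯D = 2 ∧ ♯E = 4 → HS E

theorem npc [hp : Fact p.Prime] (hmin : ∀ q, q.Prime → q ∣ Nat.card G → p ≤ q) (P : Sylow p G)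
    (h : Hyp (P : Subgroup G)) : HasNormalPComplement p G := by
  have hP := isPi_of_isPGroup hp.out P.isPGroup'
  refine NPC2.hasNPC_of_inf_le_frattini P (Hyperfocal.pResidual_inf_le P (le_norm_Phi _)
    fun Q hQ _ _ _ n hn hc x hx => ?_)
  have h1 : IsPi {p}ᶜ (zpowers n) := isPi_zpowers.2 ((piNat_compl_iff_coprime hp.out).2 hc)
  have h2 : (♯(zpowers n)).Coprime (p - 1) := Nat.coprime_of_dvd fun r a b c => by
    have := hmin r a (b.trans (card_subgroup_dvd_card _))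
    have := Nat.le_of_dvd (Nat.sub_pos_of_lt hp.out.one_lt) c
    have := hp.out.pos
    omega
  have h3 := zpowers_le.2 hn
  have h4 := triv_of_cop hp.out (hP.of_le hQ) h2
  have h5 : zpowers n ≤ 𝓒(Q) → x⁻¹ * (n * x * n⁻¹) ∈ Phi (P : Subgroup G) := fun a => by
    rw [← a (mem_zpowers n) x hx]; simp
  obtain h | ⟨D, a, b, c, d⟩ := h
  · exact h5 (h4.cent_cyc hp.out (hP.of_le hQ) le_rfl h1 le_rfl h3 (cyc_of_le h hQ))
  by_cases h6 : ♯Q ≤ ♯D
  · obtain ⟨E, e, f, i⟩ := exists_mul hp.out hP a c hQ h6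
    refine Phi_mono hp.out hP f (le_Phi hp.out (hP.of_le f) ((comm_le_left h3).trans e.le)
      (fun M j k => ?_) (Hyperfocal.inv_mul_conj_mem_commutator hx (mem_zpowers n)))
    have h7 := BG4.norm_of_relIndex hp.out (hP.of_le f) j k
    obtain l | l := (Nat.dvd_prime hp.out).1 (k ▸ relIndex_dvd_of_norm h7 e.le)
    · exact (comm_le_left h3).trans (relIndex_eq_one.1 l)
    refine (h4 (M ⊓ Q) Q inf_le_right le_rfl (zpowers_le.2 (mem_norm_of_cj_le ?_)) h3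
      (by rwa [inf_relIndex_right])).trans inf_le_left
    rw [cj_inf, cj_of_mem_norm hn]
    exact le_inf ((inf_le_inf_left _ (e.le.trans h7)).trans (d M (j.trans f) (Or.inl (i M j k)) n))
      inf_le_right
  · obtain ⟨j, hj⟩ := (hP.of_le a).exists_card hp.out
    obtain ⟨D', e, f⟩ := exists_card_pow hp.out (hP.of_le hQ) (hj ▸ (not_le.1 h6).le)
    rw [← hj] at f
    exact h5 (h4.cent_of_card hp.out (hP.of_le hQ) le_rfl h1 h3 e (f ▸ b) (f ▸ not_le.1 h6)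
      fun E i k => h3.trans ((d E (i.trans hQ) (f ▸ k)).norm ((hP.of_le hQ).isNilpotent hp.out) i))

theorem hasPC (hp : p.Prime) (hmin : ∀ q, q.Prime → q ∣ ♯H → p ≤ q) (hP : Syl p P H) (h : Hyp P) :
    HasPC p H := by
  haveI := Fact.mk hp
  obtain ⟨S, rfl⟩ := hP.exists_sylow hp
  have h0 : ∀ K : Subgroup H, ♯(K.map H.subtype) = ♯K := fun K =>
    card_map_of_injective H.subtype_injective
  refine (hasPC_iff hp).2 (npc hmin S (h.imp (fun a => (MulEquiv.isCyclic (equivMapOfInjective _ _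
    H.subtype_injective)).2 a) ?_))
  rintro ⟨D, a, b, c, d⟩
  obtain ⟨D, rfl⟩ : ∃ D' : Subgroup H, D'.map H.subtype = D :=
    ⟨_, map_subgroupOf_eq_of_le (a.trans hP.le)⟩
  simp only [h0] at b c d
  exact ⟨D, (map_le_map_iff_of_injective H.subtype_injective).1 a, b, c,
    fun E e f => HS.of_map (d _ (map_mono e) (by rwa [h0]))⟩

theorem ch_of_triv (hp : p.Prime) (hP : IsPi {p} P) (hK : P ≤ K) (hn : K ≤ 𝓝(P))
    (h : ∀ T ≤ K, IsPi {p}ᶜ T → Triv p K P T → T ≤ 𝓒(P)) : Ch K P := by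
  let T : Subgroup G :=
    { carrier := {g | g ∈ K ∧ Triv p K P (zpowers g)}
      one_mem' := ⟨one_mem _, fun V U _ _ _ _ _ => by simp⟩
      mul_mem' := fun {a b} c d => ⟨mul_mem c.1 d.1, fun V U e f i j k => by
        rw [comm_symm]
        refine (comm_mono (zpowers_le.2 (mul_mem_sup (mem_zpowers a) (mem_zpowers b))) le_rfl).trans
          (comm_sup_le_of_norm (zpowers_le.2 (i c.1)) (zpowers_le.2 (i d.1))
            (BG4.norm_of_relIndex hp (hP.of_le f) e k) ?_ ?_) <;> rw [comm_symm]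
        exacts [c.2 V U e f i j k, d.2 V U e f i j k]⟩
      inv_mem' := fun {a} c => ⟨inv_mem c.1, zpowers_inv (g := a) ▸ c.2⟩ }
  have h1 : K ≤ 𝓝(T) := fun k hk => mem_norm_of_cj_le (by
    rintro _ ⟨g, hg, rfl⟩
    refine ⟨conj_mem_of_norm le_normalizer hk hg.1, fun V U e f i j l => ?_⟩
    change ⁅U, zpowers (k * g * k⁻¹)⁆ ≤ V
    rw [← cj_zpowers, ← cj_of_mem_norm (j hk), ← cj_comm, ← cj_of_mem_norm (i hk)]
    exact cj_mono k (hg.2 V U e f i j l))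
  have hT : T ≤ K := fun _ a => a.1
  obtain ⟨S, hS⟩ := syl_exists hp T
  have h2 : T ≤ S ⊔ 𝓒(P) := le_of_forall_syl fun r hr _ => by
    obtain rfl | a := eq_or_ne r p
    · exact ⟨S, hS, le_sup_left⟩
    obtain ⟨R, hR⟩ := syl_exists hr T
    exact ⟨R, hR, fun g hg => mem_sup_right (h _ (zpowers_le.2 (hT (hR.le hg)))
      ((hR.pi.mono (Set.singleton_subset_iff.2 a)).of_le (zpowers_le.2 hg)) (hR.le hg).2
      (mem_zpowers g))⟩
  refine ch_of_chief hK hn fun V U c d => ?_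
  have h3 := (hS.le.trans hT).trans hn
  have h4 : ⁅U, T⁆ ≤ V := by
    have h5 : ⁅U, T⁆ ≤ ⁅U, S⁆ := commutator_le.2 fun u hu t ht => by
      obtain ⟨s, hs, z, hz, rfl⟩ := (mem_sup_norm (norm_cent h3)).1 (h2 ht)
      rw [show ⁅u, s * z⁆ = ⁅u, s⁆ by
        rw [commutatorElement_def, commutatorElement_def, mul_assoc u, mul_assoc s,
          ← hz _ (inv_mem (d hu))]; group]
      exact commutator_mem_commutator hu hs
    refine le_sup_right.trans ((c.2.2.2.2 (V ⊔ ⁅U, T⁆) le_sup_left (sup_le c.1.le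
      (comm_le_left (hT.trans c.2.2.1))) (norm_sup c.2.2.2.1 (norm_comm c.2.2.1 h1))).resolve_right
      fun e => c.1.not_ge ?_).le
    exact Hyperfocal.le_of_le_sup_commutator ((hP.sup' hS.pi h3).isNilpotent hp) (d.trans le_sup_left)
      ((c.1.le.trans d).trans le_sup_left) ((sup_le hK (hS.le.trans hT)).trans c.2.2.2.1)
      (e.ge.trans (sup_le_sup_left (h5.trans (comm_mono le_rfl le_sup_right)) _))
  have h5 : ∀ X ≤ T, ⁅X, U⁆ ≤ V := fun X a => (comm_symm _ _).le.trans ((comm_mono le_rfl a).trans h4)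
  refine prime_of_chief c hp (hP.of_le d) (h5 _ fun g hg => ⟨der_le K hg, fun V U e f i j l => ?_⟩)
    fun k hk => h5 _ (zpowers_le.2 ⟨pow_mem hk _, fun V U e f i j l => ?_⟩)
  · exact (comm_symm _ _).le.trans ((comm_mono (zpowers_le.2 hg) le_rfl).trans (comm_der_le_of_prime
      (BG4.norm_of_relIndex hp (hP.of_le f) e l) j i (l ▸ hp)))
  · have hU := BG4.norm_of_relIndex hp (hP.of_le f) e l
    rw [comm_symm]
    refine comm_le_of_quo_cent (zpowers_le.2 (i (pow_mem hk _))) hU ?_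
    rw [mim_zpowers _ (i (pow_mem hk _)), zpowers_le, mel_pow _ (i hk)]
    exact pow_mem_cent_of_card_prime hp ((card_quo hU).trans l) (norm_quo V j (mel_mem_mim _ hk))

theorem Hyp.ch (h : Hyp P) (hp : p.Prime) (hP : IsPi {p} P) : Ch 𝓝(P) P := by
  obtain h | ⟨D, a, b, c, d⟩ := h
  · exact ch_of_cyc h le_rfl
  exact ch_of_triv hp hP le_normalizer le_rfl fun T e f i => i.cent_of_card hp hP e f le_rfl a b c
    fun E j k => (d E j k).norm (hP.isNilpotent hp) j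

theorem ch_sup [L.Normal] (h1 : Ch ⊤ L) (h2 : Ch K P) (h : L ⊔ K = ⊤) : Ch ⊤ (L ⊔ P) := by
  induction h2 with
  | bot => rwa [sup_bot_eq]
  | step x a b c ih =>
    rw [← sup_assoc]
    refine ih.step x (ih.norm (mem_top x)) ?_
    rw [sup_assoc, ← h]
    exact sup_le (le_norm_of_le le_sup_left) (norm_sup le_normalizer_of_normal c)

theorem ch_top (hE : E.Normal) (h : ∀ p, p.Prime → ∀ P, Syl p P E → Hyp P) : Ch ⊤ E := by
  induction E using WellFoundedLT.induction with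
  | ind E ih =>
    by_cases h1 : E = ⊥
    · exact h1 ▸ .bot
    have hp := Nat.minFac_prime (mt card_eq_one.1 h1)
    obtain ⟨P, hP⟩ := syl_exists hp E
    have h2 := hasPC hp (fun q a b => Nat.minFac_le_of_dvd a.two_le b) hP (h _ hp P hP)
    haveI h3 : (𝓞({(♯E).minFac}ᶜ, E)).Normal := normalizer_eq_top_iff.1 (top_le_iff.1
      (norm_core _ le_normalizer_of_normal))
    have h4 := h2.sup_syl hP
    rw [← h4, sup_comm]
    refine ch_sup (ih _ (lt_of_le_of_ne h2.le fun e => ?_) h3 fun r hr R hR => ?_)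
      ((h _ hp P hP).ch hp hP.pi) ?_
    · exact h2.pi _ hp (e.symm ▸ Nat.minFac_dvd _) rfl
    · obtain rfl | a := eq_or_ne r (♯E).minFac
      · exact Or.inl (hR.eq_bot h2.pi ▸ cyc_bot)
      · exact h r hr R (hR.trans_syl h2 a)
    · have := hP.syl_frattini_sup hp le_top le_normalizer_of_normal
      rw [top_inf_eq, ← h4, sup_comm P, sup_assoc, sup_eq_right.2 le_normalizer] at this
      exact this

end CA.HSub
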