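import Cfsg.Agent.Lib.Odd.BG5
import Cfsg.Agent.Lib.Grp.PGFrattini

/-!
Metacyclic `p`-groups for odd `p`: coordinates `a ^ i * b ^ j`, the commutator formula, the
subgroups generated by `p ^ s`-th powers and the class sizes.
-/

set_option autoImplicit false
set_option linter.unusedSectionVars false
set_option linter.unusedVariables false
set_option linter.style.haveILetI false

namespace CA.MC
open Subgroup Cfsg CA.BG
open scoped commutatorElement

/-- `1 + x + ⋯ + x ^ (k - 1)` -/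
def gs (x : ℤ) (k : ℕ) : ℤ := ∑ i ∈ Finset.range k, x ^ i

section gs
variable {x d : ℤ} {k l p s t : ℕ}

theorem gs_succ (x : ℤ) (k : ℕ) : gs x (k + 1) = gs x k + x ^ k := Finset.sum_range_succ _ _

theorem gs_add (x : ℤ) (k l : ℕ) : gs x (k + l) = gs x k + x ^ k * gs x l := by
  simp [gs, Finset.sum_range_add, pow_add, Finset.mul_sum]

theorem gs_mul (x : ℤ) (k l : ℕ) : gs x (k * l) = gs x k * gs (x ^ k) l := by
  induction l with
  | zero => simp [gs]
  | succ l ih => rw [Nat.mul_succ, gs_add, ih, gs_succ, pow_mul]; ring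

theorem mul_gs (x : ℤ) (k : ℕ) : (x - 1) * gs x k = x ^ k - 1 := mul_geom_sum x k

theorem dvd_pow_sub (h : d ∣ x - 1) (k : ℕ) : d ∣ x ^ k - 1 := mul_gs x k ▸ h.mul_right _

theorem gs_mod (h : d ∣ x - 1) (k : ℕ) : d ∣ gs x k - k := by
  induction k with
  | zero => simp [gs]
  | succ k ih =>
    refine (ih.add (dvd_pow_sub h k)).trans (dvd_of_eq ?_)
    rw [gs_succ]; push_cast; ring

theorem gs_sq (x : ℤ) (k : ℕ) : (x - 1) ^ 2 ∣ gs x k - k - (x - 1) * k.choose 2 := by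
  induction k with
  | zero => simp [gs]
  | succ k ih =>
    refine (ih.add ((sq _).dvd.trans (mul_dvd_mul_left (x - 1) (gs_mod dvd_rfl k)))).trans
      (dvd_of_eq ?_)
    rw [gs_succ, Nat.choose_succ_succ, Nat.choose_one_right, mul_sub (x - 1) (gs x k), mul_gs]
    push_cast; ring

theorem gs_p (hp : p.Prime) (h2 : p ≠ 2) (h : (p : ℤ) ^ (t + 1) ∣ x - 1) :
    (p : ℤ) ^ (t + 2) ∣ gs x p - p := by
  obtain ⟨c, hc⟩ := hp.dvd_choose_self two_ne_zero (lt_of_le_of_ne hp.two_le h2.symm)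
  obtain ⟨u, hu⟩ := h
  obtain ⟨v, hv⟩ := gs_sq x p
  rw [hc, hu] at hv
  exact ⟨u * c + p ^ t * u ^ 2 * v, by push_cast at hv; linear_combination hv⟩

theorem gs_pow (hp : p.Prime) (h2 : p ≠ 2) (h : (p : ℤ) ^ (t + 1) ∣ x - 1) (s : ℕ) :
    (p : ℤ) ^ (s + t + 1) ∣ gs x (p ^ s) - p ^ s := by
  induction s with
  | zero => simp [gs]
  | succ s ih =>
    obtain ⟨u, hu⟩ := ih
    obtain ⟨v, hv⟩ := gs_p hp h2 (dvd_pow_sub h (p ^ s))
    rw [pow_succ p, gs_mul, sub_eq_iff_eq_add.1 hu, sub_eq_iff_eq_add.1 hv]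
    exact ⟨u + v + p ^ (t + 1) * u * v, by ring⟩

theorem gs_dvd_iff (hp : p.Prime) (h2 : p ≠ 2) (h : (p : ℤ) ∣ x - 1) :
    (p : ℤ) ^ s ∣ gs x k ↔ p ^ s ∣ k := by
  have hq := Nat.prime_iff_prime_int.1 hp
  induction s generalizing x k with
  | zero => simp
  | succ s ih =>
    by_cases hk : p ∣ k
    · obtain ⟨k, rfl⟩ := hk
      obtain ⟨v, hv⟩ := gs_p (t := 0) hp h2 (by simpa using h)
      rw [gs_mul, sub_eq_iff_eq_add.1 hv, show (p : ℤ) ^ (0 + 2) * v + p = p * (1 + p * v) by ring,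
        mul_assoc, pow_succ', pow_succ', mul_dvd_mul_iff_left hq.ne_zero,
        Nat.mul_dvd_mul_iff_left hp.pos]
      exact Iff.trans ⟨fun h => (IsCoprime.pow_left ⟨-v, 1, by ring⟩).dvd_of_dvd_mul_left h,
        fun h => h.mul_left _⟩ (ih (dvd_pow_sub h p))
    · refine iff_of_false (fun h' => hk ?_) fun h' => hk ((dvd_pow_self p s.succ_ne_zero).trans h')
      have := ((dvd_pow_self _ s.succ_ne_zero).trans h').sub (gs_mod h k)
      rwa [sub_sub_cancel, Int.natCast_dvd_natCast] at this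

theorem pow_dvd_or {q x y : ℤ} (hq : Prime q) (h : q ^ (s + t) ∣ x * y) :
    q ^ (s + 1) ∣ x ∨ q ^ t ∣ y := by
  induction s generalizing x with
  | zero =>
    by_cases hx : q ∣ x
    · exact Or.inl (by simpa using hx)
    · exact Or.inr (hq.pow_dvd_of_dvd_mul_left _ hx (by simpa using h))
  | succ s ih =>
    by_cases hx : q ∣ x
    · obtain ⟨x, rfl⟩ := hx
      rw [add_right_comm, pow_succ', mul_assoc, mul_dvd_mul_iff_left hq.ne_zero] at h
      exact (ih h).imp_left fun h => by rw [pow_succ']; exact mul_dvd_mul_left _ h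
    · exact Or.inr ((pow_dvd_pow _ (Nat.le_add_left _ _)).trans (hq.pow_dvd_of_dvd_mul_left _ hx h))

end gs

variable {G : Type*} [Group G] [Finite G] {p n s t m : ℕ} {a b g h : G} {r i k : ℤ} {j l : ℕ}
  {N : Subgroup G}

theorem zpow_mem_iff (N : Subgroup G) (g : G) (i : ℤ) :
    g ^ i ∈ N ↔ (N.relIndex (zpowers g) : ℤ) ∣ i := by
  have h : orderOf (QuotientGroup.mk' (N.subgroupOf (zpowers g)) ⟨g, mem_zpowers g⟩) =
      N.relIndex (zpowers g) := orderOf_eq_card_of_forall_mem_zpowers fun x => by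
    obtain ⟨⟨_, k, rfl⟩, rfl⟩ := QuotientGroup.mk'_surjective _ x
    exact ⟨k, (map_zpow _ _ k).symm⟩
  rw [← h, orderOf_dvd_iff_zpow_eq_one, ← map_zpow]
  exact (QuotientGroup.eq_one_iff (N := N.subgroupOf (zpowers g)) (⟨g, mem_zpowers g⟩ ^ i)).symm

theorem pow_mem_iff (N : Subgroup G) (g : G) (l : ℕ) : g ^ l ∈ N ↔ N.relIndex (zpowers g) ∣ l := by
  rw [← zpow_natCast, zpow_mem_iff, Int.natCast_dvd_natCast]

theorem dvd_relIndex (h : ∀ l : ℕ, g ^ l ∈ N → m ∣ l) : m ∣ N.relIndex (zpowers g) :=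
  h _ ((pow_mem_iff N g _).2 dvd_rfl)

theorem le_index (h : ∀ l : ℕ, g ^ l ∈ N → m ∣ l) : m ≤ N.index :=
  (Nat.le_of_dvd (Nat.pos_of_ne_zero (index_ne_zero_of_finite)) (dvd_relIndex h)).trans
    (relIndex_top_right N ▸ relIndex_le_of_le_right le_top (by simp [index_ne_zero_of_finite]))

theorem relIndex_eq (h : ∀ l : ℕ, g ^ l ∈ N ↔ m ∣ l) : N.relIndex (zpowers g) = m :=
  Nat.dvd_antisymm ((pow_mem_iff N g _).1 ((h m).2 dvd_rfl)) (dvd_relIndex fun l => (h l).1)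

theorem split_of (h1 : ∀ l : ℕ, g ^ l ∈ zpowers h → m ∣ l) (h2 : g ^ m = 1)
    (h3 : m * orderOf h = Nat.card G) :
    ∃ x y : G, zpowers x ⊓ zpowers y = ⊥ ∧ orderOf x * orderOf y = Nat.card G := by
  refine ⟨g, h, eq_bot_iff.2 fun x hx => ?_, by rwa [Nat.dvd_antisymm (orderOf_dvd_of_pow_eq_one h2)
    (h1 _ (by rw [pow_orderOf_eq_one]; exact one_mem _))]⟩
  obtain ⟨l, rfl⟩ := mem_powers_iff_mem_zpowers.2 hx.1
  obtain ⟨u, rfl⟩ := h1 l hx.2
  change g ^ _ = 1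
  rw [pow_mul, h2, one_pow]

/-- the subgroup generated by the `p ^ s`-th powers -/
def mho (p s : ℕ) (G : Type*) [Group G] : Subgroup G := closure {x : G | ∃ y : G, y ^ p ^ s = x}

instance : (mho p s G).Normal := ⟨fun x hx g => by
  refine (closure_le ((mho p s G).comap (MulAut.conj g).toMonoidHom)).2 ?_ hx
  rintro _ ⟨y, rfl⟩
  exact subset_closure ⟨g * y * g⁻¹, conj_pow⟩⟩

theorem pow_mem_mho (y : G) : y ^ p ^ s ∈ mho p s G := subset_closure ⟨y, rfl⟩

theorem mho_anti (h : s ≤ t) : mho p t G ≤ mho p s G := (closure_le _).2 (by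
  rintro _ ⟨y, rfl⟩
  obtain ⟨u, rfl⟩ := Nat.exists_eq_add_of_le h
  rw [add_comm, pow_add, pow_mul]; exact pow_mem_mho _)

theorem mho_zero : mho p 0 G = ⊤ := eq_top_iff.2 fun y _ => subset_closure ⟨y, by simp⟩

/-- coordinates on a metacyclic `p`-group with derived group of order `p ^ n` -/
structure Co (p : ℕ) (a b : G) (r : ℤ) (n : ℕ) : Prop where
  hp : p.Prime
  h2 : p ≠ 2
  conj : b * a * b⁻¹ = a ^ r
  gen : ∀ g : G, ∃ (i : ℤ) (j : ℕ), g = a ^ i * b ^ j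
  dvd : (p : ℤ) ∣ r - 1
  ord : orderOf (a ^ (r - 1)) = p ^ n

theorem pow_mul_zpow (h : b * a * b⁻¹ = a ^ r) (j : ℕ) (i : ℤ) :
    b ^ j * a ^ i = a ^ (i * r ^ j) * b ^ j := by
  induction j with
  | zero => simp
  | succ j ih =>
    rw [pow_succ' b, mul_assoc, ih, pow_succ r, ← mul_assoc i, mul_comm _ r, zpow_mul a r, ← h,
      conj_zpow]; group

theorem exists_co (hp : p.Prime) (h2 : p ≠ 2) (hG : IsPGroup p G) (hm : IsMetacyclic G) :
    ∃ (a b : G) (r : ℤ) (n : ℕ), Co p a b r n := by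
  haveI := Fact.mk hp
  obtain ⟨N, hN, h1, h3⟩ := hm
  obtain ⟨a, rfl⟩ := exists_zpowers_of_cyc h1
  obtain ⟨b, hb⟩ := IsCyclic.exists_monoid_generator (α := G ⧸ zpowers a)
  obtain ⟨b, rfl⟩ := QuotientGroup.mk'_surjective _ b
  obtain ⟨r, hr, h4⟩ : ∃ r : ℤ, b * a * b⁻¹ = a ^ r ∧ (p : ℤ) ∣ r - 1 := by
    by_cases ha : a = 1
    · exact ⟨1, by simp [ha], by simp⟩
    obtain ⟨r, hr⟩ := hN.conj_mem a (mem_zpowers a) b
    refine ⟨r, hr.symm, ?_⟩
    obtain ⟨e, he⟩ := hG b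
    obtain ⟨f, hf⟩ := IsPGroup.iff_orderOf.1 hG a
    have h5 := pow_mul_zpow hr.symm (p ^ e) 1
    rw [he, one_mul, one_mul, mul_one, zpow_eq_zpow_iff_modEq, hf] at h5
    have h6 : (p : ℤ) ∣ r ^ p ^ e - 1 := (Int.natCast_dvd_natCast.2 (dvd_pow_self p fun h => ha
      (orderOf_eq_one_iff.1 (by rw [hf, h, pow_zero])))).trans h5.dvd
    rw [← ZMod.intCast_zmod_eq_zero_iff_dvd] at h6 ⊢
    push_cast at h6 ⊢
    rwa [ZMod.pow_card_pow] at h6
  obtain ⟨n, hn⟩ := IsPGroup.iff_orderOf.1 hG (a ^ (r - 1))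
  refine ⟨a, b, r, n, hp, h2, hr, fun g => ?_, h4, hn⟩
  obtain ⟨j, hj⟩ := hb (QuotientGroup.mk' _ g)
  obtain ⟨_, ⟨i, rfl⟩, hi⟩ := (QuotientGroup.mk'_eq_mk' _).1 ((map_pow _ b j).trans hj)
  obtain ⟨k, hk⟩ := hN.conj_mem _ (zpow_mem (mem_zpowers a) i) (b ^ j)
  exact ⟨k, j, by rw [← hi]; change _ = (fun k : ℤ => a ^ k) k * _; rw [hk]; group⟩

namespace Co
variable (c : Co p a b r n)
include c

theorem hq : Prime (p : ℤ) := Nat.prime_iff_prime_int.1 c.hp

theorem mul_eq (i k : ℤ) (j l : ℕ) :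
    a ^ i * b ^ j * (a ^ k * b ^ l) = a ^ (i + k * r ^ j) * b ^ (j + l) := by
  rw [mul_assoc, ← mul_assoc (b ^ j), pow_mul_zpow c.conj, zpow_add, pow_add]; group

theorem pow_eq (i : ℤ) (j l : ℕ) :
    (a ^ i * b ^ j) ^ l = a ^ (i * gs (r ^ j) l) * b ^ (j * l) := by
  induction l with
  | zero => simp [gs]
  | succ l ih => rw [pow_succ, ih, c.mul_eq, gs_succ, pow_mul, mul_add, Nat.mul_succ]

theorem comm_eq (i k : ℤ) (j l : ℕ) :
    ⁅a ^ i * b ^ j, a ^ k * b ^ l⁆ = (a ^ (r - 1)) ^ (k * gs r j - i * gs r l) := by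
  rw [commutatorElement_def, mul_assoc _ _⁻¹, ← mul_inv_rev, c.mul_eq, c.mul_eq, add_comm l,
    mul_inv_rev, mul_assoc, mul_inv_cancel_left, ← zpow_sub, ← zpow_mul]
  congr 1
  linear_combination -k * mul_gs r j + i * mul_gs r l

theorem zpow_eq_one : (a ^ (r - 1)) ^ i = 1 ↔ (p : ℤ) ^ n ∣ i := by
  rw [← orderOf_dvd_iff_zpow_eq_one, c.ord]; push_cast; rfl

theorem comm_iff : a ^ k * b ^ l ∈ 𝓒₁(a ^ i * b ^ j) ↔ (p : ℤ) ^ n ∣ k * gs r j - i * gs r l := by
  rw [← c.zpow_eq_one, ← c.comm_eq, mem_centralizer_singleton_iff, commutatorElement_eq_one_iff_mul_comm,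
    eq_comm]

theorem gs_iff : (p : ℤ) ^ s ∣ gs r j ↔ p ^ s ∣ j := gs_dvd_iff c.hp c.h2 c.dvd

theorem gs_iff' : (p : ℤ) ^ s ∣ gs (r ^ l) j ↔ p ^ s ∣ j :=
  gs_dvd_iff c.hp c.h2 (dvd_pow_sub c.dvd l)

theorem der_eq : commutator G = zpowers (a ^ (r - 1)) := by
  refine le_antisymm (commutator_le.2 fun g _ h _ => ?_) (zpowers_le.2 ?_)
  · obtain ⟨i, j, rfl⟩ := c.gen g
    obtain ⟨k, l, rfl⟩ := c.gen h
    exact ⟨_, (c.comm_eq i k j l).symm⟩
  · rw [zpow_sub_one, ← c.conj]; exact commutator_mem_commutator (mem_top b) (mem_top a)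

theorem card_der : ♯(commutator G) = p ^ n := by rw [c.der_eq, Nat.card_zpowers, c.ord]

/-- the coordinates are well defined modulo `p ^ n` -/
theorem uniq (hs : s ≤ n) (h : a ^ i * b ^ j = a ^ k * b ^ l) (h1 : (p : ℤ) ^ s ∣ i)
    (h2 : p ^ s ∣ j) : (p : ℤ) ^ s ∣ k ∧ p ^ s ∣ l := by
  have h3 := (c.comm_eq i 1 j 0).symm.trans (h ▸ c.comm_eq k 1 l 0)
  have h4 := (c.comm_eq i 0 j 1).symm.trans (h ▸ c.comm_eq k 0 l 1)
  rw [zpow_eq_zpow_iff_modEq, c.ord] at h3 h4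
  have h5 : (p : ℤ) ^ s ∣ (p ^ n : ℕ) := by push_cast; exact pow_dvd_pow _ hs
  refine ⟨?_, c.gs_iff.1 ?_⟩
  · exact (h1.sub (h5.trans h4.dvd)).trans (dvd_of_eq (by simp [gs]))
  · exact ((c.gs_iff.2 h2).add (h5.trans h3.dvd)).trans (dvd_of_eq (by simp [gs]))

theorem mem_mho : g ∈ mho p s G ↔ ∃ (i : ℤ) (j : ℕ), (p : ℤ) ^ s ∣ i ∧ p ^ s ∣ j ∧ g = a ^ i * b ^ j := by
  refine ⟨fun h => ?_, ?_⟩
  · induction h using closure_induction with
    | mem x hx =>
      obtain ⟨y, rfl⟩ := hx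
      obtain ⟨i, j, rfl⟩ := c.gen y
      exact ⟨_, _, (c.gs_iff'.2 dvd_rfl).mul_left _, dvd_mul_left _ _, c.pow_eq i j _⟩
    | one => exact ⟨0, 0, dvd_zero _, dvd_zero _, by simp⟩
    | mul x y _ _ hx hy =>
      obtain ⟨i, j, h1, h2, rfl⟩ := hx
      obtain ⟨k, l, h3, h4, rfl⟩ := hy
      exact ⟨_, _, h1.add (h3.mul_right _), h2.add h4, c.mul_eq i k j l⟩
    | inv x _ hx =>
      obtain ⟨i, j, h1, h2, rfl⟩ := hx
      refine ⟨_, _, h1.mul_right _, h2.mul_right _, (inv_eq_of_mul_eq_one_right ?_).trans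
        (c.pow_eq i j (orderOf (a ^ i * b ^ j) - 1))⟩
      rw [← pow_succ', Nat.sub_add_cancel (orderOf_pos _), pow_orderOf_eq_one]
  · rintro ⟨_, _, ⟨i, rfl⟩, ⟨j, rfl⟩, rfl⟩
    rw [mul_comm _ i, mul_comm _ j, zpow_mul, pow_mul]
    exact mul_mem (by exact_mod_cast pow_mem_mho (a ^ i)) (pow_mem_mho _)

theorem mem_mho_iff (hs : s ≤ n) : a ^ i * b ^ j ∈ mho p s G ↔ (p : ℤ) ^ s ∣ i ∧ p ^ s ∣ j :=
  ⟨fun h => by
    obtain ⟨k, l, h1, h2, h3⟩ := c.mem_mho.1 h
    exact c.uniq hs h3.symm h1 h2, fun h => c.mem_mho.2 ⟨i, j, h.1, h.2, rfl⟩⟩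

theorem index_le (hs : s ≤ n) (h : g ∈ mho p s G) : 𝓒₁(g).index ≤ p ^ (n - s) := by
  obtain ⟨i, j, h1, h2, rfl⟩ := c.mem_mho.1 h
  rw [← relIndex_top_right]
  refine (BG4.relIndex_cent1_le (N := zpowers ((a ^ (r - 1)) ^ p ^ s)) fun g _ => ?_).trans ?_
  · obtain ⟨k, l, rfl⟩ := c.gen g
    obtain ⟨u, hu⟩ := (h1.mul_right (gs r l)).sub ((c.gs_iff.2 h2).mul_left k)
    exact ⟨u, by rw [c.comm_eq, hu, zpow_mul]; norm_cast⟩
  · rw [Nat.card_zpowers, orderOf_pow_of_dvd (pow_pos c.hp.pos s).ne' (c.ord ▸ pow_dvd_pow p hs),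
      c.ord, Nat.pow_div hs c.hp.pos]

theorem le_index' (hs : s < n) (h : g ∉ mho p (s + 1) G) : p ^ (n - s) ≤ 𝓒₁(g).index := by
  obtain ⟨i, j, rfl⟩ := c.gen g
  obtain ⟨t, rfl⟩ := Nat.exists_eq_add_of_le hs.le
  rw [c.mem_mho_iff hs, not_and_or] at h
  rw [Nat.add_sub_cancel_left]
  rcases h with h | h
  · refine le_index (g := b) fun l hl => c.gs_iff.1 ((pow_dvd_or c.hq ?_).resolve_left h)
    simpa using (c.comm_iff (k := 0)).1 (by simpa using hl)
  · refine le_index (g := a) fun l hl => ?_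
    have := (c.comm_iff (k := l) (l := 0)).1 (by simpa using hl)
    rw [show gs r 0 = 0 from rfl, mul_zero, sub_zero, mul_comm] at this
    exact_mod_cast (pow_dvd_or c.hq this).resolve_left fun h' => h (c.gs_iff.1 h')

theorem mem_iff (hs : s ≤ n) : g ∈ mho p s G ↔ 𝓒₁(g).index ≤ p ^ (n - s) := by
  refine ⟨c.index_le hs, fun h => ?_⟩
  rcases s with _ | s
  · rw [mho_zero]; trivial
  · by_contra h'
    have := (Nat.pow_le_pow_iff_right c.hp.one_lt).1 ((c.le_index' hs h').trans h)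
    omega

theorem mho_eq_center : mho p n G = center G := by
  ext g
  rw [c.mem_iff le_rfl, Nat.sub_self, pow_zero, mem_center_iff]
  refine ⟨fun h x => ?_, fun h => (index_eq_one.2 (eq_top_iff.2 fun x _ =>
    mem_centralizer_singleton_iff.2 (h x))).le⟩
  have := index_eq_one.1 (le_antisymm h (Nat.pos_of_ne_zero index_ne_zero_of_finite))
  exact mem_centralizer_singleton_iff.1 (this.ge (mem_top x))

theorem normal : (zpowers a).Normal := ⟨fun x ⟨k, hk⟩ g => by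
  obtain ⟨i, j, rfl⟩ := c.gen g
  exact ⟨k * r ^ j, by
    rw [← hk, mul_assoc (a ^ i), pow_mul_zpow c.conj]; change a ^ _ = _; group⟩⟩

theorem index_mho (hs : s ≤ n) : (mho p s G).index = p ^ (2 * s) := by
  have hN := c.normal
  have h1 : zpowers b ⊔ (zpowers a ⊔ mho p s G) = ⊤ := eq_top_iff.2 fun g _ => by
    obtain ⟨i, j, rfl⟩ := c.gen g
    exact mul_mem (mem_sup_right (mem_sup_left ⟨i, rfl⟩)) (mem_sup_left (pow_mem (mem_zpowers b) j))
  rw [← relIndex_mul_index (le_sup_right : _ ≤ zpowers a ⊔ mho p s G), relIndex_sup_right,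
    ← relIndex_top_right, ← h1, relIndex_sup_right, two_mul, pow_add, relIndex_eq, relIndex_eq]
  · refine fun l => ⟨fun h => ?_, fun ⟨u, hu⟩ => mem_sup_right ?_⟩
    · obtain ⟨_, ⟨k, rfl⟩, y, hy, h⟩ := (mem_sup_of_normal_right).1 h
      refine ((c.mem_mho_iff (i := -k) hs).1 ?_).2
      rw [← h, zpow_neg]; simpa using hy
    · rw [hu, mul_comm, pow_mul]; exact pow_mem_mho _
  · intro l
    have := c.mem_mho_iff (i := l) (j := 0) hs
    simp only [zpow_natCast, pow_zero, mul_one, dvd_zero, and_true] at this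
    exact_mod_cast this

theorem index_center : (center G).index = ♯(commutator G) ^ 2 := by
  rw [← c.mho_eq_center, c.index_mho le_rfl, c.card_der, mul_comm, pow_mul]

theorem der_le : commutator G ≤ mho p 1 G := by
  rw [c.der_eq, zpowers_le]
  exact c.mem_mho.2 ⟨r - 1, 0, by simpa using c.dvd, dvd_zero _, by simp⟩

/-- the class size of `g` is at most the order of `g` modulo the centre -/
theorem index_le_relIndex (hG : IsPGroup p G) (g : G) :
    𝓒₁(g).index ≤ (center G).relIndex (zpowers g) := by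
  haveI := Fact.mk c.hp
  obtain ⟨t, ht⟩ := hG.index 𝓒₁(g)
  have h1 : t ≤ n := (Nat.pow_le_pow_iff_right c.hp.one_lt).1
    (ht ▸ c.index_le (Nat.zero_le n) (mho_zero (p := p) (G := G) ▸ mem_top g))
  rw [ht]
  refine Nat.le_of_dvd (Nat.pos_of_ne_zero index_ne_zero_of_finite) (dvd_relIndex fun l hl => ?_)
  rcases t with _ | t
  · simp
  obtain ⟨s, rfl⟩ := Nat.exists_eq_add_of_le' h1
  obtain ⟨i, j, rfl⟩ := c.gen g
  rw [c.pow_eq, ← c.mho_eq_center, c.mem_mho_iff le_rfl] at hl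
  have h2 := mt (c.mem_iff (s := s + 1) (g := a ^ i * b ^ j) (by omega)).1 (by
    rw [ht, Nat.pow_le_pow_iff_right c.hp.one_lt]; omega)
  rw [c.mem_mho_iff (by omega), not_and_or] at h2
  rcases h2 with h | h
  · exact c.gs_iff'.1 ((pow_dvd_or c.hq hl.1).resolve_left h)
  · have h3 : (p : ℤ) ^ (s + (t + 1)) ∣ j * l := by exact_mod_cast hl.2
    exact_mod_cast (pow_dvd_or c.hq h3).resolve_left (by exact_mod_cast h)

/-- a maximal subgroup `M` of a non-abelian `G` has `|G' : M'| = p` -/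
theorem card_der_max (hG : IsPGroup p G) (hn : n ≠ 0) {M : Subgroup G} (hM : M.index = p)
    (hc : (center M).index = ♯(commutator M) ^ 2) : ♯⁅M, M⁆ * p = p ^ n := by
  haveI := Fact.mk c.hp
  haveI := PGBasic.normal_of_index_eq hG hM
  have hn' : 1 ≤ n := Nat.pos_of_ne_zero hn
  have h1 : mho p 1 G ≤ M := (closure_le _).2 (by
    rintro _ ⟨y, rfl⟩
    rw [pow_one, ← hM]; exact M.pow_index_mem y)
  obtain ⟨e, he⟩ := PGBasic.exists_card_eq_pow hG ⁅M, M⁆
  obtain ⟨n, rfl⟩ := Nat.exists_eq_add_of_le' hn'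
  have h2 : e ≤ n := by
    rw [← card_map_of_injective M.subtype_injective, map_subtype_commutator, he] at hc
    have h3 := (c.mho_eq_center.ge.trans (mho_anti hn')).trans h1
    have h4 := relIndex_mul_index h3
    have h5 : (center M).index ∣ (center G).relIndex M :=
      index_dvd_of_le fun x hx => mem_center_iff.2 fun y => Subtype.ext (mem_center_iff.1 hx y)
    rw [c.index_center, c.card_der, hM] at h4
    have h6 := Nat.mul_dvd_mul_right h5 p
    rw [h4, hc, ← pow_mul, ← pow_mul, ← pow_succ, Nat.pow_dvd_pow_iff_le_right c.hp.one_lt] at h6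
    omega
  obtain ⟨g, hg, h3⟩ : ∃ g ∈ M, g ∉ mho p 1 G := by
    by_contra! h
    have h3 := c.index_mho hn'
    rw [le_antisymm h1 h, hM] at h3
    have := Nat.pow_right_injective c.hp.two_le ((pow_one p).trans h3)
    omega
  obtain ⟨i, j, rfl⟩ := c.gen g
  have h4 : ∀ u : ℤ, (a ^ (r - 1)) ^ u ∈ ⁅M, M⁆ → (p : ℤ) ^ (1 + 1) ∣ u ∨ n ≤ e := fun u hu => by
    have h5 := orderOf_dvd_natCard _ hu
    rw [he, orderOf_dvd_iff_pow_eq_one, ← zpow_natCast, ← zpow_mul, c.zpow_eq_one, add_comm] at h5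
    exact (pow_dvd_or c.hq h5).imp_right fun h => (Nat.pow_dvd_pow_iff_le_right c.hp.one_lt).1
      (by exact_mod_cast h)
  have h5 : n ≤ e := by
    by_contra h
    have h6 := (h4 _ (c.comm_eq i p j 0 ▸ commutator_mem_commutator hg (h1 ((c.mem_mho_iff hn').2
      ⟨by simp, by simp⟩)))).resolve_right h
    have h7 := (h4 _ (c.comm_eq i 0 j p ▸ commutator_mem_commutator hg (h1 ((c.mem_mho_iff hn').2
      ⟨by simp, by simp⟩)))).resolve_right h
    rw [show gs r 0 = 0 from rfl, mul_zero, sub_zero, pow_succ', mul_dvd_mul_iff_left c.hq.ne_zero]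
      at h6
    rw [zero_mul, zero_sub, dvd_neg, mul_comm] at h7
    refine h3 ((c.mem_mho_iff hn').2 ⟨(pow_dvd_or c.hq h7).resolve_left fun h => ?_, c.gs_iff.1 h6⟩)
    have := (Nat.pow_dvd_pow_iff_le_right c.hp.one_lt).1 ((c.gs_iff.1 h).trans (pow_one p).symm.dvd)
    omega
  rw [he, le_antisymm h2 h5, pow_succ]

/-- `G` is a product of two cyclic groups with trivial intersection -/
theorem split (hG : IsPGroup p G) :
    ∃ x y : G, zpowers x ⊓ zpowers y = ⊥ ∧ orderOf x * orderOf y = Nat.card G := by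
  haveI := Fact.mk c.hp
  have hN := c.normal
  have h1 : zpowers b ⊔ zpowers a = ⊤ := eq_top_iff.2 fun g _ => by
    obtain ⟨i, j, rfl⟩ := c.gen g
    exact mul_mem (mem_sup_right ⟨i, rfl⟩) (mem_sup_left (pow_mem (mem_zpowers b) j))
  have h2 := PGBasic.card_sup_mul_card_inf (H := zpowers b) (K := zpowers a) le_normalizer_of_normal
  obtain ⟨k, hk⟩ := PGBasic.exists_relIndex_eq_pow (H := zpowers a) (hG.to_subgroup (zpowers b))
  obtain ⟨s, hs⟩ := PGBasic.exists_relIndex_eq_pow (H := zpowers b) (hG.to_subgroup (zpowers a))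
  obtain ⟨m, hm⟩ := IsPGroup.iff_orderOf.1 hG a
  have h3 := PGBasic.card_mul_relIndex (inf_le_left : zpowers b ⊓ zpowers a ≤ _)
  have h4 := PGBasic.card_mul_relIndex (inf_le_right : zpowers b ⊓ zpowers a ≤ _)
  rw [inf_relIndex_left, hk, Nat.card_zpowers] at h3
  rw [inf_relIndex_right, hs, Nat.card_zpowers] at h4
  rw [h1, card_top, Nat.card_zpowers, Nat.card_zpowers] at h2
  have h5 := pow_mem_iff (zpowers a) b
  have h6 := zpow_mem_iff (zpowers b) a
  rw [hk] at h5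
  rw [hs, Nat.cast_pow] at h6
  have h0 : 0 < ♯(zpowers b ⊓ zpowers a) := Nat.card_pos
  rcases le_total k s with h | h
  · obtain ⟨t, ht⟩ := (h5 _).2 dvd_rfl
    obtain ⟨t, rfl⟩ := (pow_dvd_pow _ h).trans ((h6 t).1 (ht.symm ▸ pow_mem (mem_zpowers b) _ :
      (fun x : ℤ => a ^ x) t ∈ _))
    obtain ⟨u, hu⟩ := gs_pow (t := 0) c.hp c.h2 (by simpa using c.dvd) k
    obtain ⟨v, w, hw⟩ : IsCoprime ((p : ℤ) ^ m) (1 + p * u) := IsCoprime.pow_left ⟨-u, 1, by ring⟩
    refine split_of (g := a ^ (-t * w) * b ^ 1) (h := a) (fun l hl => (h5 l).1 ?_) ?_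
      (Nat.eq_of_mul_eq_mul_right h0 (by rw [h2, ← h3]; ring))
    · rw [c.pow_eq, one_mul] at hl
      exact (mul_mem_cancel_left (zpow_mem (mem_zpowers a) _)).1 hl
    · rw [c.pow_eq, one_mul, pow_one, ← ht, ← zpow_add, ← orderOf_dvd_iff_zpow_eq_one, hm]
      exact ⟨p ^ k * t * v, by push_cast; linear_combination -t * w * hu - p ^ k * t * hw⟩
  · have h7 := (h6 _).2 dvd_rfl
    obtain ⟨j, hj⟩ := mem_powers_iff_mem_zpowers.2 (inv_mem h7)
    obtain ⟨j, rfl⟩ := (pow_dvd_pow _ h).trans ((h5 j).1 (hj.symm ▸ inv_mem ⟨_, rfl⟩ :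
      (fun x : ℕ => b ^ x) j ∈ _))
    refine split_of (g := a ^ (1 : ℤ) * b ^ j) (h := b) (fun l hl => (c.gs_iff' (l := j)).1
      ((h6 _).1 ?_)) ?_
      (Nat.eq_of_mul_eq_mul_right h0 (by rw [h2, ← h4]; ring))
    · rw [c.pow_eq, one_mul] at hl
      exact (mul_mem_cancel_right (pow_mem (mem_zpowers b) _)).1 hl
    · have h8 : (p : ℤ) ^ m ∣ p ^ s * (r - 1) := by
        obtain ⟨z, hz⟩ := h7
        have h9 := c.comm_eq 0 (p ^ s) 1 0
        rw [zpow_zero, one_mul, pow_one, pow_zero, mul_one, ← zpow_mul, eq_comm,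
          commutatorElement_eq_one_iff_commute.2 (hz ▸ Commute.self_zpow b z),
          ← orderOf_dvd_iff_zpow_eq_one, hm] at h9
        simpa [gs, mul_comm] using h9
      obtain ⟨t, h9, h10⟩ : ∃ t, (p : ℤ) ^ (t + 1) ∣ r - 1 ∧ m ≤ s + t + 1 := by
        rcases le_or_gt m s with h | h
        · exact ⟨0, by simpa using c.dvd, by omega⟩
        obtain ⟨t, rfl⟩ := Nat.exists_eq_add_of_lt h
        rw [add_assoc, pow_add, mul_dvd_mul_iff_left (pow_ne_zero _ c.hq.ne_zero)] at h8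
        exact ⟨t, h8, le_rfl⟩
      rw [c.pow_eq, one_mul, mul_comm j, show b ^ _ = _ from hj, ← zpow_sub,
        ← orderOf_dvd_iff_zpow_eq_one, hm, Nat.cast_pow]
      exact (pow_dvd_pow _ h10).trans (gs_pow c.hp c.h2 (dvd_pow_sub h9 j) s)

end Co

variable (hp : p.Prime) (h2 : p ≠ 2) (hG : IsPGroup p G) (hm : IsMetacyclic G) {K L : Subgroup G}
include hp h2 hG hm

theorem sub (K : Subgroup G) : IsMetacyclic K := by
  obtain ⟨a, b, r, n, c⟩ := exists_co hp h2 hG hm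
  haveI := c.normal
  refine BG4.metacyclic_of_le (BG4.metacyclic_of_sup (mem_top a) (mem_top b)
    le_normalizer_of_normal fun g _ => ?_) le_top
  obtain ⟨i, j, rfl⟩ := c.gen g
  exact mul_mem (mem_sup_right ⟨i, rfl⟩) (mem_sup_left (pow_mem (mem_zpowers b) j))

theorem index_center : (center G).index = ♯(commutator G) ^ 2 := by
  obtain ⟨a, b, r, n, c⟩ := exists_co hp h2 hG hm
  exact c.index_center

theorem card_der_max (hK : ¬ IsMulCommutative K) (h : L ≤ K) (hL : L.relIndex K = p) :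
    ♯⁅L, L⁆ * p = ♯⁅K, K⁆ := by
  have hK' := hG.to_subgroup K
  have hm' := sub hp h2 hG hm K
  obtain ⟨a, b, r, n, c⟩ := exists_co hp h2 hK' hm'
  have h1 := c.card_der
  rw [← card_map_of_injective K.subtype_injective, map_subtype_commutator] at h1
  rw [h1, ← c.card_der_max hK' (fun h => hK (commutator_self_eq_bot_iff.1 (card_eq_one.1
    (by rw [h1, h, pow_zero])))) hL (index_center hp h2 (hK'.to_subgroup _) (sub hp h2 hK' hm' _)),
    ← card_map_of_injective K.subtype_injective, map_commutator, subgroupOf_map_subtype,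
    inf_of_le_left h]

theorem card_eq_or (L : Subgroup G) :
    ♯L = (commutator G).index * ♯⁅L, L⁆ ∨ IsMulCommutative L ∧ ♯L ≤ (commutator G).index := by
  haveI := Fact.mk hp
  induction L using WellFoundedGT.induction with
  | ind L ih =>
  by_cases h : L = ⊤
  · exact Or.inl (by rw [h, card_top, ← (commutator G).index_mul_card]; rfl)
  obtain ⟨K, h1, -, h3, h4⟩ := PGBasic.exists_relIndex_eq_above (hG.to_subgroup ⊤) (Ne.lt_top h)
  have h5 := ih K (h1.lt_of_ne fun h => hp.one_lt.ne' (by rw [← h3, h, relIndex_self]))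
  by_cases hK : IsMulCommutative K
  · refine Or.inr ⟨PGBasic.isMulCommutative_of_le h1, (card_le_of_le h1).trans ?_⟩
    rcases h5 with h5 | h5
    · rw [h5, commutator_self_eq_bot_iff.2 hK, card_bot, mul_one]
    · exact h5.2
  · refine Or.inl (Nat.eq_of_mul_eq_mul_right hp.pos ?_)
    rw [← h4, mul_assoc, card_der_max hp h2 hG hm hK h1 h3]
    exact h5.resolve_right fun h => hK h.1

theorem comm_iff (L : Subgroup G) : IsMulCommutative L ↔ ♯L ≤ (commutator G).index := by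
  rcases card_eq_or hp h2 hG hm L with h | h
  · rw [h, ← commutator_self_eq_bot_iff, ← card_le_one_iff_eq_bot,
      mul_le_iff_le_one_right (Nat.pos_of_ne_zero index_ne_zero_of_finite)]
  · exact iff_of_true h.1 h.2

theorem max_iff (L : Subgroup G) :
    Maximal (fun K : Subgroup G => IsMulCommutative K) L ↔ ♯L = (commutator G).index := by
  haveI := Fact.mk hp
  refine ⟨fun h => (((comm_iff hp h2 hG hm L).1 h.1).eq_or_lt).resolve_right fun h1 => ?_,
    fun h => ⟨(comm_iff hp h2 hG hm L).2 h.le, fun K hK hLK => (PGBasic.eq_of_le_of_card_le hLK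
      (h ▸ (comm_iff hp h2 hG hm K).1 hK)).ge⟩⟩
  have h3 : L ≠ ⊤ := fun h => h1.not_ge (by
    rw [h, card_top]; exact Nat.le_of_dvd Nat.card_pos (index_dvd_card _))
  obtain ⟨K, h3, -, h4, h5⟩ := PGBasic.exists_relIndex_eq_above (hG.to_subgroup ⊤) (Ne.lt_top h3)
  obtain ⟨e, he⟩ := PGBasic.exists_card_eq_pow hG L
  obtain ⟨f, hf⟩ := hG.index (commutator G)
  refine hp.one_lt.ne ((relIndex_eq_one.2 (h.2 ((comm_iff hp h2 hG hm K).2 ?_) h3)).symm.trans h4)
  rw [he, hf, Nat.pow_lt_pow_iff_right hp.one_lt] at h1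
  rw [h5, he, hf, ← pow_succ]
  exact Nat.pow_le_pow_right hp.pos h1

theorem card_mul_center (h : ♯L = (commutator G).index * ♯⁅L, L⁆) :
    ♯L * ♯(center L) = (commutator G).index ^ 2 := by
  have h1 := index_center hp h2 (hG.to_subgroup L) (sub hp h2 hG hm L)
  rw [← card_map_of_injective L.subtype_injective, map_subtype_commutator] at h1
  have h3 := (center L).index_mul_card
  have h0 : 0 < ♯⁅L, L⁆ ^ 2 := pow_pos Nat.card_pos 2
  refine Nat.eq_of_mul_eq_mul_right h0 ?_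
  rw [← mul_pow, ← h, mul_assoc, mul_comm ♯(center L), ← h1, h3, sq]

theorem card_mul_center_le (L : Subgroup G) : ♯L * ♯(center L) ≤ (commutator G).index ^ 2 := by
  rcases card_eq_or hp h2 hG hm L with h | h
  · exact (card_mul_center hp h2 hG hm h).le
  · rw [sq]; exact Nat.mul_le_mul h.2 ((card_le_card_group _).trans h.2)

end CA.MC
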